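import Mathlib

set_option autoImplicit false

namespace Cfsg.Agent.Helper19

universe u

/-- The group of affine maps `x ↦ a x + v` of a field `K` with `a ^ m = 1`. -/
@[ext] structure Aff1 (K : Type u) [Field K] (m : ℕ) where
  a : Kˣ
  v : K
  ha : a ^ m = 1

namespace Aff1

variable {K : Type u} [Field K] {m : ℕ}

instance : Mul (Aff1 K m) :=
  ⟨fun x y => ⟨x.a * y.a, x.v + (x.a : K) * y.v, by rw [mul_pow, x.ha, y.ha, one_mul]⟩⟩

instance : One (Aff1 K m) := ⟨⟨1, 0, one_pow m⟩⟩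

instance : Inv (Aff1 K m) :=
  ⟨fun x => ⟨x.a⁻¹, -(((x.a⁻¹ : Kˣ) : K) * x.v), by rw [inv_pow, x.ha, inv_one]⟩⟩

@[simp] theorem mul_a (x y : Aff1 K m) : (x * y).a = x.a * y.a := rfl
@[simp] theorem mul_v (x y : Aff1 K m) : (x * y).v = x.v + (x.a : K) * y.v := rfl
@[simp] theorem one_a : (1 : Aff1 K m).a = 1 := rfl
@[simp] theorem one_v : (1 : Aff1 K m).v = 0 := rfl
@[simp] theorem inv_a (x : Aff1 K m) : x⁻¹.a = x.a⁻¹ := rfl
@[simp] theorem inv_v (x : Aff1 K m) : x⁻¹.v = -(((x.a⁻¹ : Kˣ) : K) * x.v) := rfl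

instance : Group (Aff1 K m) := Group.ofLeftAxioms
  (fun x y z => by
    apply Aff1.ext
    · simp [mul_assoc]
    · simp [mul_add, mul_assoc, add_assoc])
  (fun x => by
    apply Aff1.ext
    · simp
    · simp)
  (fun x => by
    apply Aff1.ext
    · simp
    · simp)

/-- The projection to the multiplier. -/
def proj (K : Type u) [Field K] (m : ℕ) : Aff1 K m →* Kˣ where
  toFun x := x.a
  map_one' := rfl
  map_mul' _ _ := rfl

theorem pow_a (x : Aff1 K m) (n : ℕ) : (x ^ n).a = x.a ^ n := map_pow (proj K m) x n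

theorem pow_v (x : Aff1 K m) (n : ℕ) :
    (x ^ n).v = (∑ i ∈ Finset.range n, (x.a : K) ^ i) * x.v := by
  induction n with
  | zero => simp
  | succ n ih =>
    rw [pow_succ, mul_v, ih, pow_a, Finset.sum_range_succ, add_mul, Units.val_pow_eq_pow_val]

theorem pow_eq_one_iff_of_ne (x : Aff1 K m) (h : x.a ≠ 1) (n : ℕ) : x ^ n = 1 ↔ x.a ^ n = 1 := by
  constructor
  · intro hx
    rw [← pow_a, hx, one_a]
  · intro hx
    apply Aff1.ext
    · rw [pow_a, hx, one_a]
    · rw [pow_v, one_v]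
      have h1 : ((x.a : K) - 1) ≠ 0 := by
        intro h0
        apply h
        apply Units.ext
        rw [Units.val_one]
        linear_combination h0
      have h2 := geom_sum_mul (x.a : K) n
      have h3 : (x.a : K) ^ n = 1 := by
        rw [← Units.val_pow_eq_pow_val, hx, Units.val_one]
      rw [h3, sub_self] at h2
      rcases mul_eq_zero.1 h2 with h4 | h4
      · rw [h4, zero_mul]
      · exact absurd h4 h1

theorem orderOf_of_ne (x : Aff1 K m) (h : x.a ≠ 1) : orderOf x = orderOf x.a :=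
  orderOf_eq_orderOf_iff.2 (fun n => pow_eq_one_iff_of_ne x h n)

theorem pow_char_of_eq (p : ℕ) [CharP K p] (x : Aff1 K m) (h : x.a = 1) : x ^ p = 1 := by
  apply Aff1.ext
  · rw [pow_a, h, one_pow, one_a]
  · rw [pow_v, one_v, h]
    simp

theorem orderOf_dvd (p : ℕ) [CharP K p] (x : Aff1 K m) : orderOf x ∣ p ∨ orderOf x ∣ m := by
  by_cases h : x.a = 1
  · exact Or.inl (orderOf_dvd_of_pow_eq_one (pow_char_of_eq p x h))
  · right
    rw [orderOf_of_ne x h]
    exact orderOf_dvd_of_pow_eq_one x.ha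

theorem exists_orderOf_char (p : ℕ) [Fact p.Prime] [CharP K p] :
    ∃ x : Aff1 K m, orderOf x = p := by
  refine ⟨⟨1, 1, one_pow m⟩, orderOf_eq_prime (pow_char_of_eq p _ rfl) ?_⟩
  intro h
  have := congrArg Aff1.v h
  simp at this

theorem exists_orderOf_unit (a : Kˣ) (ha : a ^ m = 1) :
    ∃ x : Aff1 K m, orderOf x = orderOf a := by
  by_cases h : a = 1
  · refine ⟨1, ?_⟩
    rw [h, orderOf_one, orderOf_one]
  · exact ⟨⟨a, 0, ha⟩, orderOf_of_ne _ h⟩

instance [Finite K] : Finite (Aff1 K m) :=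
  Finite.of_injective (fun x : Aff1 K m => (x.a, x.v)) (fun x y h => by
    apply Aff1.ext
    · exact congrArg Prod.fst h
    · exact congrArg Prod.snd h)

instance : Group.IsSolvable (Aff1 K m) := by
  have hk : Group.IsSolvable (proj K m).ker := by
    apply isSolvable_of_comm
    rintro ⟨x, hx⟩ ⟨y, hy⟩
    apply Subtype.ext
    have hx' : x.a = 1 := hx
    have hy' : y.a = 1 := hy
    apply Aff1.ext
    · simp [hx', hy']
    · simp [hx', hy', add_comm]
  exact solvable_of_ker_le_range (proj K m).ker.subtype (proj K m)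
    (by rw [Subgroup.range_subtype])

end Aff1

/-- In a finite group the set of element orders is closed under divisors. -/
theorem exists_orderOf_eq_of_dvd_orderOf {G : Type*} [Group G] [Finite G] (x : G) {n : ℕ}
    (h : n ∣ orderOf x) : ∃ y : G, orderOf y = n := by
  have hpos : 0 < orderOf x := orderOf_pos x
  have hn : 0 < n := Nat.pos_of_dvd_of_pos h hpos
  refine ⟨x ^ (orderOf x / n), ?_⟩
  have hd : orderOf x / n ∣ orderOf x := Nat.div_dvd_of_dvd h
  have hne : orderOf x / n ≠ 0 := by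
    have := Nat.div_pos (Nat.le_of_dvd hpos h) hn
    omega
  rw [orderOf_pow_of_dvd hne hd, Nat.div_div_self h hpos.ne']

/-- The spectrum of `Aff1 K m` when `Kˣ` has an element of order `m`. -/
theorem Aff1.range_orderOf {K : Type u} [Field K] [Finite K] {m : ℕ} (p : ℕ) [Fact p.Prime]
    [CharP K p] (hm : ∃ a : Kˣ, orderOf a = m) :
    Set.range (orderOf : Aff1 K m → ℕ) = {n | n ∣ p ∨ n ∣ m} := by
  ext n
  constructor
  · rintro ⟨x, rfl⟩
    exact Aff1.orderOf_dvd p x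
  · rintro (h | h)
    · obtain ⟨x, hx⟩ := Aff1.exists_orderOf_char (K := K) (m := m) p
      exact exists_orderOf_eq_of_dvd_orderOf x (hx ▸ h)
    · obtain ⟨a, ha⟩ := hm
      obtain ⟨x, hx⟩ := Aff1.exists_orderOf_unit (K := K) (m := m) a (by rw [← ha, pow_orderOf_eq_one])
      exact exists_orderOf_eq_of_dvd_orderOf x (by rw [hx, ha]; exact h)

/-- Units of a finite field of every order dividing `|K| - 1`. -/
theorem exists_unit_orderOf {K : Type u} [Field K] [Finite K] {m : ℕ}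
    (h : m ∣ Nat.card K - 1) : ∃ a : Kˣ, orderOf a = m := by
  obtain ⟨g, hg⟩ := IsCyclic.exists_ofOrder_eq_natCard (α := Kˣ)
  rw [Nat.card_units] at hg
  exact exists_orderOf_eq_of_dvd_orderOf g (hg ▸ h)

/-- Element orders of a direct product. -/
theorem range_orderOf_prod_grp {A B : Type*} [Group A] [Group B] :
    Set.range (orderOf : A × B → ℕ) =
      {k | ∃ u ∈ Set.range (orderOf : A → ℕ), ∃ v ∈ Set.range (orderOf : B → ℕ),
        Nat.lcm u v = k} := by
  ext k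
  constructor
  · rintro ⟨x, rfl⟩
    exact ⟨_, ⟨x.1, rfl⟩, _, ⟨x.2, rfl⟩, (Prod.orderOf x).symm⟩
  · rintro ⟨_, ⟨a, rfl⟩, _, ⟨b, rfl⟩, rfl⟩
    exact ⟨(a, b), Prod.orderOf (a, b)⟩

/-- The lcm-combinatorics behind the solvable group isospectral to `L × L`. -/
theorem lcm_sets_eq (p b c : ℕ) :
    {k | ∃ u ∈ {n : ℕ | n ∣ p ∨ n ∣ b}, ∃ v ∈ {n : ℕ | n ∣ p ∨ n ∣ c}, Nat.lcm u v = k} =
      {k | ∃ u ∈ {n : ℕ | n ∣ p ∨ n ∣ b ∨ n ∣ c}, ∃ v ∈ {n : ℕ | n ∣ p ∨ n ∣ b ∨ n ∣ c},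
        Nat.lcm u v = k} := by
  ext k
  simp only [Set.mem_setOf_eq]
  constructor
  · rintro ⟨u, hu, v, hv, rfl⟩
    refine ⟨u, ?_, v, ?_, rfl⟩
    · tauto
    · tauto
  · rintro ⟨u, hu, v, hv, rfl⟩
    rcases hu with hu | hu | hu <;> rcases hv with hv | hv | hv
    · exact ⟨Nat.lcm u v, Or.inl (Nat.lcm_dvd hu hv), 1, Or.inl (one_dvd _), by simp⟩
    · exact ⟨v, Or.inr hv, u, Or.inl hu, Nat.lcm_comm v u⟩
    · exact ⟨u, Or.inl hu, v, Or.inr hv, rfl⟩
    · exact ⟨u, Or.inr hu, v, Or.inl hv, rfl⟩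
    · exact ⟨Nat.lcm u v, Or.inr (Nat.lcm_dvd hu hv), 1, Or.inl (one_dvd _), by simp⟩
    · exact ⟨u, Or.inr hu, v, Or.inr hv, rfl⟩
    · exact ⟨v, Or.inl hv, u, Or.inr hu, Nat.lcm_comm v u⟩
    · exact ⟨v, Or.inr hv, u, Or.inr hu, Nat.lcm_comm v u⟩
    · exact ⟨1, Or.inl (one_dvd _), Nat.lcm u v, Or.inr (Nat.lcm_dvd hu hv), by simp⟩

end Cfsg.Agent.Helper19
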