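import Mathlib

set_option autoImplicit false

namespace Cfsg.Agent.Helper19

/-- In odd characteristic, a permutation that is affine on every triple `x, y, (x+y)/2`
is affine. -/
theorem affine_of_midpoint {p : ℕ} [Fact p.Prime] (hp : p ≠ 2) {V : Type*} [AddCommGroup V]
    [Module (ZMod p) V] (σ : Equiv.Perm V)
    (h : ∀ x y : V, ∃ (A : V ≃ₗ[ZMod p] V) (b : V), σ x = A x + b ∧ σ y = A y + b ∧
      σ ((2 : ZMod p)⁻¹ • (x + y)) = A ((2 : ZMod p)⁻¹ • (x + y)) + b) :
    ∃ (A : V ≃ₗ[ZMod p] V) (b : V), ∀ x, σ x = A x + b := by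
  have hpp : p.Prime := Fact.out
  have h2 : (2 : ZMod p) ≠ 0 := by
    intro h0
    have h3 : ((2 : ℕ) : ZMod p) = 0 := by exact_mod_cast h0
    rw [ZMod.natCast_eq_zero_iff] at h3
    exact hp ((Nat.prime_dvd_prime_iff_eq hpp Nat.prime_two).mp h3)
  have hhalf : ∀ v : V, (2 : ZMod p)⁻¹ • (v + v) = v := by
    intro v
    rw [← two_smul (ZMod p) v, smul_smul, inv_mul_cancel₀ h2, one_smul]
  have hmid : ∀ x y : V, σ ((2 : ZMod p)⁻¹ • (x + y)) = (2 : ZMod p)⁻¹ • (σ x + σ y) := by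
    intro x y
    obtain ⟨A, b, hx, hy, hm⟩ := h x y
    rw [hm, hx, hy, map_smul, map_add,
      show A x + b + (A y + b) = (A x + A y) + (b + b) by abel,
      smul_add (2 : ZMod p)⁻¹ (A x + A y) (b + b), hhalf]
  have hτmid : ∀ x y : V, σ ((2 : ZMod p)⁻¹ • (x + y)) - σ 0
      = (2 : ZMod p)⁻¹ • ((σ x - σ 0) + (σ y - σ 0)) := by
    intro x y
    rw [hmid, show (σ x - σ 0) + (σ y - σ 0) = (σ x + σ y) - (σ 0 + σ 0) by abel,
      smul_sub (2 : ZMod p)⁻¹ (σ x + σ y) (σ 0 + σ 0), hhalf]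
  have hτhalf : ∀ x : V, σ ((2 : ZMod p)⁻¹ • x) - σ 0 = (2 : ZMod p)⁻¹ • (σ x - σ 0) := by
    intro x
    have := hτmid x 0
    rwa [add_zero, sub_self, add_zero] at this
  have hτdouble : ∀ x : V, σ ((2 : ZMod p) • x) - σ 0 = (2 : ZMod p) • (σ x - σ 0) := by
    intro x
    have := hτhalf ((2 : ZMod p) • x)
    rw [smul_smul, inv_mul_cancel₀ h2, one_smul] at this
    rw [this, smul_smul, mul_inv_cancel₀ h2, one_smul]
  have hτadd : ∀ x y : V, σ (x + y) - σ 0 = (σ x - σ 0) + (σ y - σ 0) := by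
    intro x y
    have := hτmid ((2 : ZMod p) • x) ((2 : ZMod p) • y)
    rw [← smul_add (2 : ZMod p) x y, smul_smul, inv_mul_cancel₀ h2, one_smul, hτdouble x,
      hτdouble y, ← smul_add (2 : ZMod p) (σ x - σ 0) (σ y - σ 0), smul_smul,
      inv_mul_cancel₀ h2, one_smul] at this
    exact this
  let τ : V →+ V :=
    { toFun := fun x => σ x - σ 0, map_zero' := sub_self _, map_add' := hτadd }
  let L : V →ₗ[ZMod p] V := AddMonoidHom.toZModLinearMap p τ
  have hbij : Function.Bijective L := by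
    constructor
    · intro x y hxy
      have : σ x - σ 0 = σ y - σ 0 := hxy
      exact σ.injective (sub_left_injective this)
    · intro y
      refine ⟨σ.symm (y + σ 0), ?_⟩
      show σ (σ.symm (y + σ 0)) - σ 0 = y
      rw [Equiv.apply_symm_apply, add_sub_cancel_right]
  refine ⟨LinearEquiv.ofBijective L hbij, σ 0, fun x => ?_⟩
  show σ x = (σ x - σ 0) + σ 0
  rw [sub_add_cancel]

/-- A linear automorphism can be corrected to determinant one without changing it on a proper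
subspace. -/
theorem exists_det_one_agree {K V : Type*} [Field K] [AddCommGroup V] [Module K V]
    [FiniteDimensional K V] (A : V ≃ₗ[K] V) (W : Submodule K V) (hW : W ≠ ⊤) :
    ∃ B : V ≃ₗ[K] V, LinearMap.det (B : V →ₗ[K] V) = 1 ∧ ∀ w ∈ W, B w = A w := by
  obtain ⟨e, he⟩ : ∃ e : V, e ∉ W := by
    by_contra hcon
    push Not at hcon
    exact hW (eq_top_iff.mpr (fun x _ => hcon x))
  obtain ⟨f, hfe, hfW⟩ := Submodule.exists_le_ker_of_notMem he
  have hδ0 : LinearMap.det (A : V →ₗ[K] V) ≠ 0 := (LinearEquiv.isUnit_det' A).ne_zero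
  have hDdet : LinearMap.det (LinearMap.transvection
      ((((LinearMap.det (A : V →ₗ[K] V))⁻¹ - 1) / f e) • f) e)
      = (LinearMap.det (A : V →ₗ[K] V))⁻¹ := by
    rw [LinearMap.transvection.det, LinearMap.smul_apply, smul_eq_mul, div_mul_cancel₀ _ hfe]
    ring
  have hDunit : IsUnit (LinearMap.det (LinearMap.transvection
      ((((LinearMap.det (A : V →ₗ[K] V))⁻¹ - 1) / f e) • f) e)) := by
    rw [hDdet]; exact (inv_ne_zero hδ0).isUnit
  refine ⟨(LinearMap.equivOfIsUnitDet hDunit).trans A, ?_, ?_⟩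
  · have hcomp : (((LinearMap.equivOfIsUnitDet hDunit).trans A : V ≃ₗ[K] V) : V →ₗ[K] V)
        = (A : V →ₗ[K] V).comp (LinearMap.transvection
          ((((LinearMap.det (A : V →ₗ[K] V))⁻¹ - 1) / f e) • f) e) := by
      ext x; simp
    rw [hcomp, LinearMap.det_comp, hDdet, mul_inv_cancel₀ hδ0]
  · intro w hw
    have hfw : f w = 0 := hfW hw
    simp [LinearMap.transvection.apply, hfw]

end Cfsg.Agent.Helper19
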