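import Mathlib

set_option autoImplicit false

namespace Cfsg.Agent.Helper19

open Polynomial in
/-- A linear endomorphism of `p`-power order on a finite `𝔽_p`-vector space of dimension `< p ^ t`
satisfies `Φ ^ (p ^ t) = 1` and `1 + Φ + ⋯ + Φ ^ (p ^ t - 1) = 0`. -/
theorem unipotent_pow {p : ℕ} [Fact p.Prime] {M : Type*} [AddCommGroup M] [Module (ZMod p) M]
    [Finite M] (Φ : Module.End (ZMod p) M) (r : ℕ) (hΦ : Φ ^ (p ^ r) = 1) (t : ℕ)
    (ht : Module.finrank (ZMod p) M < p ^ t) :
    Φ ^ (p ^ t) = 1 ∧ ∑ i ∈ Finset.range (p ^ t), Φ ^ i = 0 := by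
  have hP1 : ∀ k : ℕ, ((X : (ZMod p)[X]) - 1) ^ (p ^ k) = X ^ (p ^ k) - 1 := by
    intro k
    rw [sub_pow_char_pow, one_pow]
  have hX1 : (X : (ZMod p)[X]) - 1 ≠ 0 := by
    have := X_sub_C_ne_zero (1 : ZMod p)
    rwa [C_1] at this
  have hP2 : ∑ i ∈ Finset.range (p ^ t), (X : (ZMod p)[X]) ^ i = (X - 1) ^ (p ^ t - 1) := by
    have h := geom_sum_mul (X : (ZMod p)[X]) (p ^ t)
    rw [← hP1 t] at h
    have hpos : 0 < p ^ t := pos_of_gt ht
    have h2 : ((X : (ZMod p)[X]) - 1) ^ (p ^ t) = (X - 1) ^ (p ^ t - 1) * (X - 1) := by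
      rw [← pow_succ, Nat.sub_add_cancel hpos]
    rw [h2] at h
    exact mul_right_cancel₀ hX1 h
  have hnil : IsNilpotent (Φ - 1) := by
    refine ⟨p ^ r, ?_⟩
    have := congrArg (aeval Φ) (hP1 r)
    simp only [map_pow, map_sub, aeval_X, map_one] at this
    rw [this, hΦ, sub_self]
  have hchar := IsNilpotent.charpoly_eq_X_pow_finrank hnil
  have hzero : (Φ - 1) ^ (Module.finrank (ZMod p) M) = 0 := by
    have := LinearMap.aeval_self_charpoly (Φ - 1)
    rw [hchar] at this
    simpa using this
  have hzero' : ∀ k, Module.finrank (ZMod p) M ≤ k → (Φ - 1) ^ k = 0 := by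
    intro k hk
    exact pow_eq_zero_of_le hk hzero
  constructor
  · have := congrArg (aeval Φ) (hP1 t)
    simp only [map_pow, map_sub, aeval_X, map_one] at this
    rw [hzero' _ ht.le] at this
    exact (sub_eq_zero.mp this.symm)
  · have := congrArg (aeval Φ) hP2
    simp only [map_sum, map_pow, map_sub, aeval_X, map_one] at this
    rw [this]
    exact hzero' _ (by omega)

/-- An element of `p`-power order in a group of affine transformations of an `m`-dimensional
`𝔽_p`-space (given abstractly through a regular normal elementary abelian subgroup) has order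
dividing `p ^ t` as soon as `m < p ^ t`. -/
theorem affine_pow_eq_one {G : Type*} [Group G] {Ω : Type*} [Finite Ω] [MulAction G Ω]
    [FaithfulSMul G Ω] (p m : ℕ) [Fact p.Prime] (hcard : Nat.card Ω = p ^ m)
    (N : Subgroup G) [N.Normal] [hNc : IsMulCommutative N] (hNp : ∀ n ∈ N, n ^ p = 1)
    (hNtr : MulAction.IsPretransitive N Ω) (hNreg : ∀ ω : Ω, MulAction.stabilizer N ω = ⊥)
    (g : G) (r : ℕ) (hg : g ^ (p ^ r) = 1) (t : ℕ) (ht : m < p ^ t) : g ^ (p ^ t) = 1 := by
  have hpp : p.Prime := Fact.out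
  have hne : Nonempty Ω := by
    have : Nat.card Ω ≠ 0 := by rw [hcard]; exact (pow_pos hpp.pos m).ne'
    exact (Nat.card_ne_zero.mp this).1
  obtain ⟨ω⟩ := hne
  have hNcard : Nat.card N = p ^ m := by
    rw [← hcard, ← MulAction.index_stabilizer_of_transitive N ω, hNreg ω, Subgroup.index_bot]
  have hNfin : Finite N :=
    Nat.finite_of_card_ne_zero (by rw [hNcard]; exact (pow_pos hpp.pos m).ne')
  let _ : CommGroup N :=
    { (inferInstance : Group N) with mul_comm := fun a b => hNc.is_comm.comm a b }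
  have hexp : ∀ x : Additive N, p • x = 0 := fun x => by
    have h : (Additive.toMul x : N) ^ p = 1 :=
      Subtype.ext (by simpa using hNp _ (Additive.toMul x).2)
    exact congrArg Additive.ofMul h
  have instM : Module (ZMod p) (Additive N) := AddCommGroup.zmodModule hexp
  have hfinM : Finite (Additive N) := inferInstance
  have hMF : Module.Finite (ZMod p) (Additive N) := Module.Finite.of_finite
  have hrank : Module.finrank (ZMod p) (Additive N) = m := by
    have h1 : Nat.card (Additive N) = Nat.card (ZMod p) ^ Module.finrank (ZMod p) (Additive N) :=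
      @Module.natCard_eq_pow_finrank (ZMod p) (Additive N) _ _ _ hMF
    rw [Nat.card_zmod] at h1
    have h2 : Nat.card (Additive N) = p ^ m := hNcard
    rw [h2] at h1
    exact (Nat.pow_right_injective hpp.two_le h1).symm
  let φ : N →* N := (MulAut.conjNormal g : MulAut N).toMonoidHom
  let Φ : Module.End (ZMod p) (Additive N) :=
    AddMonoidHom.toZModLinearMap p (MonoidHom.toAdditive φ)
  have hΦapp : ∀ x : Additive N,
      Φ x = Additive.ofMul (MulAut.conjNormal g (Additive.toMul x)) := fun x => rfl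
  have hΦpow : ∀ (k : ℕ) (x : Additive N),
      (Φ ^ k) x = Additive.ofMul (MulAut.conjNormal (g ^ k) (Additive.toMul x)) := by
    intro k
    induction k with
    | zero => intro x; simp
    | succ k ih =>
      intro x
      rw [pow_succ', Module.End.mul_apply, ih, hΦapp, pow_succ', map_mul]
      rfl
  have hΦr : Φ ^ (p ^ r) = 1 := by
    ext x
    rw [hΦpow, hg, map_one]
    rfl
  obtain ⟨hΦt, hSt⟩ := unipotent_pow Φ r hΦr t (by rw [hrank]; exact ht)
  obtain ⟨n0, hn0⟩ := MulAction.exists_smul_eq N ω (g • ω)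
  have hstep : ∀ y : Additive N, g • ((Additive.toMul y : N) • ω)
      = (Additive.toMul (Φ y + Additive.ofMul n0) : N) • ω := by
    intro y
    have h1 : (Additive.toMul (Φ y + Additive.ofMul n0) : N)
        = MulAut.conjNormal g (Additive.toMul y) * n0 := rfl
    rw [h1, mul_smul, hn0]
    simp only [Subgroup.smul_def, MulAut.conjNormal_apply]
    rw [← mul_smul, ← mul_smul]
    congr 1
    group
  have hiter : ∀ (k : ℕ) (x : Additive N), g ^ k • ((Additive.toMul x : N) • ω) =
      (Additive.toMul ((Φ ^ k) x + (∑ i ∈ Finset.range k, Φ ^ i) (Additive.ofMul n0)) : N)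
        • ω := by
    intro k
    induction k with
    | zero => intro x; simp
    | succ k ih =>
      intro x
      have e : Φ ((Φ ^ k) x + (∑ i ∈ Finset.range k, Φ ^ i) (Additive.ofMul n0))
            + Additive.ofMul n0
          = (Φ ^ (k + 1)) x + (∑ i ∈ Finset.range (k + 1), Φ ^ i) (Additive.ofMul n0) := by
        have e2 : (∑ i ∈ Finset.range k, Φ ^ (i + 1)) = Φ * ∑ i ∈ Finset.range k, Φ ^ i := by
          rw [Finset.mul_sum]; exact Finset.sum_congr rfl (fun i _ => pow_succ' Φ i)
        rw [map_add, Finset.sum_range_succ', pow_zero, LinearMap.add_apply,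
          Module.End.one_apply, pow_succ' Φ k, Module.End.mul_apply, e2, Module.End.mul_apply,
          add_assoc]
      rw [pow_succ', mul_smul, ih, hstep, e]
  apply FaithfulSMul.eq_of_smul_eq_smul (α := Ω)
  intro ω'
  obtain ⟨n, rfl⟩ := MulAction.exists_smul_eq N ω ω'
  have := hiter (p ^ t) (Additive.ofMul n)
  rw [hΦt, hSt] at this
  simpa using this

end Cfsg.Agent.Helper19
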