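import Mathlib
import Cfsg.Prelude.Def_Perm

set_option autoImplicit false

namespace Cfsg.Agent.Helper19

open Polynomial

/-- Power sums over `ZMod p` in the range needed for the Carlitz trick. -/
theorem zmod_sum_pow (p : ℕ) [Fact p.Prime] (m k k₀ : ℕ) (hk : k ≤ m) (hk₀ : k₀ ≤ m)
    (hm : m < p - 1) :
    ∑ z : ZMod p, z ^ (p - 1 - m + k₀ + (m - k)) = if k = k₀ then -1 else 0 := by
  have hp := (Fact.out : p.Prime)
  have hp2 := hp.two_le
  have hlt : ∀ i : ℕ, i < p - 1 → ∑ z : ZMod p, z ^ i = 0 := by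
    intro i hi
    apply FiniteField.sum_pow_lt_card_sub_one
    rw [ZMod.card]
    exact hi
  by_cases hkk : k = k₀
  · rw [if_pos hkk]
    have hE : p - 1 - m + k₀ + (m - k) = p - 1 := by omega
    rw [hE]
    rw [← Finset.add_sum_erase Finset.univ _ (Finset.mem_univ (0 : ZMod p))]
    have h1 : ∀ z ∈ (Finset.univ : Finset (ZMod p)).erase 0, z ^ (p - 1) = 1 := by
      intro z hz
      exact ZMod.pow_card_sub_one_eq_one (Finset.ne_of_mem_erase hz)
    have h2 : ((p - 1 : ℕ) : ZMod p) = -1 := by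
      rw [Nat.cast_sub hp.one_le, ZMod.natCast_self, Nat.cast_one, zero_sub]
    rw [Finset.sum_congr rfl h1, zero_pow (by omega), zero_add, Finset.sum_const,
      Finset.card_erase_of_mem (Finset.mem_univ _), Finset.card_univ, ZMod.card, nsmul_eq_mul,
      mul_one, h2]
  · rw [if_neg hkk]
    rcases Nat.lt_or_gt_of_ne hkk with hlt' | hgt
    · have hE : p - 1 - m + k₀ + (m - k) = p + (k₀ - k - 1) := by omega
      rw [hE]
      have h1 : ∀ z : ZMod p, z ^ (p + (k₀ - k - 1)) = z ^ (k₀ - k) := by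
        intro z
        rw [pow_add, ZMod.pow_card, ← pow_succ']
        congr 1
        omega
      rw [Finset.sum_congr rfl (fun z _ => h1 z)]
      exact hlt _ (by omega)
    · exact hlt _ (by omega)

theorem sum_pow_mul_sub_pow (p : ℕ) [Fact p.Prime] (m k₀ : ℕ) (hk₀ : k₀ ≤ m) (hm : m < p - 1)
    (c : ZMod p) :
    ∑ z : ZMod p, z ^ (p - 1 - m + k₀) * (z - c) ^ m
      = -((-c) ^ k₀ * (m.choose k₀ : ZMod p)) := by
  have h1 : ∀ z : ZMod p, z ^ (p - 1 - m + k₀) * (z - c) ^ m =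
      ∑ k ∈ Finset.range (m + 1),
        (-c) ^ k * (m.choose k : ZMod p) * z ^ (p - 1 - m + k₀ + (m - k)) := by
    intro z
    rw [sub_eq_neg_add, add_pow, Finset.mul_sum]
    apply Finset.sum_congr rfl
    intro k _
    rw [pow_add]
    ring
  rw [Finset.sum_congr rfl (fun z _ => h1 z), Finset.sum_comm]
  have h2 : ∀ k ∈ Finset.range (m + 1),
      ∑ z : ZMod p, (-c) ^ k * (m.choose k : ZMod p) * z ^ (p - 1 - m + k₀ + (m - k))
        = if k = k₀ then -((-c) ^ k₀ * (m.choose k₀ : ZMod p)) else 0 := by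
    intro k hk
    rw [Finset.mem_range] at hk
    rw [← Finset.mul_sum, zmod_sum_pow p m k k₀ (by omega) hk₀ hm]
    split_ifs with h
    · rw [h]
      ring
    · ring
  rw [Finset.sum_congr rfl h2, Finset.sum_eq_single k₀]
  · rw [if_pos rfl]
  · intro k _ hk
    rw [if_neg hk]
  · intro h
    exact absurd (Finset.mem_range.mpr (by omega)) h

/-- The Carlitz trick: powers of `σ` are polynomial functions of degree at most `m`. -/
theorem exists_poly_pow (p : ℕ) [Fact p.Prime] (σ : Equiv.Perm (ZMod p)) (m : ℕ) (hm : m < p - 1)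
    (h2 : ∀ x y : ZMod p, (σ y - σ x) ^ m = (y - x) ^ m) (k₀ : ℕ) (hk₀ : k₀ ≤ m) :
    ∃ Q : Polynomial (ZMod p), Q.natDegree ≤ m ∧ ∀ x, Q.eval x = σ x ^ k₀ := by
  have hp := (Fact.out : p.Prime)
  obtain ⟨c, hc⟩ : ∃ c : ZMod p, c = -((-1) ^ k₀ * (m.choose k₀ : ZMod p)) := ⟨_, rfl⟩
  have hc0 : c ≠ 0 := by
    rw [hc, neg_ne_zero]
    apply mul_ne_zero (pow_ne_zero _ (neg_ne_zero.mpr one_ne_zero))
    rw [Ne, ZMod.natCast_eq_zero_iff]
    intro hdvd
    have h1 : m.choose k₀ ∣ m.factorial := by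
      rw [← Nat.choose_mul_factorial_mul_factorial hk₀, mul_assoc]
      exact dvd_mul_right _ _
    have h3 := (hp.dvd_factorial).mp (dvd_trans hdvd h1)
    omega
  obtain ⟨R, hR⟩ : ∃ R : Polynomial (ZMod p), R = ∑ y : ZMod p,
      C (σ y ^ (p - 1 - m + k₀)) * (C y - X) ^ m := ⟨_, rfl⟩
  have hRdeg : R.natDegree ≤ m := by
    rw [hR]
    apply Polynomial.natDegree_sum_le_of_forall_le
    intro y _
    refine le_trans (Polynomial.natDegree_C_mul_le _ _) ?_
    refine le_trans Polynomial.natDegree_pow_le ?_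
    have h1 : (C y - X : Polynomial (ZMod p)).natDegree ≤ 1 := by
      refine le_trans (Polynomial.natDegree_sub_le _ _) ?_
      rw [Polynomial.natDegree_C, Polynomial.natDegree_X]
      simp
    calc m * (C y - X : Polynomial (ZMod p)).natDegree ≤ m * 1 := Nat.mul_le_mul_left m h1
      _ = m := mul_one m
  have hReval : ∀ x, R.eval x = c * σ x ^ k₀ := by
    intro x
    have e1 : R.eval x = ∑ y : ZMod p, σ y ^ (p - 1 - m + k₀) * (y - x) ^ m := by
      rw [hR]
      simp only [Polynomial.eval_finsetSum, Polynomial.eval_mul, Polynomial.eval_C,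
        Polynomial.eval_pow, Polynomial.eval_sub, Polynomial.eval_X]
    have e2 : ∑ y : ZMod p, σ y ^ (p - 1 - m + k₀) * (y - x) ^ m
        = ∑ y : ZMod p, σ y ^ (p - 1 - m + k₀) * (σ y - σ x) ^ m :=
      Finset.sum_congr rfl (fun y _ => by rw [h2 x y])
    have e3 : ∑ y : ZMod p, σ y ^ (p - 1 - m + k₀) * (σ y - σ x) ^ m
        = ∑ z : ZMod p, z ^ (p - 1 - m + k₀) * (z - σ x) ^ m :=
      Equiv.sum_comp σ (fun z => z ^ (p - 1 - m + k₀) * (z - σ x) ^ m)
    rw [e1, e2, e3, sum_pow_mul_sub_pow p m k₀ hk₀ hm, hc, neg_pow (σ x) k₀]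
    ring
  refine ⟨C c⁻¹ * R, le_trans (Polynomial.natDegree_C_mul_le _ _) hRdeg, fun x => ?_⟩
  rw [Polynomial.eval_mul, Polynomial.eval_C, hReval, inv_mul_cancel_left₀ hc0]

/-- A permutation of `ZMod p` whose difference quotients are `m`-th roots of unity,
`2 m ≤ p - 1`, is affine. -/
theorem affine_of_pow_diff (p : ℕ) [Fact p.Prime] (σ : Equiv.Perm (ZMod p)) (m : ℕ)
    (hm1 : 1 ≤ m) (hm : 2 * m ≤ p - 1)
    (h2 : ∀ x y : ZMod p, (σ y - σ x) ^ m = (y - x) ^ m) :
    ∃ a b : ZMod p, ∀ x, σ x = a * x + b := by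
  have hp := (Fact.out : p.Prime)
  have hp2 := hp.two_le
  have hmlt : m < p - 1 := by omega
  obtain ⟨S, hSdeg, hSeval⟩ := exists_poly_pow p σ m hmlt h2 1 hm1
  have hS1 : S.natDegree ≤ 1 := by
    by_contra hd
    push Not at hd
    obtain ⟨d, hd_def⟩ : ∃ d : ℕ, d = S.natDegree := ⟨_, rfl⟩
    rw [← hd_def] at hd hSdeg
    have hdiv : m / d ≤ m / 2 := Nat.div_le_div_left hd (by norm_num)
    have hj0 : m / d + 1 ≤ m := by omega
    have hj1 : m < d * (m / d + 1) := Nat.lt_mul_div_succ m (by omega)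
    have hj2 : d * (m / d + 1) ≤ p - 1 := by
      have h3 := Nat.div_mul_le_self m d
      have h4 : d * (m / d + 1) = m / d * d + d := by ring
      omega
    obtain ⟨Q, hQdeg, hQeval⟩ := exists_poly_pow p σ m hmlt h2 (m / d + 1) hj0
    have hdeg : (S ^ (m / d + 1)).natDegree = (m / d + 1) * d := by
      rw [Polynomial.natDegree_pow, ← hd_def]
    have heq : S ^ (m / d + 1) - Q = 0 := by
      apply Polynomial.eq_zero_of_natDegree_lt_card_of_eval_eq_zero (S ^ (m / d + 1) - Q)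
        (f := (id : ZMod p → ZMod p)) Function.injective_id
      · intro x
        show (S ^ (m / d + 1) - Q).eval x = 0
        rw [Polynomial.eval_sub, Polynomial.eval_pow, hSeval, hQeval, pow_one, sub_self]
      · rw [ZMod.card]
        have h5 := Polynomial.natDegree_sub_le (S ^ (m / d + 1)) Q
        have h6 : (m / d + 1) * d = d * (m / d + 1) := mul_comm _ _
        have h7 : max (S ^ (m / d + 1)).natDegree Q.natDegree ≤ p - 1 := by
          rw [hdeg]
          exact max_le (by omega) (by omega)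
        omega
    have heq' : S ^ (m / d + 1) = Q := sub_eq_zero.mp heq
    rw [heq'] at hdeg
    have h6 : (m / d + 1) * d = d * (m / d + 1) := mul_comm _ _
    omega
  have hform := Polynomial.eq_X_add_C_of_natDegree_le_one hS1
  refine ⟨S.coeff 1, S.coeff 0, fun x => ?_⟩
  have hx := hSeval x
  rw [pow_one] at hx
  rw [← hx]
  calc S.eval x = (C (S.coeff 1) * X + C (S.coeff 0)).eval x := by rw [← hform]
    _ = S.coeff 1 * x + S.coeff 0 := by simp

/-- Proper subgroups of `AGL₁(p)` containing the translations are 2-closed. -/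
theorem agl_two_closed (p : ℕ) [Fact p.Prime] (G : Subgroup (Equiv.Perm (ZMod p)))
    (hG : G ≤ Cfsg.affineGroup (ZMod p))
    (htrans : ∀ b : ZMod p, ∃ g ∈ G, ∀ x, g x = x + b)
    (hne : G ≠ Cfsg.affineGroup (ZMod p)) (σ : Equiv.Perm (ZMod p))
    (hσ : ∀ t : Fin 2 → ZMod p, ∃ g ∈ G, ∀ i, σ (t i) = g (t i)) : σ ∈ G := by
  have hp := (Fact.out : p.Prime)
  have hp2 := hp.two_le
  obtain ⟨φ, hφ⟩ : ∃ φ : (ZMod p)ˣ →* Equiv.Perm (ZMod p), ∀ a x, φ a x = (a : ZMod p) * x :=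
    ⟨MulAction.toPermHom (ZMod p)ˣ (ZMod p), fun a x => rfl⟩
  have hslope : ∀ g ∈ G, ∀ (a : (ZMod p)ˣ) (b : ZMod p),
      (∀ x, g x = (a : ZMod p) * x + b) → φ a ∈ G := by
    intro g hg a b hgab
    obtain ⟨τ, hτ, hτx⟩ := htrans (-b)
    have h1 : φ a = τ * g := by
      ext x
      rw [Equiv.Perm.mul_apply, hτx, hgab, hφ]
      ring
    rw [h1]
    exact G.mul_mem hτ hg
  obtain ⟨H, hHdef⟩ : ∃ H : Subgroup (ZMod p)ˣ, ∀ a, a ∈ H ↔ φ a ∈ G :=
    ⟨G.comap φ, fun a => Iff.rfl⟩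
  have hHne : H ≠ ⊤ := by
    intro hH
    apply hne
    apply le_antisymm hG
    rintro g ⟨a, b, hgab⟩
    obtain ⟨τ, hτ, hτx⟩ := htrans b
    have ha : φ a ∈ G := by
      rw [← hHdef, hH]
      exact Subgroup.mem_top a
    have h1 : g = τ * φ a := by
      ext x
      rw [Equiv.Perm.mul_apply, hτx, hφ, hgab]
    rw [h1]
    exact G.mul_mem hτ ha
  have hcardH : 2 * Nat.card H ≤ p - 1 := by
    have hdvd : Nat.card H ∣ Nat.card (ZMod p)ˣ := Subgroup.card_subgroup_dvd_card H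
    have hcu : Nat.card (ZMod p)ˣ = p - 1 := by
      rw [Nat.card_eq_fintype_card, ZMod.card_units]
    have hne' : Nat.card H ≠ Nat.card (ZMod p)ˣ := fun h =>
      hHne ((Subgroup.card_eq_iff_eq_top H).mp h)
    rw [hcu] at hdvd hne'
    obtain ⟨k, hk⟩ := hdvd
    have hk0 : k ≠ 0 := by
      rintro rfl
      rw [mul_zero] at hk
      omega
    have hk1 : k ≠ 1 := by
      rintro rfl
      rw [mul_one] at hk
      exact hne' hk.symm
    have hk2 : 2 ≤ k := by omega
    calc 2 * Nat.card H ≤ k * Nat.card H := Nat.mul_le_mul_right _ hk2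
      _ = p - 1 := by rw [hk, mul_comm]
  have hpos : 1 ≤ Nat.card H := Nat.card_pos
  have h2 : ∀ x y : ZMod p, (σ y - σ x) ^ Nat.card H = (y - x) ^ Nat.card H := by
    intro x y
    obtain ⟨g, hg, hgt⟩ := hσ ![x, y]
    have h0 : σ x = g x := hgt 0
    have h1 : σ y = g y := hgt 1
    obtain ⟨a, b, hgab⟩ := hG hg
    have haH : a ∈ H := (hHdef a).mpr (hslope g hg a b hgab)
    have hapow : (a : ZMod p) ^ Nat.card H = 1 := by
      have h3 : (⟨a, haH⟩ : H) ^ Nat.card H = 1 := pow_card_eq_one'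
      have h4 : a ^ Nat.card H = 1 := congrArg Subtype.val h3
      rw [← Units.val_pow_eq_pow_val, h4, Units.val_one]
    rw [h0, h1, hgab, hgab]
    have h4 : (a : ZMod p) * y + b - ((a : ZMod p) * x + b) = (a : ZMod p) * (y - x) := by ring
    rw [h4, mul_pow, hapow, one_mul]
  obtain ⟨a, b, hab⟩ := affine_of_pow_diff p σ (Nat.card H) hpos hcardH h2
  obtain ⟨g, hg, hgt⟩ := hσ ![0, 1]
  have h0 : σ 0 = g 0 := hgt 0
  have h1 : σ 1 = g 1 := hgt 1
  obtain ⟨a', b', hgab⟩ := hG hg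
  have hb : b = b' := by
    have h3 := h0
    rw [hab, hgab] at h3
    simpa using h3
  have ha : a = (a' : ZMod p) := by
    have h3 := h1
    rw [hab, hgab, hb] at h3
    simpa using h3
  have hσg : σ = g := by
    ext x
    rw [hab, hgab, ha, hb]
  rw [hσg]
  exact hg

/-- Every permutation agrees with an affine map on any pair of points. -/
theorem agl_two_closure (p : ℕ) [Fact p.Prime] (σ : Equiv.Perm (ZMod p)) (t : Fin 2 → ZMod p) :
    ∃ g ∈ Cfsg.affineGroup (ZMod p), ∀ i, σ (t i) = g (t i) := by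
  by_cases h01 : t 0 = t 1
  · refine ⟨Equiv.addRight (σ (t 0) - t 0), ⟨1, σ (t 0) - t 0, fun x => by simp⟩, ?_⟩
    intro i
    have hi : t i = t 0 := by
      fin_cases i
      · rfl
      · exact h01.symm
    rw [hi]
    simp
  · have hne : t 0 - t 1 ≠ 0 := sub_ne_zero.mpr h01
    have hσne : σ (t 0) - σ (t 1) ≠ 0 := sub_ne_zero.mpr (fun h => h01 (σ.injective h))
    obtain ⟨a, ha⟩ : ∃ a : (ZMod p)ˣ, (a : ZMod p) * (t 0 - t 1) = σ (t 0) - σ (t 1) :=
      ⟨Units.mk0 ((σ (t 0) - σ (t 1)) / (t 0 - t 1)) (div_ne_zero hσne hne), by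
        rw [Units.val_mk0]
        exact div_mul_cancel₀ _ hne⟩
    refine ⟨Equiv.addRight (σ (t 0) - (a : ZMod p) * t 0) * MulAction.toPerm a,
      ⟨a, σ (t 0) - (a : ZMod p) * t 0, fun x => rfl⟩, ?_⟩
    intro i
    fin_cases i
    · show σ (t 0) = (a : ZMod p) * t 0 + (σ (t 0) - (a : ZMod p) * t 0)
      ring
    · show σ (t 1) = (a : ZMod p) * t 1 + (σ (t 0) - (a : ZMod p) * t 0)
      linear_combination ha

/-- `AGL₁(p)` is 3-closed. -/
theorem agl_three_closed (p : ℕ) [Fact p.Prime] (σ : Equiv.Perm (ZMod p))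
    (h : ∀ t : Fin 3 → ZMod p, ∃ g ∈ Cfsg.affineGroup (ZMod p), ∀ i, σ (t i) = g (t i)) :
    σ ∈ Cfsg.affineGroup (ZMod p) := by
  obtain ⟨g, hg, hgt⟩ := h ![0, 1, 1]
  have h0 : σ 0 = g 0 := hgt 0
  have h1 : σ 1 = g 1 := hgt 1
  have hσg : σ = g := by
    ext x
    obtain ⟨g', hg', hgt'⟩ := h ![0, 1, x]
    have h0' : σ 0 = g' 0 := hgt' 0
    have h1' : σ 1 = g' 1 := hgt' 1
    have hx' : σ x = g' x := hgt' 2
    obtain ⟨a, b, hab⟩ := hg
    obtain ⟨a', b', hab'⟩ := hg'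
    have e0 : g 0 = g' 0 := h0.symm.trans h0'
    have e1 : g 1 = g' 1 := h1.symm.trans h1'
    rw [hab, hab'] at e0 e1
    have hb : b = b' := by simpa using e0
    have ha : (a : ZMod p) = a' := by
      rw [hb] at e1
      simpa using e1
    rw [hx', hab, hab', ha, hb]
  rw [hσg]
  exact hg

end Cfsg.Agent.Helper19
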