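import Mathlib
import Cfsg.Prelude.Def_LocalStructure

set_option autoImplicit false

namespace Cfsg.Agent.Helper19.AltPClosed

open Equiv

theorem prime_ne_pow {p q : ℕ} (hp : p.Prime) (hq : q.Prime) (hpq : p ≠ q) (k : ℕ) :
    q ≠ p ^ k := by
  intro hk
  rcases Nat.eq_zero_or_pos k with h0 | hkpos
  · rw [h0, pow_zero] at hk
    exact hq.one_lt.ne' hk
  · have h1 : p ∣ q := by rw [hk]; exact dvd_pow_self p hkpos.ne'
    exact hpq ((Nat.prime_dvd_prime_iff_eq hp hq).mp h1)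

/-- In a `p`-closed finite group the product of two elements of order `p` is a `p`-element. -/
theorem pclosed_mul {H : Type*} [Group H] [Finite H] (p : ℕ) [Fact p.Prime]
    (hH : Cfsg.IsPClosed p H) (a b : H) (ha : orderOf a = p) (hb : orderOf b = p) :
    ∃ k : ℕ, orderOf (a * b) = p ^ k := by
  have hZa : IsPGroup p (Subgroup.zpowers a) :=
    IsPGroup.of_card (n := 1) (by rw [Nat.card_zpowers, ha, pow_one])
  have hZb : IsPGroup p (Subgroup.zpowers b) :=
    IsPGroup.of_card (n := 1) (by rw [Nat.card_zpowers, hb, pow_one])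
  obtain ⟨Q, hQ⟩ := hZa.exists_le_sylow
  obtain ⟨Q', hQ'⟩ := hZb.exists_le_sylow
  have hQn : (Q : Subgroup H).Normal := hH Q
  obtain ⟨g, hg⟩ := MulAction.exists_smul_eq H Q Q'
  have hQQ' : Q' = Q := by rw [← hg]; exact Sylow.smul_eq_of_normal
  have haQ : a ∈ (Q : Subgroup H) := hQ (Subgroup.mem_zpowers a)
  have hbQ : b ∈ (Q : Subgroup H) := by
    have h1 := hQ' (Subgroup.mem_zpowers b)
    rw [hQQ'] at h1
    exact h1
  obtain ⟨k, hk⟩ := IsPGroup.iff_orderOf.mp Q.isPGroup' ⟨a * b, mul_mem haQ hbQ⟩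
  exact ⟨k, (Subgroup.orderOf_mk (a * b) (mul_mem haQ hbQ)).symm.trans hk⟩

theorem main (n p : ℕ) (hn : 5 ≤ n) [Fact p.Prime] (hp : p ≠ 2) (hpn : p ≤ n)
    (h : ∀ H : Subgroup ↥(alternatingGroup (Fin n)), H ≠ ⊤ → p ∣ Nat.card ↥H →
      Cfsg.IsPClosed p ↥H) : n = p := by
  by_contra hne
  have hpp : p.Prime := Fact.out
  have hlt : p ≤ n - 1 := by omega
  obtain ⟨a, ha⟩ : ∃ a : Fin n, a.val = 0 := ⟨⟨0, by omega⟩, rfl⟩
  obtain ⟨b, hb⟩ : ∃ b : Fin n, b.val = 1 := ⟨⟨1, by omega⟩, rfl⟩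
  obtain ⟨c, hc⟩ : ∃ c : Fin n, c.val = 2 := ⟨⟨2, by omega⟩, rfl⟩
  obtain ⟨d, hd⟩ : ∃ d : Fin n, d.val = 3 := ⟨⟨3, by omega⟩, rfl⟩
  obtain ⟨x₀, hx₀⟩ : ∃ x : Fin n, x.val = 4 := ⟨⟨4, by omega⟩, rfl⟩
  have hab : a ≠ b := fun hh => by rw [hh] at ha; omega
  have hac : a ≠ c := fun hh => by rw [hh] at ha; omega
  have had : a ≠ d := fun hh => by rw [hh] at ha; omega
  have hbc : b ≠ c := fun hh => by rw [hh] at hb; omega
  have hbd : b ≠ d := fun hh => by rw [hh] at hb; omega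
  have hcd : c ≠ d := fun hh => by rw [hh] at hc; omega
  have hax : a ≠ x₀ := fun hh => by rw [hh] at ha; omega
  have hbx : b ≠ x₀ := fun hh => by rw [hh] at hb; omega
  have hcx : c ≠ x₀ := fun hh => by rw [hh] at hc; omega
  have hdx : d ≠ x₀ := fun hh => by rw [hh] at hd; omega
  obtain ⟨H, hHdef⟩ : ∃ H : Subgroup ↥(alternatingGroup (Fin n)),
      H = MulAction.stabilizer ↥(alternatingGroup (Fin n)) x₀ := ⟨_, rfl⟩
  have hHmem : ∀ g : ↥(alternatingGroup (Fin n)),
      g ∈ H ↔ (g : Perm (Fin n)) x₀ = x₀ := by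
    intro g
    rw [hHdef]
    exact MulAction.mem_stabilizer_iff
  have hHne : H ≠ ⊤ := by
    intro hH
    have hmem : swap x₀ a * swap a b ∈ alternatingGroup (Fin n) := by
      rw [Equiv.Perm.mem_alternatingGroup, Equiv.Perm.sign_mul,
        Equiv.Perm.sign_swap hax.symm, Equiv.Perm.sign_swap hab]
      simp
    have h1 : (⟨swap x₀ a * swap a b, hmem⟩ : ↥(alternatingGroup (Fin n))) ∈ H := by
      rw [hH]; exact Subgroup.mem_top _
    rw [hHmem] at h1
    have h2 : (swap x₀ a * swap a b) x₀ = a := by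
      rw [Perm.mul_apply, swap_apply_of_ne_of_ne hax.symm hbx.symm, swap_apply_left]
    exact hax (h2.symm.trans h1)
  have htr : MulAction.IsPretransitive ↥(alternatingGroup (Fin n)) (Fin n) :=
    alternatingGroup.isPretransitive_of_three_le_card (Fin n) (by rw [Nat.card_fin]; omega)
  have hidx : H.index = n := by
    rw [hHdef, MulAction.index_stabilizer_of_transitive, Nat.card_fin]
  have hnt : Nontrivial (Fin n) := ⟨⟨a, b, hab⟩⟩
  have hcardA : Nat.card ↥(alternatingGroup (Fin n)) = n.factorial / 2 := by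
    rw [nat_card_alternatingGroup, Nat.card_fin]
  have hcardH : 2 * (Nat.card H * n) = n.factorial := by
    have e := Subgroup.card_mul_index H
    rw [hidx, hcardA] at e
    rw [e]
    exact Nat.mul_div_cancel' (Nat.dvd_factorial (by norm_num) (by omega))
  have hpH : p ∣ Nat.card H := by
    have h1 : n.factorial = n * (n - 1).factorial := (Nat.mul_factorial_pred (by omega)).symm
    have h2 : 2 * Nat.card H = (n - 1).factorial := by
      have h3 : n * (2 * Nat.card H) = n * (n - 1).factorial := by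
        rw [← h1, ← hcardH]; ring
      exact Nat.eq_of_mul_eq_mul_left (by omega) h3
    have h4 : p ∣ 2 * Nat.card H := by rw [h2]; exact (Nat.Prime.dvd_factorial hpp).mpr hlt
    rcases (Nat.Prime.dvd_mul hpp).mp h4 with h5 | h5
    · exact absurd ((Nat.prime_dvd_prime_iff_eq hpp Nat.prime_two).mp h5) hp
    · exact h5
  have hPC : Cfsg.IsPClosed p ↥H := h H hHne hpH
  by_cases hp3 : p = 3
  · have hσ3 : Equiv.Perm.IsThreeCycle (swap a b * swap a c) :=
      Equiv.Perm.isThreeCycle_swap_mul_swap_same hab hac hbc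
    have hτ3 : Equiv.Perm.IsThreeCycle (swap a b * swap a d) :=
      Equiv.Perm.isThreeCycle_swap_mul_swap_same hab had hbd
    have hσA := hσ3.mem_alternatingGroup
    have hτA := hτ3.mem_alternatingGroup
    have hσx : (swap a b * swap a c) x₀ = x₀ := by
      rw [Perm.mul_apply, swap_apply_of_ne_of_ne hax.symm hcx.symm,
        swap_apply_of_ne_of_ne hax.symm hbx.symm]
    have hτx : (swap a b * swap a d) x₀ = x₀ := by
      rw [Perm.mul_apply, swap_apply_of_ne_of_ne hax.symm hdx.symm,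
        swap_apply_of_ne_of_ne hax.symm hbx.symm]
    have hσH : (⟨swap a b * swap a c, hσA⟩ : ↥(alternatingGroup (Fin n))) ∈ H :=
      (hHmem _).mpr hσx
    have hτH : (⟨swap a b * swap a d, hτA⟩ : ↥(alternatingGroup (Fin n))) ∈ H :=
      (hHmem _).mpr hτx
    obtain ⟨k, hk⟩ := pclosed_mul p hPC ⟨⟨_, hσA⟩, hσH⟩ ⟨⟨_, hτA⟩, hτH⟩
      ((Subgroup.orderOf_mk _ hσH).trans ((Subgroup.orderOf_mk _ hσA).trans
        (hσ3.orderOf.trans hp3.symm)))
      ((Subgroup.orderOf_mk _ hτH).trans ((Subgroup.orderOf_mk _ hτA).trans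
        (hτ3.orderOf.trans hp3.symm)))
    have e1 : orderOf ((⟨⟨_, hσA⟩, hσH⟩ : ↥H) * ⟨⟨_, hτA⟩, hτH⟩) =
        orderOf (swap a b * swap a c * (swap a b * swap a d)) := by
      have e2 := Subgroup.orderOf_coe ((⟨⟨_, hσA⟩, hσH⟩ : ↥H) * ⟨⟨_, hτA⟩, hτH⟩)
      have e3 := Subgroup.orderOf_coe
        ((((⟨⟨_, hσA⟩, hσH⟩ : ↥H) * ⟨⟨_, hτA⟩, hτH⟩ : ↥H)) : ↥(alternatingGroup (Fin n)))
      exact (e2.symm.trans e3.symm)
    have e4 : swap a b * swap a c * (swap a b * swap a d) = swap b c * swap a d := by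
      rw [← mul_assoc, swap_comm a c, Equiv.swap_mul_swap_mul_swap hac.symm hbc.symm]
    have e5 : orderOf (swap b c * swap a d) = 2 := by
      have hdis : Equiv.Perm.Disjoint (swap b c) (swap a d) :=
        Equiv.Perm.disjoint_swap_swap
          (by simp [hbc, hab.symm, hbd, hac.symm, hcd, had, hab, hac, hbc.symm, hcd.symm])
      rw [hdis.orderOf, Equiv.Perm.IsSwap.orderOf ⟨b, c, hbc, rfl⟩,
        Equiv.Perm.IsSwap.orderOf ⟨a, d, had, rfl⟩, Nat.lcm_self]
    rw [e1, e4, e5] at hk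
    exact prime_ne_pow hpp Nat.prime_two hp k hk
  · obtain ⟨σ, hσ⟩ := exists_prime_orderOf_dvd_card' (G := ↥H) p hpH
    obtain ⟨s, hsdef⟩ : ∃ s : Perm (Fin n),
        s = ((σ : ↥(alternatingGroup (Fin n))) : Perm (Fin n)) := ⟨_, rfl⟩
    have hsA : s ∈ alternatingGroup (Fin n) := by
      rw [hsdef]; exact (σ : ↥(alternatingGroup (Fin n))).2
    have hsx : s x₀ = x₀ := by rw [hsdef]; exact (hHmem _).mp σ.2
    have hsord : orderOf s = p := by
      rw [hsdef, Subgroup.orderOf_coe, Subgroup.orderOf_coe]; exact hσ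
    have hs1 : s ≠ 1 := by
      intro h1
      rw [h1, orderOf_one] at hsord
      exact hpp.one_lt.ne hsord
    obtain ⟨y, hy⟩ : ∃ y, s y ≠ y := by
      by_contra hno
      push Not at hno
      exact hs1 (Equiv.ext hno)
    have hyx : y ≠ x₀ := fun hh => hy (by rw [hh]; exact hsx)
    have hsyx : s y ≠ x₀ := fun hh => hyx (s.injective (hh.trans hsx.symm))
    have hssy : s (s y) ≠ s y := fun hh => hy (s.injective hh)
    have hssy' : s (s y) ≠ y := by
      intro hh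
      have h2 : (s ^ 2) y = y := by rw [pow_two, Perm.mul_apply]; exact hh
      have hodd : p = 2 * (p / 2) + 1 := by
        rcases hpp.eq_two_or_odd with h2' | h2'
        · exact absurd h2' hp
        · omega
      have h3 : (s ^ (2 * (p / 2))) y = y := by
        rw [pow_mul]; exact Equiv.Perm.pow_apply_eq_self_of_apply_eq_self h2 _
      have h4 : (s ^ (2 * (p / 2) + 1)) y = s y := by
        rw [pow_succ', Perm.mul_apply, h3]
      rw [← hodd, ← hsord, pow_orderOf_eq_one] at h4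
      exact hy h4.symm
    obtain ⟨w, hwdef⟩ : ∃ w : Perm (Fin n), w = swap y (s y) := ⟨_, rfl⟩
    have hwx : w x₀ = x₀ := by
      rw [hwdef]; exact swap_apply_of_ne_of_ne hyx.symm hsyx.symm
    have hwinv : w⁻¹ = w := by rw [hwdef]; exact swap_inv _ _
    obtain ⟨τ, hτdef⟩ : ∃ τ : Perm (Fin n), τ = w * s⁻¹ * w⁻¹ := ⟨_, rfl⟩
    have hτA : τ ∈ alternatingGroup (Fin n) := by
      rw [hτdef]
      exact (alternatingGroup.normal (α := Fin n)).conj_mem s⁻¹ (inv_mem hsA) w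
    have hτx : τ x₀ = x₀ := by
      rw [hτdef, hwinv, Perm.mul_apply, Perm.mul_apply, hwx,
        Perm.inv_eq_iff_eq.mpr hsx.symm, hwx]
    have hτord : orderOf τ = p := by
      rw [hτdef, ← hsord, ← orderOf_inv s]
      exact (MulAut.conj w).orderOf_eq s⁻¹
    have hprod : s * τ = swap (s y) (s (s y)) * swap (s y) y := by
      rw [hτdef, hwinv, hwdef, Equiv.swap_apply_apply s y (s y), swap_comm y (s y)]
      group
    have h3c : Equiv.Perm.IsThreeCycle (s * τ) := by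
      rw [hprod]
      exact Equiv.Perm.isThreeCycle_swap_mul_swap_same hssy.symm hy hssy'
    have hτH : (⟨τ, hτA⟩ : ↥(alternatingGroup (Fin n))) ∈ H := (hHmem _).mpr hτx
    obtain ⟨k, hk⟩ := pclosed_mul p hPC σ ⟨⟨τ, hτA⟩, hτH⟩ hσ
      ((Subgroup.orderOf_mk _ hτH).trans ((Subgroup.orderOf_mk τ hτA).trans hτord))
    have e1 : orderOf (σ * (⟨⟨τ, hτA⟩, hτH⟩ : ↥H)) = orderOf (s * τ) := by
      have e2 := Subgroup.orderOf_coe (σ * (⟨⟨τ, hτA⟩, hτH⟩ : ↥H))
      have e3 := Subgroup.orderOf_coe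
        (((σ * (⟨⟨τ, hτA⟩, hτH⟩ : ↥H) : ↥H)) : ↥(alternatingGroup (Fin n)))
      rw [← e2, ← e3, hsdef]
      rfl
    rw [e1, h3c.orderOf] at hk
    exact prime_ne_pow hpp Nat.prime_three hp3 k hk

end Cfsg.Agent.Helper19.AltPClosed
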