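import Mathlib

set_option autoImplicit false

namespace Cfsg.Agent.Helper19

open Equiv MulAction

/-- Two permutations whose supports meet in exactly one point `α` (both moving it) have a
3-cycle as commutator. Supports are controlled by a set `Δ`: `x` fixes the complement of `Δ`
pointwise and `y` fixes `Δ \ {α}` pointwise. -/
theorem isThreeCycle_commutator_of_supports {Ω : Type*} [DecidableEq Ω] [Fintype Ω]
    (x y : Equiv.Perm Ω) (Δ : Set Ω) (α : Ω) (hα : α ∈ Δ)
    (hx : ∀ ω, ω ∉ Δ → x ω = ω) (hy : ∀ ω, ω ∈ Δ → ω ≠ α → y ω = ω)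
    (hxα : x α ≠ α) (hyα : y α ≠ α) : (x * y * x⁻¹ * y⁻¹).IsThreeCycle := by
  have inv_app : ∀ (f : Equiv.Perm Ω) (a : Ω), f⁻¹ (f a) = a :=
    fun f a => Equiv.Perm.inv_eq_iff_eq.mpr rfl
  have app_inv : ∀ (f : Equiv.Perm Ω) (a : Ω), f (f⁻¹ a) = a :=
    fun f a => (Equiv.eq_symm_apply f).mp rfl
  have hx' : ∀ ω, ω ∉ Δ → x⁻¹ ω = ω := fun ω h => by
    rw [Equiv.Perm.inv_eq_iff_eq]; exact (hx ω h).symm
  have hy' : ∀ ω, ω ∈ Δ → ω ≠ α → y⁻¹ ω = ω := fun ω h h' => by
    rw [Equiv.Perm.inv_eq_iff_eq]; exact (hy ω h h').symm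
  have hxΔ : ∀ ω, ω ∈ Δ → x ω ∈ Δ := by
    intro ω h
    by_contra hc
    have := hx _ hc
    have h2 : x ω = ω := x.injective this
    rw [h2] at hc
    exact hc h
  have hxΔ' : ∀ ω, ω ∈ Δ → x⁻¹ ω ∈ Δ := by
    intro ω h
    by_contra hc
    have := hx' _ hc
    have h2 : x⁻¹ ω = ω := (x⁻¹).injective this
    rw [h2] at hc
    exact hc h
  have hyα' : y α ∉ Δ := by
    intro h
    have := hy _ h hyα
    exact hyα (y.injective this)
  have hyinvα : y⁻¹ α ≠ α := by
    intro h
    rw [Equiv.Perm.inv_eq_iff_eq] at h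
    exact hyα h.symm
  have hyinvα' : y⁻¹ α ∉ Δ := by
    intro h
    have := hy' _ h hyinvα
    exact hyinvα ((y⁻¹).injective this)
  have hxinvα : x⁻¹ α ≠ α := by
    intro h
    rw [Equiv.Perm.inv_eq_iff_eq] at h
    exact hxα h.symm
  have hne1 : x α ≠ y α := fun h => hyα' (h ▸ hxΔ α hα)
  have key : x * y * x⁻¹ * y⁻¹ = Equiv.swap α (y α) * Equiv.swap α (x α) := by
    ext ω
    simp only [Equiv.Perm.mul_apply]
    by_cases h1 : ω = α
    · subst h1
      rw [hx' _ hyinvα', app_inv, Equiv.swap_apply_left,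
        Equiv.swap_apply_of_ne_of_ne hxα hne1]
    by_cases h2 : ω = x α
    · subst h2
      rw [hy' _ (hxΔ α hα) hxα, inv_app, hx _ hyα', Equiv.swap_apply_right,
        Equiv.swap_apply_left]
    by_cases h3 : ω = y α
    · subst h3
      rw [inv_app, hy _ (hxΔ' α hα) hxinvα, app_inv,
        Equiv.swap_apply_of_ne_of_ne hyα (Ne.symm hne1), Equiv.swap_apply_right]
    rw [Equiv.swap_apply_of_ne_of_ne h1 h2, Equiv.swap_apply_of_ne_of_ne h1 h3]
    by_cases hω : ω ∈ Δ
    · rw [hy' _ hω h1]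
      have h4 : x⁻¹ ω ≠ α := by
        intro h
        rw [Equiv.Perm.inv_eq_iff_eq] at h
        exact h2 h
      rw [hy _ (hxΔ' ω hω) h4, app_inv]
    · have h5 : y⁻¹ ω ∉ Δ := by
        intro h
        by_cases h6 : y⁻¹ ω = α
        · rw [Equiv.Perm.inv_eq_iff_eq] at h6
          exact h3 h6
        · have := hy' _ h h6
          have h7 : y⁻¹ ω = ω := (y⁻¹).injective this
          rw [h7] at h
          exact hω h
      rw [hx' _ h5, app_inv, hx _ hω]
  rw [key]
  exact Equiv.Perm.isThreeCycle_swap_mul_swap_same (Ne.symm hyα) (Ne.symm hxα) (Ne.symm hne1)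

/-- The image of a primitive group in the symmetric group acts primitively. -/
theorem isPreprimitive_range {G Ω : Type*} [Group G] [MulAction G Ω]
    (hprim : MulAction.IsPreprimitive G Ω) :
    MulAction.IsPreprimitive (MulAction.toPermHom G Ω).range Ω := by
  let φ : G → (MulAction.toPermHom G Ω).range := (MulAction.toPermHom G Ω).rangeRestrict
  let f : Ω →ₑ[φ] Ω := { toFun := id, map_smul' := fun _ _ => rfl }
  exact MulAction.IsPreprimitive.of_surjective (f := f) Function.surjective_id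

/-- Bochert: a primitive group not containing the alternating group has a base of size at most
half the degree. -/
theorem exists_small_base {G Ω : Type*} [Group G] [Finite G] [MulAction G Ω] [FaithfulSMul G Ω]
    [Fintype Ω] [DecidableEq Ω]
    (hprim : MulAction.IsPreprimitive G Ω)
    (hA : ¬ alternatingGroup Ω ≤ (MulAction.toPermHom G Ω).range) :
    ∃ s : Finset Ω, 2 * s.card ≤ Fintype.card Ω ∧ ∀ g : G, (∀ a ∈ s, g • a = a) → g = 1 := by
  classical
  have hfaith : ∀ g : G, (∀ a : Ω, g • a = a) → g = 1 := fun g h =>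
    FaithfulSMul.eq_of_smul_eq_smul (α := Ω) (fun a => by rw [h a, one_smul])
  have hex : ∃ k, ∃ s : Finset Ω, s.card = k ∧ ∀ g : G, (∀ a ∈ s, g • a = a) → g = 1 :=
    ⟨_, Finset.univ, rfl, fun g h => hfaith g (fun a => h a (Finset.mem_univ a))⟩
  obtain ⟨Δ, hΔc, hΔ⟩ := Nat.find_spec hex
  have hmin : ∀ s : Finset Ω, s.card < Nat.find hex →
      ∃ g : G, (∀ a ∈ s, g • a = a) ∧ g ≠ 1 := by
    intro s hs
    by_contra hc
    push Not at hc
    exact Nat.find_min hex hs ⟨s, rfl, hc⟩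
  refine ⟨Δ, ?_, hΔ⟩
  by_contra hlt
  have hlt' : Fintype.card Ω < 2 * Δ.card := Nat.lt_of_not_ge hlt
  have hS : (Finset.univ \ Δ).card < Nat.find hex := by
    rw [hΔc.symm, Finset.card_sdiff_of_subset (Finset.subset_univ Δ), Finset.card_univ]
    omega
  obtain ⟨x, hx, hx1⟩ := hmin _ hS
  have hxα : ∃ α : Ω, x • α ≠ α := by
    by_contra hc
    push Not at hc
    exact hx1 (hfaith x hc)
  obtain ⟨α, hxα⟩ := hxα
  have hαΔ : α ∈ Δ := by
    by_contra hc
    exact hxα (hx α (by simp [hc]))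
  have hE : (Δ.erase α).card < Nat.find hex := by
    rw [Finset.card_erase_of_mem hαΔ, hΔc]
    have : 0 < Δ.card := Finset.card_pos.2 ⟨α, hαΔ⟩
    omega
  obtain ⟨y, hy, hy1⟩ := hmin _ hE
  have hyα : y • α ≠ α := by
    intro h
    apply hy1
    apply hΔ
    intro a ha
    by_cases hc : a = α
    · rw [hc]; exact h
    · exact hy a (Finset.mem_erase.2 ⟨hc, ha⟩)
  have h3 := isThreeCycle_commutator_of_supports (MulAction.toPerm x : Equiv.Perm Ω)
    (MulAction.toPerm y) (Δ : Set Ω) α (by exact_mod_cast hαΔ)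
    (fun ω hω => hx ω (by
      have : ω ∉ Δ := by exact_mod_cast hω
      simp [this]))
    (fun ω hω hne => hy ω (Finset.mem_erase.2 ⟨hne, by exact_mod_cast hω⟩)) hxα hyα
  have hmem : (MulAction.toPerm x : Equiv.Perm Ω) * MulAction.toPerm y * (MulAction.toPerm x)⁻¹ *
      (MulAction.toPerm y)⁻¹ ∈ (MulAction.toPermHom G Ω).range := by
    refine ⟨x * y * x⁻¹ * y⁻¹, ?_⟩
    simp only [map_mul, map_inv]
    rfl
  exact hA (Equiv.Perm.alternatingGroup_le_of_isPreprimitive_of_isThreeCycle_mem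
    (isPreprimitive_range hprim) h3 hmem)

/-- Bochert's bound. -/
theorem bochert_bound {G Ω : Type*} [Group G] [Finite G] [MulAction G Ω] [FaithfulSMul G Ω]
    [Fintype Ω] [DecidableEq Ω]
    (hprim : MulAction.IsPreprimitive G Ω)
    (hA : ¬ alternatingGroup Ω ≤ (MulAction.toPermHom G Ω).range) :
    Nat.card G * Nat.factorial ((Fintype.card Ω + 1) / 2) ≤ Nat.factorial (Fintype.card Ω) := by
  classical
  obtain ⟨Δ, hc, hΔ⟩ := exists_small_base hprim hA
  let f : G → ((Δ : Type _) ↪ Ω) := fun g =>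
    ⟨fun a => g • (a : Ω), fun a b h => Subtype.ext (MulAction.injective g h)⟩
  have hf : Function.Injective f := by
    intro g h hgh
    have h1 : ∀ a ∈ Δ, (h⁻¹ * g) • a = a := by
      intro a ha
      have this : g • a = h • a := congrArg (fun e : (Δ : Type _) ↪ Ω => e ⟨a, ha⟩) hgh
      rw [mul_smul, this, inv_smul_smul]
    have := hΔ _ h1
    rw [inv_mul_eq_one] at this
    exact this.symm
  have h1 : Nat.card G ≤ (Fintype.card Ω).descFactorial Δ.card := by
    have := Nat.card_le_card_of_injective f hf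
    rwa [Nat.card_eq_fintype_card (α := (Δ : Type _) ↪ Ω), Fintype.card_embedding_eq,
      Fintype.card_coe] at this
  have hle : Δ.card ≤ Fintype.card Ω := by omega
  have h2 := Nat.factorial_mul_descFactorial hle
  have h3 : ((Fintype.card Ω + 1) / 2).factorial ≤ (Fintype.card Ω - Δ.card).factorial :=
    Nat.factorial_le (by omega)
  calc Nat.card G * Nat.factorial ((Fintype.card Ω + 1) / 2)
      ≤ (Fintype.card Ω).descFactorial Δ.card * (Fintype.card Ω - Δ.card).factorial :=
        Nat.mul_le_mul h1 h3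
    _ = Nat.factorial (Fintype.card Ω) := by rw [mul_comm]; exact h2

end Cfsg.Agent.Helper19
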