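import Mathlib

set_option autoImplicit false

namespace Cfsg.Agent.Helper19

/-- A finite abelian group of exponent `p` and order `p ^ e` is `(ZMod p)^e`. -/
theorem exists_mulEquiv_zmod_pow {A : Type*} [Group A] [Finite A] (p e : ℕ) [Fact p.Prime]
    (hcomm : ∀ a b : A, a * b = b * a) (hexp : ∀ a : A, a ^ p = 1) (hcard : Nat.card A = p ^ e) :
    Nonempty (A ≃* Multiplicative (Fin e → ZMod p)) := by
  have key : ∃ f : A ≃ (Fin e → ZMod p), ∀ a b : A, f (a * b) = f a + f b := by
    let _ : CommGroup A := { (inferInstance : Group A) with mul_comm := hcomm }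
    have hmod : Module (ZMod p) (Additive A) := AddCommGroup.zmodModule (by
      intro x
      have h1 := hexp (Additive.toMul x)
      exact congrArg Additive.ofMul h1)
    have hfinA : Finite (Additive A) := inferInstanceAs (Finite A)
    have hfin : Module.finrank (ZMod p) (Additive A) = e := by
      have h1 := Module.natCard_eq_pow_finrank (K := ZMod p) (V := Additive A)
      rw [Nat.card_zmod] at h1
      have h2 : Nat.card (Additive A) = p ^ e := hcard
      rw [h2] at h1
      exact (Nat.pow_right_injective (Fact.out : p.Prime).two_le h1).symm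
    have e1 : Additive A ≃ₗ[ZMod p] (Fin e → ZMod p) :=
      LinearEquiv.ofFinrankEq _ _ (by rw [hfin, Module.finrank_fin_fun])
    refine ⟨Additive.ofMul.trans e1.toEquiv, fun a b => ?_⟩
    exact map_add e1 (Additive.ofMul a) (Additive.ofMul b)
  obtain ⟨f, hf⟩ := key
  exact ⟨{ toFun := fun a => Multiplicative.ofAdd (f a)
           invFun := fun v => f.symm (Multiplicative.toAdd v)
           left_inv := fun a => by simp
           right_inv := fun v => by simp
           map_mul' := fun a b => by rw [hf]; rfl }⟩

/-- The conjugation representation of `H` on a normal subgroup isomorphic to `(ZMod p)^e`. -/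
theorem exists_conj_rep {H : Type*} [Group H] (F : Subgroup H) [F.Normal] (p e : ℕ)
    [Fact p.Prime] (θ : F ≃* Multiplicative (Fin e → ZMod p)) :
    ∃ φ : H →* GL (Fin e) (ZMod p), ∀ h : H, φ h = 1 ↔ ∀ f ∈ F, h * f * h⁻¹ = f := by
  classical
  let c : H → ((Fin e → ZMod p) →+ (Fin e → ZMod p)) := fun h =>
    AddMonoidHom.toMultiplicative.symm
      (θ.toMonoidHom.comp ((MulAut.conjNormal h : MulAut F).toMonoidHom.comp θ.symm.toMonoidHom))
  have hc : ∀ h v, c h v
      = Multiplicative.toAdd (θ (MulAut.conjNormal h (θ.symm (Multiplicative.ofAdd v)))) :=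
    fun h v => rfl
  let ψ : H →* Matrix (Fin e) (Fin e) (ZMod p) :=
    { toFun := fun h => LinearMap.toMatrix' (AddMonoidHom.toZModLinearMap p (c h))
      map_one' := by
        have h1 : AddMonoidHom.toZModLinearMap p (c 1) = LinearMap.id := by
          apply LinearMap.ext
          intro v
          show c 1 v = v
          rw [hc]; simp
        rw [h1, LinearMap.toMatrix'_id]
      map_mul' := by
        intro a b
        have h1 : AddMonoidHom.toZModLinearMap p (c (a * b))
            = (AddMonoidHom.toZModLinearMap p (c a)).comp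
              (AddMonoidHom.toZModLinearMap p (c b)) := by
          apply LinearMap.ext
          intro v
          show c (a * b) v = c a (c b v)
          rw [hc, hc, hc]; simp
        rw [h1, LinearMap.toMatrix'_comp] }
  refine ⟨ψ.toHomUnits, fun h => ?_⟩
  rw [Units.ext_iff, MonoidHom.coe_toHomUnits, Units.val_one]
  show LinearMap.toMatrix' (AddMonoidHom.toZModLinearMap p (c h)) = 1 ↔ _
  rw [← LinearMap.toMatrix'_id, LinearMap.toMatrix'.injective.eq_iff]
  constructor
  · intro hlin f hf
    have h2 : c h (Multiplicative.toAdd (θ ⟨f, hf⟩)) = Multiplicative.toAdd (θ ⟨f, hf⟩) :=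
      congrArg (fun L : (Fin e → ZMod p) →ₗ[ZMod p] (Fin e → ZMod p) =>
        L (Multiplicative.toAdd (θ ⟨f, hf⟩))) hlin
    rw [hc] at h2
    simp at h2
    have h3 := congrArg Subtype.val h2
    rw [MulAut.conjNormal_apply] at h3
    exact h3
  · intro hall
    apply LinearMap.ext
    intro v
    show c h v = v
    rw [hc]
    have h3 : MulAut.conjNormal h (θ.symm (Multiplicative.ofAdd v))
        = θ.symm (Multiplicative.ofAdd v) := by
      apply Subtype.ext
      rw [MulAut.conjNormal_apply]
      exact hall _ (θ.symm (Multiplicative.ofAdd v)).2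
    rw [h3]; simp

end Cfsg.Agent.Helper19
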