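import Mathlib
import Cfsg.Prelude.Def_Local
import Cfsg.Agent.Helper9.PConstr
import Cfsg.Agent.Helper9.Layer3

set_option autoImplicit false

namespace Cfsg.Agent.Helper19.CyclicSylow

open Subgroup Cfsg.Agent.Helper9

open scoped Pointwise

/-- arithmetic: a residue that is `1` mod `p` and has `p'`-order mod `p^a` is `1` mod `p^a` -/
theorem arith_lift {p : ℕ} (hp : p.Prime) (a k u : ℕ) (hu : ¬ p ∣ u)
    (h1 : k ≡ 1 [MOD p]) (hk : k ^ u ≡ 1 [MOD p ^ a]) : k ≡ 1 [MOD p ^ a] := by
  rcases Nat.eq_zero_or_pos a with rfl | ha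
  · simp [Nat.modEq_one]
  obtain ⟨b, rfl⟩ : ∃ b, a = b + 1 := ⟨a - 1, by omega⟩
  have e1 : ((k : ℕ) : ZMod (p ^ (b + 1))) ^ u = 1 := by
    have := (ZMod.natCast_eq_natCast_iff (k ^ u) 1 (p ^ (b + 1))).mpr hk
    simpa using this
  have e2 : ((k : ℕ) : ZMod (p ^ (b + 1))) ^ (p ^ b) = 1 := by
    have hd : ((p : ℕ) : ℤ) ∣ (k : ℤ) - 1 := by
      have h2 : (1 : ℤ) ≡ (k : ℤ) [ZMOD (p : ℤ)] := by
        exact_mod_cast (Int.natCast_modEq_iff.mpr h1).symm
      exact Int.modEq_iff_dvd.mp h2
    have h3 := dvd_sub_pow_of_dvd_sub hd b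
    have h4 : ((((k : ℤ) ^ p ^ b - 1 ^ p ^ b : ℤ)) : ZMod (p ^ (b + 1))) = 0 := by
      rw [ZMod.intCast_zmod_eq_zero_iff_dvd]
      exact_mod_cast h3
    push_cast at h4
    rw [one_pow, sub_eq_zero] at h4
    exact h4
  have hg : Nat.gcd u (p ^ b) = 1 :=
    Nat.Coprime.pow_right b ((Nat.Prime.coprime_iff_not_dvd hp).2 hu).symm
  have e3 := pow_gcd_eq_one.mpr ⟨e1, e2⟩
  rw [hg, pow_one] at e3
  exact (ZMod.natCast_eq_natCast_iff k 1 (p ^ (b + 1))).mp (by simpa using e3)

/-- elements of a cyclic subgroup commute -/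
theorem comm_of_isCyclic {K : Type*} [Group K] (H : Subgroup K) (hH : IsCyclic ↥H) :
    ∀ x ∈ H, ∀ x' ∈ H, x * x' = x' * x := by
  intro x hx x' hx'
  have := hH
  obtain ⟨g, hg⟩ := IsCyclic.exists_generator (α := ↥H)
  obtain ⟨i, hi⟩ := Subgroup.mem_zpowers_iff.mp (hg ⟨x, hx⟩)
  obtain ⟨j, hj⟩ := Subgroup.mem_zpowers_iff.mp (hg ⟨x', hx'⟩)
  have hi' : (g : K) ^ i = x := by simpa using congrArg Subtype.val hi
  have hj' : (g : K) ^ j = x' := by simpa using congrArg Subtype.val hj
  rw [← hi', ← hj', ← zpow_add, ← zpow_add, add_comm]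

/-- all `p`-subgroups are cyclic when a Sylow `p`-subgroup is cyclic -/
theorem pgroup_isCyclic {K : Type*} [Group K] [Finite K] (p : ℕ) [Fact p.Prime] (P : Sylow p K)
    (hP : IsCyclic ↥(P : Subgroup K)) (H : Subgroup K) (hH : IsPGroup p ↥H) : IsCyclic ↥H := by
  obtain ⟨Q, hQ⟩ := hH.exists_le_sylow
  obtain ⟨g, rfl⟩ := MulAction.exists_smul_eq K P Q
  have hQc : IsCyclic ↥((g • P : Sylow p K) : Subgroup K) := (Sylow.equivSMul P g).isCyclic.mp hP
  exact isCyclic_of_injective (Subgroup.inclusion hQ) (Subgroup.inclusion_injective hQ)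

/-- in a finite cyclic group, an element killed by `p` lies in the cyclic group generated by any
element of order `p` -/
theorem mem_zpowers_of_orderOf_eq {C : Type*} [Group C] [Finite C] [IsCyclic C] (p : ℕ)
    (hp : 0 < p) (y z : C) (hy : orderOf y = p) (hz : z ^ p = 1) : z ∈ zpowers y := by
  classical
  have := Fintype.ofFinite C
  have hle := IsCyclic.card_pow_eq_one_le (α := C) hp
  have hinj : Set.InjOn (fun i : ℕ => y ^ i) ↑(Finset.range p) := by
    intro i hi j hj hij
    have hi' : i < orderOf y := by rw [hy]; simpa using hi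
    have hj' : j < orderOf y := by rw [hy]; simpa using hj
    exact pow_injOn_Iio_orderOf hi' hj' hij
  have hTS : (Finset.range p).image (fun i : ℕ => y ^ i) ⊆
      Finset.univ.filter (fun a : C => a ^ p = 1) := by
    intro x hx
    obtain ⟨i, -, rfl⟩ := Finset.mem_image.mp hx
    simp only [Finset.mem_filter, Finset.mem_univ, true_and]
    rw [← pow_mul, mul_comm, pow_mul, ← hy, pow_orderOf_eq_one, one_pow]
  have hTcard : ((Finset.range p).image (fun i : ℕ => y ^ i)).card = p := by
    rw [Finset.card_image_of_injOn hinj, Finset.card_range]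
  have hEq := Finset.eq_of_subset_of_card_le hTS (by rw [hTcard]; exact hle)
  have hzS : z ∈ Finset.univ.filter (fun a : C => a ^ p = 1) := by simp [hz]
  rw [← hEq] at hzS
  obtain ⟨i, -, rfl⟩ := Finset.mem_image.mp hzS
  exact Subgroup.pow_mem _ (Subgroup.mem_zpowers y) i

/-- an element normalizing a Sylow `p`-subgroup has a `p'`-power inside it -/
theorem exists_pow_mem_sylow {K : Type*} [Group K] [Finite K] (p : ℕ) [hp : Fact p.Prime]
    (P : Sylow p K) (a : K) (ha : a ∈ normalizer ((P : Subgroup K) : Set K)) :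
    ∃ u : ℕ, ¬ p ∣ u ∧ a ^ u ∈ (P : Subgroup K) := by
  have ho : orderOf a ≠ 0 := (orderOf_pos a).ne'
  obtain ⟨s, u, hu, hsu⟩ := Nat.exists_eq_pow_mul_and_not_dvd ho p hp.out.ne_one
  refine ⟨u, hu, ?_⟩
  have h1 : (a ^ u) ^ (p ^ s) = 1 := by
    rw [← pow_mul, mul_comm, ← hsu, pow_orderOf_eq_one]
  have hb : IsPGroup p ↥(zpowers (a ^ u)) := by
    rintro ⟨g, hg⟩
    obtain ⟨i, rfl⟩ := Subgroup.mem_zpowers_iff.mp hg
    refine ⟨s, Subtype.ext ?_⟩
    show ((a ^ u) ^ i) ^ (p ^ s) = 1
    calc ((a ^ u) ^ i) ^ (p ^ s) = (a ^ u) ^ (i * ((p ^ s : ℕ) : ℤ)) := by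
          rw [zpow_mul, zpow_natCast]
      _ = ((a ^ u) ^ (p ^ s)) ^ i := by rw [mul_comm, zpow_mul, zpow_natCast]
      _ = 1 := by rw [h1, one_zpow]
  have hn : zpowers (a ^ u) ≤ normalizer ((P : Subgroup K) : Set K) := by
    rw [Subgroup.zpowers_le]
    exact Subgroup.pow_mem _ ha u
  have hsup := hb.to_sup_of_normal_right' P.2 hn
  have := P.is_maximal' hsup le_sup_right
  have h2 : a ^ u ∈ zpowers (a ^ u) ⊔ (P : Subgroup K) :=
    Subgroup.mem_sup_left (Subgroup.mem_zpowers _)
  rw [this] at h2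
  exact h2

theorem conj_pow_eq {K : Type*} [Group K] (a y : K) (k : ℕ) (h : a * y * a⁻¹ = y ^ k) (j : ℕ) :
    a ^ j * y * (a ^ j)⁻¹ = y ^ (k ^ j) := by
  induction j with
  | zero => simp
  | succ j ih =>
    have e : a ^ (j + 1) * y * (a ^ (j + 1))⁻¹ = a * (a ^ j * y * (a ^ j)⁻¹) * a⁻¹ := by
      simp only [pow_succ', mul_inv_rev, mul_assoc]
    rw [e, ih, ← conj_pow, h, ← pow_mul, show k ^ (j + 1) = k * k ^ j from pow_succ' k j]

/-- a perfect group with cyclic Sylow `p`-subgroups has centre of order prime to `p` -/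
theorem center_not_dvd {X : Type*} [Group X] [Finite X] (p : ℕ) [hp : Fact p.Prime]
    (hperf : commutator X = ⊤) (R : Sylow p X) (hR : IsCyclic ↥(R : Subgroup X)) :
    ¬ p ∣ Nat.card ↥(center X) := by
  intro hd
  have := hR
  obtain ⟨⟨g, hgR⟩, hgen⟩ := IsCyclic.exists_generator (α := ↥(R : Subgroup X))
  have hpow : g ^ (center X).index = 1 := by
    have := perfect_hom_trivial hperf (MonoidHom.transferCenterPow X)
      (fun a b => Subtype.ext (Subgroup.mem_center_iff.mp
        (MonoidHom.transferCenterPow X b).2 (MonoidHom.transferCenterPow X a))) g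
    have h2 := congrArg Subtype.val this
    rwa [MonoidHom.transferCenterPow_apply] at h2
  have hord : orderOf g = Nat.card ↥(R : Subgroup X) := by
    have h1 : orderOf (⟨g, hgR⟩ : ↥(R : Subgroup X)) = Nat.card ↥(R : Subgroup X) := by
      rw [← Nat.card_zpowers]
      have : zpowers (⟨g, hgR⟩ : ↥(R : Subgroup X)) = ⊤ := (Subgroup.eq_top_iff' _).mpr hgen
      rw [this, Subgroup.card_top]
    rw [← h1, Subgroup.orderOf_mk]
  have h3 : Nat.card ↥(R : Subgroup X) ∣ (center X).index := by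
    rw [← hord]; exact orderOf_dvd_of_pow_eq_one hpow
  rw [Sylow.card_eq_multiplicity] at h3
  obtain ⟨e, he⟩ : ∃ e, e = (Nat.card X).factorization p := ⟨_, rfl⟩
  rw [← he] at h3
  have h4 : p ^ (e + 1) ∣ Nat.card X := by
    rw [← Subgroup.index_mul_card (center X), pow_succ]
    exact mul_dvd_mul h3 hd
  rw [he] at h4
  exact Nat.pow_succ_factorization_not_dvd Nat.card_pos.ne' hp.out h4

/-- two commuting subgroups of order divisible by `p` share a nontrivial element when the Sylow
`p`-subgroups are cyclic -/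
theorem exists_common_of_commute {K : Type*} [Group K] [Finite K] (p : ℕ) [hp : Fact p.Prime]
    (P : Sylow p K) (hP : IsCyclic ↥(P : Subgroup K)) (X Y : Subgroup K)
    (hXY : ∀ x ∈ X, ∀ y ∈ Y, x * y = y * x) (hX : p ∣ Nat.card ↥X) (hY : p ∣ Nat.card ↥Y) :
    ∃ z, z ∈ X ∧ z ∈ Y ∧ z ≠ 1 := by
  obtain ⟨⟨x, hxX⟩, hx⟩ := exists_prime_orderOf_dvd_card' (G := ↥X) p hX
  obtain ⟨⟨z, hzY⟩, hz⟩ := exists_prime_orderOf_dvd_card' (G := ↥Y) p hY
  rw [Subgroup.orderOf_mk] at hx hz
  have hpx : IsPGroup p ↥(zpowers x) := by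
    apply IsPGroup.of_card (n := 1)
    rw [Nat.card_zpowers, hx, pow_one]
  have hpz : IsPGroup p ↥(zpowers z) := by
    apply IsPGroup.of_card (n := 1)
    rw [Nat.card_zpowers, hz, pow_one]
  have hnorm : zpowers x ≤ normalizer ((zpowers z : Subgroup K) : Set K) := by
    refine le_trans ?_ (Subgroup.centralizer_le_normalizer _)
    rw [Subgroup.zpowers_le, Subgroup.mem_centralizer_iff]
    intro w hw
    obtain ⟨i, rfl⟩ := Subgroup.mem_zpowers_iff.mp hw
    have hxz : Commute x z := hXY x hxX z hzY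
    exact ((hxz.zpow_right i).eq).symm
  have hsup := hpx.to_sup_of_normal_right' hpz hnorm
  have := pgroup_isCyclic p P hP _ hsup
  have hxH : x ∈ zpowers x ⊔ zpowers z := Subgroup.mem_sup_left (Subgroup.mem_zpowers x)
  have hzH : z ∈ zpowers x ⊔ zpowers z := Subgroup.mem_sup_right (Subgroup.mem_zpowers z)
  have hmem := mem_zpowers_of_orderOf_eq (C := ↥(zpowers x ⊔ zpowers z)) p hp.out.pos
    ⟨x, hxH⟩ ⟨z, hzH⟩ (by rw [Subgroup.orderOf_mk, hx])
    (by
      apply Subtype.ext
      show z ^ p = 1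
      rw [← hz]; exact pow_orderOf_eq_one z)
  obtain ⟨i, hi⟩ := Subgroup.mem_zpowers_iff.mp hmem
  have hi' : x ^ i = z := by simpa using congrArg Subtype.val hi
  refine ⟨z, ?_, hzY, ?_⟩
  · rw [← hi']; exact X.zpow_mem hxX i
  · intro h1
    rw [h1, orderOf_one] at hz
    exact hp.out.one_lt.ne hz

/-- Transfer step: if `L ⊴ K` is perfect of order divisible by `p` and `P` is a cyclic Sylow
`p`-subgroup of `K`, then `P ≤ L`. -/
theorem sylow_le_of_perfect_normal {K : Type*} [Group K] [Finite K] (p : ℕ) [hp : Fact p.Prime]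
    (P : Sylow p K) (hP : IsCyclic ↥(P : Subgroup K)) (L : Subgroup K) [hLn : L.Normal]
    (hperf : commutator ↥L = ⊤) (hpL : p ∣ Nat.card ↥L) : (P : Subgroup K) ≤ L := by
  classical
  have hcomm := comm_of_isCyclic (P : Subgroup K) hP
  have := hP
  obtain ⟨⟨y, hyP⟩, hgen⟩ := IsCyclic.exists_generator (α := ↥(P : Subgroup K))
  have hgen' : ∀ x ∈ (P : Subgroup K), x ∈ zpowers y := by
    intro x hx
    obtain ⟨i, hi⟩ := Subgroup.mem_zpowers_iff.mp (hgen ⟨x, hx⟩)
    refine Subgroup.mem_zpowers_iff.mpr ⟨i, ?_⟩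
    simpa using congrArg Subtype.val hi
  obtain ⟨M, hM⟩ : ∃ M : Subgroup K, M = L ⊔ (P : Subgroup K) := ⟨_, rfl⟩
  have hPM : (P : Subgroup K) ≤ M := hM ▸ le_sup_right
  have hLM : L ≤ M := hM ▸ le_sup_left
  obtain ⟨PM, hPMdef⟩ : ∃ PM : Sylow p ↥M, (PM : Subgroup ↥M) = (P : Subgroup K).subgroupOf M :=
    ⟨P.subtype hPM, P.coe_subtype hPM⟩
  have hex : ∃ a : K, a ∈ M ∧ a ∈ normalizer ((P : Subgroup K) : Set K) ∧
      ∃ x ∈ (P : Subgroup K), x * a ≠ a * x := by
    by_contra hcon
    push Not at hcon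
    have hNC : normalizer ((PM : Subgroup ↥M) : Set ↥M) ≤
        centralizer ((PM : Subgroup ↥M) : Set ↥M) := by
      intro a ha
      rw [Subgroup.mem_centralizer_iff]
      intro h hh
      have hh' : h ∈ (PM : Subgroup ↥M) := hh
      rw [hPMdef, Subgroup.mem_subgroupOf] at hh'
      have haN : (a : K) ∈ normalizer ((P : Subgroup K) : Set K) := by
        rw [Subgroup.mem_normalizer_iff]
        intro x
        rw [Subgroup.mem_normalizer_iff] at ha
        constructor
        · intro hx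
          have h1 : (⟨x, hPM hx⟩ : ↥M) ∈ (PM : Subgroup ↥M) := by
            rw [hPMdef, Subgroup.mem_subgroupOf]; exact hx
          have h2 := (ha ⟨x, hPM hx⟩).mp h1
          rw [hPMdef, Subgroup.mem_subgroupOf] at h2
          simpa using h2
        · intro hx
          have hxM : x ∈ M := by
            have h1 : (a : K) * x * (a : K)⁻¹ ∈ M := hPM hx
            have h2 := M.mul_mem (M.mul_mem (M.inv_mem a.2) h1) a.2
            have e : (a : K)⁻¹ * ((a : K) * x * (a : K)⁻¹) * (a : K) = x := by group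
            rwa [e] at h2
          have h1 : a * (⟨x, hxM⟩ : ↥M) * a⁻¹ ∈ (PM : Subgroup ↥M) := by
            rw [hPMdef, Subgroup.mem_subgroupOf]; simpa using hx
          have h2 := (ha ⟨x, hxM⟩).mpr h1
          rw [hPMdef, Subgroup.mem_subgroupOf] at h2
          exact h2
      exact Subtype.ext (hcon (a : K) a.2 haN (h : K) hh')
    have hnd := MonoidHom.not_dvd_card_ker_transferSylow PM hNC
    have hcommPM : ∀ a b : ↥(PM : Subgroup ↥M), a * b = b * a := by
      intro a b
      have ha : ((a : ↥M) : K) ∈ (P : Subgroup K) := by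
        have h1 : (a : ↥M) ∈ (P : Subgroup K).subgroupOf M := (le_of_eq hPMdef) a.2
        exact Subgroup.mem_subgroupOf.mp h1
      have hb : ((b : ↥M) : K) ∈ (P : Subgroup K) := by
        have h1 : (b : ↥M) ∈ (P : Subgroup K).subgroupOf M := (le_of_eq hPMdef) b.2
        exact Subgroup.mem_subgroupOf.mp h1
      apply Subtype.ext
      apply Subtype.ext
      simpa using hcomm _ ha _ hb
    obtain ⟨y0, hy0⟩ := exists_prime_orderOf_dvd_card' (G := ↥L) p hpL
    have htriv := perfect_hom_trivial hperf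
      ((MonoidHom.transferSylow PM hNC).comp (Subgroup.inclusion hLM))
      (fun a b => hcommPM _ _) y0
    have hker : Subgroup.inclusion hLM y0 ∈ (MonoidHom.transferSylow PM hNC).ker := by
      rw [MonoidHom.mem_ker]; exact htriv
    apply hnd
    have ho : orderOf (⟨Subgroup.inclusion hLM y0, hker⟩ :
        ↥(MonoidHom.transferSylow PM hNC).ker) = p := by
      rw [Subgroup.orderOf_mk,
        orderOf_injective (Subgroup.inclusion hLM) (Subgroup.inclusion_injective hLM), hy0]
    have hdv := orderOf_dvd_natCard (⟨Subgroup.inclusion hLM y0, hker⟩ :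
        ↥(MonoidHom.transferSylow PM hNC).ker)
    rw [ho] at hdv
    exact hdv
  obtain ⟨a, haM, haN, x0, hx0, hne⟩ := hex
  have hay : a * y * a⁻¹ ∈ (P : Subgroup K) := (Subgroup.mem_normalizer_iff.mp haN y).mp hyP
  obtain ⟨k, hk⟩ : ∃ k : ℕ, a * y * a⁻¹ = y ^ k := by
    have h1 := hgen' _ hay
    rw [← mem_powers_iff_mem_zpowers] at h1
    obtain ⟨k, hk⟩ := (Submonoid.mem_powers_iff _ _).mp h1
    exact ⟨k, hk.symm⟩
  obtain ⟨u, hu, hau⟩ := exists_pow_mem_sylow p P a haN
  have h1 := conj_pow_eq a y k hk u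
  have h2 : a ^ u * y * (a ^ u)⁻¹ = y := by
    rw [hcomm _ hau _ hyP, mul_inv_cancel_right]
  have hzy : zpowers y = (P : Subgroup K) :=
    le_antisymm (by rw [Subgroup.zpowers_le]; exact hyP) hgen'
  have hyo : orderOf y = Nat.card ↥(P : Subgroup K) := by
    rw [← Nat.card_zpowers, hzy]
  obtain ⟨e, he⟩ := IsPGroup.iff_card.mp P.2
  have hyo' : orderOf y = p ^ e := by rw [hyo, he]
  have hmod1 : k ^ u ≡ 1 [MOD p ^ e] := by
    rw [← hyo', ← pow_eq_pow_iff_modEq, pow_one, ← h1, h2]
  have hne' : ¬ k ≡ 1 [MOD p ^ e] := by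
    intro hk1
    rw [← hyo', ← pow_eq_pow_iff_modEq, pow_one, ← hk] at hk1
    apply hne
    obtain ⟨i, rfl⟩ := Subgroup.mem_zpowers_iff.mp (hgen' x0 hx0)
    have hc : Commute a y := by
      have : a * y = y * a := by
        calc a * y = a * y * a⁻¹ * a := by group
          _ = y * a := by rw [hk1]
      exact this
    exact ((hc.zpow_right i).eq).symm
  have hkp : ¬ k ≡ 1 [MOD p] := fun h => hne' (arith_lift hp.out e k u hu h hmod1)
  have he0 : e ≠ 0 := by
    rintro rfl
    exact hne' (by simp [Nat.modEq_one])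
  have hpe : 0 < p ^ e := pow_pos hp.out.pos e
  obtain ⟨c, hc⟩ : ∃ c : ℕ, k + p ^ e = c + 1 := ⟨k + p ^ e - 1, by omega⟩
  have hcp : ¬ p ∣ c := by
    intro hpc
    apply hkp
    apply Nat.ModEq.symm
    apply Nat.modEq_of_dvd
    have h3 : ((k : ℕ) : ℤ) - ((1 : ℕ) : ℤ) = (c : ℤ) - (p : ℤ) ^ e := by
      have : ((k + p ^ e : ℕ) : ℤ) = ((c + 1 : ℕ) : ℤ) := by rw [hc]
      push_cast at this ⊢
      linarith
    rw [h3]
    exact dvd_sub (Int.natCast_dvd_natCast.mpr hpc) (dvd_pow_self _ he0)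
  have hcop : Nat.Coprime c (p ^ e) :=
    Nat.Coprime.pow_right e ((Nat.Prime.coprime_iff_not_dvd hp.out).2 hcp).symm
  have hwc : a * y * a⁻¹ * y⁻¹ = y ^ c := by
    rw [hk, mul_inv_eq_iff_eq_mul, ← pow_succ, ← hc, pow_add, ← hyo', pow_orderOf_eq_one, mul_one]
  have haM' : a ∈ (L : Set K) * ((P : Subgroup K) : Set K) := by
    rw [← Subgroup.normal_mul]; rw [hM] at haM; exact haM
  obtain ⟨l, hl, x, hx, hax⟩ := Set.mem_mul.mp haM'
  have hw : a * y * a⁻¹ * y⁻¹ ∈ L := by
    rw [← hax]
    have e1 : l * x * y * (l * x)⁻¹ * y⁻¹ = l * (y * l⁻¹ * y⁻¹) := by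
      have hxy := hcomm x hx y hyP
      calc l * x * y * (l * x)⁻¹ * y⁻¹ = l * (x * y * x⁻¹) * l⁻¹ * y⁻¹ := by group
        _ = l * y * l⁻¹ * y⁻¹ := by rw [hxy, mul_inv_cancel_right]
        _ = l * (y * l⁻¹ * y⁻¹) := by group
    rw [e1]
    exact L.mul_mem hl (hLn.conj_mem _ (L.inv_mem hl) y)
  obtain ⟨m, -, hm⟩ := Nat.exists_mul_mod_eq_one_of_coprime hcop (Nat.one_lt_pow he0 hp.out.one_lt)
  have hyL : y ∈ L := by
    have e2 : y = (y ^ c) ^ m := by
      rw [← pow_mul, ← pow_mod_orderOf, hyo', hm, pow_one]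
    rw [e2, ← hwc]
    exact L.pow_mem hw m
  intro x1 hx1
  obtain ⟨i, rfl⟩ := Subgroup.mem_zpowers_iff.mp (hgen' x1 hx1)
  exact L.zpow_mem hyL i

/-- S4403: groups with trivial `p'`-core and cyclic Sylow `p`-subgroups -/
theorem main {K : Type*} [Group K] [Finite K] (p : ℕ) [hp : Fact p.Prime]
    (hpK : p ∣ Nat.card K) (hO : Cfsg.pPrimeCore p K = ⊥)
    (P : Sylow p K) (hP : IsCyclic ↥(P : Subgroup K)) :
    ((P : Subgroup K).Normal ∧ Subgroup.centralizer ((P : Subgroup K) : Set K) = (P : Subgroup K) ∧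
      (∀ (_ : (P : Subgroup K).Normal), IsCyclic (K ⧸ (P : Subgroup K))) ∧
        (P : Subgroup K).index ∣ p - 1) ∨
    (IsSimpleGroup ↥(Cfsg.generalizedFittingSubgroup K) ∧
      ¬ IsMulCommutative ↥(Cfsg.generalizedFittingSubgroup K) ∧
      ¬ p ∣ (Cfsg.generalizedFittingSubgroup K).index) := by
  classical
  have hcomm := comm_of_isCyclic (P : Subgroup K) hP
  have hQn : (Cfsg.pCore p K).Normal := Cfsg.pCore_normal p K
  have hQP : Cfsg.pCore p K ≤ (P : Subgroup K) := by
    have hsup := (pCore_isPGroup (G := K) p).to_sup_of_normal_left P.2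
    have h1 := P.is_maximal' hsup le_sup_right
    rw [← h1]; exact le_sup_left
  have hFQ : Cfsg.fittingSubgroup K ≤ Cfsg.pCore p K :=
    fitting_le_pCore_of_pPrimeCore_eq_bot p hO
  by_cases hE : Cfsg.layer K = ⊥
  · left
    have hCQ := (layer_eq_bot_iff_centralizer_pCore_le p hO).mp hE
    have hPC : (P : Subgroup K) ≤ centralizer (Cfsg.pCore p K : Set K) := by
      intro x hx
      rw [Subgroup.mem_centralizer_iff]
      intro q hq
      exact hcomm q (hQP hq) x hx
    have hPQ : (P : Subgroup K) = Cfsg.pCore p K := le_antisymm (hPC.trans hCQ) hQP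
    have hPn : (P : Subgroup K).Normal := by rw [hPQ]; exact hQn
    have hCP : centralizer ((P : Subgroup K) : Set K) = (P : Subgroup K) := by
      apply le_antisymm
      · rw [hPQ]; exact hCQ
      · intro x hx
        rw [Subgroup.mem_centralizer_iff]
        intro q hq
        exact hcomm q hq x hx
    obtain ⟨ψ, hψ⟩ : ∃ ψ : K →* MulAut ↥(P : Subgroup K),
        ∀ (x : K) (q : ↥(P : Subgroup K)), ((ψ x q : ↥(P : Subgroup K)) : K) = x * q * x⁻¹ :=
      ⟨MulAut.conjNormal, fun x q => MulAut.conjNormal_apply x q⟩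
    have hker : ∀ x : K, ψ x = 1 → x ∈ (P : Subgroup K) := by
      intro x hx
      rw [← hCP, Subgroup.mem_centralizer_iff]
      intro q hq
      have h1 := hψ x ⟨q, hq⟩
      rw [hx, MulAut.one_apply] at h1
      have h2 : q = x * q * x⁻¹ := h1
      calc q * x = x * q * x⁻¹ * x := by rw [← h2]
        _ = x * q := by group
    have hker' : ∀ x ∈ (P : Subgroup K), ψ x = 1 := by
      intro x hx
      apply MulEquiv.ext
      intro q
      apply Subtype.ext
      rw [hψ, MulAut.one_apply, hcomm x hx q q.2, mul_inv_cancel_right]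
    obtain ⟨f, hf⟩ : ∃ f : K ⧸ (P : Subgroup K) →* MulAut ↥(P : Subgroup K),
        Function.Injective f := by
      refine ⟨QuotientGroup.lift _ ψ (fun x hx => MonoidHom.mem_ker.mpr (hker' x hx)), ?_⟩
      rw [injective_iff_map_eq_one]
      intro q
      induction q using QuotientGroup.induction_on with
      | H x =>
        intro hq
        rw [QuotientGroup.lift_mk] at hq
        exact (QuotientGroup.eq_one_iff x).mpr (hker x hq)
    have hdvd : (P : Subgroup K).index ∣ Nat.card (MulAut ↥(P : Subgroup K)) := by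
      rw [Subgroup.index_eq_card]; exact Subgroup.card_dvd_of_injective f hf
    obtain ⟨e, he⟩ := IsPGroup.iff_card.mp P.2
    have he0 : 0 < e := by
      by_contra h0
      have h00 : e = 0 := by omega
      rw [h00, pow_zero] at he
      have h1 := P.dvd_card_of_dvd_card hpK
      rw [he] at h1
      exact hp.out.one_lt.ne' (Nat.dvd_one.mp h1)
    have := hP
    rw [IsCyclic.card_mulAut ↥(P : Subgroup K), he, Nat.totient_prime_pow hp.out he0] at hdvd
    have hcop : Nat.Coprime (P : Subgroup K).index (p ^ (e - 1)) :=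
      Nat.Coprime.pow_right _ ((Nat.Prime.coprime_iff_not_dvd hp.out).2 P.not_dvd_index).symm
    have hidx : (P : Subgroup K).index ∣ p - 1 := hcop.dvd_of_dvd_mul_left hdvd
    refine ⟨hPn, hCP, ?_, hidx⟩
    intro hn
    by_cases hp2 : p = 2
    · have h1 : (P : Subgroup K).index ∣ 1 := by simpa [hp2] using hidx
      have h2 : Nat.card (K ⧸ (P : Subgroup K)) = 1 := by
        rw [← Subgroup.index_eq_card]; exact Nat.dvd_one.mp h1
      have : Subsingleton (K ⧸ (P : Subgroup K)) := (Nat.card_eq_one_iff_unique.mp h2).1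
      exact isCyclic_of_subsingleton
    · have hcyc : IsCyclic (ZMod (Nat.card ↥(P : Subgroup K)))ˣ := by
        rw [he]; exact ZMod.isCyclic_units_of_prime_pow p hp.out hp2 e
      exact isCyclic_of_injective
        ((IsCyclic.mulAutMulEquiv ↥(P : Subgroup K)).toMonoidHom.comp f)
        ((IsCyclic.mulAutMulEquiv ↥(P : Subgroup K)).injective.comp hf)
  · right
    have hexL : ∃ L : Subgroup K, Cfsg.IsComponent L := by
      by_contra hno
      push Not at hno
      apply hE
      unfold Cfsg.layer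
      rw [show {K' : Subgroup K | Cfsg.IsComponent K'} = ∅ from
        Set.eq_empty_iff_forall_notMem.mpr hno, sSup_empty]
    obtain ⟨L, hL⟩ := hexL
    have key : ∀ L' : Subgroup K, Cfsg.IsComponent L' →
        center ↥L' = ⊥ ∧ p ∣ Nat.card ↥L' := by
      intro L' hL'
      have hdvd := component_dvd_index_center p hO L' hL'
      have hpL' : p ∣ Nat.card ↥L' := hdvd.trans (Subgroup.index_dvd_card _)
      refine ⟨?_, hpL'⟩
      have hZp : IsPGroup p ↥(center ↥L') := by
        have h1 : (center ↥L').map L'.subtype ≤ Cfsg.pCore p K := by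
          refine (center_component_le hL').trans ?_
          rw [center_layer_eq]
          exact inf_le_left.trans hFQ
        have h2 : IsPGroup p ↥((center ↥L').map L'.subtype) :=
          (pCore_isPGroup (G := K) p).to_le h1
        exact h2.of_equiv
          ((center ↥L').equivMapOfInjective L'.subtype L'.subtype_injective).symm
      have hnZ : ¬ p ∣ Nat.card ↥(center ↥L') := by
        obtain ⟨R⟩ := (inferInstance : Nonempty (Sylow p ↥L'))
        have hRp : IsPGroup p ↥((R : Subgroup ↥L').map L'.subtype) := R.2.map _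
        have hRc := pgroup_isCyclic p P hP _ hRp
        have hRc' : IsCyclic ↥(R : Subgroup ↥L') :=
          ((R : Subgroup ↥L').equivMapOfInjective L'.subtype L'.subtype_injective).isCyclic.mpr hRc
        exact center_not_dvd p hL'.2.1.commutator_eq_top R hRc'
      have hc1 : Nat.card ↥(center ↥L') = 1 := by
        obtain ⟨n, hn⟩ := IsPGroup.iff_card.mp hZp
        rcases Nat.eq_zero_or_pos n with rfl | hn0
        · simpa using hn
        · exact absurd (hn ▸ dvd_pow_self p hn0.ne') hnZ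
      exact Subgroup.card_eq_one.mp hc1
    obtain ⟨hZL, hpL⟩ := key L hL
    have hQ : Cfsg.pCore p K = ⊥ := by
      by_contra hQne
      have hpQ : p ∣ Nat.card ↥(Cfsg.pCore p K) := by
        obtain ⟨n, hn⟩ := IsPGroup.iff_card.mp (pCore_isPGroup (G := K) p)
        rcases Nat.eq_zero_or_pos n with rfl | hn0
        · exact absurd (Subgroup.card_eq_one.mp (by simpa using hn)) hQne
        · rw [hn]; exact dvd_pow_self p hn0.ne'
      have hLF : ∀ x ∈ L, ∀ y ∈ Cfsg.pCore p K, x * y = y * x := by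
        intro x hx y hy
        exact (comm_eq_bot_iff _ _).mp (component_comm_fitting hL) x hx y (pCore_le_fitting p hy)
      obtain ⟨z, hzL, hzQ, hz1⟩ := exists_common_of_commute p P hP L _ hLF hpL hpQ
      have hzc : (⟨z, hzL⟩ : ↥L) ∈ center ↥L := by
        rw [Subgroup.mem_center_iff]
        intro g
        apply Subtype.ext
        exact hLF g g.2 z hzQ
      rw [hZL, Subgroup.mem_bot] at hzc
      exact hz1 (congrArg Subtype.val hzc)
    have huniq : ∀ L' : Subgroup K, Cfsg.IsComponent L' → L' = L := by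
      intro L' hL'
      by_contra hne
      obtain ⟨hZL', hpL'⟩ := key L' hL'
      have hc := (comm_eq_bot_iff _ _).mp (components_commute hL' hL hne)
      obtain ⟨z, hzL', hzL, hz1⟩ := exists_common_of_commute p P hP L' L hc hpL' hpL
      have hzc : (⟨z, hzL⟩ : ↥L) ∈ center ↥L := by
        rw [Subgroup.mem_center_iff]
        intro g
        apply Subtype.ext
        exact (hc z hzL' g g.2).symm
      rw [hZL, Subgroup.mem_bot] at hzc
      exact hz1 (congrArg Subtype.val hzc)
    have hlayer : Cfsg.layer K = L := by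
      unfold Cfsg.layer
      apply le_antisymm
      · apply sSup_le
        intro L' hL'
        exact (huniq L' hL').le
      · exact le_sSup hL
    have hF : Cfsg.fittingSubgroup K = ⊥ := by
      rw [eq_bot_iff, ← hQ]; exact hFQ
    have hFstar : Cfsg.generalizedFittingSubgroup K = L := by
      unfold Cfsg.generalizedFittingSubgroup
      rw [hlayer, hF, sup_bot_eq]
    rw [hFstar]
    have hLn : L.Normal := by rw [← hlayer]; exact layer_normal
    have hsimple : IsSimpleGroup ↥L := by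
      have : IsSimpleGroup (↥L ⧸ center ↥L) := hL.2.2
      exact ((QuotientGroup.quotientMulEquivOfEq hZL).trans
        QuotientGroup.quotientBot).symm.isSimpleGroup
    refine ⟨hsimple, ?_, ?_⟩
    · intro hc
      exact component_commutative_false hL (fun a ha b hb =>
        congrArg Subtype.val (hc.is_comm.comm (⟨a, ha⟩ : ↥L) ⟨b, hb⟩))
    · intro hd
      have hPL := sylow_le_of_perfect_normal p P hP L hL.2.1.commutator_eq_top hpL
      exact P.not_dvd_index (hd.trans (Subgroup.index_dvd_of_le hPL))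

end Cfsg.Agent.Helper19.CyclicSylow
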