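import Mathlib
import Cfsg.Agent.Helper19.DerLen

/-!
Main step and induction for the bound on the derived length of a Sylow `p`-subgroup of a
`p`-solvable group.
-/

set_option autoImplicit false

namespace Cfsg.Agent.Helper19

open Cfsg
open scoped ComplexConjugate

universe u

set_option maxHeartbeats 800000 in
/-- If `N` is an abelian normal `p`-subgroup such that every irreducible character of degree
divisible by `p` is trivial on `N`, then `P/N` is abelian. -/
theorem dl_comm_mem {G : Type u} [Group G] [Fintype G] (p : ℕ) [hp : Fact p.Prime]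
    (hsolv : Cfsg.IsPSolvable p G) (N : Subgroup G) [hN : N.Normal] (hNp : IsPGroup p N)
    (hNne : N ≠ ⊥)
    (hbad : ∀ χ : G → ℂ, IsIrrCharacter G χ → p ∣ charDegree χ → ∀ x ∈ N, χ x = χ 1)
    (P : Sylow p G) :
    ∀ a ∈ (P : Subgroup G), ∀ b ∈ (P : Subgroup G), a * b * a⁻¹ * b⁻¹ ∈ N := by
  classical
  have hpp := hp.out
  have hNP : N ≤ (P : Subgroup G) := dl_normal_pgroup_le_sylow N hNp P
  have := Fintype.ofFinite N
  have := Fintype.ofFinite (P : Subgroup G)
  -- an irreducible character not trivial on `N`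
  obtain ⟨x, hxN, hx1⟩ : ∃ x ∈ N, x ≠ 1 := by
    by_contra h
    push Not at h
    exact hNne ((Subgroup.eq_bot_iff_forall N).mpr h)
  obtain ⟨χ, hχx⟩ : ∃ χ : IrrCharacter G, (χ : G → ℂ) x ≠ (χ : G → ℂ) 1 := by
    by_contra h
    push Not at h
    have hc := Helper24.isConj_of_irr_eq x 1 h
    exact hx1 (isConj_one_left.mp hc)
  have hχ := χ.2
  have hχc := Helper24.isCharacter_of_irr hχ
  have hχp : ¬ p ∣ charDegree (χ : G → ℂ) := fun h => hχx (hbad _ hχ h x hxN)
  -- a linear constituent on `P`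
  have hresP : IsCharacter (P : Subgroup G) (fun y : (P : Subgroup G) => (χ : G → ℂ) y) :=
    Helper24.isCharacter_restrict _ hχc
  have hdP : charDegree (fun y : (P : Subgroup G) => (χ : G → ℂ) y) = charDegree (χ : G → ℂ) :=
    Helper24.charDegree_eq_of_one_eq hresP hχc rfl
  obtain ⟨μ, hμ, hμcon, hμ1⟩ :=
    dl_exists_linear_constituent p P.isPGroup' hresP (by rw [hdP]; exact hχp)
  have hμc := Helper24.isCharacter_of_irr hμ
  have hΔ := Helper2.isCharacter_sub_of_constituent hresP hμ hμcon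
  obtain ⟨lam, hlamdef⟩ : ∃ lam : N → ℂ, lam = fun n : N => μ ⟨(n : G), hNP n.2⟩ := ⟨_, rfl⟩
  have hlamc : IsCharacter N lam := by
    rw [hlamdef]
    exact Helper6.isCharacter_comp_hom (Subgroup.inclusion hNP) hμc
  have hlam1 : lam 1 = 1 := by
    rw [hlamdef]
    have h1 : (⟨((1 : N) : G), hNP (1 : N).2⟩ : (P : Subgroup G)) = 1 := Subtype.ext rfl
    show μ ⟨((1 : N) : G), hNP (1 : N).2⟩ = 1
    rw [h1, hμ1]
  have hlam : IsIrrCharacter N lam := dl_irr_of_linear hlamc hlam1
  have hcon : classInner (fun n : N => (χ : G → ℂ) n) lam ≠ 0 := by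
    have hΔN : IsCharacter N (fun n : N =>
        ((fun y : (P : Subgroup G) => (χ : G → ℂ) y) - μ) ⟨(n : G), hNP n.2⟩) :=
      Helper6.isCharacter_comp_hom (Subgroup.inclusion hNP) hΔ
    obtain ⟨m, hm⟩ := Helper2.classInner_char_nat hΔN hlamc
    have hsplit : (fun n : N => (χ : G → ℂ) n) = lam + (fun n : N =>
        ((fun y : (P : Subgroup G) => (χ : G → ℂ) y) - μ) ⟨(n : G), hNP n.2⟩) := by
      funext n
      rw [hlamdef]
      simp
    rw [hsplit, Helper2.classInner_add_left, hm, Helper2.classInner_irr hlam hlam, if_pos rfl]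
    have : (1 : ℂ) + (m : ℂ) = ((1 + m : ℕ) : ℂ) := by push_cast; ring
    rw [this]
    exact_mod_cast (by omega : 1 + m ≠ 0)
  have hlamne : lam ≠ fun _ => 1 := by
    intro h1
    obtain ⟨e, F, he, hF, hφF, hcard, hres, hall, hnorm⟩ := Helper6.clifford_finset N hχ hlam hcon
    apply hχx
    have hval : ∀ n : N, (χ : G → ℂ) n = (e : ℂ) * F.card := by
      intro n
      have h2 := congrFun hres n
      rw [h2, Pi.smul_apply, Finset.sum_apply, smul_eq_mul]
      congr 1
      have h3 : ∀ ψ ∈ F, ψ n = 1 := by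
        intro ψ hψ
        obtain ⟨g, rfl⟩ := hF ψ hψ
        rw [Helper6.conjFun_apply, h1]
      rw [Finset.sum_congr rfl h3, Finset.sum_const, nsmul_eq_mul, mul_one]
    have h2 := hval ⟨x, hxN⟩
    have h3 := hval 1
    rw [Subgroup.coe_one] at h3
    exact h2.trans h3.symm
  -- the inertia group
  obtain ⟨T, hTdef⟩ : ∃ T : Subgroup G, T = Helper6.inertia N lam := ⟨_, rfl⟩
  have hNT : N ≤ T := by
    rw [hTdef]
    exact Helper6.le_inertia N (Helper2.IsCharacter.isClassFunction hlamc)
  have hPT : (P : Subgroup G) ≤ T := by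
    intro g hg
    rw [hTdef, Helper6.mem_inertia]
    intro n
    rw [hlamdef]
    exact Helper2.IsCharacter.isClassFunction hμc ⟨(n : G), hNP n.2⟩ ⟨g, hg⟩
  have := Fintype.ofFinite T
  obtain ⟨lam', hlam'def⟩ : ∃ lam' : N.subgroupOf T → ℂ,
      lam' = fun x : N.subgroupOf T => lam ⟨((x : T) : G), Subgroup.mem_subgroupOf.mp x.2⟩ :=
    ⟨_, rfl⟩
  have hlam'c : IsCharacter (N.subgroupOf T) lam' := by
    rw [hlam'def]
    exact Helper6.isCharacter_comp_hom (Subgroup.subgroupOfEquivOfLe hNT).toMonoidHom hlamc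
  have hlam'1 : lam' 1 = 1 := by
    rw [hlam'def]
    have h1 : (⟨(((1 : N.subgroupOf T) : T) : G),
        Subgroup.mem_subgroupOf.mp (1 : N.subgroupOf T).2⟩ : N) = 1 := Subtype.ext rfl
    show lam ⟨(((1 : N.subgroupOf T) : T) : G), _⟩ = 1
    rw [h1, hlam1]
  have hMQ : N.subgroupOf T ≤ (P : Subgroup G).subgroupOf T := by
    intro y hy
    exact Subgroup.mem_subgroupOf.mpr (hNP (Subgroup.mem_subgroupOf.mp hy))
  obtain ⟨ν, hνdef⟩ : ∃ ν : (P : Subgroup G).subgroupOf T → ℂ,
      ν = fun y : (P : Subgroup G).subgroupOf T =>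
        μ ⟨((y : T) : G), Subgroup.mem_subgroupOf.mp y.2⟩ := ⟨_, rfl⟩
  have hνc : IsCharacter ((P : Subgroup G).subgroupOf T) ν := by
    rw [hνdef]
    exact Helper6.isCharacter_comp_hom (Subgroup.subgroupOfEquivOfLe hPT).toMonoidHom hμc
  have hν : ∀ n : N.subgroupOf T, ν ⟨(n : T), hMQ n.2⟩ = lam' n := by
    intro n
    rw [hνdef, hlam'def, hlamdef]
  obtain ⟨kN, hkN⟩ := IsPGroup.iff_card.mp hNp
  have hcop : (((P : Subgroup G).subgroupOf T).index).Coprime (Nat.card (N.subgroupOf T)) := by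
    rw [Nat.card_congr (Subgroup.subgroupOfEquivOfLe hNT).toEquiv, hkN]
    apply Nat.Coprime.pow_right
    have h1 : ((P : Subgroup G).subgroupOf T).index ∣ (P : Subgroup G).index :=
      Dvd.intro _ (Subgroup.relIndex_mul_index hPT)
    have h2 : ¬ p ∣ ((P : Subgroup G).subgroupOf T).index := fun h => P.not_dvd_index (h.trans h1)
    exact ((Nat.Prime.coprime_iff_not_dvd hpp).mpr h2).symm
  obtain ⟨μh, hμhc, hμh1, hμh⟩ := dl_exists_linear_ext (N.subgroupOf T) lam' hlam'c hlam'1
    (fun g n => by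
      rw [hlam'def]
      have hg : (g : G) ∈ Helper6.inertia N lam := hTdef ▸ g.2
      exact (Helper6.mem_inertia N lam g).mp hg ⟨((n : T) : G), Subgroup.mem_subgroupOf.mp n.2⟩)
    ((P : Subgroup G).subgroupOf T) hMQ ν hνc hν hcop
  -- all irreducible characters of `T/N` have `p'`-degree
  have hdeg : ∀ β : IrrCharacter (T ⧸ N.subgroupOf T),
      ¬ p ∣ charDegree (β : T ⧸ N.subgroupOf T → ℂ) := by
    intro β hpβ
    have hβinf := Helper6.isIrrCharacter_comp_surjective (QuotientGroup.mk' (N.subgroupOf T))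
      (QuotientGroup.mk'_surjective _) β.2
    have hψ := Helper6.isIrrCharacter_linear_mul hμhc hμh1 hβinf
    obtain ⟨ψ, hψdef⟩ : ∃ ψ : T → ℂ,
        ψ = μh * ((β : T ⧸ N.subgroupOf T → ℂ) ∘ QuotientGroup.mk' (N.subgroupOf T)) :=
      ⟨_, rfl⟩
    rw [← hψdef] at hψ
    have hψN : ∀ n : N, ψ ⟨(n : G), hNT n.2⟩ = (β : T ⧸ N.subgroupOf T → ℂ) 1 * lam n := by
      intro n
      rw [hψdef, Pi.mul_apply, Function.comp_apply]
      have hmem : (⟨(n : G), hNT n.2⟩ : T) ∈ N.subgroupOf T := Subgroup.mem_subgroupOf.mpr n.2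
      have h1 := hμh ⟨_, hmem⟩
      rw [hlam'def] at h1
      have h2 : (QuotientGroup.mk' (N.subgroupOf T)) ⟨(n : G), hNT n.2⟩ = 1 :=
        (QuotientGroup.eq_one_iff _).mpr hmem
      rw [h2, mul_comm]
      congr 1
    have hβ1 : (β : T ⧸ N.subgroupOf T → ℂ) 1 ≠ 0 := Helper24.irr_one_ne_zero β.2
    obtain ⟨hirr, x', hx'N, hx'⟩ := dl_ind_irr N lam hlam hlamne T hTdef hNT ψ hψ _ hβ1 hψN
    have hnp : ¬ p ∣ charDegree (indFun T ψ) := fun h => hx' (hbad _ hirr h x' hx'N)
    apply hnp
    have hdeg1 : (indFun T ψ) 1 =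
        ((T.index * charDegree (β : T ⧸ N.subgroupOf T → ℂ) : ℕ) : ℂ) := by
      rw [Helper6.indFun_one, hψdef, Pi.mul_apply, hμh1, one_mul, Function.comp_apply, map_one,
        Helper24.charDegree_spec (Helper24.isCharacter_of_irr β.2)]
      have hT0 : (Nat.card T : ℂ) ≠ 0 := by exact_mod_cast Nat.card_pos.ne'
      have hcard : (Nat.card G : ℂ) = (Nat.card T : ℂ) * (T.index : ℂ) := by
        rw [← Nat.cast_mul, Subgroup.card_mul_index]
      rw [hcard]
      push_cast
      field_simp
    have hdeg2 : charDegree (indFun T ψ) = T.index * charDegree (β : T ⧸ N.subgroupOf T → ℂ) := by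
      have h4 := Helper24.charDegree_spec (Helper24.isCharacter_of_irr hirr)
      rw [hdeg1] at h4
      exact_mod_cast h4.symm
    rw [hdeg2]
    exact Dvd.dvd.mul_left hpβ _
  -- Ito for `T/N`
  have hsolvT : Cfsg.IsPSolvable p T := dl_isPSolvable_subgroup p hsolv T
  have hsolvQ := Helper20.isPSolvable_quotient p hsolvT (N.subgroupOf T)
  obtain ⟨PQ, hPQ⟩ : ∃ PQ : Sylow p (T ⧸ N.subgroupOf T),
      (PQ : Subgroup (T ⧸ N.subgroupOf T)) =
        ((P : Subgroup G).subgroupOf T).map (QuotientGroup.mk' (N.subgroupOf T)) :=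
    ⟨(P.subtype hPT).mapSurjective (QuotientGroup.mk'_surjective (N.subgroupOf T)), by
      rw [Sylow.coe_mapSurjective, Sylow.coe_subtype]⟩
  have hres := (Cfsg.Agent.S4713.result p hsolvQ PQ).mpr hdeg
  intro a ha b hb
  have ha' : (QuotientGroup.mk' (N.subgroupOf T)) ⟨a, hPT ha⟩ ∈
      (PQ : Subgroup (T ⧸ N.subgroupOf T)) := by
    rw [hPQ]
    exact Subgroup.mem_map_of_mem _ (Subgroup.mem_subgroupOf.mpr ha)
  have hb' : (QuotientGroup.mk' (N.subgroupOf T)) ⟨b, hPT hb⟩ ∈
      (PQ : Subgroup (T ⧸ N.subgroupOf T)) := by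
    rw [hPQ]
    exact Subgroup.mem_map_of_mem _ (Subgroup.mem_subgroupOf.mpr hb)
  have hcomm := hres.2.is_comm.comm ⟨_, ha'⟩ ⟨_, hb'⟩
  have h1 : (QuotientGroup.mk' (N.subgroupOf T)) ⟨a, hPT ha⟩ *
      (QuotientGroup.mk' (N.subgroupOf T)) ⟨b, hPT hb⟩ =
      (QuotientGroup.mk' (N.subgroupOf T)) ⟨b, hPT hb⟩ *
      (QuotientGroup.mk' (N.subgroupOf T)) ⟨a, hPT ha⟩ := congrArg Subtype.val hcomm
  have h2 : (QuotientGroup.mk' (N.subgroupOf T))
      ((⟨a, hPT ha⟩ : T) * ⟨b, hPT hb⟩ * (⟨a, hPT ha⟩ : T)⁻¹ * (⟨b, hPT hb⟩ : T)⁻¹) = 1 := by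
    rw [map_mul, map_mul, map_mul, map_inv, map_inv, h1]
    group
  have h3 := (QuotientGroup.eq_one_iff _).mp h2
  exact Subgroup.mem_subgroupOf.mp h3

/-- The derived length bound, by induction on the group order. -/
theorem dl_main (p : ℕ) [hp : Fact p.Prime] :
    ∀ (n : ℕ) (G : Type u) [Group G] [Finite G], Nat.card G ≤ n → Cfsg.IsPSolvable p G →
    ∀ P : Sylow p G, derivedSeries ↥(P : Subgroup G)
      (Nat.card {χ : Cfsg.IrrCharacter G // p ∣ Cfsg.charDegree (χ : G → ℂ)} + 1) = ⊥ := by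
  intro n
  induction n with
  | zero =>
    intro G _ _ hcard
    exact absurd hcard (by have : 0 < Nat.card G := Nat.card_pos; omega)
  | succ n ih =>
    intro G _ _ hcard hsolv P
    classical
    have := Fintype.ofFinite G
    have hfin := Helper24.finite_irrCharacter (G := G)
    obtain ⟨k, hk⟩ : ∃ k, k =
        Nat.card {χ : Cfsg.IrrCharacter G // p ∣ Cfsg.charDegree (χ : G → ℂ)} := ⟨_, rfl⟩
    rw [← hk]
    by_cases hk0 : k = 0
    · have hall : ∀ χ : Cfsg.IrrCharacter G, ¬ p ∣ Cfsg.charDegree (χ : G → ℂ) := by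
        intro χ hχ
        have hne : Nonempty {χ : Cfsg.IrrCharacter G // p ∣ Cfsg.charDegree (χ : G → ℂ)} :=
          ⟨⟨χ, hχ⟩⟩
        have hpos : 0 < Nat.card {χ : Cfsg.IrrCharacter G // p ∣ Cfsg.charDegree (χ : G → ℂ)} :=
          Nat.card_pos
        omega
      obtain ⟨-, hab⟩ := (Cfsg.Agent.S4713.result p hsolv P).mpr hall
      rw [hk0]
      apply dl_succ_eq_bot (P : Subgroup G) (P : Subgroup G) 0
      · intro a ha b hb
        have h1 := hab.is_comm.comm ⟨a, ha⟩ ⟨b, hb⟩
        exact congrArg Subtype.val h1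
      · intro x _
        exact x.2
    · by_cases hnt : Nontrivial G
      swap
      · rw [not_nontrivial_iff_subsingleton] at hnt
        rw [eq_bot_iff]
        intro x _
        rw [Subgroup.mem_bot]
        apply Subtype.ext
        exact Subsingleton.elim _ _
      obtain ⟨A, hAn, hAne, hA⟩ := Helper20.psolvable_setup p hsolv
      haveI := hAn
      have hquot : ∀ (N : Subgroup G) [N.Normal], N ≠ ⊥ →
          ∃ j, j ≤ k ∧ (∀ x ∈ derivedSeries ↥(P : Subgroup G) (j + 1), (x : G) ∈ N) ∧
            (j = k → ∀ χ : G → ℂ, IsIrrCharacter G χ → p ∣ charDegree χ →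
              ∀ x ∈ N, χ x = χ 1) := by
        intro N _ hNne
        have hcardq : Nat.card (G ⧸ N) ≤ n := by
          have h1 := Subgroup.card_eq_card_quotient_mul_card_subgroup N
          have h2 : 1 < Nat.card N := by
            rw [Subgroup.one_lt_card_iff_ne_bot]
            exact hNne
          have h3 : 0 < Nat.card (G ⧸ N) := Nat.card_pos
          nlinarith
        have hsolvq := Helper20.isPSolvable_quotient p hsolv N
        have hfinq := Helper24.finite_irrCharacter (G := G ⧸ N)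
        have hq := ih (G ⧸ N) hcardq hsolvq (P.mapSurjective (QuotientGroup.mk'_surjective N))
        have hfwd : ∀ β : {β : Cfsg.IrrCharacter (G ⧸ N) //
            p ∣ Cfsg.charDegree (β : G ⧸ N → ℂ)},
            IsIrrCharacter G ((β.1 : G ⧸ N → ℂ) ∘ QuotientGroup.mk' N) ∧
            p ∣ charDegree ((β.1 : G ⧸ N → ℂ) ∘ QuotientGroup.mk' N) := by
          intro β
          have h1 := Helper6.isIrrCharacter_comp_surjective (QuotientGroup.mk' N)
            (QuotientGroup.mk'_surjective N) β.1.2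
          refine ⟨h1, ?_⟩
          rw [Helper24.charDegree_eq_of_one_eq (Helper24.isCharacter_of_irr h1)
            (Helper24.isCharacter_of_irr β.1.2) (by
              show (β.1 : G ⧸ N → ℂ) (QuotientGroup.mk' N 1) = _
              rw [map_one])]
          exact β.2
        obtain ⟨f, hfdef⟩ : ∃ f : {β : Cfsg.IrrCharacter (G ⧸ N) //
            p ∣ Cfsg.charDegree (β : G ⧸ N → ℂ)} →
            {χ : Cfsg.IrrCharacter G // p ∣ Cfsg.charDegree (χ : G → ℂ)},
            ∀ β, ((f β).1 : G → ℂ) = (β.1 : G ⧸ N → ℂ) ∘ QuotientGroup.mk' N :=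
          ⟨fun β => ⟨⟨_, (hfwd β).1⟩, (hfwd β).2⟩, fun β => rfl⟩
        have hf : Function.Injective f := by
          intro β₁ β₂ h
          have h1 : (β₁.1 : G ⧸ N → ℂ) ∘ QuotientGroup.mk' N =
              (β₂.1 : G ⧸ N → ℂ) ∘ QuotientGroup.mk' N := by
            rw [← hfdef, ← hfdef, h]
          apply Subtype.ext
          apply Subtype.ext
          funext q
          obtain ⟨g, rfl⟩ := QuotientGroup.mk'_surjective N q
          exact congrFun h1 g
        refine ⟨Nat.card {β : Cfsg.IrrCharacter (G ⧸ N) //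
            p ∣ Cfsg.charDegree (β : G ⧸ N → ℂ)}, ?_, ?_, ?_⟩
        · rw [hk]
          exact Nat.card_le_card_of_injective f hf
        · exact dl_map_quot (P : Subgroup G) N _ (Sylow.coe_mapSurjective _ _) _ hq
        · intro hjk χ hχ hpχ x hxN
          have hbij : Function.Bijective f := by
            apply Function.Injective.bijective_of_nat_card_le hf
            rw [hjk, hk]
          obtain ⟨β, hβ⟩ := hbij.2 ⟨⟨χ, hχ⟩, hpχ⟩
          have h1 : (β.1 : G ⧸ N → ℂ) ∘ QuotientGroup.mk' N = χ := by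
            rw [← hfdef, hβ]
          rw [← h1]
          show (β.1 : G ⧸ N → ℂ) (QuotientGroup.mk' N x) = (β.1 : G ⧸ N → ℂ) (QuotientGroup.mk' N 1)
          have h2 : (QuotientGroup.mk' N) x = 1 := (QuotientGroup.eq_one_iff x).mpr hxN
          rw [h2, map_one]
      rcases hA with hA | hA
      · have hAnt : Nontrivial A := (Subgroup.nontrivial_iff_ne_bot A).mpr hAne
        have hZnt : Nontrivial (Subgroup.center A) := hA.center_nontrivial
        obtain ⟨N, hNdef⟩ : ∃ N : Subgroup G, N = (Subgroup.center A).map A.subtype := ⟨_, rfl⟩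
        haveI hNn : N.Normal := by
          rw [hNdef]
          exact ConjAct.normal_of_characteristic_of_normal
        have hNne : N ≠ ⊥ := by
          rw [hNdef, Ne, Subgroup.map_eq_bot_iff_of_injective _ A.subtype_injective]
          exact (Subgroup.nontrivial_iff_ne_bot _).mp hZnt
        have hNp : IsPGroup p N := by
          rw [hNdef]
          exact (hA.to_subgroup (Subgroup.center A)).map A.subtype
        have hNab : ∀ a ∈ N, ∀ b ∈ N, a * b = b * a := by
          rw [hNdef]
          rintro a ⟨a', ha', rfl⟩ b ⟨b', hb', rfl⟩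
          have h1 := Subgroup.mem_center_iff.mp hb' a'
          exact congrArg Subtype.val h1
        obtain ⟨j, hjk, hj, hjeq⟩ := hquot N hNne
        by_cases hjlt : j < k
        · apply dl_succ_eq_bot (P : Subgroup G) N k hNab
          intro x hx
          exact hj x (derivedSeries_antitone _ (by omega : j + 1 ≤ k) hx)
        · have hjk' : j = k := by omega
          have hbad := hjeq hjk'
          have hcomm := dl_comm_mem p hsolv N hNp hNne hbad P
          have h1 : ∀ x ∈ derivedSeries ↥(P : Subgroup G) 1, (x : G) ∈ N := by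
            intro x hx
            rw [derivedSeries_one] at hx
            have hle : commutator ↥(P : Subgroup G) ≤ N.subgroupOf (P : Subgroup G) := by
              rw [commutator_def, Subgroup.commutator_le]
              intro a _ b _
              rw [Subgroup.mem_subgroupOf, commutatorElement_def]
              exact hcomm a a.2 b b.2
            exact Subgroup.mem_subgroupOf.mp (hle hx)
          have h2 := dl_succ_eq_bot (P : Subgroup G) N 1 hNab h1
          have h3 := derivedSeries_antitone ↥(P : Subgroup G) (by omega : 1 + 1 ≤ k + 1)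
          rw [h2] at h3
          exact le_bot_iff.mp h3
      · obtain ⟨j, hjk, hj, -⟩ := hquot A hAne
        have h1 : derivedSeries ↥(P : Subgroup G) (j + 1) = ⊥ := by
          apply dl_eq_bot_of_disjoint (P : Subgroup G) A (j + 1) _ hj
          intro x hxA hxP
          obtain ⟨m, hm⟩ := P.isPGroup' ⟨x, hxP⟩
          have h2 : orderOf x ∣ p ^ m := by
            apply orderOf_dvd_of_pow_eq_one
            exact congrArg Subtype.val hm
          have h3 : orderOf x ∣ Nat.card A := by
            have := orderOf_dvd_natCard (⟨x, hxA⟩ : A)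
            rwa [Subgroup.orderOf_mk] at this
          have h4 : (orderOf x).Coprime (p ^ m) :=
            Nat.Coprime.pow_right m (Nat.Coprime.coprime_dvd_left h3 hA)
          have h5 : orderOf x = 1 := Nat.Coprime.eq_one_of_dvd h4 h2
          exact orderOf_eq_one_iff.mp h5
        have h3 := derivedSeries_antitone ↥(P : Subgroup G) (by omega : j + 1 ≤ k + 1)
        rw [h1] at h3
        exact le_bot_iff.mp h3

end Cfsg.Agent.Helper19
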