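import Mathlib
import Cfsg.Agent.Helper19.Derange2

set_option autoImplicit false

namespace Cfsg.Agent.Helper19

open MulAction
open scoped Pointwise

theorem dvd_card_subMulAction_of_dvd_orbits {S Y : Type*} [Group S] [MulAction S Y] [Finite Y]
    (m : ℕ) (T : SubMulAction S Y) (h : ∀ y ∈ T, m ∣ Nat.card (orbit S y)) :
    m ∣ Nat.card T := by
  apply dvd_card_of_dvd_orbits (S := S)
  intro t
  have : Nat.card (orbit S t) = Nat.card (orbit S (t : Y)) := by
    rw [Nat.card_coe_set_eq, Nat.card_coe_set_eq,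
      ← Set.ncard_image_of_injective _ Subtype.val_injective]
    congr 1
    ext y
    constructor
    · rintro ⟨_, ⟨s, rfl⟩, rfl⟩
      exact ⟨s, rfl⟩
    · rintro ⟨s, rfl⟩
      exact ⟨s • t, ⟨s, rfl⟩, rfl⟩
  rw [this]
  exact h t t.2

variable {G Ω : Type*} [Group G] [Finite G] [MulAction G Ω] [Finite Ω]

theorem derSub_index_dvd_block (htrans : IsPretransitive G Ω) {B : Set Ω} (hB : IsBlock G B)
    (ω : Ω) (hω : ω ∈ B) : (derSub G Ω).index ∣ B.ncard - 1 := by
  let T : SubMulAction (stabilizer G ω) (SubMulAction.ofStabilizer G ω) :=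
    { carrier := {y | (y : Ω) ∈ B}
      smul_mem' := fun s y hy => by
        have hsω : (s : G) • ω = ω := s.2
        have hs : (s : G) • B = B := hB.smul_eq_of_mem hω (by rw [hsω]; exact hω)
        show (s : G) • (y : Ω) ∈ B
        rw [← hs]
        exact Set.smul_mem_smul_set hy }
  have h1 : (derSub G Ω).index ∣ Nat.card T :=
    dvd_card_subMulAction_of_dvd_orbits _ T (fun y _ => derSub_index_dvd_orbit htrans ω y)
  have h2 : Nat.card T = B.ncard - 1 := by
    rw [← Set.ncard_diff_singleton_of_mem hω, ← Nat.card_coe_set_eq]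
    apply Nat.card_congr
    exact
      { toFun := fun t => ⟨((t : SubMulAction.ofStabilizer G ω) : Ω), t.2,
          (SubMulAction.mem_ofStabilizer_iff G ω).1 t.1.2⟩
        invFun := fun x => ⟨⟨x.1, (SubMulAction.mem_ofStabilizer_iff G ω).2 x.2.2⟩, x.2.1⟩
        left_inv := fun t => rfl
        right_inv := fun x => rfl }
  rw [← h2]
  exact h1

theorem derSub_orbit_le (htrans : IsPretransitive G Ω) (B : Set Ω) (hB : IsBlock G B)
    (hne : B.Nonempty) : derSub G (orbit G B) ≤ derSub G Ω := by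
  unfold derSub
  apply Subgroup.closure_mono
  intro g hg ω hω
  obtain ⟨b, hb⟩ := hne
  obtain ⟨h, rfl⟩ := htrans.exists_smul_eq b ω
  apply hg ⟨h • B, mem_orbit _ _⟩
  apply Subtype.ext
  show g • (h • B) = h • B
  exact (hB.translate h).smul_eq_of_mem (Set.smul_mem_smul_set hb)
    (by rw [hω]; exact Set.smul_mem_smul_set hb)

/-- For an imprimitive group the index of the derangement subgroup is at most `√n - 1`. -/
theorem derSub_index_le_sqrt (htrans : IsPretransitive G Ω) (himp : ¬ IsPreprimitive G Ω) :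
    ((derSub G Ω).index : ℝ) ≤ Real.sqrt (Nat.card Ω) - 1 := by
  obtain ⟨B, hB, hBt⟩ : ∃ B : Set Ω, IsBlock G B ∧ ¬ IsTrivialBlock B := by
    by_contra h
    push Not at h
    exact himp { toIsPretransitive := htrans, isTrivialBlock_of_isBlock := fun {B} hB => h B hB }
  have hnt : B.Nontrivial := by
    rw [← Set.not_subsingleton_iff]
    exact fun h => hBt (Or.inl h)
  have huniv : B ≠ Set.univ := fun h => hBt (Or.inr h)
  obtain ⟨ω, hω⟩ := hnt.nonempty
  have hb2 : 2 ≤ B.ncard := by
    have := Set.one_lt_ncard_iff_nontrivial.2 hnt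
    omega
  have hprod := hB.ncard_block_mul_ncard_orbit_eq hnt.nonempty
  have hk2 : 2 ≤ (orbit G B).ncard := by
    by_contra hlt
    push Not at hlt
    have hpos : 0 < (orbit G B).ncard := by
      rw [Set.ncard_pos]
      exact nonempty_orbit B
    have h1 : (orbit G B).ncard = 1 := by omega
    rw [h1, mul_one] at hprod
    exact huniv ((Set.eq_univ_iff_ncard B).2 hprod)
  have hm1 := derSub_index_dvd_block htrans hB ω hω
  have hm2 : (derSub G Ω).index ∣ (orbit G B).ncard - 1 := by
    have h1 := Subgroup.index_dvd_of_le (derSub_orbit_le htrans B hB hnt.nonempty)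
    have h2 := derSub_index_dvd (G := G) (Ω := orbit G B) inferInstance ⟨B, mem_orbit_self B⟩
    rw [Nat.card_coe_set_eq] at h2
    exact h1.trans h2
  have hle1 : (derSub G Ω).index ≤ B.ncard - 1 := Nat.le_of_dvd (by omega) hm1
  have hle2 : (derSub G Ω).index ≤ (orbit G B).ncard - 1 := Nat.le_of_dvd (by omega) hm2
  have hsq : ((derSub G Ω).index + 1) * ((derSub G Ω).index + 1) ≤ Nat.card Ω := by
    rw [← hprod]
    exact Nat.mul_le_mul (by omega) (by omega)
  have hsq' : (((derSub G Ω).index : ℝ) + 1) ^ 2 ≤ (Nat.card Ω : ℝ) := by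
    have : ((((derSub G Ω).index + 1) * ((derSub G Ω).index + 1) : ℕ) : ℝ) ≤ (Nat.card Ω : ℝ) := by
      exact_mod_cast hsq
    push_cast at this
    nlinarith
  have : ((derSub G Ω).index : ℝ) + 1 ≤ Real.sqrt (Nat.card Ω) := Real.le_sqrt_of_sq_le hsq'
  linarith

end Cfsg.Agent.Helper19
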