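import Mathlib

set_option autoImplicit false

namespace Cfsg.Agent.Helper19

/-- In a finite group with a normal Sylow `p`-subgroup `S`, every `p`-element lies in `S`. -/
theorem dc_mem_sylow {H : Type*} [Group H] [Finite H] {p : ℕ} [Fact p.Prime] (S : Sylow p H)
    [hn : (S : Subgroup H).Normal] (x : H) (a : ℕ) (hx : x ^ p ^ a = 1) :
    x ∈ (S : Subgroup H) := by
  have h1 : ¬ p ∣ (S : Subgroup H).index := S.not_dvd_index
  rw [← QuotientGroup.eq_one_iff]
  have h2 : orderOf (QuotientGroup.mk x : H ⧸ (S : Subgroup H)) ∣ p ^ a := by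
    apply orderOf_dvd_of_pow_eq_one
    rw [← QuotientGroup.mk_pow, hx]; rfl
  have h3 : orderOf (QuotientGroup.mk x : H ⧸ (S : Subgroup H)) ∣ (S : Subgroup H).index := by
    rw [Subgroup.index_eq_card]; exact orderOf_dvd_natCard _
  obtain ⟨b, -, hb⟩ := (Nat.dvd_prime_pow Fact.out).mp h2
  rcases Nat.eq_zero_or_pos b with h0 | hpos
  · rw [h0, pow_zero] at hb
    exact orderOf_eq_one_iff.mp hb
  · exfalso
    apply h1
    rw [hb] at h3
    exact dvd_trans (dvd_pow_self p hpos.ne') h3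

/-- A group with a normal Sylow 2-subgroup `S` and cyclic quotient is `S⟨c⟩` with `c` of odd
order equal to the index of `S`. -/
theorem dc_split {H : Type*} [Group H] [Finite H] (S : Sylow 2 H)
    [hn : (S : Subgroup H).Normal] (hcyc : IsCyclic (H ⧸ (S : Subgroup H))) :
    ∃ c : H, Odd (orderOf c) ∧ orderOf c = (S : Subgroup H).index ∧
      ∀ h : H, ∃ s ∈ (S : Subgroup H), ∃ i : ℕ, h = s * c ^ i := by
  have : Fact (Nat.Prime 2) := ⟨Nat.prime_two⟩
  obtain ⟨n, hn'⟩ : ∃ n, n = (S : Subgroup H).index := ⟨_, rfl⟩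
  have hnodd : Odd n := by
    rw [hn']; exact Nat.odd_iff.mpr (Nat.two_dvd_ne_zero.mp S.not_dvd_index)
  have hnpos : 0 < n := hnodd.pos
  have hcardq : Nat.card (H ⧸ (S : Subgroup H)) = n := by rw [hn', Subgroup.index_eq_card]
  obtain ⟨N, hN⟩ : ∃ N, N = Nat.card (S : Subgroup H) := ⟨_, rfl⟩
  obtain ⟨k, hk⟩ := (IsPGroup.iff_card.mp S.isPGroup')
  have hNk : N = 2 ^ k := by rw [hN]; exact hk
  obtain ⟨ybar, hybar⟩ := hcyc.exists_generator
  obtain ⟨y, rfl⟩ := QuotientGroup.mk_surjective ybar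
  have hcop : Nat.Coprime N n := by
    rw [hNk]; exact Nat.Coprime.pow_left k (Nat.coprime_two_left.mpr hnodd)
  obtain ⟨M, hM⟩ : ∃ M, M = N ^ n.totient := ⟨_, rfl⟩
  have hM1 : M ≡ 1 [MOD n] := by rw [hM]; exact Nat.ModEq.pow_totient hcop
  have hNM : N ∣ M := by rw [hM]; exact dvd_pow_self N (Nat.totient_pos.mpr hnpos).ne'
  obtain ⟨c, hc⟩ : ∃ c : H, c = y ^ M := ⟨_, rfl⟩
  have hyn : y ^ n ∈ (S : Subgroup H) := by
    rw [← QuotientGroup.eq_one_iff, QuotientGroup.mk_pow, ← hcardq]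
    exact pow_card_eq_one'
  have hSpow : ∀ s ∈ (S : Subgroup H), s ^ N = 1 := by
    intro s hs
    have h1 := pow_card_eq_one' (G := (S : Subgroup H)) (x := ⟨s, hs⟩)
    rw [← hN] at h1
    have h2 := congrArg Subtype.val h1
    simpa using h2
  have hcn : c ^ n = 1 := by
    obtain ⟨t, ht⟩ := hNM
    rw [hc, ← pow_mul, mul_comm, pow_mul, ht, pow_mul, hSpow _ hyn, one_pow]
  have hord : orderOf (QuotientGroup.mk y : H ⧸ (S : Subgroup H)) = n := by
    rw [orderOf_eq_card_of_forall_mem_zpowers hybar, hcardq]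
  have hmkc : (QuotientGroup.mk c : H ⧸ (S : Subgroup H)) = QuotientGroup.mk y := by
    rw [hc, QuotientGroup.mk_pow]
    have h1 : (QuotientGroup.mk y : H ⧸ (S : Subgroup H)) ^ M = (QuotientGroup.mk y) ^ 1 := by
      rw [pow_eq_pow_iff_modEq, hord]; exact hM1
    rw [h1, pow_one]
  have hordc : orderOf c = n := by
    apply Nat.dvd_antisymm (orderOf_dvd_of_pow_eq_one hcn)
    have h1 := orderOf_map_dvd (QuotientGroup.mk' (S : Subgroup H)) c
    rw [QuotientGroup.mk'_apply, hmkc, hord] at h1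
    exact h1
  refine ⟨c, by rw [hordc]; exact hnodd, by rw [hordc, hn'], ?_⟩
  intro h
  have h1 := hybar (QuotientGroup.mk h)
  rw [← mem_powers_iff_mem_zpowers] at h1
  obtain ⟨i, hi⟩ := (Submonoid.mem_powers_iff _ _).mp h1
  refine ⟨h * (c ^ i)⁻¹, ?_, i, by group⟩
  have h2 : (QuotientGroup.mk (c ^ i) : H ⧸ (S : Subgroup H)) = QuotientGroup.mk h := by
    rw [QuotientGroup.mk_pow, hmkc, hi]
  have h3 : (c ^ i)⁻¹ * h ∈ (S : Subgroup H) := QuotientGroup.eq.mp h2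
  have h4 := hn.conj_mem _ h3 (c ^ i)
  have h5 : c ^ i * ((c ^ i)⁻¹ * h) * (c ^ i)⁻¹ = h * (c ^ i)⁻¹ := by group
  rw [h5] at h4
  exact h4

/-- Normal cyclic Sylow 2-subgroup with cyclic quotient: the group is cyclic. -/
theorem dc_cyclic_of_cyclic_sylow {H : Type*} [Group H] [Finite H] (S : Sylow 2 H)
    [hn : (S : Subgroup H).Normal] (hcyc : IsCyclic (H ⧸ (S : Subgroup H)))
    (hS : IsCyclic (S : Subgroup H)) : IsCyclic H := by
  have : Fact (Nat.Prime 2) := ⟨Nat.prime_two⟩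
  obtain ⟨c, hcodd, hcidx, hgen⟩ := dc_split S hcyc
  obtain ⟨s₀, hs₀⟩ := hS.exists_generator
  obtain ⟨k, hk⟩ := (IsPGroup.iff_card.mp S.isPGroup')
  have hs₀ord : orderOf (s₀ : H) = 2 ^ k := by
    rw [Subgroup.orderOf_coe, orderOf_eq_card_of_forall_mem_zpowers hs₀, hk]
  have hcomm : c * (s₀ : H) = (s₀ : H) * c := by
    obtain ⟨φ, hφ⟩ : ∃ φ : MulAut (S : Subgroup H), φ = MulAut.conjNormal c := ⟨_, rfl⟩
    have h1 : φ ^ orderOf c = 1 := by rw [hφ, ← map_pow, pow_orderOf_eq_one, map_one]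
    have h2 : φ ^ Nat.card (MulAut (S : Subgroup H)) = 1 := pow_card_eq_one'
    have h3 : ∃ j, Nat.card (MulAut (S : Subgroup H)) = 2 ^ j := by
      rw [IsCyclic.card_mulAut, hk]
      rcases Nat.eq_zero_or_pos k with h0 | hpos
      · exact ⟨0, by rw [h0]; simp⟩
      · exact ⟨k - 1, by rw [Nat.totient_prime_pow Nat.prime_two hpos]; simp⟩
    obtain ⟨j, hj⟩ := h3
    rw [hj] at h2
    have h4 : φ ^ Nat.gcd (orderOf c) (2 ^ j) = 1 := pow_gcd_eq_one.mpr ⟨h1, h2⟩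
    have h5 : Nat.gcd (orderOf c) (2 ^ j) = 1 :=
      Nat.Coprime.pow_right j (Nat.coprime_two_right.mpr hcodd)
    rw [h5, pow_one] at h4
    have h6 := congrArg (fun ψ : MulAut (S : Subgroup H) => ((ψ s₀ : (S : Subgroup H)) : H))
      (hφ.symm.trans h4)
    simp only [MulAut.conjNormal_apply, MulAut.one_apply] at h6
    rw [mul_inv_eq_iff_eq_mul] at h6
    exact h6
  have hord : orderOf ((s₀ : H) * c) = Nat.card H := by
    rw [(show Commute (s₀ : H) c from hcomm.symm).orderOf_mul_eq_mul_orderOf_of_coprime,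
      hs₀ord, hcidx, ← hk]
    · exact Subgroup.card_mul_index _
    · rw [hs₀ord]; exact Nat.Coprime.pow_left k (Nat.coprime_two_left.mpr hcodd)
  exact isCyclic_of_orderOf_eq_card _ hord

/-- Conjugating a 2-subgroup into a given Sylow 2-subgroup. -/
theorem dc_conj_into {G : Type*} [Group G] [Finite G] (P : Sylow 2 G) (Q : Subgroup G)
    (hQ : IsPGroup 2 Q) : ∃ g : G, ∀ q ∈ Q, g⁻¹ * q * g ∈ (P : Subgroup G) := by
  have : Fact (Nat.Prime 2) := ⟨Nat.prime_two⟩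
  obtain ⟨P', hP'⟩ := hQ.exists_le_sylow
  obtain ⟨g, hg⟩ := MulAction.exists_smul_eq G P P'
  refine ⟨g, fun q hq => ?_⟩
  have h1 : q ∈ (P' : Subgroup G) := hP' hq
  rw [← hg, Sylow.smul_def, Sylow.pointwise_smul_def,
    Subgroup.mem_pointwise_smul_iff_inv_smul_mem] at h1
  simpa [MulAut.smul_def, MulAut.conj_inv_apply] using h1

/-- A group of order four and exponent two is not cyclic. -/
theorem dc_four_not_cyclic {G : Type*} [Group G] (K : Subgroup G) (hK4 : Nat.card K = 4)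
    (hKexp : ∀ k ∈ K, k ^ 2 = 1) : ¬ IsCyclic K := by
  intro hc
  obtain ⟨g, hg⟩ := hc.exists_generator
  have h1 : orderOf g = 4 := by rw [orderOf_eq_card_of_forall_mem_zpowers hg, hK4]
  have h2 : g ^ 2 = 1 := Subtype.ext (by simpa using hKexp g.1 g.2)
  have h3 : orderOf g ∣ 2 := orderOf_dvd_of_pow_eq_one h2
  rw [h1] at h3
  omega

theorem dc_comm_of_exp {G : Type*} [Group G] (K : Subgroup G) (hKexp : ∀ k ∈ K, k ^ 2 = 1) :
    ∀ a ∈ K, ∀ b ∈ K, a * b = b * a := by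
  have hsq : ∀ k ∈ K, k * k = 1 := fun k hk => by rw [← pow_two]; exact hKexp k hk
  intro a ha b hb
  have h1 := hsq (a * b) (mul_mem ha hb)
  calc a * b = (a * b)⁻¹ := (inv_eq_of_mul_eq_one_left h1).symm
    _ = b⁻¹ * a⁻¹ := mul_inv_rev _ _
    _ = b * a := by
      rw [inv_eq_of_mul_eq_one_left (hsq b hb), inv_eq_of_mul_eq_one_left (hsq a ha)]

end Cfsg.Agent.Helper19
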