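import Mathlib
import Cfsg.Agent.Helper4.Dih

set_option autoImplicit false

namespace Cfsg.Agent.Helper19

open DihedralGroup

/-- Subgroups of dihedral 2-groups are cyclic or dihedral. -/
theorem dc_sub_dih (n : ℕ) (U : Subgroup (DihedralGroup (2 ^ n))) :
    IsCyclic U ∨ ∃ j : ℕ, 1 ≤ j ∧ Nonempty (U ≃* DihedralGroup (2 ^ j)) := by
  have hne : NeZero (2 ^ n) := ⟨by positivity⟩
  have hrmem : ∀ i : ZMod (2 ^ n), r i ∈ Subgroup.zpowers (r (1 : ZMod (2 ^ n))) := by
    intro i
    refine ⟨((i.val : ℕ) : ℤ), ?_⟩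
    show r (1 : ZMod (2 ^ n)) ^ ((i.val : ℕ) : ℤ) = r i
    rw [zpow_natCast, r_one_pow, ZMod.natCast_zmod_val]
  by_cases hrot : ∀ u ∈ U, ∃ i, u = r i
  · left
    have hle : U ≤ Subgroup.zpowers (r (1 : ZMod (2 ^ n))) := by
      intro u hu
      obtain ⟨i, rfl⟩ := hrot u hu
      exact hrmem i
    exact Subgroup.isCyclic_of_le hle
  · push Not at hrot
    obtain ⟨x, hxU, hx⟩ := hrot
    obtain ⟨i₀, hxi⟩ : ∃ i, x = sr i := by
      cases x with
      | r i => exact absurd rfl (hx i)
      | sr i => exact ⟨i, rfl⟩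
    have hxx : x * x = 1 := by rw [hxi]; exact sr_mul_self i₀
    have hx1 : x ≠ 1 := by rw [hxi, one_def]; exact fun h => nomatch h
    obtain ⟨R, hR⟩ : ∃ R : Subgroup (DihedralGroup (2 ^ n)),
        R = U ⊓ Subgroup.zpowers (r (1 : ZMod (2 ^ n))) := ⟨_, rfl⟩
    have hRcyc : IsCyclic R := by rw [hR]; exact Subgroup.isCyclic_of_le inf_le_right
    obtain ⟨ρ, hρ⟩ := hRcyc.exists_generator
    have hRle : R ≤ U ⊓ Subgroup.zpowers (r (1 : ZMod (2 ^ n))) := le_of_eq hR
    have hρR : (ρ : DihedralGroup (2 ^ n)) ∈ U ⊓ Subgroup.zpowers (r (1 : ZMod (2 ^ n))) :=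
      hRle ρ.2
    have hρU : (ρ : DihedralGroup (2 ^ n)) ∈ U := hρR.1
    obtain ⟨d, hd⟩ : ∃ d, (ρ : DihedralGroup (2 ^ n)) = r d := by
      obtain ⟨m, hm⟩ := hρR.2
      exact ⟨(m : ZMod (2 ^ n)), by rw [← hm]; exact r_one_zpow m⟩
    have hRmem : ∀ u ∈ U, (∃ i, u = r i) →
        u ∈ Subgroup.zpowers (ρ : DihedralGroup (2 ^ n)) := by
      intro u hu ⟨i, hi⟩
      have huR : u ∈ R := by
        rw [hR]; refine ⟨hu, ?_⟩
        rw [hi]; exact hrmem i
      obtain ⟨m, hm⟩ := hρ ⟨u, huR⟩
      exact ⟨m, by have h := congrArg Subtype.val hm; simpa using h⟩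
    have hrefl : ∀ u ∈ U, (∃ i, u = sr i) →
        x * u ∈ Subgroup.zpowers (ρ : DihedralGroup (2 ^ n)) := by
      intro u hu ⟨i, hi⟩
      apply hRmem (x * u) (U.mul_mem hxU hu)
      exact ⟨i - i₀, by rw [hxi, hi, sr_mul_sr]⟩
    have hcases : ∀ u : DihedralGroup (2 ^ n), (∃ i, u = r i) ∨ (∃ i, u = sr i) := by
      intro u; cases u with
      | r i => exact Or.inl ⟨i, rfl⟩
      | sr i => exact Or.inr ⟨i, rfl⟩
    by_cases hρ1 : (ρ : DihedralGroup (2 ^ n)) = 1
    · left
      have hall : ∀ u ∈ U, u = 1 ∨ u = x := by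
        intro u hu
        rcases hcases u with h | h
        · left
          have h2 := hRmem u hu h
          rw [hρ1] at h2
          obtain ⟨m, hm⟩ := h2
          rw [← hm]; exact one_zpow m
        · right
          have h2 := hrefl u hu h
          rw [hρ1] at h2
          obtain ⟨m, hm⟩ := h2
          have hm' : (1 : DihedralGroup (2 ^ n)) = x * u := by rw [← hm]; exact (one_zpow m).symm
          have h3 : u = x⁻¹ := eq_inv_of_mul_eq_one_right hm'.symm
          rw [h3, inv_eq_of_mul_eq_one_left hxx]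
      rw [isCyclic_iff_exists_zpowers_eq_top]
      refine ⟨⟨x, hxU⟩, ?_⟩
      rw [Subgroup.eq_top_iff']
      intro u
      rcases hall u.1 u.2 with h | h
      · have hu1 : u = 1 := Subtype.ext h
        rw [hu1]; exact Subgroup.one_mem _
      · have hux : u = ⟨x, hxU⟩ := Subtype.ext h
        rw [hux]; exact Subgroup.mem_zpowers _
    · right
      obtain ⟨y, hy⟩ : ∃ y, y = x * (ρ : DihedralGroup (2 ^ n)) := ⟨_, rfl⟩
      have hyU : y ∈ U := by rw [hy]; exact U.mul_mem hxU hρU
      have hyi : y = sr (i₀ + d) := by rw [hy, hxi, hd, sr_mul_r]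
      have hyy : y * y = 1 := by rw [hyi]; exact sr_mul_self _
      have hy1 : y ≠ 1 := by rw [hyi, one_def]; exact fun h => nomatch h
      have hxy : x ≠ y := by
        intro h
        apply hρ1
        have h2 : x * 1 = x * (ρ : DihedralGroup (2 ^ n)) := by rw [mul_one, ← hy]; exact h
        exact (mul_left_cancel h2).symm
      have hxyρ : x * y = (ρ : DihedralGroup (2 ^ n)) := by
        rw [hy, ← mul_assoc, hxx, one_mul]
      have hxc : x ∈ Subgroup.closure ({x, y} : Set (DihedralGroup (2 ^ n))) :=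
        Subgroup.subset_closure (by simp)
      have hyc : y ∈ Subgroup.closure ({x, y} : Set (DihedralGroup (2 ^ n))) :=
        Subgroup.subset_closure (by simp)
      have hclo : Subgroup.closure ({x, y} : Set (DihedralGroup (2 ^ n))) = U := by
        apply le_antisymm
        · rw [Subgroup.closure_le]
          intro w hw
          rcases hw with rfl | rfl
          · exact hxU
          · exact hyU
        · intro u hu
          have hρc : (ρ : DihedralGroup (2 ^ n)) ∈
              Subgroup.closure ({x, y} : Set (DihedralGroup (2 ^ n))) := by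
            rw [← hxyρ]; exact Subgroup.mul_mem _ hxc hyc
          have hzp : Subgroup.zpowers (ρ : DihedralGroup (2 ^ n)) ≤
              Subgroup.closure ({x, y} : Set (DihedralGroup (2 ^ n))) := by
            rw [Subgroup.zpowers_le]; exact hρc
          rcases hcases u with h | h
          · exact hzp (hRmem u hu h)
          · have h1 := hzp (hrefl u hu h)
            have h2 : u = x * (x * u) := by rw [← mul_assoc, hxx, one_mul]
            rw [h2]; exact Subgroup.mul_mem _ hxc h1
      have hdvd : orderOf (ρ : DihedralGroup (2 ^ n)) ∣ 2 ^ (n + 1) := by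
        have h := orderOf_dvd_natCard (ρ : DihedralGroup (2 ^ n))
        rw [DihedralGroup.nat_card] at h
        rw [pow_succ, mul_comm]; exact h
      obtain ⟨j, -, hj⟩ := (Nat.dvd_prime_pow Nat.prime_two).mp hdvd
      have hj1 : 1 ≤ j := by
        rcases Nat.eq_zero_or_pos j with h0 | hpos
        · exfalso; rw [h0, pow_zero, orderOf_eq_one_iff] at hj; exact hρ1 hj
        · exact hpos
      have horder : orderOf (x * y) = 2 ^ j := by rw [hxyρ, hj]
      obtain ⟨e⟩ := Cfsg.Agent.Helper4.closure_pair_mulEquiv_dihedral x y hxx hyy hx1 hy1 hxy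
      rw [horder] at e
      exact ⟨j, hj1, ⟨(MulEquiv.subgroupCongr hclo.symm).trans e⟩⟩

/-- Central elements of a dihedral 2-group of order at least 8. -/
theorem dc_center_dih (n : ℕ) (hn : 2 ≤ n) (u : DihedralGroup (2 ^ n))
    (hu : ∀ g : DihedralGroup (2 ^ n), g * u = u * g) :
    u = 1 ∨ u = r ((2 ^ (n - 1) : ℕ) : ZMod (2 ^ n)) := by
  have hne : NeZero (2 ^ n) := ⟨by positivity⟩
  cases u with
  | r i =>
    have h1 := hu (sr 0)
    rw [sr_mul_r, r_mul_sr] at h1
    have h2 : (0 : ZMod (2 ^ n)) + i = 0 - i := by injection h1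
    have h3 : i + i = 0 := by linear_combination h2
    obtain ⟨v, hv⟩ : ∃ v, v = i.val := ⟨_, rfl⟩
    have hi : i = (v : ZMod (2 ^ n)) := by rw [hv, ZMod.natCast_zmod_val]
    have hvlt : v < 2 ^ n := by rw [hv]; exact ZMod.val_lt i
    have h4 : ((2 * v : ℕ) : ZMod (2 ^ n)) = 0 := by
      push_cast; rw [← hi]; linear_combination h3
    rw [ZMod.natCast_eq_zero_iff] at h4
    obtain ⟨t, ht⟩ := h4
    obtain ⟨P, hP⟩ : ∃ P, P = 2 ^ (n - 1) := ⟨_, rfl⟩
    have hpow : 2 ^ n = 2 * P := by
      rw [hP, ← pow_succ', Nat.sub_add_cancel (by omega)]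
    rw [hpow] at ht hvlt
    have hvP : v = P * t := by
      have h5 : 2 * v = 2 * (P * t) := by rw [ht]; ring
      omega
    have ht2 : t < 2 := by
      by_contra hge
      push Not at hge
      have h6 : P * 2 ≤ P * t := Nat.mul_le_mul_left P hge
      omega
    rcases Nat.lt_or_ge t 1 with h0 | h1'
    · left
      have ht0 : t = 0 := by omega
      rw [hi, hvP, ht0, mul_zero, Nat.cast_zero, one_def]
    · right
      have ht1 : t = 1 := by omega
      rw [hi, hvP, ht1, mul_one, hP]
  | sr i =>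
    exfalso
    have h1 := hu (r 1)
    rw [r_mul_sr, sr_mul_r] at h1
    have h2 : i - 1 = i + 1 := by injection h1
    have h3 : ((2 : ℕ) : ZMod (2 ^ n)) = 0 := by
      push_cast; linear_combination (-1 : ZMod (2 ^ n)) * h2
    rw [ZMod.natCast_eq_zero_iff] at h3
    have h5 : 2 ^ n ≤ 2 := Nat.le_of_dvd (by norm_num) h3
    have h6 : 2 ^ 2 ≤ 2 ^ n := Nat.pow_le_pow_right (by norm_num) hn
    omega

end Cfsg.Agent.Helper19
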