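import Mathlib
import Cfsg.Agent.Helper19.DihCyc1
import Cfsg.Agent.Helper19.DihCyc2
import Cfsg.Agent.Helper19.Ord320a
import Cfsg.Agent.Helper26.DihAut
import Cfsg.Agent.Helper14.A4Sub

set_option autoImplicit false

namespace Cfsg.Agent.Helper19

/-- Normal dihedral Sylow 2-subgroup `S` with cyclic quotient, where four-subgroups of `S` are
self-centralizing: the group is `S` itself or `A₄`. -/
theorem dc_dih_case {H : Type*} [Group H] [Finite H] (S : Sylow 2 H)
    [hn : (S : Subgroup H).Normal] (hcyc : IsCyclic (H ⧸ (S : Subgroup H)))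
    (j : ℕ) (hj : 1 ≤ j) (e : (S : Subgroup H) ≃* DihedralGroup (2 ^ j))
    (hstar : ∀ K : Subgroup H, K ≤ (S : Subgroup H) → Nat.card K = 4 → (∀ k ∈ K, k ^ 2 = 1) →
      ∀ x : H, (∀ k ∈ K, x * k = k * x) → x ∈ K) :
    (∃ n : ℕ, Nonempty (H ≃* DihedralGroup (2 ^ n))) ∨
      Nonempty (H ≃* alternatingGroup (Fin 4)) := by
  have : Fact (Nat.Prime 2) := ⟨Nat.prime_two⟩
  have : Fact (Nat.Prime 3) := ⟨Nat.prime_three⟩
  have hne : NeZero (2 ^ j) := ⟨by positivity⟩
  obtain ⟨c, hcodd, hcidx, hgen⟩ := dc_split S hcyc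
  have hc1 : c = 1 → ∃ n : ℕ, Nonempty (H ≃* DihedralGroup (2 ^ n)) := by
    intro h1
    have htop : (S : Subgroup H) = ⊤ := by
      rw [Subgroup.eq_top_iff']
      intro h
      obtain ⟨s, hs, i, hi⟩ := hgen h
      rw [hi, h1, one_pow, mul_one]; exact hs
    exact ⟨j, ⟨(Subgroup.topEquiv.symm.trans (MulEquiv.subgroupCongr htop.symm)).trans e⟩⟩
  obtain ⟨h₀, hh₀⟩ : ∃ h₀ : ZMod (2 ^ j), h₀ = ((2 ^ (j - 1) : ℕ) : ZMod (2 ^ j)) := ⟨_, rfl⟩
  have hh₀2 : h₀ + h₀ = 0 := by
    rw [hh₀, ← Nat.cast_add, ZMod.natCast_eq_zero_iff, ← two_mul, ← pow_succ',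
      Nat.sub_add_cancel hj]
  have hh₀ne : h₀ ≠ 0 := by
    rw [hh₀, Ne, ZMod.natCast_eq_zero_iff]
    intro hdvd
    have h1 := Nat.le_of_dvd (by positivity) hdvd
    have h2 : 2 ^ (j - 1) < 2 ^ j := Nat.pow_lt_pow_right (by norm_num) (by omega)
    omega
  obtain ⟨x, hx⟩ : ∃ x : H, x = ((e.symm (DihedralGroup.sr 0) : (S : Subgroup H)) : H) :=
    ⟨_, rfl⟩
  obtain ⟨y, hy⟩ : ∃ y : H, y = ((e.symm (DihedralGroup.sr h₀) : (S : Subgroup H)) : H) :=
    ⟨_, rfl⟩
  have hxS : x ∈ (S : Subgroup H) := by rw [hx]; exact Subtype.property _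
  have hyS : y ∈ (S : Subgroup H) := by rw [hy]; exact Subtype.property _
  have hxx : x * x = 1 := by
    rw [hx, ← Subgroup.coe_mul, ← map_mul, DihedralGroup.sr_mul_self, map_one, Subgroup.coe_one]
  have hyy : y * y = 1 := by
    rw [hy, ← Subgroup.coe_mul, ← map_mul, DihedralGroup.sr_mul_self, map_one, Subgroup.coe_one]
  have hx1 : x ≠ 1 := by
    rw [hx]; intro h
    have h2 : e.symm (DihedralGroup.sr 0) = 1 := Subtype.ext h
    rw [map_eq_one_iff e.symm e.symm.injective, DihedralGroup.one_def] at h2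
    exact nomatch h2
  have hy1 : y ≠ 1 := by
    rw [hy]; intro h
    have h2 : e.symm (DihedralGroup.sr h₀) = 1 := Subtype.ext h
    rw [map_eq_one_iff e.symm e.symm.injective, DihedralGroup.one_def] at h2
    exact nomatch h2
  have hxy : x ≠ y := by
    rw [hx, hy]; intro h
    have h2 := e.symm.injective (Subtype.ext h)
    injection h2 with h3
    exact hh₀ne h3.symm
  have hxyord : orderOf (x * y) = 2 := by
    have h1 : x * y = ((e.symm (DihedralGroup.r h₀) : (S : Subgroup H)) : H) := by
      rw [hx, hy, ← Subgroup.coe_mul, ← map_mul, DihedralGroup.sr_mul_sr, sub_zero]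
    apply orderOf_eq_prime
    · rw [pow_two, h1, ← Subgroup.coe_mul, ← map_mul, DihedralGroup.r_mul_r, hh₀2,
        ← DihedralGroup.one_def, map_one, Subgroup.coe_one]
    · rw [h1]; intro h
      have h2 : e.symm (DihedralGroup.r h₀) = 1 := Subtype.ext h
      rw [map_eq_one_iff e.symm e.symm.injective, DihedralGroup.one_def] at h2
      injection h2 with h3
      exact hh₀ne h3
  obtain ⟨K, hK⟩ : ∃ K : Subgroup H, K = Subgroup.closure ({x, y} : Set H) := ⟨_, rfl⟩
  have hKS : K ≤ (S : Subgroup H) := by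
    rw [hK, Subgroup.closure_le]
    intro w hw
    rcases hw with rfl | rfl
    · exact hxS
    · exact hyS
  obtain ⟨eK⟩ := Cfsg.Agent.Helper4.closure_pair_mulEquiv_dihedral x y hxx hyy hx1 hy1 hxy
  rw [hxyord, ← hK] at eK
  have hK4 : Nat.card K = 4 := by rw [Nat.card_congr eK.toEquiv, DihedralGroup.nat_card]
  have hKexp : ∀ k ∈ K, k ^ 2 = 1 := by
    intro k hk
    have h1 : ∀ d : DihedralGroup 2, d ^ 2 = 1 := by decide
    have h2 := h1 (eK ⟨k, hk⟩)
    rw [← map_pow, map_eq_one_iff eK eK.injective] at h2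
    have h3 := congrArg Subtype.val h2
    simpa using h3
  obtain ⟨φ, hφ⟩ : ∃ φ : MulAut (S : Subgroup H), φ = MulAut.conjNormal c := ⟨_, rfl⟩
  have hφn : φ ^ orderOf c = 1 := by rw [hφ, ← map_pow, pow_orderOf_eq_one, map_one]
  have hcentK : ∀ (d : H), MulAut.conjNormal d = (1 : MulAut (S : Subgroup H)) → d ∈ K := by
    intro d hd
    apply hstar K hKS hK4 hKexp
    intro k hk
    have h2 := congrArg
      (fun ψ : MulAut (S : Subgroup H) => ((ψ ⟨k, hKS hk⟩ : (S : Subgroup H)) : H)) hd
    simp only [MulAut.conjNormal_apply, MulAut.one_apply] at h2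
    rw [mul_inv_eq_iff_eq_mul] at h2
    exact h2
  have hφ1 : φ = 1 → c = 1 := by
    intro h1
    have hcK : c ∈ K := hcentK c (hφ.symm.trans h1)
    have h2 := hKexp c hcK
    have h3 : orderOf c ∣ 2 := orderOf_dvd_of_pow_eq_one h2
    have h4 : orderOf c = 1 := by
      rcases (Nat.dvd_prime Nat.prime_two).mp h3 with h | h
      · exact h
      · exfalso; rw [h] at hcodd; exact absurd hcodd (by decide)
    exact orderOf_eq_one_iff.mp h4
  rcases Nat.lt_or_ge j 2 with hj2 | hj2
  · have hj1 : j = 1 := by omega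
    have hS4 : Nat.card (S : Subgroup H) = 4 := by
      rw [Nat.card_congr e.toEquiv, DihedralGroup.nat_card, hj1]; norm_num
    have hKeqS : K = (S : Subgroup H) := Subgroup.eq_of_le_of_card_ge hKS (by rw [hS4, hK4])
    have hφ3 : φ ^ 3 = 1 := by
      have hf : Nat.factorial 4 = 24 := rfl
      have h24 : (MulAut.toPerm (S : Subgroup H) φ) ^ 24 = 1 := by
        have h1 := pow_card_eq_one' (G := Equiv.Perm (S : Subgroup H))
          (x := MulAut.toPerm (S : Subgroup H) φ)
        rw [Nat.card_perm, hS4, hf] at h1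
        exact h1
      have h24' : φ ^ 24 = 1 := by
        apply MulEquiv.ext; intro s
        have h1 : (MulAut.toPerm (S : Subgroup H)) (φ ^ 24) = 1 := by rw [map_pow]; exact h24
        have h2 := congrArg (fun π : Equiv.Perm (S : Subgroup H) => π s) h1
        exact h2
      have h8 : (φ ^ 3) ^ 8 = 1 := by rw [← pow_mul]; exact h24'
      have hn' : (φ ^ 3) ^ orderOf c = 1 := by rw [← pow_mul, mul_comm, pow_mul, hφn, one_pow]
      have hg := pow_gcd_eq_one.mpr ⟨h8, hn'⟩
      have hcop : Nat.gcd 8 (orderOf c) = 1 := by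
        have h9 : Nat.Coprime (2 ^ 3) (orderOf c) :=
          Nat.Coprime.pow_left 3 (Nat.coprime_two_left.mpr hcodd)
        exact h9
      rw [hcop, pow_one] at hg
      exact hg
    have hc3 : c ^ 3 = 1 := by
      have hmem : c ^ 3 ∈ K := hcentK (c ^ 3) (by rw [map_pow, ← hφ, hφ3])
      have h2 := hKexp _ hmem
      have h3 : (c ^ 3) ^ orderOf c = 1 := by
        rw [← pow_mul, mul_comm, pow_mul, pow_orderOf_eq_one, one_pow]
      have hg := pow_gcd_eq_one.mpr ⟨h2, h3⟩
      have hcop : Nat.gcd 2 (orderOf c) = 1 := Nat.coprime_two_left.mpr hcodd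
      rw [hcop, pow_one] at hg
      exact hg
    by_cases hc1' : c = 1
    · exact Or.inl (hc1 hc1')
    · right
      have hord3 : orderOf c = 3 := orderOf_eq_prime hc3 hc1'
      have hfix : ∀ s ∈ (S : Subgroup H), c * s * c⁻¹ = s → s = 1 := by
        have hm := o320_fp_mod 3 (fun s : (S : Subgroup H) => φ s) (by
          intro s
          show φ (φ (φ s)) = s
          have h1 := DFunLike.congr_fun hφ3 s
          simpa [pow_succ, MulAut.mul_apply] using h1)
        obtain ⟨F, hF⟩ : ∃ F : Subgroup (S : Subgroup H), ∀ s, s ∈ F ↔ φ s = s :=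
          ⟨{ carrier := {s | φ s = s}
             mul_mem' := by
               intro a b ha hb
               show φ (a * b) = a * b
               rw [map_mul, ha, hb]
             one_mem' := map_one φ
             inv_mem' := by
               intro a ha
               show φ a⁻¹ = a⁻¹
               rw [map_inv, ha] }, fun s => Iff.rfl⟩
        have hFc : Nat.card {s : (S : Subgroup H) // φ s = s} = Nat.card F :=
          Nat.card_congr (Equiv.subtypeEquivRight (fun s => (hF s).symm))
        have hdvd : Nat.card F ∣ 4 := by rw [← hS4]; exact Subgroup.card_subgroup_dvd_card F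
        rw [hFc, hS4] at hm
        have hF14 : Nat.card F = 1 ∨ Nat.card F = 4 := by
          have hle := Nat.le_of_dvd (by norm_num) hdvd
          have hm' : 4 % 3 = Nat.card F % 3 := hm
          obtain ⟨m, hmdef⟩ : ∃ m, m = Nat.card F := ⟨_, rfl⟩
          rw [← hmdef] at hle hm' hdvd ⊢
          interval_cases m <;> omega
        rcases hF14 with h1 | h4
        · have hbot : F = ⊥ := Subgroup.eq_bot_of_card_eq _ h1
          intro s hs hcs
          have hsF : (⟨s, hs⟩ : (S : Subgroup H)) ∈ F := by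
            rw [hF]
            apply Subtype.ext
            rw [hφ, MulAut.conjNormal_apply]; exact hcs
          rw [hbot, Subgroup.mem_bot] at hsF
          exact congrArg Subtype.val hsF
        · exfalso
          have htop : F = ⊤ := Subgroup.eq_top_of_card_eq _ (by rw [h4, hS4])
          apply hc1'
          apply hφ1
          apply MulEquiv.ext
          intro s
          have hsF : s ∈ F := by rw [htop]; exact Subgroup.mem_top s
          exact (hF s).mp hsF
      obtain ⟨y', hy'⟩ : ∃ y' : H, y' = c * x * c⁻¹ := ⟨_, rfl⟩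
      have hy'S : y' ∈ (S : Subgroup H) := by rw [hy']; exact hn.conj_mem x hxS c
      have hSexp : ∀ s ∈ (S : Subgroup H), s ^ 2 = 1 := by
        intro s hs
        have hsK : s ∈ K := by rw [hKeqS]; exact hs
        exact hKexp s hsK
      have hSsq : ∀ s ∈ (S : Subgroup H), s * s = 1 := fun s hs => by
        rw [← pow_two]; exact hSexp s hs
      have hScomm := dc_comm_of_exp (S : Subgroup H) hSexp
      have hy'y' : y' * y' = 1 := hSsq y' hy'S
      have hcomm : x * y' = y' * x := hScomm x hxS y' hy'S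
      have hcy' : c * y' * c⁻¹ = x * y' := by
        obtain ⟨w, hw⟩ : ∃ w : H, w = x * y' * (c * y' * c⁻¹) := ⟨_, rfl⟩
        have hcy'S : c * y' * c⁻¹ ∈ (S : Subgroup H) := hn.conj_mem y' hy'S c
        have hwS : w ∈ (S : Subgroup H) := by
          rw [hw]; exact mul_mem (mul_mem hxS hy'S) hcy'S
        have hcc : c * (c * y' * c⁻¹) * c⁻¹ = x := by
          rw [hy']
          have hc3' : c * c * c = 1 := by
            rw [← hc3]; simp only [pow_succ, pow_zero, one_mul]
          calc c * (c * (c * x * c⁻¹) * c⁻¹) * c⁻¹ = (c * c * c) * x * (c * c * c)⁻¹ := by group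
            _ = x := by rw [hc3']; group
        have hw1 : w = 1 := by
          apply hfix w hwS
          have h1 : c * w * c⁻¹ =
              (c * x * c⁻¹) * (c * y' * c⁻¹) * (c * (c * y' * c⁻¹) * c⁻¹) := by
            rw [hw]; group
          rw [h1, hcc, ← hy', hw]
          calc y' * (c * y' * c⁻¹) * x = x * (y' * (c * y' * c⁻¹)) :=
                hScomm _ (mul_mem hy'S hcy'S) x hxS
            _ = x * y' * (c * y' * c⁻¹) := by group
        have h2 : c * y' * c⁻¹ = (x * y')⁻¹ :=
          eq_inv_of_mul_eq_one_right (by rw [← hw]; exact hw1)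
        rw [h2, inv_eq_of_mul_eq_one_left (hSsq _ (mul_mem hxS hy'S))]
      obtain ⟨H', ⟨eH'⟩⟩ := Cfsg.Agent.Helper14.A4Sub.exists_A4 x y' c hxx hy'y' hcomm
        hy'.symm hcy' hc3 hx1
      have hH12 : Nat.card H = 12 := by
        have h1 := Subgroup.card_mul_index (S : Subgroup H)
        rw [hS4, ← hcidx, hord3] at h1
        omega
      have hA4 : Nat.card (alternatingGroup (Fin 4)) = 12 := by
        rw [Nat.card_eq_fintype_card]; rfl
      have hH'top : H' = ⊤ :=
        Subgroup.eq_top_of_card_eq _ (by rw [Nat.card_congr eH'.toEquiv, hA4, hH12])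
      exact ⟨(Subgroup.topEquiv.symm.trans (MulEquiv.subgroupCongr hH'top.symm)).trans eH'⟩
  · left
    apply hc1
    apply hφ1
    have hP : IsPGroup 2 (MulAut (S : Subgroup H)) :=
      (Cfsg.Agent.Helper26.isPGroup_mulAut_dihedral j hj2).of_equiv (MulAut.congr e).symm
    obtain ⟨a, ha⟩ := hP φ
    have hg := pow_gcd_eq_one.mpr ⟨ha, hφn⟩
    have hcop : Nat.gcd (2 ^ a) (orderOf c) = 1 :=
      Nat.Coprime.pow_left a (Nat.coprime_two_left.mpr hcodd)
    rw [hcop, pow_one] at hg
    exact hg

end Cfsg.Agent.Helper19
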