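import Mathlib
import Cfsg.Agent.Helper19.DihCyc3

set_option autoImplicit false

namespace Cfsg.Agent.Helper19

/-- Every subgroup with normal Sylow 2-subgroup and cyclic quotient is cyclic, dihedral of
2-power order or `A₄`. -/
def dc_Prop (G : Type*) [Group G] : Prop :=
  ∀ H : Subgroup G, (∀ S : Sylow 2 ↥H, (S : Subgroup ↥H).Normal) →
    (∀ (S : Sylow 2 ↥H) [(S : Subgroup ↥H).Normal], IsCyclic (↥H ⧸ (S : Subgroup ↥H))) →
    IsCyclic H ∨ (∃ n : ℕ, Nonempty (H ≃* DihedralGroup (2 ^ n))) ∨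
      Nonempty (H ≃* alternatingGroup (Fin 4))

theorem dc_apply_pgroup {G : Type*} [Group G] [Finite G] (hL : dc_Prop G) (H : Subgroup G)
    (hH : IsPGroup 2 H) : IsCyclic H ∨ ∃ n : ℕ, Nonempty (H ≃* DihedralGroup (2 ^ n)) := by
  have : Fact (Nat.Prime 2) := ⟨Nat.prime_two⟩
  have htop : ∀ S : Sylow 2 ↥H, (S : Subgroup ↥H) = ⊤ :=
    fun S => (S.is_maximal' (hH.to_subgroup ⊤) le_top).symm
  have h := hL H (fun S => by rw [htop S]; infer_instance) (fun S _ => by
    have hsub : Subsingleton (↥H ⧸ (S : Subgroup ↥H)) := by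
      constructor
      intro a b
      obtain ⟨a, rfl⟩ := QuotientGroup.mk_surjective a
      obtain ⟨b, rfl⟩ := QuotientGroup.mk_surjective b
      rw [QuotientGroup.eq, htop S]; exact Subgroup.mem_top _
    exact isCyclic_of_subsingleton)
  rcases h with h | h | ⟨⟨e⟩⟩
  · exact Or.inl h
  · exact Or.inr h
  · exfalso
    obtain ⟨k, hk⟩ := IsPGroup.iff_card.mp hH
    have h12 : Nat.card H = 12 := by
      rw [Nat.card_congr e.toEquiv, Nat.card_eq_fintype_card]; rfl
    rw [h12] at hk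
    have h3 : 3 ∣ 2 ^ k := by rw [← hk]; norm_num
    have h4 := Nat.Prime.dvd_of_dvd_pow Nat.prime_three h3
    omega

theorem dc_odd_centralizer {G : Type*} [Group G] [Finite G] (hL : dc_Prop G) (K : Subgroup G)
    (hK4 : Nat.card K = 4) (hKexp : ∀ k ∈ K, k ^ 2 = 1) (y : G)
    (hy : ∀ k ∈ K, y * k = k * y) (m : ℕ) (hm : Odd m) (hym : y ^ m = 1) : y = 1 := by
  have : Fact (Nat.Prime 2) := ⟨Nat.prime_two⟩
  have hKcomm := dc_comm_of_exp K hKexp
  obtain ⟨Hy, hHy⟩ : ∃ Hy : Subgroup G, Hy = K ⊔ Subgroup.zpowers y := ⟨_, rfl⟩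
  have hKHy : K ≤ Hy := by rw [hHy]; exact le_sup_left
  have hyHy : y ∈ Hy := by rw [hHy]; exact Subgroup.mem_sup_right (Subgroup.mem_zpowers y)
  have hnorm : Subgroup.zpowers y ≤ Subgroup.normalizer (K : Set G) := by
    rw [Subgroup.zpowers_le, Subgroup.mem_normalizer_iff]
    intro h
    constructor
    · intro hh
      have h1 : y * h * y⁻¹ = h := by rw [hy h hh, mul_inv_cancel_right]
      rw [h1]; exact hh
    · intro hh
      have h1 := hy _ hh
      have h2 : h = y * h * y⁻¹ := by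
        have h3 : y * (y * h * y⁻¹) = y * h := by rw [h1]; group
        exact (mul_left_cancel h3).symm
      rw [h2]; exact hh
  have hform : ∀ h ∈ Hy, ∃ k ∈ K, ∃ i : ℤ, h = k * y ^ i := by
    intro h hh
    have h1 : h ∈ ((K ⊔ Subgroup.zpowers y : Subgroup G) : Set G) := by rw [← hHy]; exact hh
    rw [Subgroup.coe_mul_of_right_le_normalizer_left K _ hnorm] at h1
    obtain ⟨k, hk, p, hp, hkp⟩ := Set.mem_mul.mp h1
    obtain ⟨i, hi⟩ := Subgroup.mem_zpowers_iff.mp hp
    exact ⟨k, hk, i, by rw [hi, hkp]⟩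
  have hyz : ∀ (i : ℤ), ∀ k ∈ K, y ^ i * k = k * y ^ i := by
    intro i k hk
    exact ((show Commute y k from hy k hk).zpow_left i)
  have hcommHy : ∀ a ∈ Hy, ∀ b ∈ Hy, a * b = b * a := by
    intro a ha b hb
    obtain ⟨k, hk, i, rfl⟩ := hform a ha
    obtain ⟨k', hk', i', rfl⟩ := hform b hb
    have c1 : Commute k k' := hKcomm k hk k' hk'
    have c2 : Commute (y ^ i) k' := hyz i k' hk'
    have c3 : Commute k (y ^ i') := (hyz i' k hk).symm
    have c4 : Commute (y ^ i) (y ^ i') := (Commute.refl y).zpow_zpow i i'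
    exact (c1.mul_left c2).mul_right (c3.mul_left c4)
  have h := hL Hy (fun S => ⟨fun n hn g => by
      have h1 : g * n = n * g := Subtype.ext (hcommHy _ g.2 _ n.2)
      rw [h1, mul_inv_cancel_right]; exact hn⟩) (fun S _ => by
      refine ⟨⟨QuotientGroup.mk ⟨y, hyHy⟩, fun q => ?_⟩⟩
      obtain ⟨h, rfl⟩ := QuotientGroup.mk_surjective q
      obtain ⟨k, hk, i, hi⟩ := hform h.1 h.2
      refine ⟨i, ?_⟩
      show (QuotientGroup.mk (⟨y, hyHy⟩ : ↥Hy) : ↥Hy ⧸ (S : Subgroup ↥Hy)) ^ i =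
        QuotientGroup.mk h
      rw [← QuotientGroup.mk_zpow, QuotientGroup.eq]
      have hel : ((⟨y, hyHy⟩ : ↥Hy) ^ i)⁻¹ * h = ⟨k, hKHy hk⟩ := by
        apply Subtype.ext
        rw [Subgroup.coe_mul, Subgroup.coe_inv, Subgroup.coe_zpow]
        show (y ^ i)⁻¹ * h.1 = k
        rw [hi, ← hyz i k hk, inv_mul_cancel_left]
      rw [hel]
      apply dc_mem_sylow S _ 1
      apply Subtype.ext
      simpa using hKexp k hk)
  rcases h with hc | ⟨n, ⟨e⟩⟩ | ⟨⟨e⟩⟩
  · exfalso
    have hKc : IsCyclic K := by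
      haveI := hc
      have h1 : IsCyclic (K.subgroupOf Hy) := inferInstance
      exact (Subgroup.subgroupOfEquivOfLe hKHy).isCyclic.mp h1
    exact dc_four_not_cyclic K hK4 hKexp hKc
  · have hcard : Nat.card Hy = 2 ^ (n + 1) := by
      rw [Nat.card_congr e.toEquiv, DihedralGroup.nat_card, pow_succ, mul_comm]
    have h1 : orderOf y ∣ 2 ^ (n + 1) := by
      rw [← hcard, ← Subgroup.orderOf_mk y hyHy]
      exact orderOf_dvd_natCard _
    have h2 : orderOf y ∣ m := orderOf_dvd_of_pow_eq_one hym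
    have h3 : orderOf y ∣ Nat.gcd (2 ^ (n + 1)) m := Nat.dvd_gcd h1 h2
    have h4 : Nat.gcd (2 ^ (n + 1)) m = 1 :=
      Nat.Coprime.pow_left (n + 1) (Nat.coprime_two_left.mpr hm)
    rw [h4, Nat.dvd_one] at h3
    exact orderOf_eq_one_iff.mp h3
  · exfalso
    have hnc : ¬ ∀ a b : ↥(alternatingGroup (Fin 4)), a * b = b * a := by decide
    apply hnc
    intro a b
    obtain ⟨a', rfl⟩ := e.surjective a
    obtain ⟨b', rfl⟩ := e.surjective b
    rw [← map_mul, ← map_mul, show a' * b' = b' * a' from Subtype.ext (hcommHy _ a'.2 _ b'.2)]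

theorem dc_centralizer_four {G : Type*} [Group G] [Finite G] (hL : dc_Prop G) (K : Subgroup G)
    (hK4 : Nat.card K = 4) (hKexp : ∀ k ∈ K, k ^ 2 = 1) :
    Subgroup.centralizer (K : Set G) = K := by
  have : Fact (Nat.Prime 2) := ⟨Nat.prime_two⟩
  have hKcomm := dc_comm_of_exp K hKexp
  obtain ⟨C, hC⟩ : ∃ C : Subgroup G, C = Subgroup.centralizer (K : Set G) := ⟨_, rfl⟩
  rw [← hC]
  have hCmem : ∀ x, x ∈ C ↔ ∀ k ∈ K, k * x = x * k := by
    intro x; rw [hC, Subgroup.mem_centralizer_iff]; rfl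
  have hKC : K ≤ C := fun k hk => (hCmem k).mpr (fun k' hk' => hKcomm k' hk' k hk)
  have hCp : IsPGroup 2 C := by
    rintro ⟨x, hx⟩
    have hx0 : orderOf x ≠ 0 := (orderOf_pos x).ne'
    obtain ⟨a, m, hm, hxm⟩ := Nat.exists_eq_two_pow_mul_odd hx0
    refine ⟨a, Subtype.ext ?_⟩
    rw [Subgroup.coe_pow, Subgroup.coe_one]
    show x ^ 2 ^ a = 1
    apply dc_odd_centralizer hL K hK4 hKexp (x ^ 2 ^ a) ?_ m hm ?_
    · intro k hk
      exact ((show Commute x k from ((hCmem x).mp hx k hk).symm).pow_left (2 ^ a))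
    · rw [← pow_mul, ← hxm, pow_orderOf_eq_one]
  rcases dc_apply_pgroup hL C hCp with hc | ⟨n, ⟨e⟩⟩
  · exfalso
    have hKc : IsCyclic K := by
      haveI := hc
      have h1 : IsCyclic (K.subgroupOf C) := inferInstance
      exact (Subgroup.subgroupOfEquivOfLe hKC).isCyclic.mp h1
    exact dc_four_not_cyclic K hK4 hKexp hKc
  · have hcard : Nat.card C = 2 * 2 ^ n := by
      rw [Nat.card_congr e.toEquiv, DihedralGroup.nat_card]
    have hle : 4 ≤ Nat.card C := by rw [← hK4]; exact Subgroup.card_le_of_le hKC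
    rcases Nat.lt_or_ge n 2 with hn2 | hn2
    · have hn1 : n = 1 := by
        rcases Nat.lt_or_ge n 1 with h0 | h1
        · exfalso
          have hn0 : n = 0 := by omega
          rw [hcard, hn0] at hle; norm_num at hle
        · omega
      rw [hn1] at hcard
      exact (Subgroup.eq_of_le_of_card_ge hKC (by rw [hcard, hK4]; norm_num)).symm
    · exfalso
      have hne : NeZero (2 ^ n) := ⟨by positivity⟩
      obtain ⟨z, hz⟩ : ∃ z : DihedralGroup (2 ^ n),
          z = DihedralGroup.r ((2 ^ (n - 1) : ℕ) : ZMod (2 ^ n)) := ⟨_, rfl⟩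
      have hcen : ∀ k : K, e ⟨k.1, hKC k.2⟩ = 1 ∨ e ⟨k.1, hKC k.2⟩ = z := by
        intro k
        rw [hz]
        apply dc_center_dih n hn2
        intro g
        obtain ⟨c', rfl⟩ := e.surjective g
        rw [← map_mul, ← map_mul]
        congr 1
        apply Subtype.ext
        show c'.1 * k.1 = k.1 * c'.1
        exact ((hCmem c'.1).mp c'.2 k.1 k.2).symm
      have hinj : Function.Injective (fun k : K =>
          (⟨e ⟨k.1, hKC k.2⟩, hcen k⟩ : {d : DihedralGroup (2 ^ n) // d = 1 ∨ d = z})) := by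
        intro k1 k2 h12
        have h1 := congrArg Subtype.val h12
        have h2 := e.injective h1
        have h3 : (k1 : G) = (k2 : G) := congrArg (fun c : ↥C => (c : G)) h2
        exact Subtype.ext h3
      have h1 := Nat.card_le_card_of_injective _ hinj
      rw [hK4] at h1
      have h2 : Nat.card {d : DihedralGroup (2 ^ n) // d = 1 ∨ d = z} ≤ 2 := by
        have h3 : Nat.card {d : DihedralGroup (2 ^ n) // d = 1 ∨ d = z} =
            Set.ncard ({1, z} : Set (DihedralGroup (2 ^ n))) := by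
          rw [← Nat.card_coe_set_eq]; rfl
        rw [h3]
        exact (Set.ncard_insert_le _ _).trans (by simp)
      omega

theorem dc_forward {G : Type*} [Group G] [Finite G] (P : Sylow 2 G) (hL : dc_Prop G) :
    IsCyclic (P : Subgroup G) ∨
      ((∃ n : ℕ, 1 ≤ n ∧ Nonempty ((P : Subgroup G) ≃* DihedralGroup (2 ^ n))) ∧
        ∀ K : Subgroup G, K ≤ P → Nat.card K = 4 → (∀ k ∈ K, k ^ 2 = 1) →
          Subgroup.centralizer (K : Set G) = K) := by
  have : Fact (Nat.Prime 2) := ⟨Nat.prime_two⟩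
  rcases dc_apply_pgroup hL (P : Subgroup G) P.isPGroup' with hc | ⟨n, ⟨e⟩⟩
  · exact Or.inl hc
  · rcases Nat.eq_zero_or_pos n with h0 | hpos
    · left
      have hcard : Nat.card (P : Subgroup G) = 2 := by
        rw [Nat.card_congr e.toEquiv, DihedralGroup.nat_card, h0]; norm_num
      exact isCyclic_of_prime_card hcard
    · right
      exact ⟨⟨n, hpos, ⟨e⟩⟩, fun K _ hK4 hKexp => dc_centralizer_four hL K hK4 hKexp⟩

theorem dc_backward {G : Type*} [Group G] [Finite G] (P : Sylow 2 G)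
    (hR : IsCyclic (P : Subgroup G) ∨
      ((∃ n : ℕ, 1 ≤ n ∧ Nonempty ((P : Subgroup G) ≃* DihedralGroup (2 ^ n))) ∧
        ∀ K : Subgroup G, K ≤ P → Nat.card K = 4 → (∀ k ∈ K, k ^ 2 = 1) →
          Subgroup.centralizer (K : Set G) = K)) :
    dc_Prop G := by
  have : Fact (Nat.Prime 2) := ⟨Nat.prime_two⟩
  intro H h1 h2
  obtain ⟨S⟩ := (inferInstance : Nonempty (Sylow 2 ↥H))
  haveI hSn := h1 S
  have hcyc := h2 S
  obtain ⟨SG, hSG⟩ : ∃ SG : Subgroup G, SG = (S : Subgroup ↥H).map H.subtype := ⟨_, rfl⟩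
  have hSGp : IsPGroup 2 SG := by rw [hSG]; exact S.isPGroup'.map H.subtype
  obtain ⟨g, hg⟩ := dc_conj_into P SG hSGp
  have hSmem : ∀ s : (S : Subgroup ↥H), ((s : ↥H) : G) ∈ SG := by
    intro s; rw [hSG]; exact Subgroup.mem_map_of_mem _ s.2
  obtain ⟨ψ, hψ⟩ : ∃ ψ : (S : Subgroup ↥H) →* (P : Subgroup G),
      ∀ s, ((ψ s : (P : Subgroup G)) : G) = g⁻¹ * ((s : ↥H) : G) * g :=
    ⟨MonoidHom.mk' (fun s => ⟨g⁻¹ * ((s : ↥H) : G) * g, hg _ (hSmem s)⟩) (by
      intro a b
      apply Subtype.ext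
      show g⁻¹ * (((a * b : (S : Subgroup ↥H)) : ↥H) : G) * g =
        (g⁻¹ * ((a : ↥H) : G) * g) * (g⁻¹ * ((b : ↥H) : G) * g)
      rw [Subgroup.coe_mul, Subgroup.coe_mul]; group), fun s => rfl⟩
  have hψinj : Function.Injective ψ := by
    intro a b hab
    have h3 := congrArg Subtype.val hab
    rw [hψ, hψ] at h3
    have h4 : ((a : ↥H) : G) = ((b : ↥H) : G) := by
      have h5 := mul_right_cancel h3
      exact mul_left_cancel h5
    exact Subtype.ext (Subtype.ext h4)
  rcases hR with hPc | ⟨⟨n, hn, ⟨e⟩⟩, hKc⟩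
  · left
    haveI := hPc
    have hSc : IsCyclic (S : Subgroup ↥H) := isCyclic_of_injective ψ hψinj
    exact dc_cyclic_of_cyclic_sylow S hcyc hSc
  · have hGstar : ∀ K : Subgroup G, Nat.card K = 4 → (∀ k ∈ K, k ^ 2 = 1) →
        ∀ x : G, (∀ k ∈ K, x * k = k * x) → x ∈ K := by
      intro K hK4 hKexp x hx
      have hKp : IsPGroup 2 K := IsPGroup.of_card (n := 2) (by rw [hK4]; norm_num)
      obtain ⟨g', hg'⟩ := dc_conj_into P K hKp
      obtain ⟨K', hK'⟩ : ∃ K' : Subgroup G, K' = K.map (MulAut.conj g'⁻¹).toMonoidHom :=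
        ⟨_, rfl⟩
      have hK'mem : ∀ w, w ∈ K' ↔ ∃ k ∈ K, g'⁻¹ * k * g' = w := by
        intro w
        rw [hK', Subgroup.mem_map]
        simp [MulAut.conj_apply]
      have hK'P : K' ≤ P := by
        intro w hw
        obtain ⟨k, hk, rfl⟩ := (hK'mem w).mp hw
        exact hg' k hk
      have hK'4 : Nat.card K' = 4 := by
        rw [hK', ← hK4]
        exact Nat.card_congr (K.equivMapOfInjective _ (MulAut.conj g'⁻¹).injective).toEquiv.symm
      have hK'exp : ∀ k ∈ K', k ^ 2 = 1 := by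
        intro w hw
        obtain ⟨k, hk, rfl⟩ := (hK'mem w).mp hw
        have h5 := hKexp k hk
        rw [pow_two] at h5 ⊢
        calc g'⁻¹ * k * g' * (g'⁻¹ * k * g') = g'⁻¹ * (k * k) * g' := by group
          _ = 1 := by rw [h5]; group
      have hcent := hKc K' hK'P hK'4 hK'exp
      have hx' : g'⁻¹ * x * g' ∈ Subgroup.centralizer (K' : Set G) := by
        rw [Subgroup.mem_centralizer_iff]
        intro w hw
        obtain ⟨k, hk, rfl⟩ := (hK'mem w).mp hw
        calc g'⁻¹ * k * g' * (g'⁻¹ * x * g') = g'⁻¹ * (k * x) * g' := by group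
          _ = g'⁻¹ * (x * k) * g' := by rw [hx k hk]
          _ = g'⁻¹ * x * g' * (g'⁻¹ * k * g') := by group
      rw [hcent] at hx'
      obtain ⟨k, hk, hkx⟩ := (hK'mem _).mp hx'
      have hkx' : k = x := by
        have h5 := mul_right_cancel hkx
        exact mul_left_cancel h5
      rw [← hkx']; exact hk
    obtain ⟨f, hf⟩ : ∃ f : (S : Subgroup ↥H) →* DihedralGroup (2 ^ n), Function.Injective f :=
      ⟨e.toMonoidHom.comp ψ, e.injective.comp hψinj⟩
    rcases dc_sub_dih n f.range with hUc | ⟨j, hj, ⟨eU⟩⟩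
    · left
      haveI := hUc
      have hSc : IsCyclic (S : Subgroup ↥H) := isCyclic_of_injective f.rangeRestrict (by
        intro a b hab
        exact hf (congrArg Subtype.val hab))
      exact dc_cyclic_of_cyclic_sylow S hcyc hSc
    · right
      have eS : (S : Subgroup ↥H) ≃* DihedralGroup (2 ^ j) :=
        (MonoidHom.ofInjective hf).trans eU
      refine dc_dih_case S hcyc j hj eS ?_
      intro K hKS hK4 hKexp x hx
      obtain ⟨KG, hKG⟩ : ∃ KG : Subgroup G, KG = K.map H.subtype := ⟨_, rfl⟩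
      have hKG4 : Nat.card KG = 4 := by
        rw [hKG, ← hK4]
        exact Nat.card_congr (K.equivMapOfInjective _ H.subtype_injective).toEquiv.symm
      have hKGexp : ∀ k ∈ KG, k ^ 2 = 1 := by
        intro k hk
        rw [hKG] at hk
        obtain ⟨k', hk', rfl⟩ := Subgroup.mem_map.mp hk
        have h5 := hKexp k' hk'
        have h6 := congrArg Subtype.val h5
        simpa using h6
      have hxG : ∀ k ∈ KG, (x : G) * k = k * (x : G) := by
        intro k hk
        rw [hKG] at hk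
        obtain ⟨k', hk', rfl⟩ := Subgroup.mem_map.mp hk
        exact congrArg Subtype.val (hx k' hk')
      have h7 := hGstar KG hKG4 hKGexp (x : G) hxG
      rw [hKG] at h7
      obtain ⟨k', hk', hk'x⟩ := Subgroup.mem_map.mp h7
      have hk'x' : k' = x := Subtype.ext hk'x
      rw [← hk'x']; exact hk'

end Cfsg.Agent.Helper19
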