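import Mathlib

set_option autoImplicit false

/-!
Irreducible cyclic actions on elementary abelian groups: the subring generated by an
irreducible endomorphism is a finite field, with consequences for primitive prime divisors
and for groups normalising the cyclic group.
-/

namespace Cfsg.Agent.Helper19.IrrCyc

/-! ### Norm trick -/

theorem norm_trick {A : Type*} [CommGroup A] {r : ℕ} (hr : 0 < r) (a b : MulAut A)
    (hab : Commute a b) (har : a ^ r = 1) (hbr : b ^ r = 1)
    (ha : ∀ i, 0 < i → i < r → ∀ n, (a ^ i) n = n → n = 1)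
    (hb : ∀ j n, (a ^ j * b) n = n → n = 1) (n : A) : n ^ r = 1 := by
  have key : ∀ (g : ℕ → A) (k : ℕ), g (k + 1) = g 0 →
      ∏ i ∈ Finset.range (k + 1), g (i + 1) = ∏ i ∈ Finset.range (k + 1), g i := by
    intro g k hg
    rw [Finset.prod_range_succ, Finset.prod_range_succ' g k, hg]
  have hfix : ∀ c : MulAut A, c ^ r = 1 → (∀ n, c n = n → n = 1) →
      ∀ n, ∏ i ∈ Finset.range r, (c ^ i) n = 1 := by
    intro c hc hfp n
    apply hfp
    rw [map_prod]
    obtain ⟨k, hk⟩ : ∃ k, r = k + 1 := ⟨r - 1, by omega⟩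
    rw [hk] at hc ⊢
    have e := key (fun i => (c ^ i) n) k (by simp only [hc, pow_zero])
    refine Eq.trans ?_ e
    apply Finset.prod_congr rfl
    intro i _
    show c ((c ^ i) n) = (c ^ (i + 1)) n
    rw [pow_succ', MulAut.mul_apply]
  have hcr : ∀ j, (a ^ j * b) ^ r = 1 := by
    intro j
    rw [(hab.pow_left j).mul_pow, ← pow_mul, mul_comm j r, pow_mul, har, one_pow, hbr, mul_one]
  have h1 : ∀ j ∈ Finset.range r, ∏ i ∈ Finset.range r, ((a ^ i) ^ j) ((b ^ i) n) = 1 := by
    intro j _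
    refine Eq.trans ?_ (hfix (a ^ j * b) (hcr j) (hb j) n)
    apply Finset.prod_congr rfl
    intro i _
    rw [(hab.pow_left j).mul_pow, MulAut.mul_apply, pow_right_comm]
  have h2 : ∏ j ∈ Finset.range r, ∏ i ∈ Finset.range r, ((a ^ i) ^ j) ((b ^ i) n) = 1 :=
    Finset.prod_eq_one h1
  rw [Finset.prod_comm] at h2
  rw [Finset.prod_eq_single 0] at h2
  · simpa using h2
  · intro i hi hi0
    exact hfix (a ^ i) (by rw [← pow_mul, mul_comm, pow_mul, har, one_pow])
      (ha i (Nat.pos_of_ne_zero hi0) (Finset.mem_range.mp hi)) ((b ^ i) n)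
  · intro h0
    exact absurd (Finset.mem_range.mpr hr) h0

theorem norm_trick_V {V : Type*} [Group V] (hcomm : ∀ x y : V, x * y = y * x) {r : ℕ}
    (hr : 0 < r) (a b : MulAut V)
    (hab : Commute a b) (har : a ^ r = 1) (hbr : b ^ r = 1)
    (ha : ∀ i, 0 < i → i < r → ∀ n, (a ^ i) n = n → n = 1)
    (hb : ∀ j n, (a ^ j * b) n = n → n = 1) (n : V) : n ^ r = 1 := by
  letI : CommGroup V := { (inferInstance : Group V) with mul_comm := hcomm }
  exact norm_trick hr a b hab har hbr ha hb n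

/-! ### Generic finite-field facts -/

theorem card_le_of_forall_pow_eq {R : Type*} [CommRing R] [IsDomain R] [Finite R] {n : ℕ}
    (hn : 1 < n) (h : ∀ x : R, x ^ n = x) : Nat.card R ≤ n := by
  classical
  haveI : Fintype R := Fintype.ofFinite R
  have hsub : (Finset.univ.erase (0 : R)) ⊆ (Polynomial.nthRoots (n - 1) (1 : R)).toFinset := by
    intro x hx
    rw [Multiset.mem_toFinset, Polynomial.mem_nthRoots (show 0 < n - 1 by omega)]
    have hx0 : x ≠ 0 := Finset.ne_of_mem_erase hx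
    have h2 : x ^ (n - 1) * x = 1 * x := by
      rw [← pow_succ, Nat.sub_add_cancel hn.le, h x, one_mul]
    exact mul_right_cancel₀ hx0 h2
  have hle := Finset.card_le_card hsub
  have h3 : (Polynomial.nthRoots (n - 1) (1 : R)).toFinset.card ≤ n - 1 :=
    (Multiset.toFinset_card_le _).trans (Polynomial.card_nthRoots _ _)
  rw [Finset.card_erase_of_mem (Finset.mem_univ _), Finset.card_univ] at hle
  rw [Nat.card_eq_fintype_card]
  omega

theorem cyclic_card_dvd {E A : Type*} [Field E] [Finite E] [Group A] [Finite A]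
    [MulSemiringAction A E] [FaithfulSMul A E] {p d : ℕ} (hp : p.Prime)
    (hE : Nat.card E = p ^ d) : IsCyclic A ∧ Nat.card A ∣ d := by
  classical
  haveI : Fintype A := Fintype.ofFinite A
  constructor
  · have e := FixedPoints.toAlgAutMulEquiv A E
    haveI : IsCyclic (E ≃ₐ[FixedPoints.subfield A E] E) := inferInstance
    exact isCyclic_of_surjective e.symm e.symm.surjective
  · have h1 : Module.finrank (FixedPoints.subfield A E) E = Fintype.card A :=
      FixedPoints.finrank_eq_card A E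
    have h2 : Nat.card E = Nat.card (FixedPoints.subfield A E) ^
        Module.finrank (FixedPoints.subfield A E) E := Module.natCard_eq_pow_finrank
    rw [h1, ← Nat.card_eq_fintype_card, hE] at h2
    have hApos : 0 < Nat.card A := Nat.card_pos
    have hdvd : Nat.card (FixedPoints.subfield A E) ∣ p ^ d := by
      rw [h2]; exact dvd_pow_self _ hApos.ne'
    obtain ⟨m, -, hm⟩ := (Nat.dvd_prime_pow hp).mp hdvd
    rw [hm, ← pow_mul] at h2
    have h4 := Nat.pow_right_injective hp.two_le h2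
    exact Dvd.intro_left m h4.symm

theorem conj_mul_aux {R : Type*} [Monoid R] (c ci x y : R) (h : ci * c = 1) :
    c * (x * y) * ci = (c * x * ci) * (c * y * ci) := by
  calc c * (x * y) * ci = c * x * 1 * y * ci := by simp only [mul_assoc, one_mul]
    _ = c * x * (ci * c) * y * ci := by rw [h]
    _ = (c * x * ci) * (c * y * ci) := by simp only [mul_assoc]

/-! ### The subring generated by an irreducible endomorphism -/

section EndRing

variable {W : Type*} [AddCommGroup W]

/-- Irreducibility of an additive endomorphism. -/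
def Irr (f : AddMonoid.End W) : Prop :=
  ∀ B : AddSubgroup W, (∀ w ∈ B, f w ∈ B) → B = ⊥ ∨ B = ⊤

/-- The subring generated by an endomorphism. -/
abbrev EE (f : AddMonoid.End W) : Subring (AddMonoid.End W) := Subring.closure {f}

theorem f_mem (f : AddMonoid.End W) : f ∈ EE f := Subring.subset_closure (Set.mem_singleton f)

theorem EE_comm (f : AddMonoid.End W) : ∀ x ∈ EE f, ∀ y ∈ EE f, x * y = y * x := by
  have hc : ∀ x ∈ ({f} : Set (AddMonoid.End W)), ∀ y ∈ ({f} : Set (AddMonoid.End W)),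
      x * y = y * x := by
    intro x hx y hy
    rw [Set.mem_singleton_iff.mp hx, Set.mem_singleton_iff.mp hy]
  haveI := Subring.isMulCommutative_closure hc
  intro x hx y hy
  exact setLike_mul_comm (s := Subring.closure ({f} : Set (AddMonoid.End W))) hx hy

theorem ker_trivial {f : AddMonoid.End W} (hirr : Irr f) {x : AddMonoid.End W} (hx : x ∈ EE f)
    (hx0 : x ≠ 0) : ∀ w, x w = 0 → w = 0 := by
  have hxf : x * f = f * x := EE_comm f x hx f (f_mem f)
  obtain ⟨B, hB⟩ : ∃ B : AddSubgroup W, ∀ w, w ∈ B ↔ x w = 0 :=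
    ⟨{ carrier := {w | x w = 0}
       add_mem' := fun {a b} ha hb => by
         show x (a + b) = 0
         have ha' : x a = 0 := ha
         have hb' : x b = 0 := hb
         rw [map_add, ha', hb', add_zero]
       zero_mem' := map_zero x
       neg_mem' := fun {a} ha => by
         show x (-a) = 0
         have ha' : x a = 0 := ha
         rw [map_neg, ha', neg_zero] }, fun w => Iff.rfl⟩
  have hinv : ∀ w ∈ B, f w ∈ B := by
    intro w hw
    rw [hB] at hw ⊢
    have h1 : x (f w) = f (x w) := DFunLike.congr_fun hxf w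
    rw [h1, hw, map_zero]
  rcases hirr B hinv with h | h
  · intro w hw
    have h2 : w ∈ B := (hB w).mpr hw
    rw [h] at h2
    exact AddSubgroup.mem_bot.mp h2
  · exfalso
    apply hx0
    apply AddMonoid.End.ext
    intro w
    have h2 : w ∈ B := by rw [h]; exact AddSubgroup.mem_top w
    exact (hB w).mp h2

theorem eval_injective {f : AddMonoid.End W} (hirr : Irr f) (w₀ : W) (hw₀ : w₀ ≠ 0) :
    Function.Injective (fun x : EE f => (x : AddMonoid.End W) w₀) := by
  intro x y hxy
  by_contra hne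
  have hsub : (x : AddMonoid.End W) - y ∈ EE f := sub_mem x.2 y.2
  have hne0 : (x : AddMonoid.End W) - y ≠ 0 := by
    intro h
    exact hne (Subtype.ext (sub_eq_zero.mp h))
  apply hw₀
  apply ker_trivial hirr hsub hne0
  have h1 : (x : AddMonoid.End W) w₀ = (y : AddMonoid.End W) w₀ := hxy
  have h3 : ((x : AddMonoid.End W) - y) w₀ = (x : AddMonoid.End W) w₀ - (y : AddMonoid.End W) w₀ :=
    AddMonoidHom.sub_apply _ _ _
  rw [h3, h1, sub_self]

theorem eval_surjective {f : AddMonoid.End W} (hirr : Irr f) (w₀ : W) (hw₀ : w₀ ≠ 0) :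
    Function.Surjective (fun x : EE f => (x : AddMonoid.End W) w₀) := by
  obtain ⟨B, hB⟩ : ∃ B : AddSubgroup W, ∀ w, w ∈ B ↔ ∃ x ∈ EE f, x w₀ = w :=
    ⟨{ carrier := {w | ∃ x ∈ EE f, x w₀ = w}
       add_mem' := by
         rintro _ _ ⟨x, hx, rfl⟩ ⟨y, hy, rfl⟩
         exact ⟨x + y, add_mem hx hy, AddMonoidHom.add_apply x y w₀⟩
       zero_mem' := ⟨0, zero_mem _, AddMonoidHom.zero_apply w₀⟩
       neg_mem' := by
         rintro _ ⟨x, hx, rfl⟩
         exact ⟨-x, neg_mem hx, AddMonoidHom.neg_apply x w₀⟩ }, fun w => Iff.rfl⟩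
  have hinv : ∀ w ∈ B, f w ∈ B := by
    intro w hw
    obtain ⟨x, hx, hxw⟩ := (hB w).mp hw
    refine (hB _).mpr ⟨f * x, mul_mem (f_mem f) hx, ?_⟩
    rw [← hxw]
    rfl
  have hw : w₀ ∈ B := (hB _).mpr ⟨1, one_mem _, rfl⟩
  rcases hirr B hinv with h | h
  · exfalso
    rw [h] at hw
    exact hw₀ (AddSubgroup.mem_bot.mp hw)
  · intro w
    have h2 : w ∈ B := by rw [h]; exact AddSubgroup.mem_top w
    obtain ⟨x, hx, hxw⟩ := (hB w).mp h2
    exact ⟨⟨x, hx⟩, hxw⟩

theorem card_EE {f : AddMonoid.End W} (hirr : Irr f) (w₀ : W) (hw₀ : w₀ ≠ 0) :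
    Nat.card (EE f) = Nat.card W :=
  Nat.card_congr (Equiv.ofBijective _ ⟨eval_injective hirr w₀ hw₀, eval_surjective hirr w₀ hw₀⟩)

/-- The commutative ring structure on the subring generated by one endomorphism. -/
noncomputable abbrev commRingEE (f : AddMonoid.End W) : CommRing (EE f) :=
  { (EE f).toRing with
    mul_comm := fun x y => Subtype.ext (EE_comm f x.1 x.2 y.1 y.2) }

theorem isDomainEE {f : AddMonoid.End W} (hirr : Irr f) (w₀ : W) (hw₀ : w₀ ≠ 0) :
    @IsDomain (EE f) (commRingEE f).toCommSemiring.toSemiring := by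
  letI := commRingEE f
  haveI hnt : Nontrivial (EE f) := ⟨⟨0, 1, fun h => hw₀ (by
    have h1 : ((0 : EE f) : AddMonoid.End W) w₀ = ((1 : EE f) : AddMonoid.End W) w₀ := by rw [h]
    exact h1.symm)⟩⟩
  haveI hnz : NoZeroDivisors (EE f) := ⟨fun {x y} hxy => by
    by_contra hne
    push Not at hne
    obtain ⟨hx, hy⟩ := hne
    apply hy
    apply Subtype.ext
    apply AddMonoid.End.ext
    intro w
    show (y : AddMonoid.End W) w = 0
    have hx0 : (x : AddMonoid.End W) ≠ 0 := fun h => hx (Subtype.ext h)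
    apply ker_trivial hirr x.2 hx0
    have h2 : (x : AddMonoid.End W) * (y : AddMonoid.End W) = 0 := congrArg Subtype.val hxy
    exact DFunLike.congr_fun h2 w⟩
  exact NoZeroDivisors.to_isDomain _

theorem frob_fixed {p : ℕ} (hp : p.Prime) (hW : ∀ w : W, p • w = 0) (w₀ : W) (hw₀ : w₀ ≠ 0)
    (f : AddMonoid.End W) (n : ℕ) (hf : f ^ p ^ n = f) :
    ∀ x ∈ EE f, x ^ p ^ n = x := by
  haveI : Fact p.Prime := ⟨hp⟩
  haveI : Nontrivial (AddMonoid.End W) := ⟨⟨0, 1, fun h => hw₀ (by
    have h1 : (0 : AddMonoid.End W) w₀ = (1 : AddMonoid.End W) w₀ := by rw [h]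
    exact h1.symm)⟩⟩
  haveI : CharP (AddMonoid.End W) p := (CharP.charP_iff_prime_eq_zero hp).mpr (by
    apply AddMonoid.End.ext
    intro w
    exact hW w)
  have hcomm := EE_comm f
  intro x hx
  refine Subring.closure_induction (p := fun y _ => y ^ p ^ n = y) ?_ ?_ ?_ ?_ ?_ ?_ hx
  · intro y hy
    show y ^ p ^ n = y
    rw [Set.mem_singleton_iff.mp hy]; exact hf
  · show (0 : AddMonoid.End W) ^ p ^ n = 0
    exact zero_pow (pow_ne_zero _ hp.ne_zero)
  · show (1 : AddMonoid.End W) ^ p ^ n = 1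
    exact one_pow _
  · intro y z hy hz ihy ihz
    show (y + z) ^ p ^ n = y + z
    have ihy' : y ^ p ^ n = y := ihy
    have ihz' : z ^ p ^ n = z := ihz
    have hc : Commute y z := hcomm y hy z hz
    rw [add_pow_char_pow_of_commute p n hc, ihy', ihz']
  · intro y hy ih
    show (-y) ^ p ^ n = -y
    have ih' : y ^ p ^ n = y := ih
    have h := sub_pow_char_pow_of_commute p n (Commute.zero_left y)
    rw [zero_sub, zero_pow (pow_ne_zero _ hp.ne_zero), zero_sub, ih'] at h
    exact h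
  · intro y z hy hz ihy ihz
    show (y * z) ^ p ^ n = y * z
    have ihy' : y ^ p ^ n = y := ihy
    have ihz' : z ^ p ^ n = z := ihz
    have hc : Commute y z := hcomm y hy z hz
    rw [hc.mul_pow, ihy', ihz']

theorem no_small_dvd [Finite W] {p d q : ℕ} (hp : p.Prime) (hW : ∀ w : W, p • w = 0)
    (hcard : Nat.card W = p ^ d) (f : AddMonoid.End W) (hirr : Irr f) (hq : f ^ q = 1)
    (i : ℕ) (hi0 : 0 < i) (hid : i < d) : ¬ q ∣ p ^ i - 1 := by
  rintro ⟨k, hk⟩
  have hW1 : 1 < Nat.card W := by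
    rw [hcard]; exact Nat.one_lt_pow (by omega) hp.one_lt
  obtain ⟨w₀, hw₀⟩ : ∃ w₀ : W, w₀ ≠ 0 := by
    haveI : Nontrivial W := Finite.one_lt_card_iff_nontrivial.mp hW1
    exact exists_ne 0
  have hpi1 : 1 < p ^ i := Nat.one_lt_pow (by omega) hp.one_lt
  have hpi : p ^ i = q * k + 1 := by omega
  have hf : f ^ p ^ i = f := by
    rw [hpi, pow_succ, pow_mul, hq, one_pow, one_mul]
  have hfix := frob_fixed hp hW w₀ hw₀ f i hf
  have hcard_le : Nat.card (EE f) ≤ p ^ i :=
    @card_le_of_forall_pow_eq (EE f) (commRingEE f) (isDomainEE hirr w₀ hw₀)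
      (Finite.of_injective _ (eval_injective hirr w₀ hw₀)) (p ^ i) hpi1
      (fun x => Subtype.ext (hfix x.1 x.2))
  rw [card_EE hirr w₀ hw₀, hcard] at hcard_le
  have h5 : d ≤ i := (Nat.pow_le_pow_iff_right hp.one_lt).mp hcard_le
  omega

theorem conj_mem (f c ci : AddMonoid.End W) (h1 : c * ci = 1) (h2 : ci * c = 1)
    (hf : c * f * ci ∈ EE f) : ∀ x ∈ EE f, c * x * ci ∈ EE f := by
  intro x hx
  refine Subring.closure_induction (p := fun y _ => c * y * ci ∈ EE f) ?_ ?_ ?_ ?_ ?_ ?_ hx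
  · intro y hy
    show c * y * ci ∈ EE f
    rw [Set.mem_singleton_iff.mp hy]; exact hf
  · show c * 0 * ci ∈ EE f
    rw [mul_zero, zero_mul]; exact zero_mem _
  · show c * 1 * ci ∈ EE f
    rw [mul_one, h1]; exact one_mem _
  · intro y z _ _ ihy ihz
    show c * (y + z) * ci ∈ EE f
    rw [mul_add, add_mul]; exact add_mem ihy ihz
  · intro y _ ih
    show c * (-y) * ci ∈ EE f
    rw [mul_neg, neg_mul]; exact neg_mem ih
  · intro y z _ _ ihy ihz
    show c * (y * z) * ci ∈ EE f
    rw [conj_mul_aux c ci y z h2]; exact mul_mem ihy ihz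

theorem cyclic_of_action {A : Type*} [Group A] [Finite A] [Finite W] {p d : ℕ} (hp : p.Prime)
    (hcard : Nat.card W = p ^ d) (f : AddMonoid.End W) (hirr : Irr f)
    (c ci : A → AddMonoid.End W) (h1 : ∀ h, c h * ci h = 1) (h2 : ∀ h, ci h * c h = 1)
    (h3 : c 1 = 1) (h5 : ∀ g h, c (g * h) = c g * c h)
    (hnorm : ∀ h, c h * f * ci h ∈ EE f)
    (w₀ : W) (hw₀ : w₀ ≠ 0) (hfix : ∀ h, c h w₀ = w₀)
    (hinj : Function.Injective c) : IsCyclic A ∧ Nat.card A ∣ d := by
  classical
  have h4 : ci 1 = 1 := by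
    have h := h2 1
    rwa [h3, mul_one] at h
  have h6 : ∀ g h, ci (g * h) = ci h * ci g := by
    intro g h
    calc ci (g * h) = ci (g * h) * (c g * (c h * ci h) * ci g) := by
          rw [h1, mul_one, h1, mul_one]
      _ = (ci (g * h) * (c g * c h)) * (ci h * ci g) := by simp only [mul_assoc]
      _ = ci h * ci g := by rw [← h5, h2, one_mul]
  have hmem : ∀ h, ∀ x ∈ EE f, c h * x * ci h ∈ EE f :=
    fun h => conj_mem f (c h) (ci h) (h1 h) (h2 h) (hnorm h)
  have hfaith : ∀ g h : A, (∀ x ∈ EE f, c g * x * ci g = c h * x * ci h) → g = h := by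
    intro g h hgh
    apply hinj
    apply AddMonoid.End.ext
    intro w
    obtain ⟨x, hx⟩ := eval_surjective hirr w₀ hw₀ w
    have hx' : (x : AddMonoid.End W) w₀ = w := hx
    have key : ∀ k : A, c k ((x : AddMonoid.End W) w₀) = (c k * x.1 * ci k) w₀ := by
      intro k
      have e1 : c k * x.1 = c k * x.1 * ci k * c k := by
        rw [mul_assoc (c k * x.1), h2, mul_one]
      have e2 : (c k * x.1) w₀ = (c k * x.1 * ci k * c k) w₀ := by rw [← e1]
      have e3 : c k w₀ = w₀ := hfix k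
      calc c k ((x : AddMonoid.End W) w₀) = (c k * x.1) w₀ := rfl
        _ = (c k * x.1 * ci k * c k) w₀ := e2
        _ = (c k * x.1 * ci k) (c k w₀) := rfl
        _ = (c k * x.1 * ci k) w₀ := by rw [e3]
    rw [← hx', key g, key h, hgh x.1 x.2]
  letI cr : CommRing (EE f) := commRingEE f
  haveI dom : IsDomain (EE f) := isDomainEE hirr w₀ hw₀
  haveI fin : Finite (EE f) := Finite.of_injective _ (eval_injective hirr w₀ hw₀)
  haveI ft : Fintype (EE f) := Fintype.ofFinite _
  letI fld : Field (EE f) := Fintype.fieldOfDomain (EE f)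
  letI act : MulSemiringAction A (EE f) :=
    { smul := fun h x => ⟨c h * x.1 * ci h, hmem h x.1 x.2⟩
      one_smul := fun x => Subtype.ext (by
        show c 1 * x.1 * ci 1 = x.1
        rw [h3, h4, one_mul, mul_one])
      mul_smul := fun g h x => Subtype.ext (by
        show c (g * h) * x.1 * ci (g * h) = c g * (c h * x.1 * ci h) * ci g
        rw [h5, h6]
        simp only [mul_assoc])
      smul_zero := fun h => Subtype.ext (by
        show c h * (0 : AddMonoid.End W) * ci h = 0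
        rw [mul_zero, zero_mul])
      smul_add := fun h x y => Subtype.ext (by
        show c h * (x.1 + y.1) * ci h = c h * x.1 * ci h + c h * y.1 * ci h
        rw [mul_add, add_mul])
      smul_one := fun h => Subtype.ext (by
        show c h * (1 : AddMonoid.End W) * ci h = 1
        rw [mul_one, h1])
      smul_mul := fun h x y => Subtype.ext (by
        show c h * (x.1 * y.1) * ci h = (c h * x.1 * ci h) * (c h * y.1 * ci h)
        exact conj_mul_aux (c h) (ci h) x.1 y.1 (h2 h)) }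
  haveI faith : FaithfulSMul A (EE f) :=
    ⟨fun {g h} hgh => hfaith g h (fun x hx => congrArg Subtype.val (hgh ⟨x, hx⟩))⟩
  have hE : Nat.card (EE f) = p ^ d := (card_EE hirr w₀ hw₀).trans hcard
  exact @cyclic_card_dvd (EE f) A fld fin _ _ act faith p d hp hE

end EndRing

/-! ### Multiplicative wrappers -/

/-- The additive endomorphism attached to an automorphism of a commutative group. -/
def toEndHom (V : Type*) [CommGroup V] : MulAut V →* AddMonoid.End (Additive V) where
  toFun φ := MonoidHom.toAdditive φ.toMonoidHom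
  map_one' := AddMonoid.End.ext _ fun _ => rfl
  map_mul' _ _ := AddMonoid.End.ext _ fun _ => rfl

theorem irr_of {V : Type*} [CommGroup V] (φ : MulAut V)
    (h : ∀ B : Subgroup V, (∀ v ∈ B, φ v ∈ B) → B = ⊥ ∨ B = ⊤) : Irr (toEndHom V φ) := by
  intro B hB
  obtain ⟨B', hmem⟩ : ∃ B' : Subgroup V, ∀ v, v ∈ B' ↔ Additive.ofMul v ∈ B :=
    ⟨{ carrier := {v | Additive.ofMul v ∈ B}
       mul_mem' := fun {a b} ha hb => B.add_mem ha hb
       one_mem' := B.zero_mem
       inv_mem' := fun {a} ha => B.neg_mem ha }, fun v => Iff.rfl⟩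
  rcases h B' (fun v hv => (hmem _).mpr (hB _ ((hmem v).mp hv))) with h1 | h1
  · left
    rw [eq_bot_iff]
    intro w hw
    have h2 : Additive.toMul w ∈ B' := (hmem _).mpr hw
    rw [h1, Subgroup.mem_bot] at h2
    rw [AddSubgroup.mem_bot]
    exact h2
  · right
    rw [eq_top_iff]
    intro w _
    have h2 : Additive.toMul w ∈ B' := by rw [h1]; exact Subgroup.mem_top _
    exact (hmem _).mp h2

theorem no_ppd_C {V : Type*} [CommGroup V] [Finite V] {p d q : ℕ} (hp : p.Prime)
    (hexp : ∀ v : V, v ^ p = 1) (hcard : Nat.card V = p ^ d) (φ : MulAut V)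
    (hirr : ∀ B : Subgroup V, (∀ v ∈ B, φ v ∈ B) → B = ⊥ ∨ B = ⊤) (hq : φ ^ q = 1)
    (i : ℕ) (hi0 : 0 < i) (hid : i < d) : ¬ q ∣ p ^ i - 1 :=
  no_small_dvd (W := Additive V) hp (fun w => hexp (Additive.toMul w)) hcard (toEndHom V φ)
    (irr_of φ hirr) (by rw [← map_pow, hq, map_one]) i hi0 hid

/-- No proper primitive-prime-divisor failure: if an automorphism of order dividing `q` acts
irreducibly on an elementary abelian group of order `p ^ d`, then `q ∤ p ^ i - 1` for
`0 < i < d`. -/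
theorem no_ppd_V {V : Type*} [Group V] [Finite V] (hcomm : ∀ x y : V, x * y = y * x)
    {p d q : ℕ} (hp : p.Prime)
    (hexp : ∀ v : V, v ^ p = 1) (hcard : Nat.card V = p ^ d) (φ : MulAut V)
    (hirr : ∀ B : Subgroup V, (∀ v ∈ B, φ v ∈ B) → B = ⊥ ∨ B = ⊤) (hq : φ ^ q = 1)
    (i : ℕ) (hi0 : 0 < i) (hid : i < d) : ¬ q ∣ p ^ i - 1 := by
  letI : CommGroup V := { (inferInstance : Group V) with mul_comm := hcomm }
  exact no_ppd_C hp hexp hcard φ hirr hq i hi0 hid

theorem cyclic_C {V A : Type*} [CommGroup V] [Finite V] [Group A] [Finite A] {p d : ℕ}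
    (hp : p.Prime) (hcard : Nat.card V = p ^ d) (φ : MulAut V)
    (hirr : ∀ B : Subgroup V, (∀ v ∈ B, φ v ∈ B) → B = ⊥ ∨ B = ⊤)
    (ρ : A →* MulAut V) (hnorm : ∀ h, ∃ k : ℕ, ρ h * φ * (ρ h)⁻¹ = φ ^ k)
    (v₀ : V) (hv₀ : v₀ ≠ 1) (hfix : ∀ h, ρ h v₀ = v₀) (hinj : Function.Injective ρ) :
    IsCyclic A ∧ Nat.card A ∣ d := by
  refine cyclic_of_action (W := Additive V) hp hcard (toEndHom V φ) (irr_of φ hirr)
    (fun h => toEndHom V (ρ h)) (fun h => toEndHom V (ρ h)⁻¹) ?_ ?_ ?_ ?_ ?_
    (Additive.ofMul v₀) hv₀ ?_ ?_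
  · intro h
    show toEndHom V (ρ h) * toEndHom V (ρ h)⁻¹ = 1
    rw [← map_mul, mul_inv_cancel, map_one]
  · intro h
    show toEndHom V (ρ h)⁻¹ * toEndHom V (ρ h) = 1
    rw [← map_mul, inv_mul_cancel, map_one]
  · show toEndHom V (ρ 1) = 1
    rw [map_one, map_one]
  · intro g h
    show toEndHom V (ρ (g * h)) = toEndHom V (ρ g) * toEndHom V (ρ h)
    rw [map_mul, map_mul]
  · intro h
    obtain ⟨k, hk⟩ := hnorm h
    show toEndHom V (ρ h) * toEndHom V φ * toEndHom V (ρ h)⁻¹ ∈ EE (toEndHom V φ)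
    rw [← map_mul, ← map_mul, hk, map_pow]
    exact pow_mem (f_mem _) k
  · intro h
    exact hfix h
  · intro g h hgh
    apply hinj
    have h1 : toEndHom V (ρ g) = toEndHom V (ρ h) := hgh
    apply MulEquiv.ext
    intro v
    exact DFunLike.congr_fun h1 (Additive.ofMul v)

/-- A finite group acting faithfully on an elementary abelian group of order `p ^ d`,
fixing a nontrivial vector and normalising an irreducible cyclic group, is cyclic of order
dividing `d`. -/
theorem cyclic_V {V A : Type*} [Group V] [Finite V] (hcomm : ∀ x y : V, x * y = y * x)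
    [Group A] [Finite A] {p d : ℕ}
    (hp : p.Prime) (hcard : Nat.card V = p ^ d) (φ : MulAut V)
    (hirr : ∀ B : Subgroup V, (∀ v ∈ B, φ v ∈ B) → B = ⊥ ∨ B = ⊤)
    (ρ : A →* MulAut V) (hnorm : ∀ h, ∃ k : ℕ, ρ h * φ * (ρ h)⁻¹ = φ ^ k)
    (v₀ : V) (hv₀ : v₀ ≠ 1) (hfix : ∀ h, ρ h v₀ = v₀) (hinj : Function.Injective ρ) :
    IsCyclic A ∧ Nat.card A ∣ d := by
  letI : CommGroup V := { (inferInstance : Group V) with mul_comm := hcomm }
  exact cyclic_C hp hcard φ hirr ρ hnorm v₀ hv₀ hfix hinj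

end Cfsg.Agent.Helper19.IrrCyc
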