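import Mathlib
import Cfsg.Agent.Helper19.IrrCyc
import Cfsg.Agent.Helper19.Socle
import Cfsg.Agent.Helper19.OrbitCard
import Cfsg.Agent.Helper4.SolvPrim

set_option autoImplicit false

/-!
Solvable extremely primitive groups: the structure of the point stabiliser.
-/

namespace Cfsg.Agent.Helper19.ExtPrim

theorem exists_regular_normal {G : Type*} [Group G] [Finite G] {Ω : Type*} [MulAction G Ω]
    [FaithfulSMul G Ω] [Group.IsSolvable G] [Nontrivial G]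
    (hprim : MulAction.IsPreprimitive G Ω) :
    ∃ N : Subgroup G, N.Normal ∧ N ≠ ⊥ ∧
      (∀ K : Subgroup G, K.Normal → K ≤ N → K = ⊥ ∨ K = N) ∧
      (∀ x ∈ N, ∀ y ∈ N, x * y = y * x) ∧
      (∃ q₀ : ℕ, q₀.Prime ∧ ∀ x ∈ N, x ^ q₀ = 1) ∧
      (∀ ω ω' : Ω, ∃ n ∈ N, n • ω = ω') ∧
      (∀ ω : Ω, ∀ n ∈ N, n • ω = ω → n = 1) := by
  obtain ⟨N, hNn, hNne, hNmin⟩ := Cfsg.Agent.Helper19.exists_minNormal (G := G)
  haveI := hNn
  obtain ⟨q₀, hq₀, hab, hexp⟩ := Cfsg.Agent.Helper4.minNormal_elemAbelian N hNne hNmin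
  haveI := Cfsg.Agent.Helper4.isPretransitive_of_normal_of_prim hprim N hNne
  refine ⟨N, hNn, hNne, hNmin, hab, ⟨q₀, hq₀, hexp⟩, ?_, ?_⟩
  · intro ω ω'
    obtain ⟨n, hn⟩ := MulAction.exists_smul_eq N ω ω'
    exact ⟨n.1, n.2, hn⟩
  · intro ω n hn hfix
    have h1 := Cfsg.Agent.Helper4.stabilizer_eq_bot_of_abelian_transitive N hab ω
    have h2 : (⟨n, hn⟩ : N) ∈ MulAction.stabilizer N ω := MulAction.mem_stabilizer_iff.mpr hfix
    rw [h1, Subgroup.mem_bot] at h2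
    exact congrArg Subtype.val h2

theorem exists_min_invariant {G : Type*} [Group G] [Finite G] [Group.IsSolvable G]
    (H : Subgroup G) (hH : H ≠ ⊥) :
    ∃ M : Subgroup G, M ≤ H ∧ M ≠ ⊥ ∧ (∀ h ∈ H, ∀ m ∈ M, h * m * h⁻¹ ∈ M) ∧
      (∀ K : Subgroup G, K ≤ M → (∀ h ∈ H, ∀ k ∈ K, h * k * h⁻¹ ∈ K) → K = ⊥ ∨ K = M) ∧
      (∀ x ∈ M, ∀ y ∈ M, x * y = y * x) ∧ ∃ r : ℕ, r.Prime ∧ ∀ x ∈ M, x ^ r = 1 := by
  haveI : Nontrivial H := (Subgroup.nontrivial_iff_ne_bot H).mpr hH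
  obtain ⟨M₀, hM₀n, hM₀ne, hM₀min⟩ := Cfsg.Agent.Helper19.exists_minNormal (G := H)
  haveI := hM₀n
  obtain ⟨r, hr, hab, hexp⟩ := Cfsg.Agent.Helper4.minNormal_elemAbelian M₀ hM₀ne hM₀min
  have hmem : ∀ x : G, x ∈ M₀.map H.subtype ↔ ∃ hx : x ∈ H, (⟨x, hx⟩ : H) ∈ M₀ := by
    intro x
    constructor
    · rintro ⟨y, hy, rfl⟩
      exact ⟨y.2, hy⟩
    · rintro ⟨hx, hx'⟩
      exact ⟨⟨x, hx⟩, hx', rfl⟩
  refine ⟨M₀.map H.subtype, ?_, ?_, ?_, ?_, ?_, r, hr, ?_⟩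
  · intro x hx
    exact ((hmem x).mp hx).1
  · intro h
    apply hM₀ne
    rw [eq_bot_iff]
    intro y hy
    have h1 : (y : G) ∈ M₀.map H.subtype := (hmem _).mpr ⟨y.2, hy⟩
    rw [h, Subgroup.mem_bot] at h1
    exact Subgroup.mem_bot.mpr (Subtype.ext h1)
  · intro h hh m hm
    obtain ⟨hmH, hm'⟩ := (hmem m).mp hm
    exact (hmem _).mpr ⟨H.mul_mem (H.mul_mem hh hmH) (H.inv_mem hh),
      hM₀n.conj_mem ⟨m, hmH⟩ hm' ⟨h, hh⟩⟩
  · intro K hK hKinv
    have hK₀n : (K.subgroupOf H).Normal := ⟨fun k hk h => by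
      rw [Subgroup.mem_subgroupOf] at hk ⊢
      exact hKinv h.1 h.2 k.1 hk⟩
    have hK₀le : K.subgroupOf H ≤ M₀ := by
      intro k hk
      rw [Subgroup.mem_subgroupOf] at hk
      obtain ⟨_, h2⟩ := (hmem _).mp (hK hk)
      exact h2
    rcases hM₀min _ hK₀n hK₀le with h0 | h0
    · left
      rw [eq_bot_iff]
      intro k hk
      have hkH : k ∈ H := ((hmem k).mp (hK hk)).1
      have h1 : (⟨k, hkH⟩ : H) ∈ K.subgroupOf H := Subgroup.mem_subgroupOf.mpr hk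
      rw [h0, Subgroup.mem_bot] at h1
      exact Subgroup.mem_bot.mpr (congrArg Subtype.val h1)
    · right
      apply le_antisymm hK
      intro m hm
      obtain ⟨hmH, hm'⟩ := (hmem m).mp hm
      rw [← h0, Subgroup.mem_subgroupOf] at hm'
      exact hm'
  · intro x hx y hy
    obtain ⟨hxH, hx'⟩ := (hmem x).mp hx
    obtain ⟨hyH, hy'⟩ := (hmem y).mp hy
    exact congrArg Subtype.val (hab _ hx' _ hy')
  · intro x hx
    obtain ⟨hxH, hx'⟩ := (hmem x).mp hx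
    exact congrArg Subtype.val (hexp _ hx')

set_option maxHeartbeats 1600000 in
theorem core {G : Type*} [Group G] [Finite G] {Ω : Type*} [Finite Ω] [MulAction G Ω]
    [FaithfulSMul G Ω] [Group.IsSolvable G] (p d : ℕ) (hp : p.Prime) (hcard : Nat.card Ω = p ^ d)
    (hprim : MulAction.IsPreprimitive G Ω) (α : Ω) (H : Subgroup G)
    (hHα : ∀ g : G, g ∈ H ↔ g • α = α) (hH : H ≠ ⊥)
    (hep : ∀ ω : Ω, MulAction.IsPreprimitive H (MulAction.orbit H ω)) :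
    ∃ q : ℕ, q.Prime ∧ (∀ ω : Ω, ω ≠ α → Nat.card (MulAction.orbit H ω) = q) ∧
      q ∣ p ^ d - 1 ∧ (∀ i : ℕ, 0 < i → i < d → ¬ q ∣ p ^ i - 1) ∧
      ∃ T : Subgroup G, T ≤ H ∧ H ≤ Subgroup.normalizer (T : Set G) ∧ Nat.card T = q ∧
        (∃ h : G, H = T ⊔ Subgroup.zpowers h) ∧ Nat.card H ∣ q * d := by
  classical
  haveI : Nontrivial G := by
    obtain ⟨h, hh, hne⟩ : ∃ h ∈ H, h ≠ 1 := by
      by_contra hcon
      push Not at hcon
      exact hH ((Subgroup.eq_bot_iff_forall H).mpr hcon)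
    exact ⟨⟨h, 1, hne⟩⟩
  obtain ⟨N, hNn, hNne, hNmin, hNab, ⟨q₀, hq₀, hNexp⟩, hNtr, hNreg⟩ :=
    exists_regular_normal (Ω := Ω) hprim
  haveI := hNn
  have hNH : ∀ n ∈ N, n ∈ H → n = 1 := fun n hn hnH => hNreg α n hn ((hHα n).mp hnH)
  have hNcard : Nat.card N = p ^ d := by
    rw [← hcard]
    apply Nat.card_congr
    refine Equiv.ofBijective (fun n : N => (n : G) • α) ⟨?_, ?_⟩
    · intro a b hab
      have hab' : (a : G) • α = (b : G) • α := hab
      have h1 : ((a : G)⁻¹ * (b : G)) • α = α := by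
        rw [mul_smul, ← hab', inv_smul_smul]
      have h2 := hNreg α _ (N.mul_mem (N.inv_mem a.2) b.2) h1
      exact Subtype.ext (inv_mul_eq_one.mp h2)
    · intro ω
      obtain ⟨n, hn, hnω⟩ := hNtr α ω
      exact ⟨⟨n, hn⟩, hnω⟩
  obtain ⟨n₀, hn₀N, hn₀ne⟩ : ∃ n ∈ N, n ≠ 1 := by
    by_contra hcon
    push Not at hcon
    exact hNne ((Subgroup.eq_bot_iff_forall N).mpr hcon)
  have hq₀dvd : q₀ ∣ p ^ d := by
    have h1 : orderOf n₀ ∣ q₀ := orderOf_dvd_of_pow_eq_one (hNexp n₀ hn₀N)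
    have h2 : orderOf n₀ = q₀ := by
      rcases (Nat.dvd_prime hq₀).mp h1 with h | h
      · exact absurd (orderOf_eq_one_iff.mp h) hn₀ne
      · exact h
    have h3 : orderOf (⟨n₀, hn₀N⟩ : N) ∣ Nat.card N := orderOf_dvd_natCard _
    rwa [Subgroup.orderOf_mk, h2, hNcard] at h3
  have hq₀p : q₀ = p := (Nat.prime_dvd_prime_iff_eq hq₀ hp).mp (hq₀.dvd_of_dvd_pow hq₀dvd)
  have hd : 0 < d := by
    rcases Nat.eq_zero_or_pos d with h | h
    · rw [h, pow_zero] at hq₀dvd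
      exact absurd (Nat.dvd_one.mp hq₀dvd) hq₀.one_lt.ne'
    · exact h
  have hNexp' : ∀ x ∈ N, x ^ p = 1 := by
    rw [← hq₀p]; exact hNexp
  have hfac : ∀ g : G, ∃ n ∈ N, ∃ h ∈ H, g = n * h := by
    intro g
    obtain ⟨n, hn, hnα⟩ := hNtr α (g • α)
    refine ⟨n, hn, n⁻¹ * g, (hHα _).mpr ?_, by group⟩
    rw [mul_smul, ← hnα, inv_smul_smul]
  obtain ⟨M, hMH, hMne, hMinv, hMmin, hMab, r, hr, hMexp⟩ := exists_min_invariant H hH
  -- the centraliser of `M` in `N` is trivial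
  have hC : ∀ n ∈ N, (∀ m ∈ M, m * n = n * m) → n = 1 := by
    obtain ⟨C, hCmem⟩ : ∃ C : Subgroup G, ∀ x, x ∈ C ↔ x ∈ N ∧ ∀ m ∈ M, m * x = x * m :=
      ⟨N ⊓ Subgroup.centralizer (M : Set G), fun x =>
        ⟨fun hx => ⟨(Subgroup.mem_inf.mp hx).1, fun m hm =>
            (Subgroup.mem_centralizer_iff.mp (Subgroup.mem_inf.mp hx).2) m hm⟩,
          fun hx => Subgroup.mem_inf.mpr ⟨hx.1,
            Subgroup.mem_centralizer_iff.mpr (fun m hm => hx.2 m hm)⟩⟩⟩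
    have hCn : C.Normal := by
      constructor
      intro c hc g
      obtain ⟨hcN, hcM⟩ := (hCmem c).mp hc
      obtain ⟨n, hn, h, hh, rfl⟩ := hfac g
      have h1 : h * c * h⁻¹ ∈ N := hNn.conj_mem c hcN h
      have h2 : n * h * c * (n * h)⁻¹ = h * c * h⁻¹ := by
        have h2' := hNab n hn (h * c * h⁻¹) h1
        calc n * h * c * (n * h)⁻¹ = n * (h * c * h⁻¹) * n⁻¹ := by group
          _ = (h * c * h⁻¹) * n * n⁻¹ := by rw [h2']
          _ = h * c * h⁻¹ := by group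
      rw [h2]
      refine (hCmem _).mpr ⟨h1, ?_⟩
      intro m hm
      have h3 : h⁻¹ * m * h ∈ M := by
        have h3' := hMinv h⁻¹ (H.inv_mem hh) m hm
        rwa [inv_inv] at h3'
      have h4 := hcM _ h3
      calc m * (h * c * h⁻¹) = h * ((h⁻¹ * m * h) * c) * h⁻¹ := by group
        _ = h * (c * (h⁻¹ * m * h)) * h⁻¹ := by rw [h4]
        _ = h * c * h⁻¹ * m := by group
    have hCle : C ≤ N := fun x hx => ((hCmem x).mp hx).1
    rcases hNmin C hCn hCle with h0 | h0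
    · intro n hn hnM
      have h1 : n ∈ C := (hCmem n).mpr ⟨hn, hnM⟩
      rw [h0, Subgroup.mem_bot] at h1
      exact h1
    · exfalso
      apply hMne
      rw [eq_bot_iff]
      intro m hm
      rw [Subgroup.mem_bot]
      apply FaithfulSMul.eq_of_smul_eq_smul (α := Ω)
      intro ω
      obtain ⟨n, hn, rfl⟩ := hNtr α ω
      have hnC : n ∈ C := by rw [h0]; exact hn
      have h5 := ((hCmem n).mp hnC).2 m hm
      rw [one_smul, smul_smul, h5, ← smul_smul, (hHα m).mp (hMH hm)]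
  -- `M` fixes only `α`
  have hMfix : ∀ ω : Ω, (∀ m ∈ M, m • ω = ω) → ω = α := by
    intro ω hω
    obtain ⟨n, hn, rfl⟩ := hNtr α ω
    have hn1 : n = 1 := by
      apply hC n hn
      intro m hm
      have h1 : n⁻¹ * m * n ∈ H := by
        rw [hHα, mul_smul, mul_smul, hω m hm, inv_smul_smul]
      have h2 : n⁻¹ * m * n * m⁻¹ ∈ H := H.mul_mem h1 (H.inv_mem (hMH hm))
      have h3 : n⁻¹ * (m * n * m⁻¹) ∈ N := N.mul_mem (N.inv_mem hn) (hNn.conj_mem n hn m)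
      have h4 : n⁻¹ * m * n * m⁻¹ = 1 := by
        apply hNH
        · have e : n⁻¹ * m * n * m⁻¹ = n⁻¹ * (m * n * m⁻¹) := by group
          rw [e]; exact h3
        · exact h2
      calc m * n = n * (n⁻¹ * m * n * m⁻¹) * m := by group
        _ = n * m := by rw [h4, mul_one]
    rw [hn1, one_smul]
  -- `M` is transitive on every `H`-orbit other than `{α}`
  have hMtr : ∀ ω : Ω, ω ≠ α → ∀ h ∈ H, ∃ m ∈ M, m • ω = h • ω := by
    intro ω hω h hh
    haveI := hep ω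
    haveI hM'n : (M.subgroupOf H).Normal := ⟨fun k hk g => by
      rw [Subgroup.mem_subgroupOf] at hk ⊢
      exact hMinv g.1 g.2 k.1 hk⟩
    have hfp : MulAction.fixedPoints (M.subgroupOf H) (MulAction.orbit H ω) ≠ Set.univ := by
      intro htop
      apply hω
      apply hMfix
      intro m hm
      have h1 : (⟨ω, MulAction.mem_orbit_self ω⟩ : MulAction.orbit H ω) ∈
          MulAction.fixedPoints (M.subgroupOf H) (MulAction.orbit H ω) := by
        rw [htop]; exact Set.mem_univ _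
      have h2 := h1 ⟨⟨m, hMH hm⟩, Subgroup.mem_subgroupOf.mpr hm⟩
      exact congrArg Subtype.val h2
    haveI := MulAction.IsQuasiPreprimitive.isPretransitive_of_normal hfp
    obtain ⟨k, hk⟩ := MulAction.exists_smul_eq (M.subgroupOf H)
      (⟨ω, MulAction.mem_orbit_self ω⟩ : MulAction.orbit H ω) ⟨h • ω, ⟨⟨h, hh⟩, rfl⟩⟩
    refine ⟨k.1.1, Subgroup.mem_subgroupOf.mp k.2, ?_⟩
    exact congrArg Subtype.val hk
  -- `M` is semiregular off `α`
  have hMsemi : ∀ ω : Ω, ω ≠ α → ∀ m ∈ M, m • ω = ω → m = 1 := by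
    intro ω hω
    obtain ⟨K, hKmem⟩ : ∃ K : Subgroup G,
        ∀ x, x ∈ K ↔ x ∈ M ∧ ∀ h ∈ H, x • (h • ω) = h • ω := by
      refine ⟨{ carrier := {x | x ∈ M ∧ ∀ h ∈ H, x • (h • ω) = h • ω}
                mul_mem' := ?_, one_mem' := ?_, inv_mem' := ?_ }, fun x => Iff.rfl⟩
      · rintro a b ⟨ha, ha'⟩ ⟨hb, hb'⟩
        exact ⟨M.mul_mem ha hb, fun h hh => by rw [mul_smul, hb' h hh, ha' h hh]⟩
      · exact ⟨M.one_mem, fun h hh => one_smul _ _⟩
      · rintro a ⟨ha, ha'⟩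
        exact ⟨M.inv_mem ha, fun h hh => by rw [inv_smul_eq_iff, ha' h hh]⟩
    have hKle : K ≤ M := fun x hx => ((hKmem x).mp hx).1
    have hKinv : ∀ h ∈ H, ∀ k ∈ K, h * k * h⁻¹ ∈ K := by
      intro h hh k hk
      obtain ⟨hkM, hk'⟩ := (hKmem k).mp hk
      refine (hKmem _).mpr ⟨hMinv h hh k hkM, fun g hg => ?_⟩
      have h1 := hk' (h⁻¹ * g) (H.mul_mem (H.inv_mem hh) hg)
      rw [mul_smul, mul_smul, ← mul_smul h⁻¹ g, h1, smul_smul, mul_inv_cancel_left]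
    rcases hMmin K hKle hKinv with h0 | h0
    · intro m hm hmω
      have h1 : m ∈ K := by
        refine (hKmem m).mpr ⟨hm, fun h hh => ?_⟩
        obtain ⟨m', hm', hm'ω⟩ := hMtr ω hω h hh
        rw [← hm'ω, smul_smul, hMab m hm m' hm', ← smul_smul, hmω]
      rw [h0, Subgroup.mem_bot] at h1
      exact h1
    · exfalso
      apply hω
      apply hMfix
      intro m hm
      have h1 : m ∈ K := by rw [h0]; exact hm
      have h2 := ((hKmem m).mp h1).2 1 H.one_mem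
      rwa [one_smul] at h2
  -- congruence
  haveI : Fact r.Prime := ⟨hr⟩
  have hmod : p ^ d ≡ 1 [MOD r] := by
    have hPG : IsPGroup r M := by
      intro m
      refine ⟨1, ?_⟩
      rw [pow_one]
      exact Subtype.ext (hMexp m.1 m.2)
    have h1 := hPG.card_modEq_card_fixedPoints Ω
    have h2 : MulAction.fixedPoints M Ω = {α} := by
      ext ω
      rw [Set.mem_singleton_iff]
      constructor
      · intro hω
        exact hMfix ω (fun m hm => hω ⟨m, hm⟩)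
      · rintro rfl m
        exact (hHα m.1).mp (hMH m.2)
    have h3 : Nat.card (({α} : Set Ω)) = 1 := Nat.card_unique
    rw [h2, hcard, h3] at h1
    exact h1
  have hrp : r ≠ p := by
    intro h
    have h1 : p ^ d ≡ 0 [MOD r] :=
      Nat.modEq_zero_iff_dvd.mpr (by rw [← h]; exact dvd_pow_self r hd.ne')
    have h2 : (1 : ℕ) ≡ 0 [MOD r] := hmod.symm.trans h1
    have h3 := Nat.modEq_zero_iff_dvd.mp h2
    exact hr.one_lt.ne' (Nat.dvd_one.mp h3)
  have hqdvd : r ∣ p ^ d - 1 := by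
    have h1 : 1 ≤ p ^ d := Nat.one_le_pow _ _ hp.pos
    exact (Nat.modEq_iff_dvd' h1).mp hmod.symm
  have hord : ∀ m ∈ M, m ≠ 1 → orderOf m = r := by
    intro m hm hm1
    rcases (Nat.dvd_prime hr).mp (orderOf_dvd_of_pow_eq_one (hMexp m hm)) with h | h
    · exact absurd (orderOf_eq_one_iff.mp h) hm1
    · exact h
  -- fixed-point-free action on `N`
  have hfpf : ∀ m ∈ M, m ≠ 1 → ∀ n ∈ N, m * n * m⁻¹ = n → n = 1 := by
    intro m hm hm1 n hn hmn
    by_contra hn1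
    have hω : n • α ≠ α := fun h => hn1 (hNreg α n hn h)
    apply hm1
    apply hMsemi (n • α) hω m hm
    have hmα : m • α = α := (hHα m).mp (hMH hm)
    have e : (m * n * m⁻¹) • m • α = m • n • α := by
      rw [smul_smul, inv_mul_cancel_right, mul_smul]
    rw [← e, hmn, hmα]
  obtain ⟨ψ, hψ⟩ : ∃ ψ : G →* MulAut N, ∀ (g : G) (n : N), ((ψ g n : N) : G) = g * n * g⁻¹ :=
    ⟨MulAut.conjNormal, fun g n => rfl⟩
  have hψfix : ∀ m ∈ M, m ≠ 1 → ∀ n : N, ψ m n = n → n = 1 := by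
    intro m hm hm1 n h
    have h1 := congrArg Subtype.val h
    rw [hψ] at h1
    exact Subtype.ext (hfpf m hm hm1 n.1 n.2 h1)
  have hNcomm : ∀ x y : N, x * y = y * x := fun x y => Subtype.ext (hNab x.1 x.2 y.1 y.2)
  -- `M` is cyclic
  have hcyc : ∀ a₀ ∈ M, a₀ ≠ 1 → ∀ b₀ ∈ M, b₀ ∈ Subgroup.zpowers a₀ := by
    intro a₀ ha₀ ha₀1 b₀ hb₀
    by_contra hb
    have hnr : ∀ n : N, n ^ r = 1 := by
      intro n
      refine IrrCyc.norm_trick_V (V := ↥N) hNcomm hr.pos (ψ a₀) (ψ b₀) ?_ ?_ ?_ ?_ ?_ n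
      · show ψ a₀ * ψ b₀ = ψ b₀ * ψ a₀
        rw [← map_mul, ← map_mul, hMab a₀ ha₀ b₀ hb₀]
      · rw [← map_pow, hMexp a₀ ha₀, map_one]
      · rw [← map_pow, hMexp b₀ hb₀, map_one]
      · intro i hi0 hir n hn
        rw [← map_pow] at hn
        refine hψfix (a₀ ^ i) (M.pow_mem ha₀ i) ?_ n hn
        intro h
        have h1 : orderOf a₀ ∣ i := orderOf_dvd_of_pow_eq_one h
        rw [hord a₀ ha₀ ha₀1] at h1
        exact absurd (Nat.le_of_dvd hi0 h1) (by omega)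
      · intro j n hn
        rw [← map_pow, ← map_mul] at hn
        refine hψfix (a₀ ^ j * b₀) (M.mul_mem (M.pow_mem ha₀ j) hb₀) ?_ n hn
        intro h
        apply hb
        have h1 : b₀ = (a₀ ^ j)⁻¹ := eq_inv_of_mul_eq_one_right h
        rw [h1]
        exact (Subgroup.zpowers a₀).inv_mem (Subgroup.npow_mem_zpowers a₀ j)
    have h1 : orderOf n₀ ∣ r :=
      orderOf_dvd_of_pow_eq_one (congrArg Subtype.val (hnr ⟨n₀, hn₀N⟩))
    have h2 : orderOf n₀ ∣ p := orderOf_dvd_of_pow_eq_one (hNexp' n₀ hn₀N)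
    have h3 : orderOf n₀ = 1 := by
      rcases (Nat.dvd_prime hr).mp h1 with h | h
      · exact h
      · rw [h] at h2
        exact absurd ((Nat.prime_dvd_prime_iff_eq hr hp).mp h2) hrp
    exact hn₀ne (orderOf_eq_one_iff.mp h3)
  obtain ⟨a₀, ha₀, ha₀1⟩ : ∃ a ∈ M, a ≠ 1 := by
    by_contra hcon
    push Not at hcon
    exact hMne ((Subgroup.eq_bot_iff_forall M).mpr hcon)
  have hMz : M = Subgroup.zpowers a₀ :=
    le_antisymm (fun b hb => hcyc a₀ ha₀ ha₀1 b hb) (Subgroup.zpowers_le.mpr ha₀)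
  have horda : orderOf a₀ = r := hord a₀ ha₀ ha₀1
  have hMcard : Nat.card M = r := by
    rw [hMz, Nat.card_zpowers, horda]
  have hMpow : ∀ m ∈ M, ∃ k : ℕ, a₀ ^ k = m := by
    intro m hm
    rw [hMz] at hm
    exact (Submonoid.mem_powers_iff m a₀).mp (mem_powers_iff_mem_zpowers.mpr hm)
  -- orbit sizes
  have horb : ∀ ω : Ω, ω ≠ α → Nat.card (MulAction.orbit H ω) = r := by
    intro ω hω
    have h1 := Cfsg.Agent.Helper19.orbit_card_mul M ω
    have h2 : M ⊓ MulAction.stabilizer G ω = ⊥ := by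
      rw [eq_bot_iff]
      intro m hm
      rw [Subgroup.mem_bot]
      exact hMsemi ω hω m (Subgroup.mem_inf.mp hm).1
        (MulAction.mem_stabilizer_iff.mp (Subgroup.mem_inf.mp hm).2)
    have h3 : {u : Ω | ∃ k ∈ M, k • ω = u} = MulAction.orbit H ω := by
      ext u
      constructor
      · rintro ⟨k, hk, rfl⟩
        exact ⟨⟨k, hMH hk⟩, rfl⟩
      · rintro ⟨h, rfl⟩
        obtain ⟨m, hm, hmω⟩ := hMtr ω hω h.1 h.2
        exact ⟨m, hm, hmω⟩
    rw [h2, Subgroup.card_bot, mul_one, h3, hMcard] at h1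
    exact h1
  -- conjugation by `H` on `N` agrees elementwise with conjugation by `M`
  have hconj : ∀ h ∈ H, ∀ n ∈ N, ∃ m ∈ M, h * n * h⁻¹ = m * n * m⁻¹ := by
    intro h hh n hn
    by_cases hn1 : n = 1
    · exact ⟨1, M.one_mem, by rw [hn1]; group⟩
    · have hω : n • α ≠ α := fun h' => hn1 (hNreg α n hn h')
      obtain ⟨m, hm, hmω⟩ := hMtr (n • α) hω h hh
      refine ⟨m, hm, ?_⟩
      have h1 : h * n * h⁻¹ ∈ N := hNn.conj_mem n hn h
      have h2 : m * n * m⁻¹ ∈ N := hNn.conj_mem n hn m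
      have h3 : (h * n * h⁻¹) • α = (m * n * m⁻¹) • α := by
        have e1 : (h * n * h⁻¹) • α = h • n • α := by
          rw [mul_smul, mul_smul, inv_smul_eq_iff.mpr ((hHα h).mp hh).symm]
        have e2 : (m * n * m⁻¹) • α = m • n • α := by
          rw [mul_smul, mul_smul, inv_smul_eq_iff.mpr ((hHα m).mp (hMH hm)).symm]
        rw [e1, e2, hmω]
      have h4 : ((m * n * m⁻¹)⁻¹ * (h * n * h⁻¹)) • α = α := by
        rw [mul_smul, h3, inv_smul_smul]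
      have h5 := hNreg α _ (N.mul_mem (N.inv_mem h2) h1) h4
      exact (inv_mul_eq_one.mp h5).symm
  -- irreducibility
  have hirr : ∀ B : Subgroup N, (∀ v ∈ B, ψ a₀ v ∈ B) → B = ⊥ ∨ B = ⊤ := by
    intro B hB
    have hBpow : ∀ k : ℕ, ∀ v ∈ B, ψ (a₀ ^ k) v ∈ B := by
      intro k
      induction k with
      | zero =>
        intro v hv
        rw [pow_zero, map_one]
        exact hv
      | succ k ih =>
        intro v hv
        rw [pow_succ', map_mul]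
        exact hB _ (ih v hv)
    have hBM : ∀ m ∈ M, ∀ v ∈ B, ψ m v ∈ B := by
      intro m hm v hv
      obtain ⟨k, rfl⟩ := hMpow m hm
      exact hBpow k v hv
    have hBn : (B.map N.subtype).Normal := by
      constructor
      rintro _ ⟨b, hb, rfl⟩ g
      obtain ⟨n, hn, h, hh, rfl⟩ := hfac g
      obtain ⟨m, hm, hmb⟩ := hconj h hh b.1 b.2
      have h1 : h * (b : G) * h⁻¹ ∈ N := hNn.conj_mem b.1 b.2 h
      have h2 : n * h * (b : G) * (n * h)⁻¹ = m * (b : G) * m⁻¹ := by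
        have h2' := hNab n hn (h * (b : G) * h⁻¹) h1
        calc n * h * (b : G) * (n * h)⁻¹ = n * (h * (b : G) * h⁻¹) * n⁻¹ := by group
          _ = (h * (b : G) * h⁻¹) * n * n⁻¹ := by rw [h2']
          _ = h * (b : G) * h⁻¹ := by group
          _ = m * (b : G) * m⁻¹ := hmb
      have h3 : n * h * N.subtype b * (n * h)⁻¹ = N.subtype (ψ m b) := by
        show n * h * (b : G) * (n * h)⁻¹ = ((ψ m b : N) : G)
        rw [hψ]; exact h2
      rw [h3]
      exact Subgroup.mem_map_of_mem _ (hBM m hm b hb)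
    rcases hNmin _ hBn (by rintro _ ⟨b, -, rfl⟩; exact b.2) with h0 | h0
    · left
      rw [eq_bot_iff]
      intro b hb
      have h1 : (b : G) ∈ B.map N.subtype := ⟨b, hb, rfl⟩
      rw [h0, Subgroup.mem_bot] at h1
      exact Subgroup.mem_bot.mpr (Subtype.ext h1)
    · right
      rw [eq_top_iff]
      intro b _
      have h1 : (b : G) ∈ B.map N.subtype := by rw [h0]; exact b.2
      obtain ⟨b', hb', hbb'⟩ := h1
      have h2 : b' = b := Subtype.ext hbb'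
      rw [← h2]; exact hb'
  have hψr : ψ a₀ ^ r = 1 := by rw [← map_pow, hMexp a₀ ha₀, map_one]
  have hppd : ∀ i : ℕ, 0 < i → i < d → ¬ r ∣ p ^ i - 1 := by
    intro i hi0 hid
    exact IrrCyc.no_ppd_V (V := ↥N) hNcomm hp (fun v => Subtype.ext (hNexp' v.1 v.2)) hNcard
      (ψ a₀) hirr hψr i hi0 hid
  -- the stabiliser of a second point
  have hω₀ : n₀ • α ≠ α := fun h => hn₀ne (hNreg α n₀ hn₀N h)
  obtain ⟨A', hA'def⟩ : ∃ A' : Subgroup G, A' = H ⊓ MulAction.stabilizer G (n₀ • α) := ⟨_, rfl⟩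
  have hA'H : A' ≤ H := by rw [hA'def]; exact inf_le_left
  have hA'fix : ∀ x ∈ A', x * n₀ * x⁻¹ = n₀ := by
    intro x hx
    rw [hA'def] at hx
    have hxH : x ∈ H := (Subgroup.mem_inf.mp hx).1
    have hxω : x • n₀ • α = n₀ • α := MulAction.mem_stabilizer_iff.mp (Subgroup.mem_inf.mp hx).2
    have h1 : x * n₀ * x⁻¹ ∈ N := hNn.conj_mem n₀ hn₀N x
    have h2 : (n₀⁻¹ * (x * n₀ * x⁻¹)) • α = α := by
      rw [mul_smul, mul_smul, mul_smul, inv_smul_eq_iff.mpr ((hHα x).mp hxH).symm, hxω,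
        inv_smul_smul]
    have h3 := hNreg α _ (N.mul_mem (N.inv_mem hn₀N) h1) h2
    exact (inv_mul_eq_one.mp h3).symm
  have hcent : ∀ h ∈ H, (∀ n ∈ N, h * n * h⁻¹ = n) → h = 1 := by
    intro h hh hc
    apply FaithfulSMul.eq_of_smul_eq_smul (α := Ω)
    intro ω
    obtain ⟨n, hn, rfl⟩ := hNtr α ω
    have h1 : h * n = n * h := by
      have h1' := hc n hn
      calc h * n = h * n * h⁻¹ * h := by group
        _ = n * h := by rw [h1']
    rw [one_smul, smul_smul, h1, ← smul_smul, (hHα h).mp hh]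
  obtain ⟨ρ, hρ⟩ : ∃ ρ : A' →* MulAut N, ∀ h : A', ρ h = ψ h.1 :=
    ⟨ψ.comp A'.subtype, fun _ => rfl⟩
  have hnorm : ∀ h : A', ∃ k : ℕ, ρ h * ψ a₀ * (ρ h)⁻¹ = ψ a₀ ^ k := by
    intro h
    obtain ⟨k, hk⟩ := hMpow _ (hMinv h.1 (hA'H h.2) a₀ ha₀)
    refine ⟨k, ?_⟩
    rw [hρ, ← map_inv, ← map_mul, ← map_mul, ← map_pow, hk]
  have hfixρ : ∀ h : A', ρ h ⟨n₀, hn₀N⟩ = ⟨n₀, hn₀N⟩ := by
    intro h
    apply Subtype.ext
    rw [hρ, hψ]
    exact hA'fix h.1 h.2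
  have hinj : Function.Injective ρ := by
    intro g h hgh
    have h1 : g.1⁻¹ * h.1 = 1 := by
      apply hcent _ (H.mul_mem (H.inv_mem (hA'H g.2)) (hA'H h.2))
      intro n hn
      have h2 : ψ g.1 ⟨n, hn⟩ = ψ h.1 ⟨n, hn⟩ := by rw [← hρ, ← hρ, hgh]
      have h3 : g.1 * n * g.1⁻¹ = h.1 * n * h.1⁻¹ := by
        have h3' := congrArg Subtype.val h2
        rwa [hψ, hψ] at h3'
      calc g.1⁻¹ * h.1 * n * (g.1⁻¹ * h.1)⁻¹ = g.1⁻¹ * (h.1 * n * h.1⁻¹) * g.1 := by group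
        _ = g.1⁻¹ * (g.1 * n * g.1⁻¹) * g.1 := by rw [h3]
        _ = n := by group
    exact Subtype.ext (inv_mul_eq_one.mp h1)
  obtain ⟨hAcyc, hAdvd⟩ := IrrCyc.cyclic_V (V := ↥N) (A := ↥A') hNcomm hp hNcard (ψ a₀) hirr ρ
    hnorm ⟨n₀, hn₀N⟩ (fun h => hn₀ne (congrArg Subtype.val h)) hfixρ hinj
  haveI := hAcyc
  obtain ⟨g₀, hg₀⟩ := IsCyclic.exists_generator (α := ↥A')
  have hsup : H = M ⊔ Subgroup.zpowers (g₀ : G) := by
    apply le_antisymm
    · intro x hx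
      obtain ⟨m, hm, hmω⟩ := hMtr (n₀ • α) hω₀ x hx
      have hy : m⁻¹ * x ∈ A' := by
        rw [hA'def]
        refine Subgroup.mem_inf.mpr ⟨H.mul_mem (H.inv_mem (hMH hm)) hx, ?_⟩
        rw [MulAction.mem_stabilizer_iff, mul_smul, ← hmω, inv_smul_smul]
      obtain ⟨j, hj⟩ := Subgroup.mem_zpowers_iff.mp (hg₀ ⟨m⁻¹ * x, hy⟩)
      have hj' : (g₀ : G) ^ j = m⁻¹ * x := by
        have hj'' := congrArg Subtype.val hj
        rwa [Subgroup.coe_zpow] at hj''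
      have h7 : m * (m⁻¹ * x) ∈ M ⊔ Subgroup.zpowers (g₀ : G) :=
        Subgroup.mul_mem_sup hm (Subgroup.mem_zpowers_iff.mpr ⟨j, hj'⟩)
      rwa [mul_inv_cancel_left] at h7
    · exact sup_le hMH (Subgroup.zpowers_le.mpr (hA'H g₀.2))
  have hHcard : Nat.card H = r * Nat.card A' := by
    have h1 := Cfsg.Agent.Helper19.orbit_card_mul H (n₀ • α)
    have h3 : {u : Ω | ∃ k ∈ H, k • n₀ • α = u} = MulAction.orbit H (n₀ • α) := by
      ext u
      constructor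
      · rintro ⟨k, hk, rfl⟩
        exact ⟨⟨k, hk⟩, rfl⟩
      · rintro ⟨h, rfl⟩
        exact ⟨h.1, h.2, rfl⟩
    rw [h3, horb _ hω₀, ← hA'def] at h1
    exact h1.symm
  refine ⟨r, hr, horb, hqdvd, hppd, M, hMH, Subgroup.le_normalizer_iff.mpr hMinv, hMcard,
    ⟨(g₀ : G), hsup⟩, ?_⟩
  rw [hHcard]
  exact Nat.mul_dvd_mul_left r hAdvd

end Cfsg.Agent.Helper19.ExtPrim
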