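import Mathlib
import Cfsg.Agent.Helper19.Derange2

set_option autoImplicit false

namespace Cfsg.Agent.Helper19

open scoped Pointwise

/-- In a faithful transitive action the centre acts freely, so its order divides the number of
fixed points of any element. -/
theorem center_card_dvd_fixedBy {G : Type*} [Group G] [Finite G] {Ω : Type*} [Finite Ω]
    [MulAction G Ω] [FaithfulSMul G Ω] (htr : MulAction.IsPretransitive G Ω) (g : G) :
    Nat.card (Subgroup.center G) ∣ Nat.card (MulAction.fixedBy Ω g) := by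
  let _ : MulAction (Subgroup.center G) (MulAction.fixedBy Ω g) :=
    { smul := fun z ω => ⟨(z : G) • (ω : Ω), by
        have hω : g • (ω : Ω) = ω := ω.2
        show g • ((z : G) • (ω : Ω)) = (z : G) • (ω : Ω)
        rw [← mul_smul, Subgroup.mem_center_iff.mp z.2 g, mul_smul, hω]⟩
      one_smul := fun ω => Subtype.ext (one_smul G (ω : Ω))
      mul_smul := fun a b ω => Subtype.ext (mul_smul (a : G) (b : G) (ω : Ω)) }
  apply dvd_card_of_dvd_orbits (S := Subgroup.center G)
  intro y
  have hstab : MulAction.stabilizer (Subgroup.center G) y = ⊥ := by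
    rw [eq_bot_iff]
    intro z hz
    rw [Subgroup.mem_bot]
    have hzy : (z : G) • (y : Ω) = y := congrArg Subtype.val (MulAction.mem_stabilizer_iff.mp hz)
    have hz1 : (z : G) = 1 := by
      apply FaithfulSMul.eq_of_smul_eq_smul (α := Ω)
      intro ω
      obtain ⟨h, rfl⟩ := MulAction.exists_smul_eq G (y : Ω) ω
      rw [one_smul, ← mul_smul, ← Subgroup.mem_center_iff.mp z.2 h, mul_smul, hzy]
    exact Subtype.ext hz1
  rw [Nat.card_coe_set_eq, ← MulAction.index_stabilizer, hstab, Subgroup.index_bot]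

/-- Part (c): for a prime `p` exceeding the fixity, `p` cannot divide both the order and the
index of a point stabilizer. -/
theorem fixity_prime {G : Type*} [Group G] [Finite G] {Ω : Type*} [Finite Ω] [MulAction G Ω]
    (htr : MulAction.IsPretransitive G Ω) (k : ℕ)
    (hfix : ∀ g : G, g ≠ 1 → Nat.card (MulAction.fixedBy Ω g) ≤ k) (p : ℕ) (hp : p.Prime)
    (hkp : k < p) (α : Ω) (h1 : p ∣ Nat.card (MulAction.stabilizer G α))
    (h2 : p ∣ (MulAction.stabilizer G α).index) : False := by
  have hpf : Fact p.Prime := ⟨hp⟩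
  obtain ⟨x', hx'⟩ := exists_prime_orderOf_dvd_card' p h1
  have hxo : orderOf (x' : G) = p := by rw [Subgroup.orderOf_coe]; exact hx'
  have hx1 : (x' : G) ≠ 1 := fun h => by
    rw [h, orderOf_one] at hxo; exact hp.one_lt.ne hxo
  have hxp : IsPGroup p (Subgroup.zpowers (x' : G)) :=
    IsPGroup.of_card (n := 1) (by rw [Nat.card_zpowers, hxo, pow_one])
  have hmod := hxp.card_modEq_card_fixedPoints Ω
  have hΩ : p ∣ Nat.card Ω := by
    rw [← MulAction.index_stabilizer_of_transitive G α]; exact h2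
  have hdvd : p ∣ Nat.card (MulAction.fixedPoints (Subgroup.zpowers (x' : G)) Ω) :=
    (Nat.modEq_zero_iff_dvd).mp (hmod.symm.trans ((Nat.modEq_zero_iff_dvd).mpr hΩ))
  have hαmem : α ∈ MulAction.fixedPoints (Subgroup.zpowers (x' : G)) Ω := by
    rintro ⟨y, hy⟩
    have : y ∈ MulAction.stabilizer G α := (Subgroup.zpowers_le.mpr x'.2) hy
    exact this
  have hpos : 0 < Nat.card (MulAction.fixedPoints (Subgroup.zpowers (x' : G)) Ω) := by
    have : Nonempty (MulAction.fixedPoints (Subgroup.zpowers (x' : G)) Ω) := ⟨⟨α, hαmem⟩⟩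
    exact Nat.card_pos
  have hle : p ≤ Nat.card (MulAction.fixedPoints (Subgroup.zpowers (x' : G)) Ω) :=
    Nat.le_of_dvd hpos hdvd
  have hsub : MulAction.fixedPoints (Subgroup.zpowers (x' : G)) Ω
      ⊆ MulAction.fixedBy Ω (x' : G) := by
    intro ω hω
    exact hω ⟨(x' : G), Subgroup.mem_zpowers _⟩
  have hle2 : Nat.card (MulAction.fixedPoints (Subgroup.zpowers (x' : G)) Ω)
      ≤ Nat.card (MulAction.fixedBy Ω (x' : G)) := by
    rw [Nat.card_coe_set_eq, Nat.card_coe_set_eq]
    exact Set.ncard_le_ncard hsub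
  have := hfix _ hx1
  omega

/-- Part (b): a transitive group of fixity two has even order. -/
theorem even_of_fixity_two {G : Type*} [Group G] [Finite G] {Ω : Type*} [Finite Ω]
    [MulAction G Ω] (htr : MulAction.IsPretransitive G Ω)
    (hfix : ∀ g : G, g ≠ 1 → (MulAction.fixedBy Ω g).ncard ≤ 2)
    (hex : ∃ g : G, g ≠ 1 ∧ (MulAction.fixedBy Ω g).ncard = 2) : 2 ∣ Nat.card G := by
  by_contra hodd
  obtain ⟨g, hg1, hg2⟩ := hex
  obtain ⟨α, β, hαβ, hS⟩ := Set.ncard_eq_two.mp hg2
  have hoddfix : ∀ w : G, (w • α = α ∨ w • α = β) → (w • β = α ∨ w • β = β) →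
      w • α = α ∧ w • β = β := by
    intro w h1 h2
    have hα : w • α = α := by
      by_contra hne
      have hwα : w • α = β := h1.resolve_left hne
      have hwβ : w • β = α := by
        rcases h2 with h | h
        · exact h
        · exfalso; exact hαβ (MulAction.injective w (hwα.trans h.symm))
      have hord : ¬ 2 ∣ orderOf w := fun h => hodd (h.trans (orderOf_dvd_natCard w))
      obtain ⟨m, hm⟩ : ∃ m, orderOf w = 2 * m + 1 := ⟨orderOf w / 2, by omega⟩
      have hsq : ∀ j : ℕ, (w ^ (2 * j)) • α = α := by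
        intro j
        induction j with
        | zero => simp
        | succ j ih =>
          rw [show 2 * (j + 1) = 2 + 2 * j by ring, pow_add, mul_smul, ih, pow_two, mul_smul,
            hwα, hwβ]
      have h3 : w ^ (2 * m + 1) • α = β := by
        rw [pow_succ', mul_smul, hsq m, hwα]
      rw [← hm, pow_orderOf_eq_one, one_smul] at h3
      exact hαβ h3
    refine ⟨hα, ?_⟩
    rcases h2 with h | h
    · exfalso; exact hαβ (MulAction.injective w (hα.trans h.symm))
    · exact h
  have hpres : ∀ a b : G, a * b = b * a → ∀ ω : Ω, a • ω = ω → a • (b • ω) = b • ω := by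
    intro a b hab ω hω
    rw [← mul_smul, hab, mul_smul, hω]
  have hgo : orderOf g ≠ 1 := fun h => hg1 (orderOf_eq_one_iff.mp h)
  obtain ⟨p, hp, hpg⟩ := Nat.exists_prime_and_dvd hgo
  have hpf : Fact p.Prime := ⟨hp⟩
  obtain ⟨x, hxdef⟩ : ∃ x : G, x = g ^ (orderOf g / p) := ⟨_, rfl⟩
  have hxo : orderOf x = p := by
    rw [hxdef]; exact orderOf_pow_orderOf_div (orderOf_pos g).ne' hpg
  have hx1 : x ≠ 1 := fun h => by
    rw [h, orderOf_one] at hxo; exact hp.one_lt.ne hxo
  have hxS : MulAction.fixedBy Ω x = {α, β} := by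
    symm
    refine Set.eq_of_subset_of_ncard_le ?_ ?_ (Set.toFinite _)
    · rw [← hS, hxdef]
      intro ω hω
      have := MulAction.mem_fixedBy_zpow hω ((orderOf g / p : ℕ) : ℤ)
      rwa [zpow_natCast] at this
    · rw [Set.ncard_pair hαβ]; exact hfix x hx1
  have hxα : x • α = α := by
    have : α ∈ MulAction.fixedBy Ω x := by rw [hxS]; simp
    exact this
  have hxβ : x • β = β := by
    have : β ∈ MulAction.fixedBy Ω x := by rw [hxS]; simp
    exact this
  have hxmem : ∀ ω : Ω, x • ω = ω → ω = α ∨ ω = β := by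
    intro ω hω
    have : ω ∈ MulAction.fixedBy Ω x := hω
    rw [hxS] at this
    simpa using this
  have hxp : IsPGroup p (Subgroup.zpowers x) :=
    IsPGroup.of_card (n := 1) (by rw [Nat.card_zpowers, hxo, pow_one])
  obtain ⟨Q, hQ⟩ := hxp.exists_le_sylow
  have hxQ : x ∈ (Q : Subgroup G) := hQ (Subgroup.mem_zpowers x)
  have hnt : Nontrivial (Q : Subgroup G) :=
    ⟨⟨⟨x, hxQ⟩, 1, fun h => hx1 (congrArg Subtype.val h)⟩⟩
  have hcen : Nontrivial (Subgroup.center (Q : Subgroup G)) :=
    IsPGroup.center_nontrivial Q.isPGroup'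
  obtain ⟨⟨z', hz'⟩, hz'1⟩ := exists_ne (1 : Subgroup.center (Q : Subgroup G))
  have hz1 : (z' : G) ≠ 1 := by
    intro h; apply hz'1; exact Subtype.ext (Subtype.ext h)
  have hzcomm : ∀ q ∈ (Q : Subgroup G), q * (z' : G) = (z' : G) * q := by
    intro q hq
    have := Subgroup.mem_center_iff.mp hz' ⟨q, hq⟩
    exact congrArg Subtype.val this
  have hz := hoddfix (z' : G) (hxmem _ (hpres x z' (hzcomm x hxQ) α hxα))
    (hxmem _ (hpres x z' (hzcomm x hxQ) β hxβ))
  have hzS : MulAction.fixedBy Ω (z' : G) = {α, β} := by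
    symm
    refine Set.eq_of_subset_of_ncard_le ?_ ?_ (Set.toFinite _)
    · intro ω hω
      rcases hω with rfl | hω
      · exact hz.1
      · rw [Set.mem_singleton_iff] at hω; subst hω; exact hz.2
    · rw [Set.ncard_pair hαβ]; exact hfix _ hz1
  have hzmem : ∀ ω : Ω, (z' : G) • ω = ω → ω = α ∨ ω = β := by
    intro ω hω
    have : ω ∈ MulAction.fixedBy Ω (z' : G) := hω
    rw [hzS] at this
    simpa using this
  have hQfix : ∀ q ∈ (Q : Subgroup G), q • α = α ∧ q • β = β := by
    intro q hq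
    have hc : (z' : G) * q = q * (z' : G) := (hzcomm q hq).symm
    exact hoddfix q (hzmem _ (hpres z' q hc α hz.1)) (hzmem _ (hpres z' q hc β hz.2))
  have hNfix : ∀ n ∈ Subgroup.normalizer ((Q : Subgroup G) : Set G), n • α = α := by
    intro n hn
    have hmem : ∀ ω : Ω, (∀ q ∈ (Q : Subgroup G), q • ω = ω) → x • (n • ω) = n • ω := by
      intro ω hω
      have h1 : n⁻¹ * x * n ∈ (Q : Subgroup G) := by
        have := (Subgroup.mem_normalizer_iff.mp (inv_mem hn)) x
        rw [inv_inv] at this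
        exact this.mp hxQ
      have h2 := hω _ h1
      calc x • (n • ω) = n • ((n⁻¹ * x * n) • ω) := by simp [mul_smul]
        _ = n • ω := by rw [h2]
    exact (hoddfix n (hxmem _ (hmem α (fun q hq => (hQfix q hq).1)))
      (hxmem _ (hmem β (fun q hq => (hQfix q hq).2)))).1
  obtain ⟨h, hh⟩ := MulAction.exists_smul_eq G α β
  have h1 : (Q : Subgroup G) ≤ MulAction.stabilizer G β := fun q hq => (hQfix q hq).2
  have h2 : ((h • Q : Sylow p G) : Subgroup G) ≤ MulAction.stabilizer G β := by
    intro y hy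
    have hy' : y ∈ MulAut.conj h • (Q : Subgroup G) := hy
    rw [Subgroup.mem_pointwise_smul_iff_inv_smul_mem] at hy'
    have h3 := (hQfix _ hy').1
    have h4 : (h⁻¹ * y * h) • α = α := by
      simpa [MulAut.smul_def, MulAut.conj_inv_apply] using h3
    rw [mul_smul, mul_smul, inv_smul_eq_iff, hh] at h4
    exact h4
  obtain ⟨c, hc⟩ := MulAction.exists_smul_eq (MulAction.stabilizer G β)
    ((h • Q).subtype h2) (Q.subtype h1)
  simp_rw [Sylow.smul_subtype, Subgroup.smul_def, smul_smul] at hc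
  have hn : (c : G) * h ∈ Subgroup.normalizer ((Q : Subgroup G) : Set G) :=
    Sylow.smul_eq_iff_mem_normalizer.mp (Sylow.subtype_injective hc)
  have h5 := hNfix _ hn
  rw [mul_smul, hh] at h5
  have hcβ : (c : G) • β = β := c.2
  exact hαβ (h5.symm.trans hcβ)

end Cfsg.Agent.Helper19
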