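import Mathlib

set_option autoImplicit false

namespace Cfsg.Agent.Helper19

open scoped Classical

noncomputable section

section HammingDefs

set_option linter.unusedSectionVars false

variable {ι : Type*} [Fintype ι] {F : ι → Type*}

/-- Hamming distance on a product. -/
def hdist (x y : ∀ i, F i) : ℕ :=
  (Finset.univ.filter (fun i => x i ≠ y i)).card

theorem hdist_congr {x y x' y' : ∀ i, F i} (h : ∀ i, x' i ≠ y' i ↔ x i ≠ y i) :
    hdist x' y' = hdist x y := by
  unfold hdist
  congr 1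
  ext i
  simp only [Finset.mem_filter, Finset.mem_univ, true_and]
  exact h i

variable (F) in
/-- The group of Hamming isometries of a product. -/
def isoSub : Subgroup (Equiv.Perm (∀ i, F i)) where
  carrier := {σ | ∀ x y, hdist (σ x) (σ y) = hdist x y}
  mul_mem' := fun {a b} ha hb x y => (ha (b x) (b y)).trans (hb x y)
  one_mem' := fun x y => rfl
  inv_mem' := fun {a} ha x y => by
    have h := ha (a.symm x) (a.symm y)
    rw [Equiv.apply_symm_apply, Equiv.apply_symm_apply] at h
    exact h.symm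

/-- Swap two values in one coordinate. -/
def coordSwap (j : ι) (a b : F j) : Equiv.Perm (∀ i, F i) :=
  Function.Involutive.toPerm (fun x => Function.update x j (Equiv.swap a b (x j))) (by
    intro x
    show Function.update (Function.update x j (Equiv.swap a b (x j))) j
        (Equiv.swap a b ((Function.update x j (Equiv.swap a b (x j))) j)) = x
    rw [Function.update_self, Equiv.swap_apply_self, Function.update_idem,
      Function.update_eq_self])

theorem coordSwap_apply (j : ι) (a b : F j) (x : ∀ i, F i) :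
    coordSwap j a b x = Function.update x j (Equiv.swap a b (x j)) := rfl

theorem coordSwap_mem (j : ι) (a b : F j) : coordSwap j a b ∈ isoSub F := by
  intro x y
  apply hdist_congr
  intro i
  rw [coordSwap_apply, coordSwap_apply]
  by_cases h : i = j
  · subst h
    rw [Function.update_self, Function.update_self]
    exact not_congr (Equiv.swap a b).injective.eq_iff
  · rw [Function.update_of_ne h, Function.update_of_ne h]

theorem coordSwap_update (j : ι) (a b : F j) (y : ∀ i, F i) (hy : y j = a) :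
    coordSwap j a b y = Function.update y j b := by
  rw [coordSwap_apply, hy, Equiv.swap_apply_left]

/-- Exchange two coordinates along a bijection. -/
def exchFun (j k : ι) (φ : F j ≃ F k) (x : ∀ i, F i) : ∀ i, F i :=
  Function.update (Function.update x j (φ.symm (x k))) k (φ (x j))

theorem exchFun_k (j k : ι) (φ : F j ≃ F k) (x : ∀ i, F i) :
    exchFun j k φ x k = φ (x j) := by
  unfold exchFun
  rw [Function.update_self]

theorem exchFun_j {j k : ι} (hjk : j ≠ k) (φ : F j ≃ F k) (x : ∀ i, F i) :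
    exchFun j k φ x j = φ.symm (x k) := by
  unfold exchFun
  rw [Function.update_of_ne hjk, Function.update_self]

theorem exchFun_other {j k i : ι} (hj : i ≠ j) (hk : i ≠ k) (φ : F j ≃ F k) (x : ∀ i, F i) :
    exchFun j k φ x i = x i := by
  unfold exchFun
  rw [Function.update_of_ne hk, Function.update_of_ne hj]

theorem exchFun_invol {j k : ι} (hjk : j ≠ k) (φ : F j ≃ F k) :
    Function.Involutive (exchFun j k φ) := by
  intro x
  funext i
  by_cases hk : i = k
  · subst hk
    rw [exchFun_k, exchFun_j hjk, Equiv.apply_symm_apply]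
  · by_cases hj : i = j
    · subst hj
      rw [exchFun_j hjk, exchFun_k, Equiv.symm_apply_apply]
    · rw [exchFun_other hj hk, exchFun_other hj hk]

theorem exchFun_ne_iff {j k : ι} (hjk : j ≠ k) (φ : F j ≃ F k) (x y : ∀ i, F i) (i : ι) :
    exchFun j k φ x i ≠ exchFun j k φ y i ↔ x (Equiv.swap j k i) ≠ y (Equiv.swap j k i) := by
  by_cases hk : i = k
  · subst hk
    rw [Equiv.swap_apply_right, exchFun_k, exchFun_k]
    exact not_congr φ.injective.eq_iff
  · by_cases hj : i = j
    · subst hj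
      rw [Equiv.swap_apply_left, exchFun_j hjk, exchFun_j hjk]
      exact not_congr φ.symm.injective.eq_iff
    · rw [Equiv.swap_apply_of_ne_of_ne hj hk, exchFun_other hj hk, exchFun_other hj hk]

/-- The exchange map as a permutation. -/
def exchPerm {j k : ι} (hjk : j ≠ k) (φ : F j ≃ F k) : Equiv.Perm (∀ i, F i) :=
  Function.Involutive.toPerm (exchFun j k φ) (exchFun_invol hjk φ)

theorem exchPerm_apply {j k : ι} (hjk : j ≠ k) (φ : F j ≃ F k) (x : ∀ i, F i) :
    exchPerm hjk φ x = exchFun j k φ x := rfl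

theorem exchPerm_mem {j k : ι} (hjk : j ≠ k) (φ : F j ≃ F k) : exchPerm hjk φ ∈ isoSub F := by
  intro x y
  rw [exchPerm_apply, exchPerm_apply]
  unfold hdist
  apply Finset.card_bij (fun i _ => Equiv.swap j k i)
  · intro i hi
    rw [Finset.mem_filter] at hi ⊢
    exact ⟨Finset.mem_univ _, (exchFun_ne_iff hjk φ x y i).mp hi.2⟩
  · intro i _ i' _ h
    exact (Equiv.swap j k).injective h
  · intro i hi
    rw [Finset.mem_filter] at hi
    refine ⟨Equiv.swap j k i, ?_, Equiv.swap_apply_self j k i⟩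
    rw [Finset.mem_filter]
    refine ⟨Finset.mem_univ _, (exchFun_ne_iff hjk φ x y _).mpr ?_⟩
    rw [Equiv.swap_apply_self]
    exact hi.2

end HammingDefs

section HammingGroup

variable {ι : Type*} [Fintype ι] {F : ι → Type*} [∀ i, Group (F i)]

theorem tr_mem (z : ∀ i, F i) :
    MulAction.toPermHom (∀ i, F i) (∀ i, F i) z ∈ isoSub F := by
  intro x y
  apply hdist_congr
  intro i
  show z i * x i ≠ z i * y i ↔ x i ≠ y i
  exact not_congr (mul_right_inj _)

theorem coordSwap_one (j : ι) {a b : F j} (ha : a ≠ 1) (hb : b ≠ 1) :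
    coordSwap j a b (1 : ∀ i, F i) = 1 := by
  rw [coordSwap_apply, Pi.one_apply, Equiv.swap_apply_of_ne_of_ne ha.symm hb.symm]
  exact Function.update_eq_self j (1 : ∀ i, F i)

theorem coordSwap_mulSingle (j : ι) (a b : F j) :
    coordSwap j a b (Pi.mulSingle j a) = Pi.mulSingle j b := by
  rw [coordSwap_apply, Pi.mulSingle_eq_same, Equiv.swap_apply_left]
  exact Function.update_idem _ _ _

theorem exchFun_one {j k : ι} (hjk : j ≠ k) (φ : F j ≃ F k) (hφ : φ 1 = 1) :
    exchFun j k φ (1 : ∀ i, F i) = 1 := by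
  have hφ' : φ.symm 1 = 1 := (Equiv.symm_apply_eq φ).mpr hφ.symm
  funext i
  by_cases hk : i = k
  · subst hk
    rw [exchFun_k]
    exact hφ
  · by_cases hj : i = j
    · subst hj
      rw [exchFun_j hjk]
      exact hφ'
    · rw [exchFun_other hj hk]

theorem exchFun_mulSingle {j k : ι} (hjk : j ≠ k) (φ : F j ≃ F k) (hφ : φ 1 = 1) (a : F j) :
    exchFun j k φ (Pi.mulSingle j a) = Pi.mulSingle k (φ a) := by
  have hφ' : φ.symm 1 = 1 := (Equiv.symm_apply_eq φ).mpr hφ.symm
  funext i
  by_cases hk : i = k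
  · subst hk
    simp only [exchFun_k, Pi.mulSingle_eq_same]
  · by_cases hj : i = j
    · subst hj
      rw [exchFun_j hjk, Pi.mulSingle_eq_of_ne (Ne.symm hjk), hφ', Pi.mulSingle_eq_of_ne hk]
    · rw [exchFun_other hj hk, Pi.mulSingle_eq_of_ne hj, Pi.mulSingle_eq_of_ne hk]

/-- A subgroup of the product invariant under the isometries fixing `1` is trivial or everything. -/
theorem hamming_sub_top [∀ i, Finite (F i)] (hm : ∀ i, 3 ≤ Nat.card (F i))
    (hcard : ∀ i j, Nat.card (F i) = Nat.card (F j))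
    (B : Subgroup (∀ i, F i))
    (hinv : ∀ σ ∈ isoSub F, σ 1 = 1 → ∀ x ∈ B, σ x ∈ B)
    (y : ∀ i, F i) (hyB : y ∈ B) (hy : y ≠ 1) : B = ⊤ := by
  have hex : ∀ (i : ι) (u : F i), ∃ c : F i, c ≠ 1 ∧ c ≠ u := by
    intro i u
    have := Fintype.ofFinite (F i)
    have h3 : 3 ≤ Fintype.card (F i) := by
      rw [← Nat.card_eq_fintype_card]
      exact hm i
    have hlt : ({1, u} : Finset (F i)).card < (Finset.univ : Finset (F i)).card := by
      rw [Finset.card_univ]
      have := Finset.card_le_two (a := (1 : F i)) (b := u)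
      omega
    obtain ⟨c, _, hc⟩ := Finset.exists_mem_notMem_of_card_lt_card hlt
    exact ⟨c, fun h => hc (by simp [h]), fun h => hc (by simp [h])⟩
  obtain ⟨j, hj⟩ : ∃ j, y j ≠ 1 := by
    by_contra hcon
    push Not at hcon
    exact hy (funext hcon)
  obtain ⟨c, hc1, hcy⟩ := hex j (y j)
  have h1 : Function.update y j c ∈ B := by
    have h := hinv _ (coordSwap_mem j (y j) c) (coordSwap_one j hj hc1) y hyB
    rwa [coordSwap_update j (y j) c y rfl] at h
  have h2 : Pi.mulSingle j ((y j)⁻¹ * c) ∈ B := by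
    have h := B.mul_mem (B.inv_mem hyB) h1
    have e2 : y⁻¹ * Function.update y j c = Pi.mulSingle j ((y j)⁻¹ * c) := by
      funext i
      by_cases hi : i = j
      · subst hi
        rw [Pi.mul_apply, Pi.inv_apply, Function.update_self, Pi.mulSingle_eq_same]
      · rw [Pi.mul_apply, Pi.inv_apply, Function.update_of_ne hi, Pi.mulSingle_eq_of_ne hi,
          inv_mul_cancel]
    rwa [e2] at h
  have hw : (y j)⁻¹ * c ≠ 1 := fun h => hcy (inv_mul_eq_one.mp h).symm
  have h3 : ∀ a : F j, Pi.mulSingle j a ∈ B := by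
    intro a
    by_cases ha : a = 1
    · rw [ha, Pi.mulSingle_one]
      exact B.one_mem
    · have h := hinv _ (coordSwap_mem j ((y j)⁻¹ * c) a) (coordSwap_one j hw ha) _ h2
      rwa [coordSwap_mulSingle] at h
  have h4 : ∀ (k : ι) (b : F k), Pi.mulSingle k b ∈ B := by
    intro k b
    by_cases hjk : j = k
    · subst hjk
      exact h3 b
    · obtain ⟨φ, hφ⟩ : ∃ φ : F j ≃ F k, φ 1 = 1 := by
        obtain ⟨φ₀⟩ := Finite.card_eq.mp (hcard j k)
        exact ⟨φ₀.trans (Equiv.swap (φ₀ 1) 1), by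
          rw [Equiv.trans_apply, Equiv.swap_apply_left]⟩
      have h := hinv _ (exchPerm_mem hjk φ) (exchFun_one hjk φ hφ) _ (h3 (φ.symm b))
      rwa [exchPerm_apply, exchFun_mulSingle hjk φ hφ, Equiv.apply_symm_apply] at h
  rw [eq_top_iff, ← Subgroup.pi_top Set.univ, Subgroup.pi_le_iff]
  intro k
  rintro _ ⟨b, -, rfl⟩
  exact h4 k b

variable (F) in
/-- Translations, as Hamming isometries. -/
def trS : (∀ i, F i) →* isoSub F :=
  (MulAction.toPermHom (∀ i, F i) (∀ i, F i)).codRestrict (isoSub F) tr_mem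

theorem trS_smul (z x : ∀ i, F i) : trS F z • x = z * x := rfl

theorem isoSub_pretransitive : MulAction.IsPretransitive (isoSub F) (∀ i, F i) :=
  ⟨fun x y => ⟨trS F (y * x⁻¹), by rw [trS_smul, inv_mul_cancel_right]⟩⟩

theorem isoSub_preprimitive [∀ i, Finite (F i)] (hm : ∀ i, 3 ≤ Nat.card (F i))
    (hcard : ∀ i j, Nat.card (F i) = Nat.card (F j)) (i₀ : ι) :
    MulAction.IsPreprimitive (isoSub F) (∀ i, F i) := by
  have hntF : Nontrivial (F i₀) := by
    rw [← Finite.one_lt_card_iff_nontrivial]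
    have := hm i₀
    omega
  obtain ⟨w₀, hw₀⟩ := exists_ne (1 : F i₀)
  have hnt : Nontrivial (∀ i, F i) := ⟨⟨1, Pi.mulSingle i₀ w₀, fun h => hw₀ (by
    have h1 := congrFun h i₀
    rw [Pi.mulSingle_eq_same] at h1
    exact h1.symm)⟩⟩
  have hpt : MulAction.IsPretransitive (isoSub F) (∀ i, F i) := isoSub_pretransitive
  rw [← MulAction.isCoatom_stabilizer_iff_preprimitive (isoSub F) (1 : ∀ i, F i)]
  refine ⟨?_, ?_⟩
  · intro htop
    have hmem : trS F (Pi.mulSingle i₀ w₀) ∈ MulAction.stabilizer (isoSub F) (1 : ∀ i, F i) := by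
      rw [htop]
      exact Subgroup.mem_top _
    rw [MulAction.mem_stabilizer_iff, trS_smul, mul_one] at hmem
    have h1 := congrFun hmem i₀
    rw [Pi.mulSingle_eq_same] at h1
    exact hw₀ h1
  · intro L hL
    have hstab : MulAction.stabilizer (isoSub F) (1 : ∀ i, F i) ≤ L := hL.le
    have f1 : ∀ g : isoSub F, g ∈ L → trS F (g • (1 : ∀ i, F i)) ∈ L := by
      intro g hg
      have h1 : (trS F (g • (1 : ∀ i, F i)))⁻¹ * g ∈
          MulAction.stabilizer (isoSub F) (1 : ∀ i, F i) := by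
        rw [MulAction.mem_stabilizer_iff, mul_smul, inv_smul_eq_iff, trS_smul, mul_one]
      have h2 := L.mul_mem hg (L.inv_mem (hstab h1))
      have h3 : g * ((trS F (g • (1 : ∀ i, F i)))⁻¹ * g)⁻¹ = trS F (g • (1 : ∀ i, F i)) := by
        group
      rwa [h3] at h2
    have hB : ∀ (x : ∀ i, F i), trS F x ∈ L → ∀ σ : isoSub F, σ ∈ L → trS F (σ • x) ∈ L := by
      intro x hx σ hσ
      have h := f1 (σ * trS F x) (L.mul_mem hσ hx)
      rwa [mul_smul, trS_smul, mul_one] at h
    obtain ⟨l, hlL, hlS⟩ := SetLike.exists_of_lt hL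
    have hy : l • (1 : ∀ i, F i) ≠ 1 := fun h => hlS (MulAction.mem_stabilizer_iff.mpr h)
    have hBtop : L.comap (trS F) = ⊤ := by
      apply hamming_sub_top hm hcard (L.comap (trS F)) ?_ (l • (1 : ∀ i, F i)) (f1 l hlL) hy
      intro σ hσ hσ1 x hx
      exact hB x hx ⟨σ, hσ⟩ (hstab (MulAction.mem_stabilizer_iff.mpr hσ1))
    rw [eq_top_iff]
    intro g _
    have h1 : trS F (g • (1 : ∀ i, F i)) ∈ L := by
      have h : g • (1 : ∀ i, F i) ∈ L.comap (trS F) := by
        rw [hBtop]
        exact Subgroup.mem_top _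
      exact h
    have h2 : (trS F (g • (1 : ∀ i, F i)))⁻¹ * g ∈
        MulAction.stabilizer (isoSub F) (1 : ∀ i, F i) := by
      rw [MulAction.mem_stabilizer_iff, mul_smul, inv_smul_eq_iff, trS_smul, mul_one]
    have h3 := L.mul_mem h1 (hstab h2)
    rwa [mul_inv_cancel_left] at h3

theorem isoSub_not_two_transitive [∀ i, Nontrivial (F i)] (hr : 2 ≤ Fintype.card ι) :
    ¬ MulAction.IsMultiplyPretransitive (isoSub F) (∀ i, F i) 2 := by
  intro h2
  rw [MulAction.is_two_pretransitive_iff] at h2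
  choose w hw using fun i => exists_ne (1 : F i)
  have hι : Nonempty ι := by
    rw [← Fintype.card_pos_iff]
    omega
  obtain ⟨i₀⟩ := hι
  have hd1 : hdist (1 : ∀ i, F i) (Pi.mulSingle i₀ (w i₀)) ≤ 1 := by
    unfold hdist
    refine le_trans (Finset.card_le_card (t := {i₀}) ?_) (Finset.card_singleton i₀).le
    intro i hi
    rw [Finset.mem_filter] at hi
    rw [Finset.mem_singleton]
    by_contra hne
    exact hi.2 (Pi.mulSingle_eq_of_ne hne (w i₀)).symm
  have hd2 : hdist (1 : ∀ i, F i) w = Fintype.card ι := by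
    unfold hdist
    rw [Finset.filter_true_of_mem, Finset.card_univ]
    intro i _
    exact (hw i).symm
  have ha : (1 : ∀ i, F i) ≠ Pi.mulSingle i₀ (w i₀) := by
    intro h
    have h1 := congrFun h i₀
    rw [Pi.mulSingle_eq_same] at h1
    exact hw i₀ h1.symm
  have hb : (1 : ∀ i, F i) ≠ w := fun h => hw i₀ (congrFun h i₀).symm
  obtain ⟨g, hg1, hg2⟩ := h2 ha hb
  have hiso := g.2 1 (Pi.mulSingle i₀ (w i₀))
  have e1 : (g : Equiv.Perm (∀ i, F i)) 1 = 1 := hg1
  have e2 : (g : Equiv.Perm (∀ i, F i)) (Pi.mulSingle i₀ (w i₀)) = w := hg2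
  rw [e1, e2, hd2] at hiso
  omega

/-- The Hamming example: a primitive, not doubly transitive group containing the regular
representation of a product of `r ≥ 2` groups of the same order `m ≥ 3`. -/
theorem hamming_example {ι : Type*} [Fintype ι] (F : ι → Type*) [∀ i, Group (F i)]
    (hr : 2 ≤ Fintype.card ι) (m : ℕ) (hm : 3 ≤ m) (hcard : ∀ i, Nat.card (F i) = m) :
    ∃ (G R : Subgroup (Equiv.Perm (∀ i, F i))), R ≤ G ∧ Nonempty (R ≃* (∀ i, F i)) ∧
      MulAction.IsPretransitive R (∀ i, F i) ∧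
      (∀ a : ∀ i, F i, MulAction.stabilizer R a = ⊥) ∧
      MulAction.IsPreprimitive G (∀ i, F i) ∧
      ¬ MulAction.IsMultiplyPretransitive G (∀ i, F i) 2 := by
  have hfin : ∀ i, Finite (F i) := fun i =>
    Nat.finite_of_card_ne_zero (by rw [hcard i]; omega)
  have hnt : ∀ i, Nontrivial (F i) := fun i => by
    rw [← Finite.one_lt_card_iff_nontrivial, hcard i]
    omega
  have hι : Nonempty ι := by
    rw [← Fintype.card_pos_iff]
    omega
  obtain ⟨i₀⟩ := hι
  have hinj : Function.Injective (MulAction.toPermHom (∀ i, F i) (∀ i, F i)) := by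
    intro z z' h
    have h1 : (MulAction.toPermHom (∀ i, F i) (∀ i, F i) z) 1 =
        (MulAction.toPermHom (∀ i, F i) (∀ i, F i) z') 1 := by rw [h]
    have h2 : z * 1 = z' * 1 := h1
    rwa [mul_one, mul_one] at h2
  refine ⟨isoSub F, (MulAction.toPermHom (∀ i, F i) (∀ i, F i)).range, ?_,
    ⟨(MonoidHom.ofInjective hinj).symm⟩, ?_, ?_,
    isoSub_preprimitive (fun i => by rw [hcard i]; exact hm)
      (fun i j => by rw [hcard i, hcard j]) i₀, isoSub_not_two_transitive hr⟩
  · rintro _ ⟨z, rfl⟩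
    exact tr_mem z
  · refine ⟨fun x y => ⟨⟨MulAction.toPermHom _ _ (y * x⁻¹), ⟨_, rfl⟩⟩, ?_⟩⟩
    show y * x⁻¹ * x = y
    rw [inv_mul_cancel_right]
  · intro a
    rw [eq_bot_iff]
    rintro ⟨_, ⟨z, rfl⟩⟩ hz
    rw [MulAction.mem_stabilizer_iff] at hz
    have hz' : z * a = 1 * a := by
      rw [one_mul]
      exact hz
    have hz1 : z = 1 := mul_right_cancel hz'
    rw [Subgroup.mem_bot]
    apply Subtype.ext
    show MulAction.toPermHom _ _ z = 1
    rw [hz1, map_one]

end HammingGroup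

/-- Transport a regular subgroup of a primitive, not doubly transitive group to `Fin n`. -/
theorem transport_to_fin {X : Type*} [Finite X] {K : Type*} [Group K]
    (G' R' : Subgroup (Equiv.Perm X)) (hle : R' ≤ G') (hK : Nonempty (R' ≃* K))
    (htr : MulAction.IsPretransitive R' X) (hreg : ∀ a : X, MulAction.stabilizer R' a = ⊥)
    (hprim : MulAction.IsPreprimitive G' X)
    (h2 : ¬ MulAction.IsMultiplyPretransitive G' X 2) :
    ∃ (n : ℕ) (G R : Subgroup (Equiv.Perm (Fin n))), R ≤ G ∧ Nonempty (↥R ≃* K) ∧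
      MulAction.IsPretransitive ↥R (Fin n) ∧ (∀ a : Fin n, MulAction.stabilizer ↥R a = ⊥) ∧
      MulAction.IsPreprimitive ↥G (Fin n) ∧ ¬ MulAction.IsMultiplyPretransitive ↥G (Fin n) 2 := by
  obtain ⟨n, ⟨ε⟩⟩ := Finite.exists_equiv_fin X
  let Φ : Equiv.Perm X ≃* Equiv.Perm (Fin n) := ε.permCongrHom
  have hΦ : ∀ (g : Equiv.Perm X) (x : X), Φ g (ε x) = ε (g x) := by
    intro g x
    show ε.permCongr g (ε x) = ε (g x)
    rw [Equiv.permCongr_apply, Equiv.symm_apply_apply]
  refine ⟨n, G'.map Φ.toMonoidHom, R'.map Φ.toMonoidHom, Subgroup.map_mono hle, ?_, ?_, ?_,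
    ?_, ?_⟩
  · obtain ⟨f⟩ := hK
    exact ⟨(R'.equivMapOfInjective Φ.toMonoidHom Φ.injective).symm.trans f⟩
  · refine ⟨fun a b => ?_⟩
    obtain ⟨g, hg⟩ := htr.exists_smul_eq (ε.symm a) (ε.symm b)
    refine ⟨⟨Φ g.1, Subgroup.mem_map_of_mem _ g.2⟩, ?_⟩
    show Φ g.1 a = b
    have h := hΦ g.1 (ε.symm a)
    rw [Equiv.apply_symm_apply] at h
    have hg' : g.1 (ε.symm a) = ε.symm b := hg
    rw [h, hg', Equiv.apply_symm_apply]
  · intro a
    rw [eq_bot_iff]
    rintro ⟨g, hgR⟩ hga
    obtain ⟨g', hg', rfl⟩ := Subgroup.mem_map.mp hgR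
    rw [MulAction.mem_stabilizer_iff] at hga
    have hga' : Φ g' a = a := hga
    have h := hΦ g' (ε.symm a)
    rw [Equiv.apply_symm_apply, hga'] at h
    have h' : g' (ε.symm a) = ε.symm a := by
      rw [Equiv.eq_symm_apply]
      exact h.symm
    have hmem : (⟨g', hg'⟩ : R') ∈ MulAction.stabilizer R' (ε.symm a) :=
      MulAction.mem_stabilizer_iff.mpr h'
    rw [hreg] at hmem
    have h1 : g' = 1 := congrArg Subtype.val (Subgroup.mem_bot.mp hmem)
    rw [Subgroup.mem_bot]
    apply Subtype.ext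
    show Φ.toMonoidHom g' = 1
    rw [h1, map_one]
  · let φ : G' → G'.map Φ.toMonoidHom := fun g => ⟨Φ g.1, Subgroup.mem_map_of_mem _ g.2⟩
    have hφ : Function.Surjective φ := by
      rintro ⟨g, hg⟩
      obtain ⟨g', hg', rfl⟩ := Subgroup.mem_map.mp hg
      exact ⟨⟨g', hg'⟩, rfl⟩
    let f : X →ₑ[φ] Fin n := ⟨ε, fun g x => (hΦ g.1 x).symm⟩
    have hf : Function.Bijective f := ε.bijective
    exact (MulAction.isPreprimitive_congr hφ hf).mp hprim
  · intro h
    apply h2
    rw [MulAction.is_two_pretransitive_iff] at h ⊢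
    intro a b c d hab hcd
    obtain ⟨⟨g, hg⟩, hg1, hg2⟩ := h (a := ε a) (b := ε b) (c := ε c) (d := ε d)
      (fun e => hab (ε.injective e)) (fun e => hcd (ε.injective e))
    obtain ⟨g', hg', rfl⟩ := Subgroup.mem_map.mp hg
    refine ⟨⟨g', hg'⟩, ?_, ?_⟩
    · apply ε.injective
      show ε (g' a) = ε c
      rw [← hΦ]
      exact hg1
    · apply ε.injective
      show ε (g' b) = ε d
      rw [← hΦ]
      exact hg2

end

end Cfsg.Agent.Helper19
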