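import Mathlib

set_option autoImplicit false

namespace Cfsg.Agent.Helper19.HomocyclicAut

/-- An endomorphism `φ` with `φ ^ p = 1` (`p > 3`) of a homocyclic group of type `(p², p²)`
fixes all elements killed by `p`. -/
theorem key {M : Type*} [AddCommGroup M] [Finite M] (p : ℕ) (hp : p.Prime) (hp3 : 3 < p)
    (hcard : Nat.card M = p ^ 4) (h1 : ∀ v : M, p • p • v = 0)
    (h2 : ∀ v : M, p • v = 0 → ∃ u : M, v = p • u)
    (φ : Module.End ℤ M) (hφ : φ ^ p = 1) (x : M) (hx : p • x = 0) : φ x = x := by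
  obtain ⟨N, hN⟩ : ∃ N : Module.End ℤ M, N = φ - 1 := ⟨_, rfl⟩
  have hφN : φ = N + 1 := by rw [hN, sub_add_cancel]
  have star : ∀ v : M, v = ∑ m ∈ Finset.range (p + 1), (N ^ m) (p.choose m • v) := by
    intro v
    have e1 : (φ ^ p) v = v := by rw [hφ, Module.End.one_apply]
    rw [hφN, (Commute.one_right N).add_pow, LinearMap.sum_apply] at e1
    refine e1.symm.trans (Finset.sum_congr rfl (fun m _ => ?_))
    rw [one_pow, mul_one, Module.End.mul_apply, Module.End.natCast_apply]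
  have hNW : ∀ (m : ℕ) (w : M), p • w = 0 → p • (N ^ m) w = 0 := by
    intro m w hw
    rw [← map_nsmul, hw, map_zero]
  have hchoose : ∀ (m : ℕ) (w : M), 0 < m → m < p → p • w = 0 → p.choose m • w = 0 := by
    intro m w hm0 hmp hw
    obtain ⟨c, hc⟩ := hp.dvd_choose_self hm0.ne' hmp
    rw [hc, mul_comm, mul_smul, hw, smul_zero]
  have hNpW : ∀ w : M, p • w = 0 → (N ^ p) w = 0 := by
    intro w hw
    have e := star w
    rw [Finset.sum_range_succ, Finset.sum_eq_single 0] at e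
    · rw [Nat.choose_zero_right, Nat.choose_self, one_smul, pow_zero,
        Module.End.one_apply] at e
      exact add_left_cancel (a := w) (by rw [add_zero]; exact e.symm)
    · intro m hm hm0
      rw [hchoose m w (Nat.pos_of_ne_zero hm0) (Finset.mem_range.mp hm) hw, map_zero]
    · intro h0
      exact absurd (Finset.mem_range.mpr hp.pos) h0
  obtain ⟨f, hf⟩ : ∃ f : M →+ M, ∀ v, f v = p • v := ⟨nsmulAddMonoidHom p, fun v => rfl⟩
  have hker_range : f.ker = f.range := by
    ext v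
    rw [AddMonoidHom.mem_ker, AddMonoidHom.mem_range, hf]
    constructor
    · intro hv
      obtain ⟨u, hu⟩ := h2 v hv
      exact ⟨u, by rw [hf, hu]⟩
    · rintro ⟨u, rfl⟩
      rw [hf]; exact h1 u
  have hcardW : Nat.card f.ker = p ^ 2 := by
    have e1 := AddSubgroup.card_mul_index f.ker
    rw [AddSubgroup.index_ker, ← hker_range, hcard] at e1
    have e2 : p ^ 4 = p ^ 2 * p ^ 2 := by ring
    rw [e2] at e1
    exact Nat.mul_self_inj.mp e1
  have hmemW : ∀ w : M, w ∈ f.ker ↔ p • w = 0 := by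
    intro w
    rw [AddMonoidHom.mem_ker, hf]
  have claim1 : ∀ X : AddSubgroup M, X ≤ f.ker → X.map N.toAddMonoidHom = X → X = ⊥ := by
    intro X hXW hX
    have hsurj : ∀ k : ℕ, ∀ x ∈ X, ∃ y ∈ X, (N ^ k) y = x := by
      intro k
      induction k with
      | zero => intro x hx; exact ⟨x, hx, by rw [pow_zero, Module.End.one_apply]⟩
      | succ k ih =>
        intro x hx
        obtain ⟨y, hy, hyx⟩ := ih x hx
        have hy' : y ∈ X.map N.toAddMonoidHom := by rw [hX]; exact hy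
        obtain ⟨z, hz, hzy⟩ := AddSubgroup.mem_map.mp hy'
        refine ⟨z, hz, ?_⟩
        rw [pow_succ, Module.End.mul_apply, ← hyx, ← hzy]
        rfl
    rw [eq_bot_iff]
    intro x hx
    obtain ⟨y, hy, hyx⟩ := hsurj p x hx
    rw [AddSubgroup.mem_bot, ← hyx]
    exact hNpW y ((hmemW y).mp (hXW hy))
  have hmapW : ∀ X : AddSubgroup M, X ≤ f.ker → X.map N.toAddMonoidHom ≤ f.ker := by
    intro X hX y hy
    obtain ⟨z, hz, rfl⟩ := AddSubgroup.mem_map.mp hy
    rw [hmemW]
    have h3 := hNW 1 z ((hmemW z).mp (hX hz))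
    rw [pow_one] at h3
    exact h3
  obtain ⟨W1, hW1⟩ : ∃ W1 : AddSubgroup M, W1 = f.ker.map N.toAddMonoidHom := ⟨_, rfl⟩
  obtain ⟨W2, hW2⟩ : ∃ W2 : AddSubgroup M, W2 = W1.map N.toAddMonoidHom := ⟨_, rfl⟩
  have hW1le : W1 ≤ f.ker := by rw [hW1]; exact hmapW _ le_rfl
  have hW2le : W2 ≤ W1 := by
    rw [hW2]
    conv_rhs => rw [hW1]
    exact AddSubgroup.map_mono hW1le
  have hW2bot : W2 = ⊥ := by
    by_cases hW1bot : W1 = ⊥
    · rw [hW2, hW1bot, AddSubgroup.map_bot]
    have hW1ne : W1 ≠ f.ker := by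
      intro heq
      have h3 : f.ker = ⊥ := claim1 f.ker le_rfl (by rw [← hW1]; exact heq)
      exact hW1bot (by rw [heq, h3])
    have hc1 : Nat.card W1 < p ^ 2 := by
      rw [← hcardW]
      by_contra hge
      push Not at hge
      exact hW1ne (AddSubgroup.eq_of_le_of_card_ge hW1le hge)
    have hd1 : Nat.card W1 ∣ p ^ 2 := by
      rw [← hcardW]; exact AddSubgroup.card_dvd_of_le hW1le
    obtain ⟨j, hj, hj'⟩ := (Nat.dvd_prime_pow hp).mp hd1
    have hj1 : j ≤ 1 := by
      by_contra hj2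
      have hj3 : j = 2 := by omega
      rw [hj', hj3] at hc1
      exact lt_irrefl _ hc1
    by_contra hW2ne
    have hW2ne1 : W2 ≠ W1 := by
      intro heq
      exact hW1bot (claim1 W1 hW1le (by rw [← hW2]; exact heq))
    have hc2 : Nat.card W2 < Nat.card W1 := by
      by_contra hge
      push Not at hge
      exact hW2ne1 (AddSubgroup.eq_of_le_of_card_ge hW2le hge)
    have hd2 : Nat.card W2 ∣ Nat.card W1 := AddSubgroup.card_dvd_of_le hW2le
    rw [hj'] at hc2 hd2
    obtain ⟨i, hi, hi'⟩ := (Nat.dvd_prime_pow hp).mp hd2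
    have hi0 : i = 0 := by
      by_contra hi0
      have hij : i = j := by omega
      rw [hi', hij] at hc2
      exact lt_irrefl _ hc2
    rw [hi0, pow_zero] at hi'
    exact hW2ne (AddSubgroup.eq_bot_of_card_eq W2 hi')
  have hB : ∀ w : M, p • w = 0 → N (N w) = 0 := by
    intro w hw
    have h3 : N (N w) ∈ W2 := by
      rw [hW2, hW1]
      exact AddSubgroup.mem_map.mpr ⟨N w,
        AddSubgroup.mem_map.mpr ⟨w, (hmemW w).mpr hw, rfl⟩, rfl⟩
    rw [hW2bot, AddSubgroup.mem_bot] at h3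
    exact h3
  have hD2 : ∀ v : M, p • N (N v) = 0 := by
    intro v
    rw [← map_nsmul, ← map_nsmul]
    exact hB _ (h1 v)
  have hC : ∀ v : M, N (N (N (N v))) = 0 := fun v => hB _ (hD2 v)
  have hD : ∀ (m : ℕ) (v : M), 2 ≤ m → p • (N ^ m) v = 0 := by
    intro m v hm
    obtain ⟨k, rfl⟩ : ∃ k, m = k + 2 := ⟨m - 2, by omega⟩
    rw [pow_add, Module.End.mul_apply, pow_two, Module.End.mul_apply, ← map_nsmul, hD2 v,
      map_zero]
  have hN4 : ∀ (m : ℕ) (v : M), 4 ≤ m → (N ^ m) v = 0 := by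
    intro m v hm
    obtain ⟨k, rfl⟩ : ∃ k, m = k + 4 := ⟨m - 4, by omega⟩
    have e4 : (N ^ 4) v = N (N (N (N v))) := by
      rw [show (4 : ℕ) = 2 + 2 from rfl, pow_add, Module.End.mul_apply, pow_two,
        Module.End.mul_apply, Module.End.mul_apply]
    rw [pow_add, Module.End.mul_apply, e4, hC v, map_zero]
  have hE : ∀ v : M, p • N v = 0 := by
    intro v
    have e := star v
    rw [Finset.sum_eq_add 0 1 (by norm_num)] at e
    · rw [Nat.choose_zero_right, Nat.choose_one_right, one_smul, pow_zero,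
        Module.End.one_apply, pow_one, map_nsmul] at e
      exact add_left_cancel (a := v) (by rw [add_zero]; exact e.symm)
    · intro m hm hm01
      have hm2 : 2 ≤ m := by omega
      have hmp : m ≤ p := by have h5 := Finset.mem_range.mp hm; omega
      rcases Nat.lt_or_ge m p with hlt | hge
      · obtain ⟨c, hc⟩ := hp.dvd_choose_self (by omega) hlt
        rw [hc, map_nsmul, mul_comm, mul_smul, hD m v hm2, smul_zero]
      · have hmeq : m = p := le_antisymm hmp hge
        rw [hmeq, Nat.choose_self, one_smul]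
        exact hN4 p v (by omega)
    · intro h0; exact absurd (Finset.mem_range.mpr (by omega)) h0
    · intro h1'; exact absurd (Finset.mem_range.mpr (by omega)) h1'
  obtain ⟨y, hy⟩ := h2 x hx
  have hNx : N x = 0 := by rw [hy, map_nsmul]; exact hE y
  rw [hφN, LinearMap.add_apply, hNx, zero_add, Module.End.one_apply]

theorem s4080 {p : ℕ} [Fact p.Prime] (hp : 3 < p)
    (a : MulAut (Multiplicative (ZMod (p ^ 2) × ZMod (p ^ 2)))) (ha : orderOf a = p)
    (x : Multiplicative (ZMod (p ^ 2) × ZMod (p ^ 2))) (hx : orderOf x = p) : a x = x := by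
  have hpp : p.Prime := Fact.out
  have hne : NeZero (p ^ 2) := ⟨pow_ne_zero 2 hpp.ne_zero⟩
  obtain ⟨φ0, hφ0⟩ : ∃ φ0 : (ZMod (p ^ 2) × ZMod (p ^ 2)) →+ (ZMod (p ^ 2) × ZMod (p ^ 2)),
      ∀ v, φ0 v = Multiplicative.toAdd (a (Multiplicative.ofAdd v)) :=
    ⟨AddMonoidHom.toMultiplicative.symm a.toMonoidHom, fun v => rfl⟩
  have hpow : ∀ (k : ℕ) (v : ZMod (p ^ 2) × ZMod (p ^ 2)),
      (φ0.toIntLinearMap ^ k) v = Multiplicative.toAdd ((a ^ k) (Multiplicative.ofAdd v)) := by
    intro k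
    induction k with
    | zero => intro v; rw [pow_zero, pow_zero, Module.End.one_apply]; rfl
    | succ k ih =>
      intro v
      have e : Multiplicative.ofAdd (φ0.toIntLinearMap v) = a (Multiplicative.ofAdd v) := by
        show Multiplicative.ofAdd (φ0 v) = _
        rw [hφ0, ofAdd_toAdd]
      rw [pow_succ φ0.toIntLinearMap k, pow_succ a k, Module.End.mul_apply, ih,
        MulAut.mul_apply, e]
  have hap : a ^ p = 1 := by
    have h3 := pow_orderOf_eq_one a
    rw [ha] at h3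
    exact h3
  have hφp : φ0.toIntLinearMap ^ p = 1 := by
    apply LinearMap.ext
    intro v
    rw [hpow, hap, Module.End.one_apply]
    rfl
  have hz1 : ∀ z : ZMod (p ^ 2), (p * p) • z = 0 := by
    intro z
    rw [nsmul_eq_mul, (CharP.cast_eq_zero_iff (ZMod (p ^ 2)) (p ^ 2) (p * p)).mpr
      (Dvd.intro 1 (by ring)), zero_mul]
  have hz2 : ∀ z : ZMod (p ^ 2), p • z = 0 → ∃ y : ZMod (p ^ 2), z = p • y := by
    intro z hz
    have h3 : ((p * z.val : ℕ) : ZMod (p ^ 2)) = 0 := by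
      rw [Nat.cast_mul, ZMod.natCast_zmod_val, ← nsmul_eq_mul]; exact hz
    rw [CharP.cast_eq_zero_iff (ZMod (p ^ 2)) (p ^ 2)] at h3
    have h4 : p ∣ z.val :=
      (Nat.mul_dvd_mul_iff_left hpp.pos).mp ((dvd_of_eq (pow_two p).symm).trans h3)
    obtain ⟨t, ht⟩ := h4
    refine ⟨(t : ZMod (p ^ 2)), ?_⟩
    rw [nsmul_eq_mul, ← Nat.cast_mul, ← ht, ZMod.natCast_zmod_val]
  have hcard : Nat.card (ZMod (p ^ 2) × ZMod (p ^ 2)) = p ^ 4 := by
    rw [Nat.card_prod, Nat.card_zmod]; ring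
  have h1 : ∀ v : ZMod (p ^ 2) × ZMod (p ^ 2), p • p • v = 0 := by
    intro v
    rw [← mul_smul]
    exact Prod.ext (hz1 v.1) (hz1 v.2)
  have h2 : ∀ v : ZMod (p ^ 2) × ZMod (p ^ 2), p • v = 0 →
      ∃ u : ZMod (p ^ 2) × ZMod (p ^ 2), v = p • u := by
    intro v hv
    obtain ⟨y1, hy1⟩ := hz2 v.1 (congrArg Prod.fst hv)
    obtain ⟨y2, hy2⟩ := hz2 v.2 (congrArg Prod.snd hv)
    exact ⟨(y1, y2), Prod.ext hy1 hy2⟩
  have hxp : p • Multiplicative.toAdd x = 0 := by
    have h3 := pow_orderOf_eq_one x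
    rw [hx] at h3
    rw [← toAdd_pow, h3]
    rfl
  have hfin := key p hpp hp hcard h1 h2 φ0.toIntLinearMap hφp (Multiplicative.toAdd x) hxp
  have h5 : φ0 (Multiplicative.toAdd x) = Multiplicative.toAdd x := hfin
  rw [hφ0, ofAdd_toAdd] at h5
  exact Multiplicative.toAdd.injective h5

end Cfsg.Agent.Helper19.HomocyclicAut
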