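import Mathlib

set_option autoImplicit false

namespace Cfsg.Agent.Helper19

open scoped Pointwise
open MulAction

/-- A quasiprimitive group with a primitive Jordan set is primitive. -/
theorem isPreprimitive_of_quasiprimitive_of_jordan {G Ω : Type*} [Group G] [MulAction G Ω]
    (hqp : ∀ N : Subgroup G, N.Normal → N ≠ ⊥ → MulAction.IsPretransitive ↥N Ω)
    (Γ : Set Ω) (hΓ1 : Γ.Nontrivial)
    (hJp : MulAction.IsPreprimitive ↥(fixingSubgroup G Γᶜ)
      ↥(SubMulAction.ofFixingSubgroup G Γᶜ)) :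
    MulAction.IsPreprimitive G Ω := by
  have hJ : IsPretransitive ↥(fixingSubgroup G Γᶜ) ↥(SubMulAction.ofFixingSubgroup G Γᶜ) :=
    hJp.toIsPretransitive
  have hmem : ∀ a ∈ Γ, a ∈ SubMulAction.ofFixingSubgroup G Γᶜ := by
    intro a ha
    rw [SubMulAction.mem_ofFixingSubgroup_iff]
    simpa using ha
  obtain ⟨x, hx, y, hy, hxy⟩ := hΓ1
  obtain ⟨h0, hh0⟩ := hJ.exists_smul_eq
    (⟨x, hmem x hx⟩ : SubMulAction.ofFixingSubgroup G Γᶜ) ⟨y, hmem y hy⟩
  have hh0' : (h0 : G) • x = y := congrArg Subtype.val hh0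
  have hne : (h0 : G) ≠ 1 := by
    intro h
    rw [h, one_smul] at hh0'
    exact hxy hh0'
  have key : ∀ (B' : Set Ω), IsBlock G B' → B'.Nontrivial →
      ∀ h ∈ fixingSubgroup G Γᶜ, h • B' = B' := by
    intro B' hB' hnt h hh
    by_cases hsub : B' ⊆ Γ
    · have hC : IsBlock (fixingSubgroup G Γᶜ)
          (Subtype.val ⁻¹' B' : Set (SubMulAction.ofFixingSubgroup G Γᶜ)) :=
        (hB'.subgroup).subtype_val_preimage
      rcases hJp.isTrivialBlock_of_isBlock hC with hs | hu
      · exfalso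
        obtain ⟨a, ha, b, hb, hab⟩ := hnt
        have := @hs ⟨a, hmem a (hsub ha)⟩ ha ⟨b, hmem b (hsub hb)⟩ hb
        exact hab (congrArg Subtype.val this)
      · obtain ⟨a, ha⟩ := hnt.nonempty
        have : ((⟨h, hh⟩ : fixingSubgroup G Γᶜ) •
            (⟨a, hmem a (hsub ha)⟩ : SubMulAction.ofFixingSubgroup G Γᶜ)) ∈
            (Subtype.val ⁻¹' B' : Set (SubMulAction.ofFixingSubgroup G Γᶜ)) := by
          rw [hu]; trivial
        exact hB'.smul_eq_of_mem ha this
    · obtain ⟨a, ha, haΓ⟩ := Set.not_subset.1 hsub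
      have : h • a = a := (mem_fixingSubgroup_iff G).1 hh a haΓ
      exact hB'.smul_eq_of_mem ha (by rw [this]; exact ha)
  refine { toIsPretransitive := ?_, isTrivialBlock_of_isBlock := ?_ }
  · have htop : (⊤ : Subgroup G) ≠ ⊥ := by
      intro h
      have : (h0 : G) ∈ (⊥ : Subgroup G) := h ▸ Subgroup.mem_top _
      exact hne (Subgroup.mem_bot.1 this)
    have := hqp ⊤ inferInstance htop
    constructor
    intro a b
    obtain ⟨g, hg⟩ := this.exists_smul_eq a b
    exact ⟨g.1, hg⟩
  · intro B hB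
    by_contra hcon
    have hnt : B.Nontrivial := by
      rw [← Set.not_subsingleton_iff]
      intro h
      exact hcon (Or.inl h)
    have huniv : B ≠ Set.univ := fun h => hcon (Or.inr h)
    have hK : (h0 : G) ∈ (MulAction.stabilizer G B).normalCore := by
      intro g
      rw [MulAction.mem_stabilizer_iff]
      have := key (g⁻¹ • B) (hB.translate g⁻¹)
        (by rw [← Set.image_smul]; exact hnt.image (MulAction.injective _)) h0 h0.2
      rw [mul_smul, mul_smul, this, smul_inv_smul]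
    have hKne : (MulAction.stabilizer G B).normalCore ≠ ⊥ := by
      intro h
      rw [h] at hK
      exact hne (Subgroup.mem_bot.1 hK)
    have hKt := hqp _ inferInstance hKne
    apply huniv
    obtain ⟨a, ha⟩ := hnt.nonempty
    rw [Set.eq_univ_iff_forall]
    intro b
    obtain ⟨k, hk⟩ := hKt.exists_smul_eq a b
    have hkB : (k : G) • B = B :=
      MulAction.mem_stabilizer_iff.1 ((Subgroup.normalCore_le _) k.2)
    rw [← hkB]
    exact ⟨a, ha, hk⟩

end Cfsg.Agent.Helper19
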