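import Mathlib

set_option autoImplicit false

namespace Cfsg.Agent.Helper19

/-- Two linearly independent families indexed by the same finite type are related by a
linear automorphism of the ambient space. -/
theorem exists_linearEquiv_of_linearIndependent {K V ι : Type*} [Field K] [AddCommGroup V]
    [Module K V] [Finite ι] {v w : ι → V} (hv : LinearIndependent K v)
    (hw : LinearIndependent K w) : ∃ g : V ≃ₗ[K] V, ∀ i, g (v i) = w i := by
  let f := hv.linearCombinationEquiv.symm ≪≫ₗ hw.linearCombinationEquiv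
  have : FiniteDimensional K (Submodule.span K (Set.range v)) :=
    FiniteDimensional.span_of_finite K (Set.finite_range _)
  obtain ⟨g, hg⟩ := Submodule.exists_linearEquiv_restrict_eq f
  refine ⟨g, fun i => ?_⟩
  have h1 : ((hv.linearCombinationEquiv (Finsupp.single i 1) : Submodule.span K (Set.range v)) : V)
      = v i := by simp
  have h2 : ((hw.linearCombinationEquiv (Finsupp.single i 1) : Submodule.span K (Set.range w)) : V)
      = w i := by simp
  rw [← h1, ← hg, ← h2]
  simp [f]

theorem exists_equiv_single {K V : Type*} [Field K] [AddCommGroup V] [Module K V] {x y : V}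
    (hx : x ≠ 0) (hy : y ≠ 0) : ∃ g : V ≃ₗ[K] V, g x = y := by
  have hv : LinearIndependent K (fun _ : Unit => x) := LinearIndependent.of_subsingleton () hx
  have hw : LinearIndependent K (fun _ : Unit => y) := LinearIndependent.of_subsingleton () hy
  obtain ⟨g, hg⟩ := exists_linearEquiv_of_linearIndependent hv hw
  exact ⟨g, hg ()⟩

theorem indep_pair_zmod2 {V : Type*} [AddCommGroup V] [Module (ZMod 2) V] {x y : V} (hx : x ≠ 0)
    (hy : y ≠ 0) (hxy : x ≠ y) : LinearIndependent (ZMod 2) ![x, y] := by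
  rw [LinearIndependent.pair_iff]
  intro s t h
  have hs : ∀ s : ZMod 2, s = 0 ∨ s = 1 := by decide
  rcases hs s with rfl | rfl <;> rcases hs t with rfl | rfl
  · exact ⟨rfl, rfl⟩
  · simp at h; exact absurd h hy
  · simp at h; exact absurd h hx
  · exfalso; apply hxy
    simp only [one_smul] at h
    have h2 : y + y = 0 := by
      have h3 : (2 : ZMod 2) • y = 0 := by rw [show (2 : ZMod 2) = 0 from rfl, zero_smul]
      rwa [two_smul] at h3
    calc x = x + (y + y) := by rw [h2, add_zero]
      _ = (x + y) + y := by abel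
      _ = y := by rw [h, zero_add]

theorem exists_equiv_pair {V : Type*} [AddCommGroup V] [Module (ZMod 2) V] {u1 u2 w1 w2 : V}
    (h1 : u1 = 0 ↔ w1 = 0) (h2 : u2 = 0 ↔ w2 = 0) (h12 : u1 = u2 ↔ w1 = w2) :
    ∃ g : V ≃ₗ[ZMod 2] V, g u1 = w1 ∧ g u2 = w2 := by
  by_cases hu1 : u1 = 0
  · have hw1 := h1.mp hu1
    by_cases hu2 : u2 = 0
    · exact ⟨LinearEquiv.refl _ _, by simp [hu1, hw1], by simp [hu2, h2.mp hu2]⟩
    · obtain ⟨g, hg⟩ := exists_equiv_single (K := ZMod 2) hu2 (fun h => hu2 (h2.mpr h))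
      exact ⟨g, by simp [hu1, hw1], hg⟩
  · have hw1 : w1 ≠ 0 := fun h => hu1 (h1.mpr h)
    by_cases hu2 : u2 = 0
    · obtain ⟨g, hg⟩ := exists_equiv_single (K := ZMod 2) hu1 hw1
      exact ⟨g, hg, by simp [hu2, h2.mp hu2]⟩
    · have hw2 : w2 ≠ 0 := fun h => hu2 (h2.mpr h)
      by_cases he : u1 = u2
      · obtain ⟨g, hg⟩ := exists_equiv_single (K := ZMod 2) hu1 hw1
        exact ⟨g, hg, by rw [← he, hg]; exact h12.mp he⟩
      · have hwe : w1 ≠ w2 := fun h => he (h12.mpr h)
        have hv : LinearIndependent (ZMod 2) ![u1, u2] := indep_pair_zmod2 hu1 hu2 he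
        have hw : LinearIndependent (ZMod 2) ![w1, w2] := indep_pair_zmod2 hw1 hw2 hwe
        obtain ⟨g, hg⟩ := exists_linearEquiv_of_linearIndependent hv hw
        exact ⟨g, by simpa using hg 0, by simpa using hg 1⟩

end Cfsg.Agent.Helper19
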