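import Mathlib

namespace Cfsg.Agent.Helper19

open Subgroup

section MC
variable {G : Type*} [Group G]

/-- the product `H·M` as a subgroup, when `M` normalizes `H` -/
def mc_prod (H M : Subgroup G) (hn : ∀ m ∈ M, ∀ h ∈ H, m * h * m⁻¹ ∈ H) : Subgroup G where
  carrier := {g | ∃ h ∈ H, ∃ m ∈ M, g = h * m}
  mul_mem' := by
    rintro _ _ ⟨h1, hh1, m1, hm1, rfl⟩ ⟨h2, hh2, m2, hm2, rfl⟩
    refine ⟨h1 * (m1 * h2 * m1⁻¹), mul_mem hh1 (hn m1 hm1 h2 hh2), m1 * m2,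
      mul_mem hm1 hm2, ?_⟩
    group
  one_mem' := ⟨1, one_mem _, 1, one_mem _, by simp⟩
  inv_mem' := by
    rintro _ ⟨h, hh, m, hm, rfl⟩
    refine ⟨m⁻¹ * h⁻¹ * m⁻¹⁻¹, hn m⁻¹ (inv_mem hm) h⁻¹ (inv_mem hh), m⁻¹, inv_mem hm, ?_⟩
    group

theorem mc_mem_prod {H M : Subgroup G} {hn : ∀ m ∈ M, ∀ h ∈ H, m * h * m⁻¹ ∈ H} {g : G} :
    g ∈ mc_prod H M hn ↔ ∃ h ∈ H, ∃ m ∈ M, g = h * m := Iff.rfl

theorem mc_T1 {x : G} (hx : IsCoatom (centralizer ({x} : Set G))) (H : Subgroup G)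
    (hn : ∀ m ∈ centralizer ({x} : Set G), ∀ h ∈ H, m * h * m⁻¹ ∈ H) :
    H ≤ centralizer ({x} : Set G) ∨
      ∀ g : G, ∃ h ∈ H, ∃ m ∈ centralizer ({x} : Set G), g = h * m := by
  have hle : centralizer ({x} : Set G) ≤ mc_prod H _ hn := by
    intro m hm; exact ⟨1, one_mem _, m, hm, by simp⟩
  rcases (hx.le_iff).1 hle with h | h
  · right
    intro g
    have : g ∈ mc_prod H _ hn := by rw [h]; exact mem_top g
    exact this
  · left
    intro h' hh'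
    have : h' ∈ mc_prod H _ hn := ⟨h', hh', 1, one_mem _, by simp⟩
    rw [h] at this
    exact this

/-- the centre of `N` as a subgroup of `G` -/
def mc_Z (N : Subgroup G) : Subgroup G := N ⊓ centralizer (N : Set G)

theorem mc_mem_Z {N : Subgroup G} {z : G} :
    z ∈ mc_Z N ↔ z ∈ N ∧ ∀ n ∈ N, n * z = z * n := by
  unfold mc_Z
  rw [mem_inf, mem_centralizer_iff]
  rfl

instance mc_Z_normal (N : Subgroup G) [hN : N.Normal] : (mc_Z N).Normal := by
  constructor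
  intro z hz g
  rw [mc_mem_Z] at hz ⊢
  refine ⟨hN.conj_mem z hz.1 g, ?_⟩
  intro n hn
  have h1 : g⁻¹ * n * g ∈ N := by simpa using hN.conj_mem n hn g⁻¹
  have h2 := hz.2 _ h1
  calc n * (g * z * g⁻¹) = g * ((g⁻¹ * n * g) * z) * g⁻¹ := by group
    _ = g * (z * (g⁻¹ * n * g)) * g⁻¹ := by rw [h2]
    _ = g * z * g⁻¹ * n := by group

/-- the projection modulo the centre of `N` -/
abbrev mc_pi (N : Subgroup G) [N.Normal] : G →* G ⧸ mc_Z N := QuotientGroup.mk' (mc_Z N)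

theorem mc_pi_one {N : Subgroup G} [N.Normal] {a : G} : mc_pi N a = 1 ↔ a ∈ mc_Z N :=
  QuotientGroup.eq_one_iff a

theorem mc_pi_comm {N : Subgroup G} [N.Normal] {a b : G} :
    Commute (mc_pi N a) (mc_pi N b) ↔ a * b * a⁻¹ * b⁻¹ ∈ mc_Z N := by
  rw [← mc_pi_one, map_mul, map_mul, map_mul, map_inv, map_inv]
  constructor
  · intro hc
    rw [hc.eq]; group
  · intro h1
    show mc_pi N a * mc_pi N b = mc_pi N b * mc_pi N a
    calc mc_pi N a * mc_pi N b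
        = (mc_pi N a * mc_pi N b * (mc_pi N a)⁻¹ * (mc_pi N b)⁻¹) * (mc_pi N b * mc_pi N a) := by
          group
      _ = mc_pi N b * mc_pi N a := by rw [h1, one_mul]

theorem mc_pi_comm_of_comm {N : Subgroup G} [N.Normal] {a b : G} (h : a * b = b * a) :
    Commute (mc_pi N a) (mc_pi N b) := by
  show mc_pi N a * mc_pi N b = mc_pi N b * mc_pi N a
  rw [← map_mul, ← map_mul, h]

variable (N : Subgroup G) [hNn : N.Normal]

theorem mc_coatom
    (h : ∀ x : G, x ∈ N → x ∉ centralizer (N : Set G) → IsCoatom (centralizer ({x} : Set G)))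
    {x : G} (hxN : x ∈ N) (hxZ : x ∉ mc_Z N) : IsCoatom (centralizer ({x} : Set G)) :=
  h x hxN (fun hc => hxZ (mem_inf.2 ⟨hxN, hc⟩))

theorem mc_T1N
    (h : ∀ x : G, x ∈ N → x ∉ centralizer (N : Set G) → IsCoatom (centralizer ({x} : Set G)))
    {x : G} (hxN : x ∈ N) (hxZ : x ∉ mc_Z N) (H : Subgroup G) (hHN : H ≤ N)
    (hn : ∀ m ∈ centralizer ({x} : Set G), ∀ k ∈ H, m * k * m⁻¹ ∈ H) :
    (∀ k ∈ H, k * x = x * k) ∨ ∀ n ∈ N, ∃ k ∈ H, ∃ c ∈ N, c * x = x * c ∧ n = k * c := by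
  rcases mc_T1 (mc_coatom N h hxN hxZ) H hn with h1 | h1
  · left; intro k hk; exact mem_centralizer_singleton_iff.1 (h1 hk)
  · right
    intro n hnN
    obtain ⟨k, hk, m, hm, rfl⟩ := h1 n
    refine ⟨k, hk, m, ?_, mem_centralizer_singleton_iff.1 hm, rfl⟩
    have : m = k⁻¹ * (k * m) := by group
    rw [this]; exact mul_mem (inv_mem (hHN hk)) hnN

theorem mc_GNM
    (h : ∀ x : G, x ∈ N → x ∉ centralizer (N : Set G) → IsCoatom (centralizer ({x} : Set G)))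
    {x : G} (hxN : x ∈ N) (hxZ : x ∉ mc_Z N) (g : G) :
    ∃ n ∈ N, ∃ m : G, m * x = x * m ∧ g = n * m := by
  rcases mc_T1 (mc_coatom N h hxN hxZ) N (fun m _ k hk => hNn.conj_mem k hk m) with h1 | h1
  · exfalso
    apply hxZ
    rw [mc_mem_Z]
    exact ⟨hxN, fun n hn => mem_centralizer_singleton_iff.1 (h1 hn)⟩
  · obtain ⟨n, hn, m, hm, rfl⟩ := h1 g
    exact ⟨n, hn, m, mem_centralizer_singleton_iff.1 hm, rfl⟩

theorem mc_dich
    (h : ∀ x : G, x ∈ N → x ∉ centralizer (N : Set G) → IsCoatom (centralizer ({x} : Set G)))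
    {x : G} (hxN : x ∈ N) (hxZ : x ∉ mc_Z N) :
    (∀ d ∈ N, Commute (mc_pi N d) (mc_pi N x) → d * x = x * d) ∨
    (∀ n ∈ N, Commute (mc_pi N n) (mc_pi N x)) := by
  set D : Subgroup G :=
    N ⊓ (centralizer ({mc_pi N x} : Set (G ⧸ mc_Z N))).comap (mc_pi N) with hD
  have hmemD : ∀ d, d ∈ D ↔ d ∈ N ∧ Commute (mc_pi N d) (mc_pi N x) := by
    intro d
    rw [hD, mem_inf, mem_comap, mem_centralizer_singleton_iff]
    rfl
  have hn : ∀ m ∈ centralizer ({x} : Set G), ∀ k ∈ D, m * k * m⁻¹ ∈ D := by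
    intro m hm k hk
    rw [hmemD] at hk ⊢
    refine ⟨hNn.conj_mem k hk.1 m, ?_⟩
    have hmx : Commute (mc_pi N m) (mc_pi N x) :=
      mc_pi_comm_of_comm (mem_centralizer_singleton_iff.1 hm)
    rw [map_mul, map_mul, map_inv]
    exact (hmx.mul_left hk.2).mul_left hmx.inv_left
  rcases mc_T1N N h hxN hxZ D (by rw [hD]; exact inf_le_left) hn with h1 | h1
  · left
    intro d hd hc
    exact h1 d ((hmemD d).2 ⟨hd, hc⟩)
  · right
    intro n hn'
    obtain ⟨k, hk, c, hcN, hcx, rfl⟩ := h1 n hn'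
    rw [hmemD] at hk
    rw [map_mul]
    exact hk.2.mul_left (mc_pi_comm_of_comm hcx)

theorem mc_union {A B : Subgroup G} (hAB : ∀ n ∈ N, n ∈ A ∨ n ∈ B) : N ≤ A ∨ N ≤ B := by
  by_contra hcon
  rw [not_or] at hcon
  obtain ⟨h1, h2⟩ := hcon
  obtain ⟨a, haN, haA⟩ := SetLike.not_le_iff_exists.1 h1
  obtain ⟨b, hbN, hbB⟩ := SetLike.not_le_iff_exists.1 h2
  have haB : a ∈ B := (hAB a haN).resolve_left haA
  have hbA : b ∈ A := (hAB b hbN).resolve_right hbB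
  rcases hAB (a * b) (mul_mem haN hbN) with h3 | h3
  · apply haA
    have : a = a * b * b⁻¹ := by group
    rw [this]; exact mul_mem h3 (inv_mem hbA)
  · apply hbB
    have : b = a⁻¹ * (a * b) := by group
    rw [this]; exact mul_mem (inv_mem haB) h3

end MC

end Cfsg.Agent.Helper19
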