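import Cfsg.Agent.Helper19.MaxCent1

namespace Cfsg.Agent.Helper19

open Subgroup

section MCI
variable {G : Type*} [Group G] (N : Subgroup G) [hNn : N.Normal]

theorem mc_kappa_mul {y : G} (hyN : y ∈ N) (hI : ∀ n ∈ N, Commute (mc_pi N n) (mc_pi N y))
    {a b : G} (ha : a ∈ N) (hb : b ∈ N) :
    (a * b) * y * (a * b)⁻¹ * y⁻¹ = (a * y * a⁻¹ * y⁻¹) * (b * y * b⁻¹ * y⁻¹) := by
  have hkb : b * y * b⁻¹ * y⁻¹ ∈ mc_Z N := mc_pi_comm.1 (hI b hb)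
  have hb' := (mc_mem_Z.1 hkb).2
  have hkaN : a * y * a⁻¹ * y⁻¹ ∈ N :=
    mul_mem (mul_mem (mul_mem ha hyN) (inv_mem ha)) (inv_mem hyN)
  calc (a * b) * y * (a * b)⁻¹ * y⁻¹ = a * (b * y * b⁻¹ * y⁻¹) * (y * a⁻¹ * y⁻¹) := by group
    _ = (b * y * b⁻¹ * y⁻¹) * a * (y * a⁻¹ * y⁻¹) := by rw [hb' a ha]
    _ = (b * y * b⁻¹ * y⁻¹) * (a * y * a⁻¹ * y⁻¹) := by group
    _ = (a * y * a⁻¹ * y⁻¹) * (b * y * b⁻¹ * y⁻¹) := (hb' _ hkaN).symm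

theorem mc_kappa_pow {y : G} (hyN : y ∈ N) (hI : ∀ n ∈ N, Commute (mc_pi N n) (mc_pi N y))
    {a : G} (ha : a ∈ N) (k : ℕ) :
    (a ^ k) * y * (a ^ k)⁻¹ * y⁻¹ = (a * y * a⁻¹ * y⁻¹) ^ k := by
  induction k with
  | zero => simp
  | succ k ih => rw [pow_succ, mc_kappa_mul N hyN hI (pow_mem ha k) ha, ih, pow_succ]

theorem mc_kappa_inv {y : G} (hyN : y ∈ N) (hI : ∀ n ∈ N, Commute (mc_pi N n) (mc_pi N y))
    {a : G} (ha : a ∈ N) :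
    a⁻¹ * y * a⁻¹⁻¹ * y⁻¹ = (a * y * a⁻¹ * y⁻¹)⁻¹ := by
  apply eq_inv_of_mul_eq_one_left
  rw [← mc_kappa_mul N hyN hI (inv_mem ha) ha]
  group

variable [Finite G]

theorem mc_caseI_pow
    (h : ∀ x : G, x ∈ N → x ∉ centralizer (N : Set G) → IsCoatom (centralizer ({x} : Set G)))
    {y : G} (hyN : y ∈ N) (hyZ : y ∉ mc_Z N)
    (hI : ∀ n ∈ N, Commute (mc_pi N n) (mc_pi N y)) :
    ∃ q : ℕ, q.Prime ∧ y ^ q ∈ mc_Z N := by
  classical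
  have hex : ∃ n0 ∈ N, n0 * y ≠ y * n0 := by
    by_contra hcon
    push_neg at hcon
    exact hyZ (mc_mem_Z.2 ⟨hyN, hcon⟩)
  obtain ⟨n0, hn0N, hn0⟩ := hex
  set c0 := n0 * y * n0⁻¹ * y⁻¹ with hc0
  have hc0ne : c0 ≠ 1 := by
    intro h1
    apply hn0
    have : n0 * y = c0 * y * n0 := by rw [hc0]; group
    rw [this, h1, one_mul]
  have hr : orderOf c0 ≠ 1 := by rwa [Ne, orderOf_eq_one_iff]
  set q := (orderOf c0).minFac with hq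
  have hqp : q.Prime := Nat.minFac_prime hr
  set n1 := n0 ^ (orderOf c0 / q) with hn1
  have hn1N : n1 ∈ N := pow_mem hn0N _
  have hk1 : n1 * y * n1⁻¹ * y⁻¹ = c0 ^ (orderOf c0 / q) := mc_kappa_pow N hyN hI hn0N _
  have ho1 : orderOf (c0 ^ (orderOf c0 / q)) = q :=
    orderOf_pow_orderOf_div (orderOf_pos c0).ne' (Nat.minFac_dvd _)
  have hk1q : (n1 * y * n1⁻¹ * y⁻¹) ^ q = 1 := by
    rw [hk1]
    have := pow_orderOf_eq_one (c0 ^ (orderOf c0 / q))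
    rwa [ho1] at this
  have hk1ne : n1 * y * n1⁻¹ * y⁻¹ ≠ 1 := by
    rw [hk1]; intro h1
    rw [h1, orderOf_one] at ho1
    exact hqp.ne_one ho1.symm
  let Hq : Subgroup G :=
    { carrier := {n | n ∈ N ∧ (n * y * n⁻¹ * y⁻¹) ^ q = 1}
      mul_mem' := by
        rintro a b ⟨ha, ha'⟩ ⟨hb, hb'⟩
        refine ⟨mul_mem ha hb, ?_⟩
        rw [mc_kappa_mul N hyN hI ha hb]
        have hkb : b * y * b⁻¹ * y⁻¹ ∈ mc_Z N := mc_pi_comm.1 (hI b hb)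
        have hkaN : a * y * a⁻¹ * y⁻¹ ∈ N :=
          mul_mem (mul_mem (mul_mem ha hyN) (inv_mem ha)) (inv_mem hyN)
        have hcomm : Commute (a * y * a⁻¹ * y⁻¹) (b * y * b⁻¹ * y⁻¹) :=
          (mc_mem_Z.1 hkb).2 _ hkaN
        rw [hcomm.mul_pow, ha', hb', one_mul]
      one_mem' := ⟨one_mem _, by simp⟩
      inv_mem' := by
        rintro a ⟨ha, ha'⟩
        refine ⟨inv_mem ha, ?_⟩
        rw [mc_kappa_inv N hyN hI ha, inv_pow, ha', inv_one] }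
  have hmemHq : ∀ n, n ∈ Hq ↔ n ∈ N ∧ (n * y * n⁻¹ * y⁻¹) ^ q = 1 := fun n => Iff.rfl
  have hnorm : ∀ m ∈ centralizer ({y} : Set G), ∀ k ∈ Hq, m * k * m⁻¹ ∈ Hq := by
    intro m hm k hk
    rw [hmemHq] at hk ⊢
    refine ⟨hNn.conj_mem k hk.1 m, ?_⟩
    have hmy : m * y = y * m := mem_centralizer_singleton_iff.1 hm
    have hmy' : m⁻¹ * y * m = y := by rw [mul_assoc, ← hmy]; group
    have e : (m * k * m⁻¹) * y * (m * k * m⁻¹)⁻¹ * y⁻¹ = m * (k * y * k⁻¹ * y⁻¹) * m⁻¹ := by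
      calc (m * k * m⁻¹) * y * (m * k * m⁻¹)⁻¹ * y⁻¹
          = m * (k * (m⁻¹ * y * m) * k⁻¹ * (m⁻¹ * y * m)⁻¹) * m⁻¹ := by group
        _ = m * (k * y * k⁻¹ * y⁻¹) * m⁻¹ := by rw [hmy']
    rw [e, conj_pow, hk.2]; group
  rcases mc_T1N N h hyN hyZ Hq (fun n hn => hn.1) hnorm with h1 | h1
  · exfalso
    apply hk1ne
    have := h1 n1 ⟨hn1N, hk1q⟩
    rw [this]; group
  · refine ⟨q, hqp, mc_mem_Z.2 ⟨pow_mem hyN q, ?_⟩⟩
    intro n hn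
    obtain ⟨k, hk, c, hcN, hcy, hnkc⟩ := h1 n hn
    have hkc : n * y * n⁻¹ * y⁻¹ = k * y * k⁻¹ * y⁻¹ := by
      rw [hnkc, mc_kappa_mul N hyN hI hk.1 hcN]
      have : c * y * c⁻¹ * y⁻¹ = 1 := by rw [hcy]; group
      rw [this, mul_one]
    have hκq : (n * y * n⁻¹ * y⁻¹) ^ q = 1 := by rw [hkc]; exact hk.2
    have hκZ : n * y * n⁻¹ * y⁻¹ ∈ mc_Z N := mc_pi_comm.1 (hI n hn)
    have hκy : Commute (n * y * n⁻¹ * y⁻¹) y := ((mc_mem_Z.1 hκZ).2 y hyN).symm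
    have e1 : n * y * n⁻¹ = (n * y * n⁻¹ * y⁻¹) * y := by group
    have e2 : n * y ^ q * n⁻¹ = y ^ q := by
      rw [← conj_pow, e1, hκy.mul_pow, hκq, one_mul]
    calc n * y ^ q = (n * y ^ q * n⁻¹) * n := by group
      _ = y ^ q * n := by rw [e2]

theorem mc_caseI_L
    (h : ∀ x : G, x ∈ N → x ∉ centralizer (N : Set G) → IsCoatom (centralizer ({x} : Set G)))
    {y : G} (hyN : y ∈ N) (hyZ : y ∉ mc_Z N)
    (hI : ∀ n ∈ N, Commute (mc_pi N n) (mc_pi N y)) :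
    ∃ L : Subgroup G, L.Normal ∧ L ≤ N ∧ (∀ a ∈ L, ∀ b ∈ L, a * b = b * a) ∧ ¬ L ≤ mc_Z N := by
  set C : Subgroup G := N ⊓ centralizer ({y} : Set G) with hC
  have hmemC : ∀ c, c ∈ C ↔ c ∈ N ∧ c * y = y * c := by
    intro c; rw [hC, mem_inf, mem_centralizer_singleton_iff]
  have hCnorm : ∀ c ∈ C, ∀ g : G, g * c * g⁻¹ ∈ C := by
    intro c hc g
    obtain ⟨n, hn, m, hm, rfl⟩ := mc_GNM N h hyN hyZ g
    rw [hmemC] at hc
    have h1 : m * c * m⁻¹ ∈ N ∧ (m * c * m⁻¹) * y = y * (m * c * m⁻¹) := by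
      refine ⟨hNn.conj_mem c hc.1 m, ?_⟩
      have hmy' : m⁻¹ * y = y * m⁻¹ := by
        calc m⁻¹ * y = m⁻¹ * (y * m) * m⁻¹ := by group
          _ = m⁻¹ * (m * y) * m⁻¹ := by rw [hm]
          _ = y * m⁻¹ := by group
      calc m * c * m⁻¹ * y = m * c * (m⁻¹ * y) := by group
        _ = m * c * (y * m⁻¹) := by rw [hmy']
        _ = m * (c * y) * m⁻¹ := by group
        _ = m * (y * c) * m⁻¹ := by rw [hc.2]
        _ = (m * y) * c * m⁻¹ := by group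
        _ = (y * m) * c * m⁻¹ := by rw [hm]
        _ = y * (m * c * m⁻¹) := by group
    rw [hmemC]
    have e : n * m * c * (n * m)⁻¹ = n * (m * c * m⁻¹) * n⁻¹ := by group
    rw [e]
    refine ⟨hNn.conj_mem _ h1.1 n, ?_⟩
    have hk : (n * (m * c * m⁻¹) * n⁻¹) * y * (n * (m * c * m⁻¹) * n⁻¹)⁻¹ * y⁻¹ = 1 := by
      rw [mc_kappa_mul N hyN hI (mul_mem hn h1.1) (inv_mem hn), mc_kappa_mul N hyN hI hn h1.1,
        mc_kappa_inv N hyN hI hn]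
      have : (m * c * m⁻¹) * y * (m * c * m⁻¹)⁻¹ * y⁻¹ = 1 := by rw [h1.2]; group
      rw [this, mul_one, mul_inv_cancel]
    calc n * (m * c * m⁻¹) * n⁻¹ * y
        = ((n * (m * c * m⁻¹) * n⁻¹) * y * (n * (m * c * m⁻¹) * n⁻¹)⁻¹ * y⁻¹) * y *
            (n * (m * c * m⁻¹) * n⁻¹) := by group
      _ = y * (n * (m * c * m⁻¹) * n⁻¹) := by rw [hk, one_mul]
  refine ⟨C ⊓ centralizer (C : Set G), ⟨?_⟩,
    inf_le_left.trans (by rw [hC]; exact inf_le_left), ?_, ?_⟩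
  · intro l hl g
    obtain ⟨hlC, hlc⟩ := mem_inf.1 hl
    refine mem_inf.2 ⟨hCnorm l hlC g, ?_⟩
    rw [mem_centralizer_iff] at hlc ⊢
    intro c hc
    have hc' : g⁻¹ * c * g ∈ C := by simpa using hCnorm c hc g⁻¹
    have h3 := hlc _ hc'
    calc c * (g * l * g⁻¹) = g * ((g⁻¹ * c * g) * l) * g⁻¹ := by group
      _ = g * (l * (g⁻¹ * c * g)) * g⁻¹ := by rw [h3]
      _ = g * l * g⁻¹ * c := by group
  · intro a ha b hb
    exact (mem_centralizer_iff.1 (mem_inf.1 hb).2) a (mem_inf.1 ha).1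
  · intro hle
    apply hyZ
    apply hle
    refine mem_inf.2 ⟨(hmemC y).2 ⟨hyN, rfl⟩, ?_⟩
    rw [mem_centralizer_iff]
    intro c hc
    exact ((hmemC c).1 hc).2

theorem mc_caseI_EA
    (h : ∀ x : G, x ∈ N → x ∉ centralizer (N : Set G) → IsCoatom (centralizer ({x} : Set G)))
    {x : G} (hxN : x ∈ N) (hxZ : x ∉ mc_Z N)
    (hI : ∀ n ∈ N, Commute (mc_pi N n) (mc_pi N x)) :
    (∀ a ∈ N, ∀ b ∈ N, Commute (mc_pi N a) (mc_pi N b)) ∧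
    (∀ y ∈ N, y ∉ mc_Z N → ∃ q : ℕ, q.Prime ∧ y ^ q ∈ mc_Z N) := by
  set Z2 : Subgroup G :=
    N ⊓ (centralizer ((N.map (mc_pi N) : Subgroup (G ⧸ mc_Z N)) : Set (G ⧸ mc_Z N))).comap
      (mc_pi N) with hZ2
  have hmemZ2 : ∀ y, y ∈ Z2 ↔ y ∈ N ∧ ∀ n ∈ N, Commute (mc_pi N n) (mc_pi N y) := by
    intro y
    rw [hZ2, mem_inf, mem_comap, mem_centralizer_iff]
    constructor
    · rintro ⟨h1, h2⟩
      exact ⟨h1, fun n hn => h2 _ (mem_map_of_mem _ hn)⟩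
    · rintro ⟨h1, h2⟩
      refine ⟨h1, ?_⟩
      rintro _ ⟨n, hn, rfl⟩
      exact h2 n hn
  have hsub : ∀ n ∈ N, n ∈ Z2 ∨ n ∈ N ⊓ centralizer (Z2 : Set G) := by
    intro n hn
    by_cases hnZ2 : n ∈ Z2
    · exact Or.inl hnZ2
    · right
      have hnZ : n ∉ mc_Z N := by
        intro hz
        apply hnZ2
        rw [hmemZ2]
        refine ⟨hn, fun k _ => ?_⟩
        have : mc_pi N n = 1 := mc_pi_one.2 hz
        rw [this]; exact Commute.one_right _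
      rcases mc_dich N h hn hnZ with hB | hI'
      · refine mem_inf.2 ⟨hn, ?_⟩
        rw [mem_centralizer_iff]
        intro z2 hz2
        exact hB z2 ((hmemZ2 z2).1 hz2).1 (((hmemZ2 z2).1 hz2).2 n hn).symm
      · exact absurd ((hmemZ2 n).2 ⟨hn, hI'⟩) hnZ2
  have hNZ2 : N ≤ Z2 := by
    rcases mc_union N hsub with h1 | h1
    · exact h1
    · exfalso
      apply hxZ
      rw [mc_mem_Z]
      refine ⟨hxN, fun n hn => ?_⟩
      have hx2 : x ∈ Z2 := (hmemZ2 x).2 ⟨hxN, hI⟩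
      have h3 := (mem_centralizer_iff.1 (mem_inf.1 (h1 hn)).2) x hx2
      exact h3.symm
  refine ⟨fun a ha b hb => ((hmemZ2 b).1 (hNZ2 hb)).2 a ha, ?_⟩
  intro y hy hyZ
  exact mc_caseI_pow N h hy hyZ ((hmemZ2 y).1 (hNZ2 hy)).2

end MCI

end Cfsg.Agent.Helper19
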