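import Mathlib

namespace Cfsg.Agent.Helper19

open Subgroup

section QM
variable {Q : Type*} [Group Q] [Finite Q]

theorem qm_cent_pow_le (w : Q) (k : ℕ) :
    centralizer ({w} : Set Q) ≤ centralizer {w ^ k} := by
  intro g hg
  rw [mem_centralizer_singleton_iff] at hg ⊢
  have h : Commute g w := hg
  exact (h.pow_right k)

theorem qm_cp
    (h3 : ∀ (x : Q) (j : ℕ), x ^ j ≠ 1 → centralizer ({x ^ j} : Set Q) ≤ centralizer {x})
    {x y : Q} (hx : x ≠ 1) (hy : y ≠ 1) (hc : Commute x y)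
    (hco : (orderOf x).Coprime (orderOf y)) :
    centralizer ({x} : Set Q) = centralizer {y} := by
  obtain ⟨m, hm⟩ := exists_pow_eq_self_of_coprime (x := x) (n := orderOf y) hco.symm
  obtain ⟨m', hm'⟩ := exists_pow_eq_self_of_coprime (x := y) (n := orderOf x) hco
  have e1 : (x * y) ^ (orderOf y * m) = x := by
    rw [pow_mul, hc.mul_pow, pow_orderOf_eq_one, mul_one, hm]
  have e2 : (x * y) ^ (orderOf x * m') = y := by
    rw [pow_mul, hc.mul_pow, pow_orderOf_eq_one, one_mul, hm']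
  have a1 : centralizer ({x} : Set Q) = centralizer {x * y} := by
    apply le_antisymm
    · have := h3 (x * y) (orderOf y * m) (by rw [e1]; exact hx)
      rwa [e1] at this
    · have := qm_cent_pow_le (x * y) (orderOf y * m)
      rwa [e1] at this
  have a2 : centralizer ({y} : Set Q) = centralizer {x * y} := by
    apply le_antisymm
    · have := h3 (x * y) (orderOf x * m') (by rw [e2]; exact hy)
      rwa [e2] at this
    · have := qm_cent_pow_le (x * y) (orderOf x * m')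
      rwa [e2] at this
  rw [a1, a2]

theorem qm_ppart {p : ℕ} (hp : p.Prime) (c : Q) : ∃ a : ℕ, ¬ p ∣ orderOf (c ^ p ^ a) := by
  obtain ⟨a, m, hm, hn⟩ := Nat.exists_eq_pow_mul_and_not_dvd (orderOf_pos c).ne' p hp.ne_one
  refine ⟨a, fun h => hm (h.trans ?_)⟩
  apply orderOf_dvd_of_pow_eq_one
  rw [← pow_mul, ← hn, pow_orderOf_eq_one]

theorem qm_center_elt (p : ℕ) [hp : Fact p.Prime] (P : Sylow p Q) (hP : (P : Subgroup Q) ≠ ⊥) :
    ∃ x ∈ (P : Subgroup Q), x ≠ 1 ∧ ∀ g ∈ (P : Subgroup Q), Commute x g := by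
  haveI : Nontrivial (P : Subgroup Q) := (Subgroup.nontrivial_iff_ne_bot _).2 hP
  haveI := IsPGroup.center_nontrivial (P.isPGroup')
  obtain ⟨c, hc⟩ := exists_ne (1 : center (P : Subgroup Q))
  refine ⟨c.1.1, c.1.2, ?_, ?_⟩
  · intro h; apply hc; apply Subtype.ext; apply Subtype.ext; simpa using h
  · intro g hg
    have := (Subgroup.mem_center_iff.1 c.2) ⟨g, hg⟩
    have h' := congrArg Subtype.val this
    simp at h'
    exact h'.symm

theorem qm_sylow_cent
    (h2 : ∀ x : Q, x ≠ 1 →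
      normalizer ((centralizer ({x} : Set Q) : Subgroup Q) : Set Q) ≤ centralizer {x})
    (h3 : ∀ (x : Q) (j : ℕ), x ^ j ≠ 1 → centralizer ({x ^ j} : Set Q) ≤ centralizer {x})
    (hno : ∀ (p : ℕ) [Fact p.Prime] (P : Sylow p Q), (P : Subgroup Q) ≠ ⊥ →
      ¬ normalizer ((P : Subgroup Q) : Set Q) ≤ centralizer ((P : Subgroup Q) : Set Q))
    (p : ℕ) [hp : Fact p.Prime] (P : Sylow p Q) (x : Q) (hxP : x ∈ (P : Subgroup Q))
    (hx1 : x ≠ 1) (hxc : ∀ g ∈ (P : Subgroup Q), Commute x g) :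
    centralizer ({x} : Set Q) = (P : Subgroup Q) ∧
      ¬ (∀ a ∈ (P : Subgroup Q), ∀ b ∈ (P : Subgroup Q), Commute a b) := by
  classical
  set C := centralizer ({x} : Set Q) with hC
  have hPC : (P : Subgroup Q) ≤ C := by
    intro g hg
    rw [hC, mem_centralizer_singleton_iff]
    exact (hxc g hg).symm.eq
  have hPne : (P : Subgroup Q) ≠ ⊥ := by
    intro h; rw [h, mem_bot] at hxP; exact hx1 hxP
  have hnab : ¬ (∀ a ∈ C, ∀ b ∈ C, Commute a b) := by
    intro hab
    apply hno p P hPne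
    intro g hg
    have key : ∀ g' : Q, g' ∈ normalizer ((P : Subgroup Q) : Set Q) → ∀ c ∈ C,
        g' * c * g'⁻¹ ∈ C := by
      intro g' hg' c hc
      rw [hC, mem_centralizer_singleton_iff]
      have hx0 : g'⁻¹ * x * g' ∈ (P : Subgroup Q) := by
        have := (mem_normalizer_iff.1 (inv_mem hg') x).1 hxP
        simpa using this
      have hcom : Commute c (g'⁻¹ * x * g') := hab c hc _ (hPC hx0)
      calc g' * c * g'⁻¹ * x = g' * (c * (g'⁻¹ * x * g')) * g'⁻¹ := by group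
        _ = g' * ((g'⁻¹ * x * g') * c) * g'⁻¹ := by rw [hcom.eq]
        _ = x * (g' * c * g'⁻¹) := by group
    have hgN : g ∈ normalizer ((C : Subgroup Q) : Set Q) := by
      rw [mem_normalizer_iff]
      intro c
      constructor
      · intro hc; exact key g hg c hc
      · intro hc
        have := key g⁻¹ (inv_mem hg) _ hc
        simpa [mul_assoc] using this
    have hgC : g ∈ C := h2 x hx1 hgN
    rw [mem_centralizer_iff]
    intro u hu
    exact (hab u (hPC hu) g hgC).eq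
  have hxord : ∃ k, orderOf x = p ^ k := by
    obtain ⟨k, hk⟩ := (IsPGroup.iff_orderOf.1 P.isPGroup') ⟨x, hxP⟩
    exact ⟨k, by rw [← hk, Subgroup.orderOf_mk]⟩
  have hb : ∀ y ∈ C, y ≠ 1 → p ∣ orderOf y := by
    intro y hyC hy1
    by_contra hpy
    obtain ⟨k, hk⟩ := hxord
    have hcop : ∀ z : Q, (∃ j, orderOf z = p ^ j) → (orderOf z).Coprime (orderOf y) := by
      rintro z ⟨j, hj⟩
      rw [hj]
      exact Nat.Coprime.pow_left _ ((Nat.Prime.coprime_iff_not_dvd hp.out).2 hpy)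
    have hxy : Commute x y := by
      rw [hC, mem_centralizer_singleton_iff] at hyC
      exact hyC.symm
    have hCy : centralizer ({y} : Set Q) = C := (qm_cp h3 hx1 hy1 hxy (hcop x ⟨k, hk⟩)).symm
    have hw : ∀ w ∈ C, w ≠ 1 → centralizer ({w} : Set Q) = C := by
      intro w hwC hw1
      obtain ⟨a, ha⟩ := qm_ppart hp.out w
      by_cases hw' : w ^ p ^ a = 1
      · have hdvd : orderOf w ∣ p ^ a := orderOf_dvd_of_pow_eq_one hw'
        obtain ⟨j, -, hj⟩ := (Nat.dvd_prime_pow hp.out).1 hdvd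
        have hyw : Commute y w := by
          rw [← hCy, mem_centralizer_singleton_iff] at hwC
          exact hwC.symm
        have := qm_cp h3 hy1 hw1 hyw (hcop w ⟨j, hj⟩).symm
        rw [← this, hCy]
      · have hw'C : w ^ p ^ a ∈ C := pow_mem hwC _
        have hxw' : Commute x (w ^ p ^ a) := by
          rw [hC, mem_centralizer_singleton_iff] at hw'C
          exact hw'C.symm
        have hcop' : (orderOf x).Coprime (orderOf (w ^ p ^ a)) := by
          rw [hk]
          exact Nat.Coprime.pow_left _ ((Nat.Prime.coprime_iff_not_dvd hp.out).2 ha)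
        have e := qm_cp h3 hx1 hw' hxw' hcop'
        apply le_antisymm
        · calc centralizer ({w} : Set Q) ≤ centralizer {w ^ p ^ a} := qm_cent_pow_le w _
            _ = C := e.symm
        · calc C = centralizer {w ^ p ^ a} := e
            _ ≤ centralizer {w} := h3 w _ hw'
    apply hnab
    intro a haC b hbC
    by_cases ha1 : a = 1
    · rw [ha1]; exact Commute.one_left b
    · have := hw a haC ha1
      rw [← this, mem_centralizer_singleton_iff] at hbC
      exact hbC.symm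
  have hCp : IsPGroup p C := by
    intro c
    obtain ⟨a, ha⟩ := qm_ppart hp.out (c : Q)
    refine ⟨a, ?_⟩
    by_contra hne
    have hne' : (c : Q) ^ p ^ a ≠ 1 := by
      intro h; apply hne; apply Subtype.ext; simpa using h
    exact ha (hb _ (pow_mem c.2 _) hne')
  have hCP : C = (P : Subgroup Q) := P.is_maximal' hCp hPC
  refine ⟨hCP, ?_⟩
  intro hab
  apply hnab
  intro a ha b hb'
  rw [hCP] at ha hb'
  exact hab a ha b hb'

theorem qm_cover
    (h2 : ∀ x : Q, x ≠ 1 →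
      normalizer ((centralizer ({x} : Set Q) : Subgroup Q) : Set Q) ≤ centralizer {x})
    (h3 : ∀ (x : Q) (j : ℕ), x ^ j ≠ 1 → centralizer ({x ^ j} : Set Q) ≤ centralizer {x})
    (hno : ∀ (p : ℕ) [Fact p.Prime] (P : Sylow p Q), (P : Subgroup Q) ≠ ⊥ →
      ¬ normalizer ((P : Subgroup Q) : Set Q) ≤ centralizer ((P : Subgroup Q) : Set Q))
    (w : Q) (hw : w ≠ 1) :
    ∃ (p : ℕ) (_ : Fact p.Prime) (P : Sylow p Q), w ∈ (P : Subgroup Q) ∧
      ∀ g ∈ (P : Subgroup Q), Commute w g := by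
  classical
  have hord : orderOf w ≠ 1 := by rwa [Ne, orderOf_eq_one_iff]
  set p := (orderOf w).minFac with hpdef
  have hp : p.Prime := Nat.minFac_prime hord
  haveI : Fact p.Prime := ⟨hp⟩
  set u := w ^ (orderOf w / p) with hu
  have huo : orderOf u = p := orderOf_pow_orderOf_div (orderOf_pos w).ne' (Nat.minFac_dvd _)
  have hu1 : u ≠ 1 := by
    intro h; rw [h, orderOf_one] at huo; exact hp.ne_one huo.symm
  have hcuw : centralizer ({u} : Set Q) = centralizer {w} :=
    le_antisymm (h3 w _ hu1) (qm_cent_pow_le w _)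
  have hup : IsPGroup p (zpowers u) := by
    apply IsPGroup.of_card (n := 1)
    rw [Nat.card_zpowers, huo, pow_one]
  obtain ⟨P', hP'⟩ := hup.exists_le_sylow
  have huP' : u ∈ (P' : Subgroup Q) := hP' (mem_zpowers u)
  have hP'ne : (P' : Subgroup Q) ≠ ⊥ := by
    intro h; rw [h, mem_bot] at huP'; exact hu1 huP'
  obtain ⟨x', hx'P, hx'1, hx'c⟩ := qm_center_elt p P' hP'ne
  have hcx' := (qm_sylow_cent h2 h3 hno p P' x' hx'P hx'1 hx'c).1
  have hx'u : x' ∈ centralizer ({u} : Set Q) := by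
    rw [mem_centralizer_singleton_iff]; exact (hx'c u huP').eq
  have hCup : IsPGroup p (centralizer ({u} : Set Q)) := by
    intro c
    obtain ⟨a, ha⟩ := qm_ppart hp (c : Q)
    refine ⟨a, ?_⟩
    by_contra hne
    have hne' : (c : Q) ^ p ^ a ≠ 1 := by
      intro h; apply hne; apply Subtype.ext; simpa using h
    have hc'C : (c : Q) ^ p ^ a ∈ centralizer ({u} : Set Q) := pow_mem c.2 _
    have huc' : Commute u ((c : Q) ^ p ^ a) := by
      rw [mem_centralizer_singleton_iff] at hc'C; exact hc'C.symm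
    have hcop : (orderOf u).Coprime (orderOf ((c : Q) ^ p ^ a)) := by
      rw [huo]; exact (Nat.Prime.coprime_iff_not_dvd hp).2 ha
    have e := qm_cp h3 hu1 hne' huc' hcop
    have hx'c' : x' ∈ centralizer ({(c : Q) ^ p ^ a} : Set Q) := by rw [← e]; exact hx'u
    have hc'x' : (c : Q) ^ p ^ a ∈ centralizer ({x'} : Set Q) := by
      rw [mem_centralizer_singleton_iff] at hx'c' ⊢
      exact hx'c'.symm
    rw [hcx'] at hc'x'
    obtain ⟨k, hk⟩ := (IsPGroup.iff_orderOf.1 P'.isPGroup') ⟨_, hc'x'⟩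
    rw [Subgroup.orderOf_mk] at hk
    rcases k with _ | k
    · rw [pow_zero, orderOf_eq_one_iff] at hk; exact hne' hk
    · exact ha (by rw [hk]; exact dvd_pow_self p (Nat.succ_ne_zero k))
  obtain ⟨P'', hP''⟩ := hCup.exists_le_sylow
  have hEq : centralizer ({u} : Set Q) = (P'' : Subgroup Q) := by
    by_contra hne
    haveI : Group.IsNilpotent (P'' : Subgroup Q) := IsPGroup.isNilpotent P''.isPGroup'
    have hlt : (centralizer ({u} : Set Q)).subgroupOf (P'' : Subgroup Q) < ⊤ := by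
      rw [lt_top_iff_ne_top, Ne, subgroupOf_eq_top]
      intro hle; exact hne (le_antisymm hP'' hle)
    have hnc := Group.normalizerCondition_of_isNilpotent (G := (P'' : Subgroup Q)) _ hlt
    obtain ⟨s, hsN, hsH⟩ := SetLike.exists_of_lt hnc
    apply hsH
    rw [mem_subgroupOf]
    apply h2 u hu1
    rw [mem_normalizer_iff]
    intro c
    rw [mem_normalizer_iff] at hsN
    constructor
    · intro hc
      have := (hsN ⟨c, hP'' hc⟩).1 (by rw [mem_subgroupOf]; exact hc)
      rw [mem_subgroupOf] at this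
      simpa using this
    · intro hc
      have hcP : (s : Q) * c * (s : Q)⁻¹ ∈ (P'' : Subgroup Q) := hP'' hc
      have hcP' : c ∈ (P'' : Subgroup Q) := by
        have := mul_mem (mul_mem (inv_mem s.2) hcP) s.2
        simpa [mul_assoc] using this
      have := (hsN ⟨c, hcP'⟩).2 (by rw [mem_subgroupOf]; simpa using hc)
      rw [mem_subgroupOf] at this
      exact this
  refine ⟨p, ⟨hp⟩, P'', ?_, ?_⟩
  · rw [← hEq, hcuw, mem_centralizer_singleton_iff]
  · intro g hg
    rw [← hEq, hcuw, mem_centralizer_singleton_iff] at hg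
    exact hg.symm

theorem qm_num_aux (M : ℕ) :
    ∑ k ∈ Finset.range M, (1 : ℚ) / ((k : ℚ) + 2) ^ 2 ≤ 1 - 1 / ((M : ℚ) + 1) := by
  induction M with
  | zero => simp
  | succ M ih =>
    rw [Finset.sum_range_succ]
    have hM : (0 : ℚ) ≤ M := Nat.cast_nonneg M
    have h1 : (1 : ℚ) / ((M : ℚ) + 2) ^ 2 ≤ 1 / ((M : ℚ) + 1) - 1 / ((M : ℚ) + 2) := by
      rw [div_sub_div _ _ (by positivity) (by positivity),
        div_le_div_iff₀ (by positivity) (by positivity)]
      nlinarith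
    push_cast
    have : ((M : ℚ) + 1 + 1) = (M : ℚ) + 2 := by ring
    rw [this]
    linarith

theorem qm_num (S : Finset ℕ) (hS : ∀ p ∈ S, 2 ≤ p) (a : ℕ → ℕ) (m : ℕ)
    (h : ∀ p ∈ S, (a p + 1) * p ^ 2 ≤ m) (hne : S.Nonempty) : ∑ p ∈ S, a p + 1 < m := by
  classical
  obtain ⟨p0, hp0⟩ := hne
  have hm : 0 < m := by
    have h0 := h p0 hp0
    have : 0 < (a p0 + 1) * p0 ^ 2 := by have := hS p0 hp0; positivity
    omega
  set M := S.sup id + 1 with hM
  have hsub : S ⊆ (Finset.range M).image (fun k : ℕ => k + 2) := by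
    intro p hp
    rw [Finset.mem_image]
    refine ⟨p - 2, ?_, ?_⟩
    · rw [Finset.mem_range, hM]
      have : p ≤ S.sup id := Finset.le_sup (f := id) hp
      omega
    · have := hS p hp; omega
  have h1 : ∑ p ∈ S, (1 : ℚ) / (p : ℚ) ^ 2 ≤ 1 - 1 / ((M : ℚ) + 1) := by
    have hnn : ∀ p ∈ (Finset.range M).image (fun k : ℕ => k + 2), p ∉ S →
        (0 : ℚ) ≤ (1 : ℚ) / (p : ℚ) ^ 2 := fun _ _ _ => by positivity
    have e1 : ∑ p ∈ S, (1 : ℚ) / (p : ℚ) ^ 2
        ≤ ∑ p ∈ (Finset.range M).image (fun k : ℕ => k + 2), (1 : ℚ) / (p : ℚ) ^ 2 :=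
      Finset.sum_le_sum_of_subset_of_nonneg hsub hnn
    have e2 : ∑ p ∈ (Finset.range M).image (fun k : ℕ => k + 2), (1 : ℚ) / (p : ℚ) ^ 2
        = ∑ k ∈ Finset.range M, (1 : ℚ) / ((k : ℚ) + 2) ^ 2 := by
      rw [Finset.sum_image (fun x _ y _ hxy => by simpa using hxy)]
      apply Finset.sum_congr rfl
      intro k _
      push_cast
      ring
    rw [e2] at e1
    exact e1.trans (qm_num_aux M)
  have h2 : ∀ p ∈ S, ((a p : ℚ) + 1) ≤ (m : ℚ) * (1 / (p : ℚ) ^ 2) := by
    intro p hp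
    have hp2 : (0 : ℚ) < (p : ℚ) ^ 2 := by have := hS p hp; positivity
    have h0 := h p hp
    have hc : ((a p : ℚ) + 1) * (p : ℚ) ^ 2 ≤ m := by exact_mod_cast h0
    rw [mul_one_div, le_div_iff₀ hp2]
    exact hc
  have h3 : ∑ p ∈ S, ((a p : ℚ) + 1) ≤ (m : ℚ) * (1 - 1 / ((M : ℚ) + 1)) := by
    calc ∑ p ∈ S, ((a p : ℚ) + 1) ≤ ∑ p ∈ S, (m : ℚ) * (1 / (p : ℚ) ^ 2) := Finset.sum_le_sum h2
      _ = (m : ℚ) * ∑ p ∈ S, (1 : ℚ) / (p : ℚ) ^ 2 := by rw [Finset.mul_sum]
      _ ≤ _ := mul_le_mul_of_nonneg_left h1 (by positivity)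
  have h4 : (m : ℚ) * (1 - 1 / ((M : ℚ) + 1)) < m := by
    have : (0 : ℚ) < 1 / ((M : ℚ) + 1) := by positivity
    have hm' : (0 : ℚ) < m := by exact_mod_cast hm
    nlinarith
  have h5 : (1 : ℚ) ≤ ∑ p ∈ S, (1 : ℚ) := by
    rw [Finset.sum_const, nsmul_eq_mul, mul_one]
    have : 1 ≤ S.card := Finset.card_pos.2 ⟨p0, hp0⟩
    exact_mod_cast this
  have h6 : ((∑ p ∈ S, a p : ℕ) : ℚ) + 1 < m := by
    have : ∑ p ∈ S, ((a p : ℚ) + 1) = (∑ p ∈ S, (a p : ℚ)) + ∑ p ∈ S, (1 : ℚ) :=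
      Finset.sum_add_distrib
    push_cast
    linarith
  exact_mod_cast h6

end QM

end Cfsg.Agent.Helper19
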