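import Cfsg.Agent.Helper19.MaxCent2

namespace Cfsg.Agent.Helper19

open Subgroup

section QM2
variable {Q : Type*} [Group Q] [Finite Q]

theorem qm_nonab_bound (p : ℕ) [hp : Fact p.Prime] (S : Subgroup Q) (hS : IsPGroup p S)
    (hnab : ¬ (∀ a ∈ S, ∀ b ∈ S, Commute a b)) :
    p ^ 2 * Nat.card (S ⊓ centralizer (S : Set Q) : Subgroup Q) ≤ Nat.card S := by
  have hmap : (center S).map S.subtype = S ⊓ centralizer (S : Set Q) := by
    ext z
    constructor
    · rintro ⟨c, hc, rfl⟩
      refine mem_inf.2 ⟨c.2, ?_⟩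
      rw [mem_centralizer_iff]
      intro g hg
      have := (mem_center_iff.1 hc) ⟨g, hg⟩
      exact congrArg Subtype.val this
    · intro hz
      obtain ⟨hzS, hzc⟩ := mem_inf.1 hz
      refine ⟨⟨z, hzS⟩, ?_, rfl⟩
      show (⟨z, hzS⟩ : S) ∈ center S
      rw [mem_center_iff]
      intro g
      apply Subtype.ext
      exact (mem_centralizer_iff.1 hzc) g.1 g.2
  have hcard : Nat.card (S ⊓ centralizer (S : Set Q) : Subgroup Q) = Nat.card (center S) := by
    rw [← hmap]
    exact Nat.card_congr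
      ((center S).equivMapOfInjective S.subtype S.subtype_injective).symm.toEquiv
  rw [hcard]
  obtain ⟨n, hn⟩ := hS.index (center S)
  have hmul := (center S).card_mul_index
  rw [hn] at hmul
  have hcomm_contra : (∀ a b : S, a * b = b * a) → False := by
    intro hall
    apply hnab
    intro a ha b hb
    exact congrArg Subtype.val (hall ⟨a, ha⟩ ⟨b, hb⟩)
  rcases n with _ | _ | n
  · exfalso
    rw [pow_zero, Subgroup.index_eq_one] at hn
    apply hcomm_contra
    intro a b
    have : a ∈ center S := by rw [hn]; exact mem_top a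
    exact ((mem_center_iff.1 this) b).symm
  · exfalso
    rw [zero_add, pow_one] at hn
    have hc : Nat.card (S ⧸ center S) = p := by rw [← hn]; rfl
    haveI : IsCyclic (S ⧸ center S) := isCyclic_of_prime_card hc
    apply hcomm_contra
    exact commutative_of_cyclic_center_quotient (QuotientGroup.mk' (center S)) (by simp)
  · rw [← hmul]
    have : p ^ 2 ≤ p ^ (n + 1 + 1) := Nat.pow_le_pow_right hp.out.pos (by omega)
    calc p ^ 2 * Nat.card (center S) ≤ p ^ (n + 1 + 1) * Nat.card (center S) :=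
          Nat.mul_le_mul_right _ this
      _ = Nat.card (center S) * p ^ (n + 1 + 1) := mul_comm _ _

abbrev QmT (Sy Zs : ℕ → Subgroup Q) (PF : Finset ℕ) : Type _ :=
  Σ p : ↥PF, (Q ⧸ Sy p.1) × {z : Q // z ∈ Zs p.1 ∧ z ≠ 1}

theorem qm_main
    (h2 : ∀ x : Q, x ≠ 1 →
      normalizer ((centralizer ({x} : Set Q) : Subgroup Q) : Set Q) ≤ centralizer {x})
    (h3 : ∀ (x : Q) (j : ℕ), x ^ j ≠ 1 → centralizer ({x ^ j} : Set Q) ≤ centralizer {x})
    [Nontrivial Q] :
    ∃ (p : ℕ) (_ : Fact p.Prime) (P : Sylow p Q), (P : Subgroup Q) ≠ ⊥ ∧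
      normalizer ((P : Subgroup Q) : Set Q) ≤ centralizer ((P : Subgroup Q) : Set Q) := by
  classical
  by_contra hcon
  have hno : ∀ (p : ℕ) [Fact p.Prime] (P : Sylow p Q), (P : Subgroup Q) ≠ ⊥ →
      ¬ normalizer ((P : Subgroup Q) : Set Q) ≤ centralizer ((P : Subgroup Q) : Set Q) := by
    intro p hp P hP hle
    exact hcon ⟨p, hp, P, hP, hle⟩
  set m := Nat.card Q with hm
  have hm1 : 1 < m := Finite.one_lt_card
  let Sy : ℕ → Subgroup Q :=
    fun p => ((Classical.arbitrary (Sylow p Q) : Sylow p Q) : Subgroup Q)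
  let Zs : ℕ → Subgroup Q := fun p => Sy p ⊓ centralizer (Sy p : Set Q)
  let a : ℕ → ℕ := fun p => (Sy p).index * (Nat.card (Zs p) - 1)
  have hPF : ∀ p ∈ m.primeFactors, (a p + 1) * p ^ 2 ≤ m := by
    intro p hp
    have hpp : p.Prime := Nat.prime_of_mem_primeFactors hp
    haveI : Fact p.Prime := ⟨hpp⟩
    have hpd : p ∣ m := Nat.dvd_of_mem_primeFactors hp
    set P : Sylow p Q := Classical.arbitrary (Sylow p Q) with hPdef
    have hPne : (P : Subgroup Q) ≠ ⊥ := by
      intro hbot
      have hcard : Nat.card (P : Subgroup Q) = 1 := by rw [hbot]; exact Subgroup.card_bot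
      have h1 := P.card_eq_multiplicity
      rw [hcard] at h1
      have hfac : 0 < (Nat.card Q).factorization p :=
        hpp.factorization_pos_of_dvd (by omega) hpd
      have : 1 < p ^ (Nat.card Q).factorization p := Nat.one_lt_pow hfac.ne' hpp.one_lt
      omega
    obtain ⟨x, hxP, hx1, hxc⟩ := qm_center_elt p P hPne
    have hnab := (qm_sylow_cent h2 h3 hno p P x hxP hx1 hxc).2
    have hb := qm_nonab_bound p (P : Subgroup Q) P.isPGroup' hnab
    have hidx := (P : Subgroup Q).index_mul_card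
    have hz1 : 1 ≤ Nat.card (Zs p) := Nat.card_pos
    have hi1 : 1 ≤ (Sy p).index := Nat.one_le_iff_ne_zero.2 Subgroup.index_ne_zero_of_finite
    show ((Sy p).index * (Nat.card (Zs p) - 1) + 1) * p ^ 2 ≤ m
    have e1 : (Sy p).index * (Nat.card (Zs p) - 1) + 1 ≤ (Sy p).index * Nat.card (Zs p) := by
      have : (Sy p).index * (Nat.card (Zs p) - 1) + (Sy p).index =
          (Sy p).index * Nat.card (Zs p) := by
        rw [← Nat.mul_succ]; congr 1; omega
      omega
    calc ((Sy p).index * (Nat.card (Zs p) - 1) + 1) * p ^ 2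
        ≤ ((Sy p).index * Nat.card (Zs p)) * p ^ 2 := Nat.mul_le_mul_right _ e1
      _ = (Sy p).index * (p ^ 2 * Nat.card (Zs p)) := by ring
      _ ≤ (Sy p).index * Nat.card (Sy p) := Nat.mul_le_mul_left _ hb
      _ = m := hidx
  let f : Option (QmT Sy Zs m.primeFactors) → Q := fun o => match o with
    | none => 1
    | some t => (Quotient.out t.2.1 : Q) * t.2.2.1 * (Quotient.out t.2.1 : Q)⁻¹
  have hsurj : Function.Surjective f := by
    intro w
    by_cases hw : w = 1
    · exact ⟨none, hw.symm⟩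
    · obtain ⟨p, hp, P', hwP', hwc⟩ := qm_cover h2 h3 hno w hw
      have hpp := hp.out
      have hpd : p ∣ m := by
        obtain ⟨k, hk⟩ := (IsPGroup.iff_orderOf.1 P'.isPGroup') ⟨w, hwP'⟩
        rw [Subgroup.orderOf_mk] at hk
        rcases k with _ | k
        · rw [pow_zero, orderOf_eq_one_iff] at hk; exact absurd hk hw
        · have : p ∣ orderOf w := by rw [hk]; exact dvd_pow_self p (Nat.succ_ne_zero k)
          exact this.trans (orderOf_dvd_natCard w)
      have hpm : p ∈ m.primeFactors := Nat.mem_primeFactors.2 ⟨hpp, hpd, by omega⟩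
      set P0 : Sylow p Q := Classical.arbitrary (Sylow p Q) with hP0
      obtain ⟨g, hg⟩ := MulAction.exists_smul_eq Q P0 P'
      have hmem : ∀ v : Q, v ∈ (P' : Subgroup Q) ↔ g⁻¹ * v * g ∈ (P0 : Subgroup Q) := by
        intro v
        rw [← hg, Sylow.coe_subgroup_smul, mem_pointwise_smul_iff_inv_smul_mem]
        simp [MulAut.smul_def]
      have hzP0 : g⁻¹ * w * g ∈ (P0 : Subgroup Q) := (hmem w).1 hwP'
      have hzc : ∀ h ∈ (P0 : Subgroup Q), Commute (g⁻¹ * w * g) h := by
        intro h hh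
        have hghP' : g * h * g⁻¹ ∈ (P' : Subgroup Q) := by
          rw [hmem]; simpa [mul_assoc] using hh
        have hc1 := (hwc _ hghP').eq
        show g⁻¹ * w * g * h = h * (g⁻¹ * w * g)
        calc g⁻¹ * w * g * h = g⁻¹ * (w * (g * h * g⁻¹)) * g := by group
          _ = g⁻¹ * ((g * h * g⁻¹) * w) * g := by rw [hc1]
          _ = h * (g⁻¹ * w * g) := by group
      have hz1 : g⁻¹ * w * g ≠ 1 := by
        intro h1
        apply hw
        have : w = g * (g⁻¹ * w * g) * g⁻¹ := by group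
        rw [this, h1]; group
      have hzZ : g⁻¹ * w * g ∈ Zs p := by
        refine mem_inf.2 ⟨hzP0, ?_⟩
        rw [mem_centralizer_iff]
        intro h hh
        exact (hzc h hh).symm.eq
      obtain ⟨h, hh⟩ := QuotientGroup.mk_out_eq_mul (Sy p) g
      refine ⟨some ⟨⟨p, hpm⟩, (QuotientGroup.mk g : Q ⧸ Sy p), ⟨g⁻¹ * w * g, hzZ, hz1⟩⟩, ?_⟩
      show (Quotient.out (QuotientGroup.mk g : Q ⧸ Sy p) : Q) * (g⁻¹ * w * g) *
        (Quotient.out (QuotientGroup.mk g : Q ⧸ Sy p) : Q)⁻¹ = w
      rw [hh]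
      have hcomm := (hzc h.1 h.2).eq
      calc g * ↑h * (g⁻¹ * w * g) * (g * ↑h)⁻¹
          = g * (↑h * (g⁻¹ * w * g)) * (↑h)⁻¹ * g⁻¹ := by group
        _ = g * ((g⁻¹ * w * g) * ↑h) * (↑h)⁻¹ * g⁻¹ := by rw [hcomm]
        _ = w := by group
  have hcard1 : m ≤ Nat.card (Option (QmT Sy Zs m.primeFactors)) :=
    Nat.card_le_card_of_surjective f hsurj
  have hcard2 : Nat.card (Option (QmT Sy Zs m.primeFactors)) =
      Nat.card (QmT Sy Zs m.primeFactors) + 1 := Finite.card_option
  have hcard3 : Nat.card (QmT Sy Zs m.primeFactors) = ∑ p : ↥(m.primeFactors),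
      (Sy p.1).index * Nat.card {z : Q // z ∈ Zs p.1 ∧ z ≠ 1} := by
    rw [Nat.card_sigma]
    apply Finset.sum_congr rfl
    intro p _
    rw [Nat.card_prod]
    rfl
  have hcard4 : ∀ p : ℕ, Nat.card {z : Q // z ∈ Zs p ∧ z ≠ 1} + 1 ≤ Nat.card (Zs p) := by
    intro p
    let e : Option {z : Q // z ∈ Zs p ∧ z ≠ 1} → Zs p := fun o => match o with
      | none => 1
      | some z => ⟨z.1, z.2.1⟩
    have he : Function.Injective e := by
      intro o1 o2 h12
      match o1, o2, h12 with
      | none, none, _ => rfl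
      | none, some z, h => exact absurd (congrArg Subtype.val h).symm z.2.2
      | some z, none, h => exact absurd (congrArg Subtype.val h) z.2.2
      | some z1, some z2, h =>
        have h' : (e (some z1)).1 = (e (some z2)).1 := congrArg Subtype.val h
        exact congrArg some (Subtype.ext h')
    have h0 := Nat.card_le_card_of_injective e he
    rwa [Finite.card_option] at h0
  have hsum : Nat.card (QmT Sy Zs m.primeFactors) ≤ ∑ p ∈ m.primeFactors, a p := by
    rw [hcard3, ← Finset.sum_coe_sort m.primeFactors a]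
    apply Finset.sum_le_sum
    intro p _
    show (Sy p.1).index * Nat.card {z : Q // z ∈ Zs p.1 ∧ z ≠ 1} ≤
      (Sy p.1).index * (Nat.card (Zs p.1) - 1)
    apply Nat.mul_le_mul_left
    have := hcard4 p.1
    omega
  have hne : m.primeFactors.Nonempty := by
    rw [Nat.nonempty_primeFactors]; exact hm1
  have hfin := qm_num m.primeFactors
    (fun p hp => (Nat.prime_of_mem_primeFactors hp).two_le) a m hPF hne
  omega

end QM2

end Cfsg.Agent.Helper19
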