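import Cfsg.Agent.Helper19.MaxCent1b

namespace Cfsg.Agent.Helper19

open Subgroup

section MCF
variable {G : Type*} [Group G] [Finite G] (N : Subgroup G) [hNn : N.Normal]

theorem mc_frob_data
    (h : ∀ x : G, x ∈ N → x ∉ centralizer (N : Set G) → IsCoatom (centralizer ({x} : Set G)))
    (hB : ∀ x ∈ N, x ∉ mc_Z N → ∀ d ∈ N, Commute (mc_pi N d) (mc_pi N x) → d * x = x * d)
    (L : Subgroup G) (hLn : L.Normal) (hLN : L ≤ N) (hLab : ∀ a ∈ L, ∀ b ∈ L, a * b = b * a)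
    (hLZ : ¬ L ≤ mc_Z N)
    (hLmin : ∀ L' : Subgroup G, L'.Normal → L' ≤ L → ¬ L' ≤ mc_Z N → L ≤ L') :
    ∃ (K : Subgroup G) (y : G) (p q : ℕ), p.Prime ∧ q.Prime ∧ K.Normal ∧ K ≤ N ∧ mc_Z N ≤ K ∧
      y ∈ N ∧ y ∉ mc_Z N ∧ y ^ q ∈ mc_Z N ∧
      (∀ n ∈ N, ∃ k ∈ K, ∃ i : ℕ, n = k * y ^ i) ∧
      (∀ a ∈ K, ∀ b ∈ K, a * b = b * a) ∧ (∀ a ∈ K, a ^ p ∈ mc_Z N) ∧
      (∀ i : ℕ, y ^ i ∈ K → y ^ i ∈ mc_Z N) ∧
      (∀ k ∈ K, ∀ i : ℕ, k * y ^ i * k⁻¹ * (y ^ i)⁻¹ ∈ mc_Z N → k ∈ mc_Z N ∨ y ^ i ∈ mc_Z N) ∧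
      (∃ k ∈ K, k ∉ mc_Z N) := by
  classical
  have := hLn
  set K : Subgroup G := N ⊓ centralizer (L : Set G) with hK
  have hmemK : ∀ k, k ∈ K ↔ k ∈ N ∧ ∀ l ∈ L, l * k = k * l := by
    intro k; rw [hK, mem_inf, mem_centralizer_iff]; rfl
  have hKN : K ≤ N := fun k hk => ((hmemK k).1 hk).1
  have hZK : mc_Z N ≤ K := by
    intro z hz
    rw [hmemK]
    exact ⟨(mc_mem_Z.1 hz).1, fun l hl => (mc_mem_Z.1 hz).2 l (hLN hl)⟩
  have hLK : L ≤ K := by
    intro l hl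
    rw [hmemK]
    exact ⟨hLN hl, fun l' hl' => hLab l' hl' l hl⟩
  have hKnormal : K.Normal := by
    constructor
    intro k hk g
    rw [hmemK] at hk ⊢
    refine ⟨hNn.conj_mem k hk.1 g, ?_⟩
    intro l hl
    have hl' : g⁻¹ * l * g ∈ L := by simpa using hLn.conj_mem l hl g⁻¹
    have h3 := hk.2 _ hl'
    calc l * (g * k * g⁻¹) = g * ((g⁻¹ * l * g) * k) * g⁻¹ := by group
      _ = g * (k * (g⁻¹ * l * g)) * g⁻¹ := by rw [h3]
      _ = g * k * g⁻¹ * l := by group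
  -- (a)
  have ha : ∀ x ∈ L, x ∉ mc_Z N → ∀ y ∈ N, y * x = x * y → y ∈ K := by
    intro x hxL hxZ y hyN hyx
    by_cases hyZ : y ∈ mc_Z N
    · exact hZK hyZ
    rcases mc_T1 (mc_coatom N h hyN hyZ) L (fun m _ l hl => hLn.conj_mem l hl m) with h1 | h1
    · rw [hmemK]
      exact ⟨hyN, fun l hl => mem_centralizer_singleton_iff.1 (h1 hl)⟩
    · have hconj : ∀ g : G, (g * x * g⁻¹) * y = y * (g * x * g⁻¹) := by
        intro g
        obtain ⟨l, hl, m, hm, rfl⟩ := h1 g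
        rw [mem_centralizer_singleton_iff] at hm
        have hmx : m * x * m⁻¹ ∈ L := hLn.conj_mem x hxL m
        have e : l * m * x * (l * m)⁻¹ = m * x * m⁻¹ := by
          calc l * m * x * (l * m)⁻¹ = (l * (m * x * m⁻¹)) * l⁻¹ := by group
            _ = ((m * x * m⁻¹) * l) * l⁻¹ := by rw [hLab l hl _ hmx]
            _ = m * x * m⁻¹ := by group
        rw [e]
        have c1 : Commute m y := hm
        have c2 : Commute x y := hyx.symm
        exact ((c1.mul_left c2).mul_left c1.inv_left)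
      have hle : L ≤ centralizer ({y} : Set G) := by
        have h2 : L ≤ normalClosure ({x} : Set G) := by
          apply hLmin _ normalClosure_normal
          · exact normalClosure_le_normal (Set.singleton_subset_iff.2 hxL)
          · intro hle
            exact hxZ (hle (subset_normalClosure (Set.mem_singleton x)))
        refine h2.trans ?_
        show closure (Group.conjugatesOfSet ({x} : Set G)) ≤ _
        rw [closure_le]
        intro c hc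
        rw [Group.mem_conjugatesOfSet_iff] at hc
        obtain ⟨b, hb, hbc⟩ := hc
        rw [Set.mem_singleton_iff] at hb
        subst hb
        rw [isConj_iff] at hbc
        obtain ⟨g, rfl⟩ := hbc
        exact mem_centralizer_singleton_iff.2 (hconj g)
      rw [hmemK]
      exact ⟨hyN, fun l hl => mem_centralizer_singleton_iff.1 (hle hl)⟩
  -- (b)
  have hb1 : ∀ y ∈ N, y ∉ K → ∀ n ∈ N, ∃ l ∈ L, ∃ c ∈ N, c * y = y * c ∧ n = l * c := by
    intro y hyN hyK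
    have hyZ : y ∉ mc_Z N := fun hz => hyK (hZK hz)
    rcases mc_T1N N h hyN hyZ L hLN (fun m _ l hl => hLn.conj_mem l hl m) with h1 | h1
    · exact absurd ((hmemK y).2 ⟨hyN, h1⟩) hyK
    · exact h1
  have hb2 : ∀ y ∈ N, y ∉ K → ∀ x ∈ L, x * y = y * x → x ∈ mc_Z N := by
    intro y hyN hyK x hxL hxy
    by_contra hxZ
    exact hyK (ha x hxL hxZ y hyN hxy.symm)
  -- (c)
  have hc : ∀ y ∈ N, y ∉ K → ∀ y' ∈ N, y' ∉ K → y' * y = y * y' →
      ∀ c ∈ N, c * y = y * c → c * y' = y' * c := by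
    intro y hyN hyK y' hy'N hy'K hyy' c hcN hcy
    have hy'Z : y' ∉ mc_Z N := fun hz => hy'K (hZK hz)
    obtain ⟨l, hl, c', hc'N, hc'y', rfl⟩ := hb1 y' hy'N hy'K c hcN
    have e : (l * c') * y' * (l * c')⁻¹ * y'⁻¹ = l * (y' * l⁻¹ * y'⁻¹) := by
      calc (l * c') * y' * (l * c')⁻¹ * y'⁻¹ = l * (c' * y') * c'⁻¹ * l⁻¹ * y'⁻¹ := by group
        _ = l * (y' * c') * c'⁻¹ * l⁻¹ * y'⁻¹ := by rw [hc'y']
        _ = l * (y' * l⁻¹ * y'⁻¹) := by group
    have h1 : (l * c') * y' * (l * c')⁻¹ * y'⁻¹ ∈ L := by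
      rw [e]
      exact mul_mem hl (hLn.conj_mem _ (inv_mem hl) y')
    have h2 : ((l * c') * y' * (l * c')⁻¹ * y'⁻¹) * y =
        y * ((l * c') * y' * (l * c')⁻¹ * y'⁻¹) := by
      have c1 : Commute (l * c') y := hcy
      have c2 : Commute y' y := hyy'
      exact (((c1.mul_left c2).mul_left c1.inv_left).mul_left c2.inv_left)
    have h3 := hb2 y hyN hyK _ h1 h2
    exact hB y' hy'N hy'Z (l * c') hcN (mc_pi_comm.2 h3)
  -- (e)
  have he : ∀ y ∈ N, y ∉ K → ∀ k ∈ K, k * y = y * k → k ∈ mc_Z N := by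
    intro y hyN hyK k hkK hky
    have hkN := hKN hkK
    have hkyN : k * y ∈ N := mul_mem hkN hyN
    have hkyK : k * y ∉ K := by
      intro hmem
      apply hyK
      have : y = k⁻¹ * (k * y) := by group
      rw [this]; exact mul_mem (inv_mem hkK) hmem
    rw [mc_mem_Z]
    refine ⟨hkN, ?_⟩
    intro n hn
    obtain ⟨l, hl, c, hcN, hcy, rfl⟩ := hb1 y hyN hyK n hn
    have h1 : c * (k * y) = (k * y) * c := by
      apply hc y hyN hyK (k * y) hkyN hkyK _ c hcN hcy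
      calc k * y * y = (y * k) * y := by rw [hky]
        _ = y * (k * y) := by group
    have h2 : c * k = k * c := by
      calc c * k = (c * (k * y)) * y⁻¹ := by group
        _ = ((k * y) * c) * y⁻¹ := by rw [h1]
        _ = k * (y * c) * y⁻¹ := by group
        _ = k * (c * y) * y⁻¹ := by rw [hcy]
        _ = k * c := by group
    have h3 : l * k = k * l := ((hmemK k).1 hkK).2 l hl
    calc l * c * k = l * (c * k) := by group
      _ = l * (k * c) := by rw [h2]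
      _ = (l * k) * c := by group
      _ = (k * l) * c := by rw [h3]
      _ = k * (l * c) := by group
  -- (d)
  have hd : ∀ y ∈ N, y ∉ K → ∀ c1 ∈ N, c1 * y = y * c1 → ∀ c2 ∈ N, c2 * y = y * c2 →
      c1 * c2 = c2 * c1 := by
    intro y hyN hyK c1 hc1N hc1y c2 hc2N hc2y
    by_cases h1 : c1 ∈ K
    · by_cases h2 : c2 ∈ K
      · have := he y hyN hyK c2 h2 hc2y
        exact (mc_mem_Z.1 this).2 c1 hc1N
      · exact hc y hyN hyK c2 hc2N h2 hc2y c1 hc1N hc1y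
    · exact (hc y hyN hyK c1 hc1N h1 hc1y c2 hc2N hc2y).symm
  obtain ⟨x0, hx0L, hx0Z⟩ := SetLike.not_le_iff_exists.1 hLZ
  have hx0N := hLN hx0L
  have hexy0 : ∃ y0 ∈ N, y0 ∉ K := by
    by_contra hcon
    have hcon' : ∀ y0 ∈ N, y0 ∈ K := fun y0 hy0 => by
      by_contra hk
      exact hcon ⟨y0, hy0, hk⟩
    apply hx0Z
    rw [mc_mem_Z]
    refine ⟨hx0N, fun n hn => ?_⟩
    exact (((hmemK n).1 (hcon' n hn)).2 x0 hx0L).symm
  obtain ⟨y0, hy0N, hy0K⟩ := hexy0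
  -- (f)
  have hf1 : ∀ k ∈ K, ∃ l ∈ L, ∃ z ∈ mc_Z N, k = l * z := by
    intro k hkK
    obtain ⟨l, hl, c, hcN, hcy, rfl⟩ := hb1 y0 hy0N hy0K k (hKN hkK)
    have hcK : c ∈ K := by
      have : c = l⁻¹ * (l * c) := by group
      rw [this]; exact mul_mem (inv_mem (hLK hl)) hkK
    exact ⟨l, hl, c, he y0 hy0N hy0K c hcK hcy, rfl⟩
  have hKab : ∀ a ∈ K, ∀ b ∈ K, a * b = b * a := by
    intro a haK b hbK
    obtain ⟨l1, hl1, z1, hz1, rfl⟩ := hf1 a haK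
    obtain ⟨l2, hl2, z2, hz2, rfl⟩ := hf1 b hbK
    have e1 : Commute l1 l2 := hLab l1 hl1 l2 hl2
    have e2 : Commute l1 z2 := (mc_mem_Z.1 hz2).2 l1 (hLN hl1)
    have e3 : Commute z1 l2 := ((mc_mem_Z.1 hz1).2 l2 (hLN hl2)).symm
    have e4 : Commute z1 z2 := (mc_mem_Z.1 hz2).2 z1 (mc_mem_Z.1 hz1).1
    exact ((e1.mul_right e2).mul_left (e3.mul_right e4))
  -- exponent
  have hpi0 : mc_pi N x0 ≠ 1 := fun h1 => hx0Z (mc_pi_one.1 h1)
  have hr : orderOf (mc_pi N x0) ≠ 1 := by rwa [Ne, orderOf_eq_one_iff]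
  set p := (orderOf (mc_pi N x0)).minFac with hp
  have hpp : p.Prime := Nat.minFac_prime hr
  set x1 := x0 ^ (orderOf (mc_pi N x0) / p) with hx1
  have hx1L : x1 ∈ L := pow_mem hx0L _
  have ho1 : orderOf (mc_pi N x1) = p := by
    rw [hx1, map_pow]
    exact orderOf_pow_orderOf_div (orderOf_pos _).ne' (Nat.minFac_dvd _)
  have hx1Z : x1 ∉ mc_Z N := by
    intro hz
    rw [← mc_pi_one] at hz
    rw [hz, orderOf_one] at ho1
    exact hpp.ne_one ho1.symm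
  have hx1p : x1 ^ p ∈ mc_Z N := by
    rw [← mc_pi_one, map_pow]
    have := pow_orderOf_eq_one (mc_pi N x1)
    rwa [ho1] at this
  let Lp : Subgroup G :=
    { carrier := {l | l ∈ L ∧ l ^ p ∈ mc_Z N}
      mul_mem' := by
        rintro a b ⟨ha, ha'⟩ ⟨hb, hb'⟩
        refine ⟨mul_mem ha hb, ?_⟩
        rw [(show Commute a b from hLab a ha b hb).mul_pow]
        exact mul_mem ha' hb'
      one_mem' := ⟨one_mem _, by rw [one_pow]; exact one_mem _⟩
      inv_mem' := by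
        rintro a ⟨ha, ha'⟩
        refine ⟨inv_mem ha, ?_⟩
        rw [inv_pow]; exact inv_mem ha' }
  have hLpn : Lp.Normal := by
    constructor
    rintro l ⟨hl, hl'⟩ g
    refine ⟨hLn.conj_mem l hl g, ?_⟩
    rw [conj_pow]
    exact (mc_Z_normal N).conj_mem _ hl' g
  have hLLp : L ≤ Lp := by
    apply hLmin Lp hLpn
    · intro l hl; exact hl.1
    · intro hle
      exact hx1Z (hle ⟨hx1L, hx1p⟩)
  have hKp : ∀ a ∈ K, a ^ p ∈ mc_Z N := by
    intro a haK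
    obtain ⟨l, hl, z, hz, rfl⟩ := hf1 a haK
    have e2 : Commute l z := (mc_mem_Z.1 hz).2 l (hLN hl)
    rw [e2.mul_pow]
    exact mul_mem (hLLp hl).2 (pow_mem hz p)
  -- (g)
  have hφ0 : ∀ g : G, QuotientGroup.mk' K g = 1 ↔ g ∈ K := fun g => QuotientGroup.eq_one_iff g
  have hg : ∀ a ∈ N, ∀ b ∈ N, a * b * a⁻¹ * b⁻¹ ∈ K := by
    intro a haN b hbN
    obtain ⟨l1, hl1, c1, hc1N, hc1y, rfl⟩ := hb1 y0 hy0N hy0K a haN
    obtain ⟨l2, hl2, c2, hc2N, hc2y, rfl⟩ := hb1 y0 hy0N hy0K b hbN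
    rw [← hφ0]
    have e1 : QuotientGroup.mk' K l1 = 1 := (hφ0 l1).2 (hLK hl1)
    have e2 : QuotientGroup.mk' K l2 = 1 := (hφ0 l2).2 (hLK hl2)
    have e3 : c1 * c2 = c2 * c1 := hd y0 hy0N hy0K c1 hc1N hc1y c2 hc2N hc2y
    have e4 : QuotientGroup.mk' K c1 * QuotientGroup.mk' K c2 =
        QuotientGroup.mk' K c2 * QuotientGroup.mk' K c1 := by
      rw [← map_mul, ← map_mul, e3]
    simp only [map_mul, map_inv, e1, e2, one_mul]
    rw [e4]; group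
  -- (h)
  have hr2 : orderOf (QuotientGroup.mk' K y0) ≠ 1 := by
    rw [Ne, orderOf_eq_one_iff, hφ0]; exact hy0K
  set q := (orderOf (QuotientGroup.mk' K y0)).minFac with hq
  have hqp : q.Prime := Nat.minFac_prime hr2
  set y := y0 ^ (orderOf (QuotientGroup.mk' K y0) / q) with hy
  have hyN : y ∈ N := pow_mem hy0N _
  have ho2 : orderOf (QuotientGroup.mk' K y) = q := by
    rw [hy, map_pow]
    exact orderOf_pow_orderOf_div (orderOf_pos _).ne' (Nat.minFac_dvd _)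
  have hyK : y ∉ K := by
    intro hmem
    rw [← hφ0] at hmem
    rw [hmem, orderOf_one] at ho2
    exact hqp.ne_one ho2.symm
  have hyqK : y ^ q ∈ K := by
    rw [← hφ0, map_pow]
    have := pow_orderOf_eq_one (QuotientGroup.mk' K y)
    rwa [ho2] at this
  have hyZ : y ∉ mc_Z N := fun hz => hyK (hZK hz)
  have hpowK : ∀ i : ℕ, y ^ i ∈ K → y ^ i ∈ mc_Z N := by
    intro i hi
    exact he y hyN hyK _ hi ((Commute.refl y).pow_left i)
  have hyqZ : y ^ q ∈ mc_Z N := hpowK q hyqK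
  have hn : ∀ m ∈ zpowers y, ∀ k ∈ K, m * k * m⁻¹ ∈ K :=
    fun m _ k hk => hKnormal.conj_mem k hk m
  set H : Subgroup G := mc_prod K (zpowers y) hn with hH
  have hHN : H ≤ N := by
    intro u hu
    obtain ⟨k, hk, m, hm, rfl⟩ := mc_mem_prod.1 hu
    exact mul_mem (hKN hk) ((zpowers_le.2 hyN) hm)
  have hHnorm : ∀ g : G, ∀ u ∈ H, g * u * g⁻¹ ∈ H := by
    intro g u hu
    obtain ⟨k, hk, m, hm, rfl⟩ := mc_mem_prod.1 hu
    obtain ⟨n, hnN, m', hm', rfl⟩ := mc_GNM N h hyN hyZ g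
    have hmN : m ∈ N := (zpowers_le.2 hyN) hm
    have hm'm : m' * m * m'⁻¹ = m := by
      obtain ⟨i, rfl⟩ := mem_zpowers_iff.1 hm
      have c1 : Commute m' (y ^ i) := (show Commute m' y from hm').zpow_right i
      calc m' * y ^ i * m'⁻¹ = (y ^ i * m') * m'⁻¹ := by rw [c1.eq]
         _ = y ^ i := by group
    refine mc_mem_prod.2 ⟨(n * (m' * k * m'⁻¹) * n⁻¹) * (n * m * n⁻¹ * m⁻¹), ?_, m, hm, ?_⟩
    · exact mul_mem (hKnormal.conj_mem _ (hKnormal.conj_mem k hk m') n) (hg n hnN m hmN)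
    · calc n * m' * (k * m) * (n * m')⁻¹
          = n * (m' * k * m'⁻¹) * (m' * m * m'⁻¹) * n⁻¹ := by group
        _ = n * (m' * k * m'⁻¹) * m * n⁻¹ := by rw [hm'm]
        _ = (n * (m' * k * m'⁻¹) * n⁻¹) * (n * m * n⁻¹ * m⁻¹) * m := by group
  have hcover : ∀ n ∈ N, ∃ k ∈ K, ∃ i : ℕ, n = k * y ^ i := by
    intro n hnN
    rcases mc_T1N N h hx0N hx0Z H hHN (fun m _ u hu => hHnorm m u hu) with h1 | h1
    · exfalso
      apply hyK
      have hyH : y ∈ H := mc_mem_prod.2 ⟨1, one_mem _, y, mem_zpowers y, by simp⟩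
      exact ha x0 hx0L hx0Z y hyN (h1 y hyH)
    · obtain ⟨u, hu, c, hcN, hcx, rfl⟩ := h1 n hnN
      have hcK : c ∈ K := ha x0 hx0L hx0Z c hcN hcx
      obtain ⟨k, hk, m, hm, rfl⟩ := mc_mem_prod.1 hu
      obtain ⟨i, rfl⟩ := (Submonoid.mem_powers_iff _ _).1 ((mem_powers_iff_mem_zpowers).2 hm)
      refine ⟨k * (y ^ i * c * (y ^ i)⁻¹), mul_mem hk (hKnormal.conj_mem c hcK _), i, ?_⟩
      group
  have hfpf : ∀ k ∈ K, ∀ i : ℕ, k * y ^ i * k⁻¹ * (y ^ i)⁻¹ ∈ mc_Z N →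
      k ∈ mc_Z N ∨ y ^ i ∈ mc_Z N := by
    intro k hkK i hki
    by_cases hyi : y ^ i ∈ mc_Z N
    · exact Or.inr hyi
    · left
      have hyiN : y ^ i ∈ N := pow_mem hyN i
      have hyiK : y ^ i ∉ K := fun hmem => hyi (hpowK i hmem)
      have h1 : k * y ^ i = y ^ i * k := hB (y ^ i) hyiN hyi k (hKN hkK) (mc_pi_comm.2 hki)
      exact he (y ^ i) hyiN hyiK k hkK h1
  exact ⟨K, y, p, q, hpp, hqp, hKnormal, hKN, hZK, hyN, hyZ, hyqZ, hcover, hKab, hKp, hpowK,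
    hfpf, ⟨x0, hLK hx0L, hx0Z⟩⟩

end MCF

end Cfsg.Agent.Helper19
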