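import Cfsg.Agent.Helper19.MaxCent1b
import Cfsg.Agent.Helper19.MaxCent2b

namespace Cfsg.Agent.Helper19

open Subgroup

section MCS
variable {G : Type*} [Group G]

theorem mc_center_normal (C : Subgroup G) (hCnorm : ∀ c ∈ C, ∀ g : G, g * c * g⁻¹ ∈ C) :
    (C ⊓ centralizer (C : Set G)).Normal := by
  constructor
  intro l hl g
  obtain ⟨hlC, hlc⟩ := mem_inf.1 hl
  refine mem_inf.2 ⟨hCnorm l hlC g, ?_⟩
  rw [mem_centralizer_iff] at hlc ⊢
  intro c hc
  have hc' : g⁻¹ * c * g ∈ C := by simpa using hCnorm c hc g⁻¹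
  have h3 := hlc _ hc'
  calc c * (g * l * g⁻¹) = g * ((g⁻¹ * c * g) * l) * g⁻¹ := by group
    _ = g * (l * (g⁻¹ * c * g)) * g⁻¹ := by rw [h3]
    _ = g * l * g⁻¹ * c := by group

theorem mc_comm_iff {M : Type*} [Group M] {u v : M} : Commute u v ↔ u * v * u⁻¹ * v⁻¹ = 1 := by
  constructor
  · intro hc; rw [hc.eq]; group
  · intro h1
    show u * v = v * u
    calc u * v = (u * v * u⁻¹ * v⁻¹) * (v * u) := by group
      _ = v * u := by rw [h1, one_mul]

/-- the projection of `N` onto `N / Z(N)` -/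
abbrev mc_rho (N : Subgroup G) : ↥N →* ↥N ⧸ center ↥N := QuotientGroup.mk' (center ↥N)

theorem mc_rho_one {N : Subgroup G} {n : ↥N} : mc_rho N n = 1 ↔ (n : G) ∈ mc_Z N := by
  refine (QuotientGroup.eq_one_iff n).trans ?_
  rw [mem_center_iff, mc_mem_Z]
  constructor
  · intro hc
    refine ⟨n.2, fun m hm => ?_⟩
    have := hc ⟨m, hm⟩
    exact congrArg Subtype.val this
  · rintro ⟨_, hc⟩ m
    exact Subtype.ext (hc m m.2)

theorem mc_rho_comm {N : Subgroup G} {a b : ↥N} :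
    Commute (mc_rho N a) (mc_rho N b) ↔ (a : G) * b * (a : G)⁻¹ * (b : G)⁻¹ ∈ mc_Z N := by
  have e : ((a * b * a⁻¹ * b⁻¹ : ↥N) : G) = (a : G) * b * (a : G)⁻¹ * (b : G)⁻¹ := rfl
  rw [← e, ← mc_rho_one, map_mul, map_mul, map_mul, map_inv, map_inv]
  exact mc_comm_iff

theorem mc_rho_comm_B {N : Subgroup G} [N.Normal]
    (hB : ∀ x ∈ N, x ∉ mc_Z N → ∀ d ∈ N, Commute (mc_pi N d) (mc_pi N x) → d * x = x * d)
    {a b : ↥N} (hc : Commute (mc_rho N a) (mc_rho N b)) : (a : G) * b = b * a := by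
  by_cases hb : (b : G) ∈ mc_Z N
  · exact (mc_mem_Z.1 hb).2 a a.2
  · exact hB b b.2 hb a a.2 (mc_pi_comm.2 (mc_rho_comm.1 hc))

variable (N : Subgroup G) [hNn : N.Normal]

theorem mc_N2
    (h : ∀ x : G, x ∈ N → x ∉ centralizer (N : Set G) → IsCoatom (centralizer ({x} : Set G)))
    (hbad : ¬ ∃ L : Subgroup G, L.Normal ∧ L ≤ N ∧ (∀ a ∈ L, ∀ b ∈ L, a * b = b * a) ∧
      ¬ L ≤ mc_Z N)
    {x : G} (hxN : x ∈ N) (hxZ : x ∉ mc_Z N) {g : G} (hgN : g ∈ N)
    (hg : g ∈ normalizer ((N ⊓ centralizer ({x} : Set G) : Subgroup G) : Set G)) :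
    g * x = x * g := by
  set C : Subgroup G := N ⊓ centralizer ({x} : Set G) with hC
  have hmemC : ∀ c, c ∈ C ↔ c ∈ N ∧ c * x = x * c := by
    intro c; rw [hC, mem_inf, mem_centralizer_singleton_iff]
  have hMinv : ∀ m : G, m * x = x * m → m⁻¹ * x = x * m⁻¹ := by
    intro m hm
    calc m⁻¹ * x = m⁻¹ * (x * m) * m⁻¹ := by group
      _ = m⁻¹ * (m * x) * m⁻¹ := by rw [hm]
      _ = x * m⁻¹ := by group
  have hMC : ∀ m : G, m * x = x * m → ∀ c ∈ C, m * c * m⁻¹ ∈ C := by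
    intro m hm c hc
    rw [hmemC] at hc ⊢
    refine ⟨hNn.conj_mem c hc.1 m, ?_⟩
    calc m * c * m⁻¹ * x = m * c * (m⁻¹ * x) := by group
      _ = m * c * (x * m⁻¹) := by rw [hMinv m hm]
      _ = m * (c * x) * m⁻¹ := by group
      _ = m * (x * c) * m⁻¹ := by rw [hc.2]
      _ = (m * x) * c * m⁻¹ := by group
      _ = (x * m) * c * m⁻¹ := by rw [hm]
      _ = x * (m * c * m⁻¹) := by group
  have hMnorm : ∀ m : G, m * x = x * m → m ∈ normalizer (C : Set G) := by
    intro m hm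
    rw [mem_normalizer_iff]
    intro c
    constructor
    · exact hMC m hm c
    · intro hc
      have := hMC m⁻¹ (hMinv m hm) _ hc
      have e : m⁻¹ * (m * c * m⁻¹) * m⁻¹⁻¹ = c := by group
      rwa [e] at this
  set R : Subgroup G := N ⊓ normalizer (C : Set G) with hR
  have hRn : ∀ m ∈ centralizer ({x} : Set G), ∀ k ∈ R, m * k * m⁻¹ ∈ R := by
    intro m hm k hk
    have hm' := hMnorm m (mem_centralizer_singleton_iff.1 hm)
    obtain ⟨hk1, hk2⟩ := mem_inf.1 hk
    exact mem_inf.2 ⟨hNn.conj_mem k hk1 m, mul_mem (mul_mem hm' hk2) (inv_mem hm')⟩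
  rcases mc_T1N N h hxN hxZ R (by rw [hR]; exact inf_le_left) hRn with h1 | h1
  · exact h1 g (mem_inf.2 ⟨hgN, hg⟩)
  · exfalso
    have hNC : ∀ n ∈ N, ∀ c ∈ C, n * c * n⁻¹ ∈ C := by
      intro n hn c hc
      obtain ⟨k, hk, c', hc'N, hc'x, rfl⟩ := h1 n hn
      have hk2 : k ∈ normalizer (C : Set G) := (mem_inf.1 hk).2
      have hc2 : c' ∈ normalizer (C : Set G) := hMnorm c' hc'x
      exact (mem_normalizer_iff.1 (mul_mem hk2 hc2) c).1 hc
    have hCnorm : ∀ c ∈ C, ∀ g : G, g * c * g⁻¹ ∈ C := by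
      intro c hc g'
      obtain ⟨n, hn, m, hm, rfl⟩ := mc_GNM N h hxN hxZ g'
      have e : n * m * c * (n * m)⁻¹ = n * (m * c * m⁻¹) * n⁻¹ := by group
      rw [e]
      exact hNC n hn _ (hMC m hm c hc)
    apply hbad
    refine ⟨C ⊓ centralizer (C : Set G), mc_center_normal C hCnorm,
      inf_le_left.trans (by rw [hC]; exact inf_le_left), ?_, ?_⟩
    · intro a ha b hb
      exact (mem_centralizer_iff.1 (mem_inf.1 hb).2) a (mem_inf.1 ha).1
    · intro hle
      apply hxZ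
      apply hle
      refine mem_inf.2 ⟨(hmemC x).2 ⟨hxN, rfl⟩, ?_⟩
      rw [mem_centralizer_iff]
      intro c hc
      exact ((hmemC c).1 hc).2

theorem mc_N3
    (h : ∀ x : G, x ∈ N → x ∉ centralizer (N : Set G) → IsCoatom (centralizer ({x} : Set G)))
    {x : G} (hxN : x ∈ N) (hxZ : x ∉ mc_Z N) (j : ℕ) (hxj : x ^ j ∉ mc_Z N)
    {c : G} (hcN : c ∈ N) (hc : c * x ^ j = x ^ j * c) : c * x = x * c := by
  set H : Subgroup G := N ⊓ centralizer ({x ^ j} : Set G) with hH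
  have hmemH : ∀ k, k ∈ H ↔ k ∈ N ∧ k * x ^ j = x ^ j * k := by
    intro k; rw [hH, mem_inf, mem_centralizer_singleton_iff]
  have hHn : ∀ m ∈ centralizer ({x} : Set G), ∀ k ∈ H, m * k * m⁻¹ ∈ H := by
    intro m hm k hk
    rw [hmemH] at hk ⊢
    refine ⟨hNn.conj_mem k hk.1 m, ?_⟩
    have hmx : Commute m x := mem_centralizer_singleton_iff.1 hm
    have hmxj : Commute m (x ^ j) := hmx.pow_right j
    have hkxj : Commute k (x ^ j) := hk.2
    exact ((hmxj.mul_left hkxj).mul_left hmxj.inv_left)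
  rcases mc_T1N N h hxN hxZ H (by rw [hH]; exact inf_le_left) hHn with h1 | h1
  · exact h1 c ((hmemH c).2 ⟨hcN, hc⟩)
  · exfalso
    apply hxj
    rw [mc_mem_Z]
    refine ⟨pow_mem hxN j, ?_⟩
    intro n hn
    obtain ⟨k, hk, c', hc'N, hc'x, rfl⟩ := h1 n hn
    have h2 : Commute k (x ^ j) := ((hmemH k).1 hk).2
    have h3 : Commute c' (x ^ j) := (show Commute c' x from hc'x).pow_right j
    exact (h2.mul_left h3)

variable [Finite G]

theorem mc_typeB
    (h : ∀ x : G, x ∈ N → x ∉ centralizer (N : Set G) → IsCoatom (centralizer ({x} : Set G)))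
    (hbad : ¬ ∃ L : Subgroup G, L.Normal ∧ L ≤ N ∧ (∀ a ∈ L, ∀ b ∈ L, a * b = b * a) ∧
      ¬ L ≤ mc_Z N)
    {x : G} (hxN : x ∈ N) (hxZ : x ∉ mc_Z N) :
    ∀ d ∈ N, Commute (mc_pi N d) (mc_pi N x) → d * x = x * d := by
  rcases mc_dich N h hxN hxZ with h1 | h1
  · exact h1
  · exact absurd (mc_caseI_L N h hxN hxZ h1) hbad

end MCS

theorem mc_S {G : Type*} [Group G] [Finite G] :
    ∀ (n : ℕ) (N : Subgroup G) [N.Normal], Nat.card N = n →
    (∀ x : G, x ∈ N → x ∉ centralizer (N : Set G) → IsCoatom (centralizer ({x} : Set G))) →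
    (¬ ∀ a ∈ N, ∀ b ∈ N, a * b = b * a) →
    ∃ L : Subgroup G, L.Normal ∧ L ≤ N ∧ (∀ a ∈ L, ∀ b ∈ L, a * b = b * a) ∧ ¬ L ≤ mc_Z N := by
  intro n
  induction n using Nat.strong_induction_on with
  | _ n ih =>
  intro N hNn hcard h hnab
  by_contra hbad
  have hB : ∀ x ∈ N, x ∉ mc_Z N → ∀ d ∈ N, Commute (mc_pi N d) (mc_pi N x) → d * x = x * d :=
    fun x hxN hxZ => mc_typeB N h hbad hxN hxZ
  haveI : Nontrivial (↥N ⧸ center ↥N) := by
    by_contra htriv
    rw [not_nontrivial_iff_subsingleton] at htriv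
    apply hnab
    intro a ha b hb
    have h1 : mc_rho N ⟨b, hb⟩ = 1 := Subsingleton.elim _ _
    exact ((mc_mem_Z.1 (mc_rho_one.1 h1)).2 a ha)
  have h2 : ∀ x : ↥N ⧸ center ↥N, x ≠ 1 →
      normalizer ((centralizer {x} : Subgroup (↥N ⧸ center ↥N)) : Set (↥N ⧸ center ↥N)) ≤
        centralizer {x} := by
    intro xb hxb gb hgb
    obtain ⟨x, rfl⟩ := QuotientGroup.mk'_surjective (center ↥N) xb
    obtain ⟨g, rfl⟩ := QuotientGroup.mk'_surjective (center ↥N) gb
    have hxZ : (x : G) ∉ mc_Z N := fun hz => hxb (mc_rho_one.2 hz)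
    rw [mem_centralizer_singleton_iff]
    rw [mem_normalizer_iff] at hgb
    have hg' : (g : G) ∈
        normalizer ((N ⊓ centralizer ({(x : G)} : Set G) : Subgroup G) : Set G) := by
      rw [mem_normalizer_iff]
      intro c
      constructor
      · intro hc
        obtain ⟨hcN, hcx⟩ := mem_inf.1 hc
        rw [mem_centralizer_singleton_iff] at hcx
        have h3 : mc_rho N ⟨c, hcN⟩ ∈ centralizer {mc_rho N x} := by
          rw [mem_centralizer_singleton_iff, ← map_mul, ← map_mul]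
          congr 1
          exact Subtype.ext hcx
        have h4 := (hgb _).1 h3
        rw [mem_centralizer_singleton_iff] at h4
        have h5 : Commute (mc_rho N (g * ⟨c, hcN⟩ * g⁻¹)) (mc_rho N x) := by
          rw [map_mul, map_mul, map_inv]
          exact h4
        have h6 := mc_rho_comm_B hB h5
        exact mem_inf.2 ⟨hNn.conj_mem c hcN g, mem_centralizer_singleton_iff.2 h6⟩
      · intro hc
        obtain ⟨hcN', hcx⟩ := mem_inf.1 hc
        have hcN : c ∈ N := by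
          have := hNn.conj_mem _ hcN' (g : G)⁻¹
          have e : (g : G)⁻¹ * (g * c * (g : G)⁻¹) * (g : G)⁻¹⁻¹ = c := by group
          rwa [e] at this
        rw [mem_centralizer_singleton_iff] at hcx
        have h3 : mc_rho N g * mc_rho N ⟨c, hcN⟩ * (mc_rho N g)⁻¹ ∈
            centralizer {mc_rho N x} := by
          rw [mem_centralizer_singleton_iff, ← map_inv, ← map_mul, ← map_mul, ← map_mul,
            ← map_mul]
          congr 1
          exact Subtype.ext hcx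
        have h4 := (hgb _).2 h3
        rw [mem_centralizer_singleton_iff] at h4
        have h6 := mc_rho_comm_B hB (show Commute (mc_rho N ⟨c, hcN⟩) (mc_rho N x) from h4)
        exact mem_inf.2 ⟨hcN, mem_centralizer_singleton_iff.2 h6⟩
    have h7 := mc_N2 N h hbad x.2 hxZ g.2 hg'
    rw [← map_mul, ← map_mul]
    congr 1
    exact Subtype.ext h7
  have h3 : ∀ (x : ↥N ⧸ center ↥N) (j : ℕ), x ^ j ≠ 1 →
      centralizer {x ^ j} ≤ centralizer {x} := by
    intro xb j hxj cb hcb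
    obtain ⟨x, rfl⟩ := QuotientGroup.mk'_surjective (center ↥N) xb
    obtain ⟨c, rfl⟩ := QuotientGroup.mk'_surjective (center ↥N) cb
    rw [mem_centralizer_singleton_iff] at hcb ⊢
    rw [← map_pow] at hxj hcb
    have hxjZ : (x : G) ^ j ∉ mc_Z N := fun hz => hxj (mc_rho_one.2 hz)
    have hxZ : (x : G) ∉ mc_Z N := fun hz => hxjZ (pow_mem hz j)
    have h4 : (c : G) * (x : G) ^ j = (x : G) ^ j * c :=
      mc_rho_comm_B hB (show Commute (mc_rho N c) (mc_rho N (x ^ j)) from hcb)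
    have h5 := mc_N3 N h x.2 hxZ j hxjZ c.2 h4
    rw [← map_mul, ← map_mul]
    congr 1
    exact Subtype.ext h5
  obtain ⟨p, hp, P, hPne, hP⟩ := qm_main h2 h3
  haveI := hp
  set Kb : Subgroup (↥N ⧸ center ↥N) := (MonoidHom.transferSylow P hP).ker with hKb
  have hcompl : IsComplement' Kb (P : Subgroup _) :=
    MonoidHom.ker_transferSylow_isComplement' P hP
  have hndvd : ¬ p ∣ Nat.card Kb := MonoidHom.not_dvd_card_ker_transferSylow P hP
  set k := Nat.card Kb with hk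
  have hKbpow : ∀ q : ↥N ⧸ center ↥N, q ∈ Kb ↔ q ^ k = 1 := by
    intro q
    constructor
    · intro hq
      have := pow_card_eq_one' (G := Kb) (x := ⟨q, hq⟩)
      exact congrArg Subtype.val this
    · intro hq
      rw [hKb, MonoidHom.mem_ker]
      have h4 : (MonoidHom.transferSylow P hP q) ^ k = 1 := by rw [← map_pow, hq, map_one]
      have h5 : orderOf (MonoidHom.transferSylow P hP q) ∣ k := orderOf_dvd_of_pow_eq_one h4
      obtain ⟨j, hj⟩ := (IsPGroup.iff_orderOf.1 P.isPGroup') (MonoidHom.transferSylow P hP q)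
      rw [hj] at h5
      have hj0 : j = 0 := by
        by_contra hj0
        exact hndvd ((dvd_pow_self p hj0).trans h5)
      rw [hj0, pow_zero] at hj
      exact orderOf_eq_one_iff.1 hj
  set K : Subgroup G := (Kb.comap (mc_rho N)).map N.subtype with hK
  have hmemK : ∀ g, g ∈ K ↔ g ∈ N ∧ g ^ k ∈ mc_Z N := by
    intro g
    rw [hK, mem_map]
    constructor
    · rintro ⟨m, hm, rfl⟩
      rw [mem_comap, hKbpow, ← map_pow, mc_rho_one] at hm
      exact ⟨m.2, hm⟩
    · rintro ⟨hgN, hgk⟩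
      refine ⟨⟨g, hgN⟩, ?_, rfl⟩
      rw [mem_comap, hKbpow, ← map_pow, mc_rho_one]
      exact hgk
  have hKnormal : K.Normal := by
    constructor
    intro g hg c
    rw [hmemK] at hg ⊢
    refine ⟨hNn.conj_mem g hg.1 c, ?_⟩
    rw [conj_pow]
    exact (mc_Z_normal N).conj_mem _ hg.2 c
  have hKN : K ≤ N := fun g hg => ((hmemK g).1 hg).1
  have hKlt : Nat.card K < n := by
    rw [← hcard]
    by_contra hge
    rw [not_lt] at hge
    have hKeq : K = N := Subgroup.eq_of_le_of_card_ge hKN hge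
    apply hPne
    rw [eq_bot_iff]
    intro u hu
    obtain ⟨m, rfl⟩ := QuotientGroup.mk'_surjective (center ↥N) u
    have hmK : (m : G) ∈ K := by rw [hKeq]; exact m.2
    have hmKb : mc_rho N m ∈ Kb := by
      rw [hKbpow, ← map_pow, mc_rho_one]
      exact ((hmemK _).1 hmK).2
    have : mc_rho N m ∈ Kb ⊓ (P : Subgroup _) := mem_inf.2 ⟨hmKb, hu⟩
    rw [hcompl.disjoint.eq_bot] at this
    exact this
  have hKh : ∀ x : G, x ∈ K → x ∉ centralizer (K : Set G) →
      IsCoatom (centralizer ({x} : Set G)) := by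
    intro x hxK hxc
    exact h x (hKN hxK)
      (fun hc => hxc (Subgroup.centralizer_le (SetLike.coe_subset_coe.2 hKN) hc))
  by_cases hKab : ∀ a ∈ K, ∀ b ∈ K, a * b = b * a
  · have hKZ : K ≤ mc_Z N := by
      by_contra hKZ
      exact hbad ⟨K, hKnormal, hKN, hKab, hKZ⟩
    have hKbbot : Kb = ⊥ := by
      rw [eq_bot_iff]
      intro u hu
      obtain ⟨m, rfl⟩ := QuotientGroup.mk'_surjective (center ↥N) u
      have hmK : (m : G) ∈ K := by
        rw [hmemK]
        refine ⟨m.2, ?_⟩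
        have := (hKbpow _).1 hu
        rw [← map_pow, mc_rho_one] at this
        exact this
      rw [mem_bot]
      exact mc_rho_one.2 (hKZ hmK)
    have hPtop : (P : Subgroup (↥N ⧸ center ↥N)) = ⊤ := by
      have := hcompl.sup_eq_top
      rwa [hKbbot, bot_sup_eq] at this
    have hQp : IsPGroup p (↥N ⧸ center ↥N) := by
      intro u
      have huP : u ∈ (P : Subgroup (↥N ⧸ center ↥N)) := by rw [hPtop]; exact mem_top u
      obtain ⟨j, hj⟩ := P.isPGroup' ⟨u, huP⟩
      exact ⟨j, congrArg Subtype.val hj⟩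
    haveI := hQp.center_nontrivial
    obtain ⟨⟨cb, hcb⟩, hcne⟩ := exists_ne (1 : center (↥N ⧸ center ↥N))
    obtain ⟨c, rfl⟩ := QuotientGroup.mk'_surjective (center ↥N) cb
    have hcZ : (c : G) ∉ mc_Z N := by
      intro hz
      apply hcne
      exact Subtype.ext (mc_rho_one.2 hz)
    apply hcZ
    rw [mc_mem_Z]
    refine ⟨c.2, fun m hm => ?_⟩
    rw [mem_center_iff] at hcb
    exact mc_rho_comm_B hB (show Commute (mc_rho N ⟨m, hm⟩) (mc_rho N c) from hcb _)
  · haveI := hKnormal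
    obtain ⟨L1, hL1n, hL1K, hL1ab, hL1Z⟩ := ih (Nat.card K) hKlt K rfl hKh hKab
    apply hbad
    refine ⟨L1, hL1n, hL1K.trans hKN, hL1ab, ?_⟩
    intro hle
    apply hL1Z
    intro l hl
    rw [mc_mem_Z]
    refine ⟨hL1K hl, fun m hm => ?_⟩
    exact (mc_mem_Z.1 (hle hl)).2 m (hKN hm)

end Cfsg.Agent.Helper19
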