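import Cfsg.Agent.Helper19.MaxCent3
import Cfsg.Agent.Helper19.MaxCent4
import Cfsg.Prelude.Def_Transfer
import Cfsg.Prelude.Def_Solvable

namespace Cfsg.Agent.Helper19

open Subgroup
open scoped Pointwise

theorem mc_frob {Q : Type*} [Group Q] [Finite Q] (Kb H : Subgroup Q) (hKn : Kb.Normal)
    (c1 : ∀ g : Q, ∃ k ∈ Kb, ∃ u ∈ H, g = k * u)
    (c2 : ∀ u ∈ H, u ∈ Kb → u = 1)
    (c3 : ∀ k ∈ Kb, ∀ u ∈ H, k * u = u * k → k = 1 ∨ u = 1)
    (c4 : H ≠ ⊥) (c5 : ∃ k ∈ Kb, k ≠ 1) :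
    Cfsg.IsFrobeniusComplement H ∧ (Kb : Set Q) = Cfsg.frobeniusKernel H := by
  have hconjmem : ∀ (g x : Q), x ∈ MulAut.conj g • H ↔ ∃ u ∈ H, x = g * u * g⁻¹ := by
    intro g x
    rw [Subgroup.mem_smul_pointwise_iff_exists]
    constructor
    · rintro ⟨u, hu, rfl⟩
      exact ⟨u, hu, by simp [MulAut.smul_def]⟩
    · rintro ⟨u, hu, rfl⟩
      exact ⟨u, hu, by simp [MulAut.smul_def]⟩
  refine ⟨⟨c4, ?_, ?_⟩, ?_⟩
  · intro htop
    obtain ⟨k, hk, hk1⟩ := c5
    exact hk1 (c2 k (by rw [htop]; exact mem_top k) hk)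
  · intro g hg
    rw [eq_bot_iff]
    intro x hx
    obtain ⟨hxH, hxg⟩ := mem_inf.1 hx
    rw [hconjmem] at hxg
    obtain ⟨u, hu, hxu⟩ := hxg
    obtain ⟨k, hk, v, hv, rfl⟩ := c1 g
    set w := v * u * v⁻¹ with hw
    have hwH : w ∈ H := mul_mem (mul_mem hv hu) (inv_mem hv)
    have hxw : x = k * w * k⁻¹ := by rw [hxu, hw]; group
    have h1 : x * w⁻¹ ∈ Kb := by
      have : x * w⁻¹ = k * (w * k⁻¹ * w⁻¹) := by rw [hxw]; group
      rw [this]
      exact mul_mem hk (hKn.conj_mem _ (inv_mem hk) w)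
    have h2 : x * w⁻¹ = 1 := c2 _ (mul_mem hxH (inv_mem hwH)) h1
    have hxeq : x = w := by
      calc x = (x * w⁻¹) * w := by group
        _ = w := by rw [h2, one_mul]
    have hkw : k * w = w * k := by
      calc k * w = (k * w * k⁻¹) * k := by group
        _ = w * k := by rw [← hxw, hxeq]
    rcases c3 k hk w hwH hkw with hk1 | hw1
    · exfalso
      apply hg
      rw [hk1, one_mul]; exact hv
    · rw [mem_bot, hxeq, hw1]
  · ext x
    show x ∈ Kb ↔ (x = 1 ∨ ∀ g : Q, x ∉ MulAut.conj g • H)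
    constructor
    · intro hxK
      by_cases hx1 : x = 1
      · exact Or.inl hx1
      · right
        intro g hxg
        rw [hconjmem] at hxg
        obtain ⟨u, hu, rfl⟩ := hxg
        have huK : u ∈ Kb := by
          have := hKn.conj_mem _ hxK g⁻¹
          have e : g⁻¹ * (g * u * g⁻¹) * g⁻¹⁻¹ = u := by group
          rwa [e] at this
        apply hx1
        rw [c2 u hu huK]; group
    · rintro (rfl | hx)
      · exact one_mem _
      · by_contra hxK
        obtain ⟨k, hk, u, hu, rfl⟩ := c1 x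
        have hu1 : u ≠ 1 := by
          rintro rfl
          apply hxK; rw [mul_one]; exact hk
        let φ : Kb → Kb := fun a => ⟨(a : Q) * u * (a : Q)⁻¹ * u⁻¹, by
          have : (a : Q) * u * (a : Q)⁻¹ * u⁻¹ = (a : Q) * (u * (a : Q)⁻¹ * u⁻¹) := by group
          rw [this]
          exact mul_mem a.2 (hKn.conj_mem _ (inv_mem a.2) u)⟩
        have hφinj : Function.Injective φ := by
          intro a b hab
          have hab' : (a : Q) * u * (a : Q)⁻¹ * u⁻¹ = (b : Q) * u * (b : Q)⁻¹ * u⁻¹ :=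
            congrArg Subtype.val hab
          have h4 : (a : Q) * u * (a : Q)⁻¹ = (b : Q) * u * (b : Q)⁻¹ := by
            calc (a : Q) * u * (a : Q)⁻¹ = ((a : Q) * u * (a : Q)⁻¹ * u⁻¹) * u := by group
              _ = ((b : Q) * u * (b : Q)⁻¹ * u⁻¹) * u := by rw [hab']
              _ = (b : Q) * u * (b : Q)⁻¹ := by group
          have h3 : ((b : Q)⁻¹ * a) * u = u * ((b : Q)⁻¹ * a) := by
            calc ((b : Q)⁻¹ * a) * u = (b : Q)⁻¹ * ((a : Q) * u * (a : Q)⁻¹) * a := by group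
              _ = (b : Q)⁻¹ * ((b : Q) * u * (b : Q)⁻¹) * a := by rw [h4]
              _ = u * ((b : Q)⁻¹ * a) := by group
          rcases c3 _ (mul_mem (inv_mem b.2) a.2) u hu h3 with h5 | h5
          · apply Subtype.ext
            calc (a : Q) = b * ((b : Q)⁻¹ * a) := by group
              _ = b := by rw [h5, mul_one]
          · exact absurd h5 hu1
        have hφsurj : Function.Surjective φ := Finite.injective_iff_surjective.1 hφinj
        obtain ⟨a, ha⟩ := hφsurj ⟨k, hk⟩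
        have ha' : (a : Q) * u * (a : Q)⁻¹ * u⁻¹ = k := congrArg Subtype.val ha
        apply hx (a : Q)
        rw [hconjmem]
        refine ⟨u, hu, ?_⟩
        rw [← ha']; group

theorem mc_EA {Q : Type*} [Group Q] [Finite Q] (hcomm : ∀ a b : Q, a * b = b * a)
    (hpr : ∀ y : Q, y ≠ 1 → ∃ q : ℕ, q.Prime ∧ y ^ q = 1) :
    ∃ p : ℕ, p.Prime ∧ ∀ y : Q, y ^ p = 1 := by
  by_cases htriv : ∀ y : Q, y = 1
  · exact ⟨2, Nat.prime_two, fun y => by rw [htriv y, one_pow]⟩
  · have hex : ∃ y0 : Q, y0 ≠ 1 := by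
      by_contra hcon
      exact htriv (fun y => by by_contra hy; exact hcon ⟨y, hy⟩)
    obtain ⟨y0, hy0⟩ := hex
    obtain ⟨p, hp, hy0p⟩ := hpr y0 hy0
    refine ⟨p, hp, fun y => ?_⟩
    by_cases hy : y = 1
    · rw [hy, one_pow]
    · obtain ⟨q, hq, hyq⟩ := hpr y hy
      by_cases hpq : q = p
      · rw [← hpq]; exact hyq
      · exfalso
        have := Fact.mk hp
        have := Fact.mk hq
        have ho0 : orderOf y0 = p := orderOf_eq_prime hy0p hy0
        have ho1 : orderOf y = q := orderOf_eq_prime hyq hy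
        have hcop : Nat.Coprime (orderOf y0) (orderOf y) := by
          rw [ho0, ho1]; exact (Nat.coprime_primes hp hq).2 (Ne.symm hpq)
        have ho : orderOf (y0 * y) = p * q := by
          rw [(show Commute y0 y from hcomm y0 y).orderOf_mul_eq_mul_orderOf_of_coprime hcop,
            ho0, ho1]
        have hne : y0 * y ≠ 1 := by
          intro h1
          rw [h1, orderOf_one] at ho
          have : p ∣ 1 := Dvd.intro q ho.symm
          exact hp.ne_one (Nat.dvd_one.1 this)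
        obtain ⟨r, hr, hyr⟩ := hpr _ hne
        have := Fact.mk hr
        have ho2 : orderOf (y0 * y) = r := orderOf_eq_prime hyr hne
        rw [ho] at ho2
        have hr' := hr
        rw [← ho2] at hr'
        exact Nat.not_prime_mul hp.ne_one hq.ne_one hr'

theorem mc_main {G : Type*} [Group G] [Finite G] (N : Subgroup G) [hNn : N.Normal]
    (h : ∀ x : G, x ∈ N → x ∉ centralizer (N : Set G) → IsCoatom (centralizer ({x} : Set G))) :
    (∃ p : ℕ, p.Prime ∧ Cfsg.IsElementaryAbelian p (⊤ : Subgroup (↥N ⧸ center ↥N))) ∨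
    (∃ (Q K : Subgroup (↥N ⧸ center ↥N)) (p : ℕ), p.Prime ∧ Cfsg.IsFrobeniusComplement Q ∧
      (Nat.card ↥Q).Prime ∧ K.Normal ∧ (K : Set (↥N ⧸ center ↥N)) = Cfsg.frobeniusKernel Q ∧
      Cfsg.IsElementaryAbelian p K) := by
  classical
  have hsurj := QuotientGroup.mk'_surjective (center ↥N)
  have hEAtop : (∀ a b : ↥N ⧸ center ↥N, a * b = b * a) →
      (∀ y : ↥N ⧸ center ↥N, y ≠ 1 → ∃ q : ℕ, q.Prime ∧ y ^ q = 1) →
      ∃ p : ℕ, p.Prime ∧ Cfsg.IsElementaryAbelian p (⊤ : Subgroup (↥N ⧸ center ↥N)) := by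
    intro hcomm hpr
    obtain ⟨p, hp, hyp⟩ := mc_EA hcomm hpr
    exact ⟨p, hp, ⟨⟨fun a b => Subtype.ext (hcomm a b)⟩⟩, fun a _ => hyp a⟩
  by_cases hab : ∀ a ∈ N, ∀ b ∈ N, a * b = b * a
  · left
    apply hEAtop
    · intro a b
      obtain ⟨a, rfl⟩ := hsurj a
      obtain ⟨b, rfl⟩ := hsurj b
      rw [← map_mul, ← map_mul]
      congr 1
      exact Subtype.ext (hab a a.2 b b.2)
    · intro y hy
      exfalso
      obtain ⟨y, rfl⟩ := hsurj y
      apply hy
      exact mc_rho_one.2 (mc_mem_Z.2 ⟨y.2, fun n hn => hab n hn y y.2⟩)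
  · obtain ⟨L0, hL0⟩ := mc_S (Nat.card N) N rfl h hab
    by_cases hI : ∃ x ∈ N, x ∉ mc_Z N ∧ ∀ n ∈ N, Commute (mc_pi N n) (mc_pi N x)
    · obtain ⟨x, hxN, hxZ, hIx⟩ := hI
      obtain ⟨hcomm, hpr⟩ := mc_caseI_EA N h hxN hxZ hIx
      left
      apply hEAtop
      · intro a b
        obtain ⟨a, rfl⟩ := hsurj a
        obtain ⟨b, rfl⟩ := hsurj b
        exact mc_rho_comm.2 (mc_pi_comm.1 (hcomm a a.2 b b.2))
      · intro y hy
        obtain ⟨y, rfl⟩ := hsurj y
        have hyZ : (y : G) ∉ mc_Z N := fun hz => hy (mc_rho_one.2 hz)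
        obtain ⟨q, hq, hyq⟩ := hpr y y.2 hyZ
        refine ⟨q, hq, ?_⟩
        rw [← map_pow]
        exact mc_rho_one.2 hyq
    · have hB : ∀ x ∈ N, x ∉ mc_Z N →
          ∀ d ∈ N, Commute (mc_pi N d) (mc_pi N x) → d * x = x * d := by
        intro x hxN hxZ
        rcases mc_dich N h hxN hxZ with h1 | h1
        · exact h1
        · exact absurd ⟨x, hxN, hxZ, h1⟩ hI
      right
      have hexL : ∃ m : ℕ, ∃ L : Subgroup G, (L.Normal ∧ L ≤ N ∧
          (∀ a ∈ L, ∀ b ∈ L, a * b = b * a) ∧ ¬ L ≤ mc_Z N) ∧ Nat.card L = m :=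
        ⟨_, L0, hL0, rfl⟩
      obtain ⟨L, ⟨hLn, hLN, hLab, hLZ⟩, hLcard⟩ := Nat.find_spec hexL
      have hLmin : ∀ L' : Subgroup G, L'.Normal → L' ≤ L → ¬ L' ≤ mc_Z N → L ≤ L' := by
        intro L' hL'n hL'L hL'Z
        have h1 : Nat.find hexL ≤ Nat.card L' :=
          Nat.find_min' hexL ⟨L', ⟨hL'n, hL'L.trans hLN,
            fun a ha b hb => hLab a (hL'L ha) b (hL'L hb), hL'Z⟩, rfl⟩
        rw [← hLcard] at h1
        exact (Subgroup.eq_of_le_of_card_ge hL'L h1).ge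
      obtain ⟨K, y, p, q, hpp, hqp, hKn, hKN, hZK, hyN, hyZ, hyqZ, hcover, hKab, hKp, hpowK,
        hfpf, ⟨k0, hk0K, hk0Z⟩⟩ := mc_frob_data N h hB L hLn hLN hLab hLZ hLmin
      set Kb : Subgroup (↥N ⧸ center ↥N) := (K.subgroupOf N).map (mc_rho N) with hKb
      set yb : ↥N ⧸ center ↥N := mc_rho N ⟨y, hyN⟩ with hyb
      have hKbn : Kb.Normal := by
        have := hKn
        exact Subgroup.Normal.map inferInstance _ hsurj
      have hmemKb : ∀ u, u ∈ Kb ↔ ∃ k : ↥N, (k : G) ∈ K ∧ mc_rho N k = u := by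
        intro u
        rw [hKb, mem_map]
        constructor
        · rintro ⟨k, hk, rfl⟩; exact ⟨k, mem_subgroupOf.1 hk, rfl⟩
        · rintro ⟨k, hk, rfl⟩; exact ⟨k, mem_subgroupOf.2 hk, rfl⟩
      have hmemH : ∀ u, u ∈ zpowers yb ↔ ∃ i : ℕ, u = mc_rho N (⟨y, hyN⟩ ^ i) := by
        intro u
        rw [← mem_powers_iff_mem_zpowers, Submonoid.mem_powers_iff]
        constructor
        · rintro ⟨i, rfl⟩; exact ⟨i, by rw [map_pow]⟩
        · rintro ⟨i, rfl⟩; exact ⟨i, by rw [map_pow]⟩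
      have hcoe : ∀ i : ℕ, (((⟨y, hyN⟩ : ↥N) ^ i : ↥N) : G) = y ^ i := fun i => rfl
      have hKb_lift : ∀ n : ↥N, mc_rho N n ∈ Kb → (n : G) ∈ K := by
        intro n hn
        obtain ⟨k, hk, hkn⟩ := (hmemKb _).1 hn
        have h1 : mc_rho N (k⁻¹ * n) = 1 := by rw [map_mul, map_inv, hkn]; group
        have h2 := hZK (mc_rho_one.1 h1)
        have e : (n : G) = (k : G) * ((k : G)⁻¹ * (n : G)) := by group
        rw [e]; exact mul_mem hk h2
      have c1 : ∀ g : ↥N ⧸ center ↥N, ∃ k ∈ Kb, ∃ u ∈ zpowers yb, g = k * u := by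
        intro g
        obtain ⟨n, rfl⟩ := hsurj g
        obtain ⟨k, hk, i, hni⟩ := hcover n n.2
        refine ⟨mc_rho N ⟨k, hKN hk⟩, (hmemKb _).2 ⟨⟨k, hKN hk⟩, hk, rfl⟩, yb ^ i,
          pow_mem (mem_zpowers yb) i, ?_⟩
        rw [hyb, ← map_pow, ← map_mul]
        congr 1
        apply Subtype.ext
        rw [Subgroup.coe_mul, hcoe]
        exact hni
      have c2 : ∀ u ∈ zpowers yb, u ∈ Kb → u = 1 := by
        intro u hu huK
        obtain ⟨i, rfl⟩ := (hmemH u).1 hu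
        have h1 := hKb_lift _ huK
        rw [hcoe] at h1
        apply mc_rho_one.2
        rw [hcoe]
        exact hpowK i h1
      have c3 : ∀ k ∈ Kb, ∀ u ∈ zpowers yb, k * u = u * k → k = 1 ∨ u = 1 := by
        intro kb hkb u hu hku
        obtain ⟨k, hk, rfl⟩ := (hmemKb kb).1 hkb
        obtain ⟨i, rfl⟩ := (hmemH u).1 hu
        have h1 := mc_rho_comm.1
          (show Commute (mc_rho N k) (mc_rho N (⟨y, hyN⟩ ^ i)) from hku)
        rw [hcoe] at h1
        rcases hfpf k hk i h1 with h2 | h2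
        · exact Or.inl (mc_rho_one.2 h2)
        · right
          apply mc_rho_one.2
          rw [hcoe]
          exact h2
      have hyb1 : yb ≠ 1 := fun h1 => hyZ (mc_rho_one.1 h1)
      have c4 : zpowers yb ≠ ⊥ := by
        intro hbot
        apply hyb1
        have : yb ∈ zpowers yb := mem_zpowers yb
        rw [hbot, mem_bot] at this
        exact this
      have c5 : ∃ k ∈ Kb, k ≠ 1 :=
        ⟨mc_rho N ⟨k0, hKN hk0K⟩, (hmemKb _).2 ⟨⟨k0, hKN hk0K⟩, hk0K, rfl⟩,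
          fun h1 => hk0Z (mc_rho_one.1 h1)⟩
      have hfrob := mc_frob Kb (zpowers yb) hKbn c1 c2 c3 c4 c5
      have hcardQ : (Nat.card ↥(zpowers yb)).Prime := by
        rw [Nat.card_zpowers]
        have := Fact.mk hqp
        have hybq : yb ^ q = 1 := by
          rw [hyb, ← map_pow]
          apply mc_rho_one.2
          rw [hcoe]
          exact hyqZ
        rw [orderOf_eq_prime hybq hyb1]
        exact hqp
      have hEAK : Cfsg.IsElementaryAbelian p Kb := by
        refine ⟨⟨⟨fun a b => ?_⟩⟩, fun a ha => ?_⟩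
        · obtain ⟨a, ha⟩ := a
          obtain ⟨b, hb⟩ := b
          obtain ⟨ka, hka, rfl⟩ := (hmemKb a).1 ha
          obtain ⟨kb', hkb, rfl⟩ := (hmemKb b).1 hb
          apply Subtype.ext
          show mc_rho N ka * mc_rho N kb' = mc_rho N kb' * mc_rho N ka
          rw [← map_mul, ← map_mul]
          congr 1
          exact Subtype.ext (hKab _ hka _ hkb)
        · obtain ⟨ka, hka, rfl⟩ := (hmemKb a).1 ha
          rw [← map_pow]
          exact mc_rho_one.2 (hKp _ hka)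
      exact ⟨zpowers yb, Kb, p, hpp, hfrob.1, hcardQ, hKbn, hfrob.2, hEAK⟩

end Cfsg.Agent.Helper19
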