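import Mathlib
import Cfsg.Agent.Helper4.CardMul

set_option autoImplicit false

namespace Cfsg.Agent.Helper19

open scoped Pointwise

theorem comm_of_simple_pgroup {X : Type*} [Group X] [Finite X] (hs : IsSimpleGroup X) {p : ℕ}
    [Fact p.Prime] (hp : IsPGroup p X) (a b : X) : a * b = b * a := by
  have hn : Nontrivial X := hs.toNontrivial
  have hc : Subgroup.center X ≠ ⊥ := (IsPGroup.bot_lt_center hp).ne'
  have htop := ((inferInstance : (Subgroup.center X).Normal).eq_bot_or_eq_top).resolve_left hc
  have hb : b ∈ Subgroup.center X := htop ▸ Subgroup.mem_top b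
  exact Subgroup.mem_center_iff.mp hb a

/-- A maximal subgroup of a finite nonabelian simple group does not have prime order
(Burnside's normal complement theorem). -/
theorem not_prime_card_coatom_of_simple {G : Type*} [Group G] [Finite G] (hs : IsSimpleGroup G)
    (hnc : ¬ ∀ a b : G, a * b = b * a) (H : Subgroup G) (hmax : IsCoatom H) :
    ¬ (Nat.card H).Prime := by
  intro hr
  have hrf : Fact (Nat.card H).Prime := ⟨hr⟩
  have hHp : IsPGroup (Nat.card H) H := IsPGroup.of_card (n := 1) (pow_one _).symm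
  obtain ⟨P, hP⟩ := hHp.exists_le_sylow
  rcases hmax.le_iff.mp hP with htop | hPH
  · apply hnc
    have hG : IsPGroup (Nat.card H) G := fun t => by
      have ht : t ∈ (P : Subgroup G) := htop ▸ Subgroup.mem_top t
      obtain ⟨k, hk⟩ := P.isPGroup' ⟨t, ht⟩
      exact ⟨k, by have := congrArg Subtype.val hk; simpa using this⟩
    exact comm_of_simple_pgroup hs hG
  · have hcomm : ∀ a ∈ H, ∀ b ∈ H, a * b = b * a := by
      have hcyc : IsCyclic H := isCyclic_of_prime_card (p := Nat.card H) rfl
      intro a ha b hb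
      have := (IsCyclic.isMulCommutative (α := H)).is_comm.comm ⟨a, ha⟩ ⟨b, hb⟩
      exact congrArg Subtype.val this
    rcases hmax.le_iff.mp (Subgroup.le_normalizer (H := H)) with hN | hN
    · have hnorm : H.Normal := Subgroup.normalizer_eq_top_iff.mp hN
      rcases hnorm.eq_bot_or_eq_top with h | h
      · rw [h, Subgroup.card_bot] at hr; exact Nat.not_prime_one hr
      · exact hmax.1 h
    · have hPN : Subgroup.normalizer (P : Set G) ≤ Subgroup.centralizer (P : Set G) := by
        intro g hg
        have hg' : g ∈ Subgroup.normalizer (H : Set G) := by rw [← hPH]; exact hg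
        rw [hN] at hg'
        rw [Subgroup.mem_centralizer_iff]
        intro h hh
        have hh' : h ∈ H := by rw [← hPH]; exact hh
        exact hcomm h hh' g hg'
      have hcompl := MonoidHom.ker_transferSylow_isComplement' P hPN
      have hcard := hcompl.card_mul_card
      rcases (inferInstance :
        (MonoidHom.transferSylow P hPN).ker.Normal).eq_bot_or_eq_top with h | h
      · rw [h, Subgroup.card_bot, one_mul] at hcard
        have := (Subgroup.card_eq_iff_eq_top (P : Subgroup G)).mp hcard
        exact hmax.1 (hPH ▸ this)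
      · rw [h, Subgroup.card_top] at hcard
        have hpos : 0 < Nat.card G := Nat.card_pos
        have h1 : Nat.card (P : Subgroup G) = 1 :=
          Nat.eq_of_mul_eq_mul_left hpos (hcard.trans (mul_one _).symm)
        rw [hPH] at h1
        rw [h1] at hr; exact Nat.not_prime_one hr

/-- A maximal subgroup of prime order cannot avoid a normal nonabelian simple subgroup. -/
theorem not_prime_card_coatom_of_not_le {G : Type*} [Group G] [Finite G] (T : Subgroup G)
    [T.Normal] (hT : IsSimpleGroup T) (hTnc : ¬ ∀ a b : T, a * b = b * a) (H : Subgroup G)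
    (hmax : IsCoatom H) (hHT : ¬ H ≤ T) : ¬ (Nat.card H).Prime := by
  intro hr
  have hrf : Fact (Nat.card H).Prime := ⟨hr⟩
  have hTnt : Nontrivial T := hT.toNontrivial
  have hinf : H ⊓ T = ⊥ := by
    have hd : Nat.card ↥(H ⊓ T) ∣ Nat.card H := Subgroup.card_dvd_of_le inf_le_left
    rcases (Nat.dvd_prime hr).mp hd with h1 | h1
    · exact Subgroup.eq_bot_of_card_eq _ h1
    · exfalso; apply hHT
      have : H ⊓ T = H := Subgroup.eq_of_le_of_card_ge inf_le_left h1.ge
      exact this ▸ inf_le_right
  have hTbot : T ≠ ⊥ := (Subgroup.nontrivial_iff_ne_bot T).mp hTnt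
  have hsup : H ⊔ T = ⊤ := by
    rcases hmax.le_iff.mp (le_sup_left : H ≤ H ⊔ T) with h | h
    · exact h
    · exfalso; apply hTbot
      have hle : T ≤ H := h ▸ le_sup_right
      have : T ≤ H ⊓ T := le_inf hle le_rfl
      rw [hinf] at this
      exact le_bot_iff.mp this
  have hHnT : H ≤ Subgroup.normalizer (T : Set G) := by
    rw [Subgroup.normalizer_eq_top_iff.mpr inferInstance]; exact le_top
  have hcardG : Nat.card G = Nat.card H * Nat.card T := by
    have := Cfsg.Agent.Helper4.card_sup_mul_card_inf H T hHnT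
    rw [hsup, hinf, Subgroup.card_top, Subgroup.card_bot, mul_one] at this
    exact this
  obtain ⟨s, hs, hsT, hsyl⟩ : ∃ s : ℕ, s.Prime ∧ s ∣ Nat.card T ∧
      ¬ Nat.card H ∣ Nat.card (Sylow s T) := by
    by_cases hrT : Nat.card H ∣ Nat.card T
    · refine ⟨Nat.card H, hr, hrT, ?_⟩
      intro hd
      have := card_sylow_modEq_one (Nat.card H) T
      have h0 : Nat.card (Sylow (Nat.card H) T) ≡ 0 [MOD Nat.card H] :=
        (Nat.modEq_zero_iff_dvd).mpr hd
      have h1 : (1 : ℕ) ≡ 0 [MOD Nat.card H] := this.symm.trans h0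
      exact hr.one_lt.ne' (Nat.dvd_one.mp ((Nat.modEq_zero_iff_dvd).mp h1))
    · have hne : Nat.card T ≠ 1 := fun h => hTbot (Subgroup.eq_bot_of_card_eq _ h)
      obtain ⟨s, hs, hsT⟩ := Nat.exists_prime_and_dvd hne
      refine ⟨s, hs, hsT, ?_⟩
      intro hd
      have hsf : Fact s.Prime := ⟨hs⟩
      obtain ⟨P⟩ : Nonempty (Sylow s T) := inferInstance
      apply hrT
      exact hd.trans ((Sylow.card_dvd_index P).trans (Subgroup.index_dvd_card _))
  have hsf : Fact s.Prime := ⟨hs⟩
  let _ : MulDistribMulAction H T :=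
    MulDistribMulAction.compHom T ((MulAut.conjNormal (H := T)).comp H.subtype)
  have hHp : IsPGroup (Nat.card H) H := IsPGroup.of_card (n := 1) (pow_one _).symm
  obtain ⟨S, hS⟩ := hHp.nonempty_fixed_point_of_prime_not_dvd_card (Sylow s T) hsyl
  have hconj : ∀ h ∈ H, ∀ x ∈ (S : Subgroup T).map T.subtype,
      h * x * h⁻¹ ∈ (S : Subgroup T).map T.subtype := by
    rintro h hh x ⟨y, hy, rfl⟩
    have h1 : (⟨h, hh⟩ : H) • S = S := hS ⟨h, hh⟩
    have h2 : (⟨h, hh⟩ : H) • y ∈ (⟨h, hh⟩ : H) • (S : Subgroup T) :=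
      Subgroup.smul_mem_pointwise_smul y _ _ hy
    have h3 : (⟨h, hh⟩ : H) • (S : Subgroup T) = S := by
      rw [← Sylow.pointwise_smul_def, h1]
    rw [h3] at h2
    exact ⟨(⟨h, hh⟩ : H) • y, h2, MulAut.conjNormal_apply h y⟩
  have hnorm : H ≤ Subgroup.normalizer (((S : Subgroup T).map T.subtype : Subgroup G) : Set G) := by
    intro h hh
    rw [Subgroup.mem_normalizer_iff]
    intro x
    constructor
    · exact hconj h hh x
    · intro hx
      have := hconj h⁻¹ (H.inv_mem hh) _ hx
      simpa [mul_assoc] using this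
  have hS'T : (S : Subgroup T).map T.subtype ≤ T := Subgroup.map_subtype_le _
  have hinf2 : H ⊓ (S : Subgroup T).map T.subtype = ⊥ :=
    le_bot_iff.mp (hinf ▸ inf_le_inf_left H hS'T)
  have hcardS' : Nat.card ((S : Subgroup T).map T.subtype) = Nat.card (S : Subgroup T) :=
    Subgroup.card_map_of_injective (Subgroup.subtype_injective T)
  have hcardK := Cfsg.Agent.Helper4.card_sup_mul_card_inf H _ hnorm
  rw [hinf2, Subgroup.card_bot, mul_one, hcardS'] at hcardK
  have hSdvd : s ∣ Nat.card (S : Subgroup T) := S.dvd_card_of_dvd_card hsT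
  have hrpos : 0 < Nat.card H := hr.pos
  rcases hmax.le_iff.mp (le_sup_left : H ≤ H ⊔ (S : Subgroup T).map T.subtype) with h | h
  · rw [h, Subgroup.card_top, hcardG] at hcardK
    have hST : Nat.card (S : Subgroup T) = Nat.card T :=
      (Nat.eq_of_mul_eq_mul_left hrpos hcardK).symm
    have hStop : (S : Subgroup T) = ⊤ := (Subgroup.card_eq_iff_eq_top _).mp hST
    have hTp : IsPGroup s T := fun t => by
      have ht : t ∈ (S : Subgroup T) := hStop ▸ Subgroup.mem_top t
      obtain ⟨k, hk⟩ := S.isPGroup' ⟨t, ht⟩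
      exact ⟨k, by have := congrArg Subtype.val hk; simpa using this⟩
    exact hTnc (comm_of_simple_pgroup hT hTp)
  · rw [h] at hcardK
    have h1 : Nat.card (S : Subgroup T) = 1 := by
      have h2 : Nat.card H * Nat.card (S : Subgroup T) = Nat.card H * 1 := by
        rw [mul_one]; exact hcardK.symm
      exact Nat.eq_of_mul_eq_mul_left hrpos h2
    rw [h1] at hSdvd
    exact hs.one_lt.ne' (Nat.dvd_one.mp hSdvd)

end Cfsg.Agent.Helper19
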