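import Mathlib
import Cfsg.Agent.Helper19.Ord320a
import Cfsg.Agent.Lead.PGroup

set_option autoImplicit false

namespace Cfsg.Agent.Helper19

theorem o320_sup_normal {G : Type*} [Group G] [Finite G] (hG : Nat.card G = 320)
    (H : Subgroup G) (h32 : Nat.card H = 32) (x : G) (hx : orderOf x = 5) :
    (H ⊔ Subgroup.zpowers x).Normal := by
  obtain ⟨D, hD⟩ : ∃ D : Subgroup G, D = H ⊔ Subgroup.zpowers x := ⟨_, rfl⟩
  rw [← hD]
  have h1 : 32 ∣ Nat.card D := by
    rw [← h32]; exact Subgroup.card_dvd_of_le (hD ▸ le_sup_left)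
  have h2 : 5 ∣ Nat.card D := by
    have h5 : Nat.card (Subgroup.zpowers x) = 5 := by rw [Nat.card_zpowers, hx]
    rw [← h5]; exact Subgroup.card_dvd_of_le (hD ▸ le_sup_right)
  have h3 : Nat.card D * D.index = 320 := by rw [Subgroup.card_mul_index, hG]
  have h4 : 32 * 5 ∣ Nat.card D := by
    have hc : Nat.Coprime 32 5 := by norm_num
    exact hc.mul_dvd_of_dvd_of_dvd h1 h2
  obtain ⟨m, hm⟩ := h4
  have h5 : D.index = 1 ∨ D.index = 2 := by
    rw [hm] at h3
    have h6 : m * D.index = 2 := by nlinarith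
    have h7 : D.index ∣ 2 := ⟨m, by rw [mul_comm]; exact h6.symm⟩
    have h8 : D.index ≤ 2 := Nat.le_of_dvd (by norm_num) h7
    have h9 : D.index ≠ 0 := by intro h0; rw [h0] at h6; simp at h6
    omega
  rcases h5 with h | h
  · rw [Subgroup.index_eq_one] at h
    rw [h]; infer_instance
  · exact Subgroup.normal_of_index_eq_two h

theorem o320_conj_form {G : Type*} [Group G] [Finite G] (hG : Nat.card G = 320)
    (H : Subgroup G) [hHn : H.Normal] (h32 : Nat.card H = 32) (x : G) (hx : orderOf x = 5)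
    (t : G) : ∃ h ∈ H, ∃ k : ℕ, t * x * t⁻¹ = h * x ^ k := by
  have hn := o320_sup_normal hG H h32 x hx
  have h1 : t * x * t⁻¹ ∈ H ⊔ Subgroup.zpowers x :=
    hn.conj_mem x (Subgroup.mem_sup_right (Subgroup.mem_zpowers x)) t
  have h2 : t * x * t⁻¹ ∈ ((H ⊔ Subgroup.zpowers x : Subgroup G) : Set G) := h1
  rw [Subgroup.normal_mul] at h2
  obtain ⟨h, hh, p, hp, hhp⟩ := Set.mem_mul.mp h2
  have hp' : p ∈ Submonoid.powers x := mem_powers_iff_mem_zpowers.mpr hp
  obtain ⟨k, hk⟩ := (Submonoid.mem_powers_iff _ _).mp hp'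
  exact ⟨h, hh, k, by rw [hk, hhp]⟩

theorem o320_no_central5 {G : Type*} [Group G] [Finite G] (hG : Nat.card G = 320)
    (H : Subgroup G) [hHn : H.Normal] (h32 : Nat.card H = 32)
    (hF : ∀ N : Subgroup G, N.Normal → Group.IsNilpotent N → N ≤ H)
    (x : G) (hx : orderOf x = 5) (hc : ∀ h ∈ H, x * h = h * x) : False := by
  have : Fact (Nat.Prime 5) := ⟨by norm_num⟩
  have hx5 : x ^ 5 = 1 := by rw [← hx]; exact pow_orderOf_eq_one x
  have h2grp : ∀ h ∈ H, h ^ 32 = 1 := by
    intro h hh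
    have h1 := pow_card_eq_one' (G := H) (x := ⟨h, hh⟩)
    rw [h32] at h1
    have h2 := congrArg Subtype.val h1
    simpa using h2
  have h51 : ∀ h ∈ H, h ^ 5 = 1 → h = 1 := by
    intro h hh h5
    have h32' := h2grp h hh
    have h65 : h ^ 65 = 1 := by rw [show 65 = 5 * 13 from rfl, pow_mul, h5, one_pow]
    have h64 : h ^ 64 = 1 := by rw [show 64 = 32 * 2 from rfl, pow_mul, h32', one_pow]
    have h6 : h ^ 65 = h ^ 64 * h := pow_succ h 64
    rw [h65, h64, one_mul] at h6
    exact h6.symm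
  have hPn : (Subgroup.zpowers x).Normal := by
    constructor
    intro y hy g
    have key : g * x * g⁻¹ ∈ Subgroup.zpowers x := by
      obtain ⟨h, hh, k, hk⟩ := o320_conj_form hG H h32 x hx g
      have h5 : (g * x * g⁻¹) ^ 5 = 1 := by rw [conj_pow, hx5, mul_one, mul_inv_cancel]
      rw [hk] at h5
      have hcomm : Commute h (x ^ k) := (show Commute h x from (hc h hh).symm).pow_right k
      rw [hcomm.mul_pow] at h5
      have h6 : (x ^ k) ^ 5 = 1 := by rw [← pow_mul, mul_comm, pow_mul, hx5, one_pow]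
      rw [h6, mul_one] at h5
      rw [hk, h51 h hh h5, one_mul]
      exact Subgroup.pow_mem _ (Subgroup.mem_zpowers x) k
    obtain ⟨j, rfl⟩ := Subgroup.mem_zpowers_iff.mp hy
    have h7 : g * x ^ j * g⁻¹ = (g * x * g⁻¹) ^ j := by rw [conj_zpow]
    rw [h7]
    exact Subgroup.zpow_mem _ key j
  have hPnil : Group.IsNilpotent (Subgroup.zpowers x) :=
    (IsPGroup.of_card (p := 5) (n := 1) (by rw [Nat.card_zpowers, hx, pow_one])).isNilpotent
  have hxH : x ∈ H := hF _ hPn hPnil (Subgroup.mem_zpowers x)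
  have h8 := h51 x hxH hx5
  rw [h8, orderOf_one] at hx
  norm_num at hx

/-- The subgroup `{1, z}` for an involution `z`. -/
def o320_Z {G : Type*} [Group G] (z : G) (hz2 : z * z = 1) : Subgroup G where
  carrier := {x | x = 1 ∨ x = z}
  one_mem' := Or.inl rfl
  mul_mem' := by
    rintro a b (rfl | rfl) (rfl | rfl)
    · left; exact mul_one 1
    · right; exact one_mul _
    · right; exact mul_one _
    · left; exact hz2
  inv_mem' := by
    rintro a (rfl | rfl)
    · left; exact inv_one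
    · right; exact inv_eq_of_mul_eq_one_left hz2

theorem o320_main {G : Type*} {G' : Type*} [Group G] [Finite G] [Group G']
    (hG : Nat.card G = 320) (H : Subgroup G) [hHn : H.Normal] (h32 : Nat.card H = 32)
    (hO2 : ∀ N : Subgroup G, N.Normal → IsPGroup 2 N → N ≤ H)
    (hF : ∀ N : Subgroup G, N.Normal → Group.IsNilpotent N → N ≤ H)
    (z : G) (hzH : z ∈ H) (hz1 : z ≠ 1) (hz2 : z * z = 1) (hzc : ∀ g : G, g * z = z * g)
    (hsq : ∀ x ∈ H, x * x = 1 ∨ x * x = z)
    (π : G →* G') (hπ : Function.Surjective π) (hker : ∀ x, π x = 1 ↔ x = 1 ∨ x = z)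
    (T : G) (hT : T * T = 1) (hTH : T ∉ H) :
    ∀ e ∈ H, T * e = e * T → e * e = 1 := by
  classical
  have : Fact (Nat.Prime 5) := ⟨by norm_num⟩
  have : Finite G' := Finite.of_surjective π hπ
  obtain ⟨A, hA⟩ : ∃ A : Subgroup G', A = H.map π := ⟨_, rfl⟩
  have hAmem : ∀ y, y ∈ A ↔ ∃ h ∈ H, π h = y := fun y => by rw [hA]; exact Subgroup.mem_map
  have hAn : A.Normal := by rw [hA]; exact Subgroup.Normal.map hHn π hπ
  have hπz : π z = 1 := (hker z).mpr (Or.inr rfl)
  have hAexp : ∀ y ∈ A, y * y = 1 := by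
    intro y hy
    obtain ⟨h, hh, rfl⟩ := (hAmem y).mp hy
    rw [← map_mul]
    rcases hsq h hh with h1 | h1
    · rw [h1, map_one]
    · rw [h1, hπz]
  have hAinv : ∀ y ∈ A, y⁻¹ = y := fun y hy => inv_eq_of_mul_eq_one_left (hAexp y hy)
  have hAcomm : ∀ x ∈ A, ∀ y ∈ A, x * y = y * x := by
    intro x hx y hy
    have h1 := hAinv (x * y) (A.mul_mem hx hy)
    rw [mul_inv_rev, hAinv x hx, hAinv y hy] at h1
    exact h1.symm
  have hA16 : Nat.card A = 16 := by
    have hkerle : π.ker ≤ H := by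
      intro x hx
      rcases (hker x).mp (MonoidHom.mem_ker.mp hx) with h | h
      · rw [h]; exact H.one_mem
      · rw [h]; exact hzH
    have hcomap : A.comap π = H := by
      rw [hA, Subgroup.comap_map_eq, sup_eq_left.mpr hkerle]
    have hidx : A.index = H.index := by
      rw [← hcomap, Subgroup.index_comap_of_surjective A hπ]
    have hH10 : H.index = 10 := by
      have h1 := Subgroup.card_mul_index H
      rw [h32, hG] at h1
      omega
    have hker2 : Nat.card π.ker = 2 := by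
      rw [Nat.card_eq_two_iff]
      refine ⟨⟨1, π.ker.one_mem⟩, ⟨z, MonoidHom.mem_ker.mpr hπz⟩, ?_, ?_⟩
      · intro h; exact hz1 (congrArg Subtype.val h).symm
      · ext ⟨x, hx⟩
        simp only [Set.mem_insert_iff, Set.mem_singleton_iff, Set.mem_univ, iff_true,
          Subtype.mk.injEq]
        exact (hker x).mp (MonoidHom.mem_ker.mp hx)
    have hG' : Nat.card G' = 160 := by
      have h1 := Subgroup.card_mul_index π.ker
      rw [Subgroup.index_ker, MonoidHom.range_eq_top.mpr hπ, Subgroup.card_top, hker2, hG] at h1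
      omega
    have h2 := Subgroup.card_mul_index A
    rw [hidx, hH10, hG'] at h2
    omega
  -- Step 1a: elements of order five act nontrivially
  have hno5 : ∀ x : G, orderOf x = 5 → ∃ a ∈ A, π x * a ≠ a * π x := by
    intro x hx5
    by_contra hcon
    push Not at hcon
    apply o320_no_central5 hG H h32 hF x hx5
    intro h hh
    have h1 := hcon (π h) ((hAmem _).mpr ⟨h, hh, rfl⟩)
    rw [← map_mul, ← map_mul] at h1
    have h2 : π ((h * x)⁻¹ * (x * h)) = 1 := by rw [map_mul, map_inv, h1, inv_mul_cancel]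
    rcases (hker _).mp h2 with h3 | h3
    · exact (inv_mul_eq_one.mp h3).symm
    · exfalso
      have h4 : x * h = z * (h * x) := by
        have h5 : x * h = (h * x) * z := by rw [← h3]; group
        rw [h5, hzc]
      have key : ∀ k : ℕ, x ^ k * h = z ^ k * (h * x ^ k) := by
        intro k
        induction k with
        | zero => simp
        | succ k ih =>
          calc x ^ (k + 1) * h = x ^ k * (x * h) := by rw [pow_succ, mul_assoc]
            _ = x ^ k * (z * (h * x)) := by rw [h4]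
            _ = z * (x ^ k * h) * x := by rw [← mul_assoc (x ^ k) z, hzc (x ^ k)]; group
            _ = z * (z ^ k * (h * x ^ k)) * x := by rw [ih]
            _ = z ^ (k + 1) * (h * x ^ (k + 1)) := by
              rw [pow_succ' z, pow_succ x]; simp only [mul_assoc]
      have h5 := key 5
      have hx5' : x ^ 5 = 1 := by rw [← hx5]; exact pow_orderOf_eq_one x
      have hz5 : z ^ 5 = z := by
        calc z ^ 5 = (z * z) * (z * z) * z := by
              simp only [pow_succ, pow_zero, one_mul, mul_assoc]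
          _ = z := by rw [hz2, one_mul, one_mul]
      rw [hx5', hz5, one_mul, mul_one] at h5
      have h6 : z * h = 1 * h := by rw [one_mul]; exact h5.symm
      exact hz1 (mul_right_cancel h6)
  -- Step 1b: `T` acts nontrivially
  have hTA : ∃ a ∈ A, π T * a ≠ a * π T := by
    by_contra hcon
    push Not at hcon
    obtain ⟨K, hK⟩ : ∃ K : Subgroup G, K = (Subgroup.centralizer (A : Set G')).comap π :=
      ⟨_, rfl⟩
    have hKmem : ∀ x, x ∈ K ↔ ∀ a ∈ A, a * π x = π x * a := by
      intro x; rw [hK, Subgroup.mem_comap, Subgroup.mem_centralizer_iff]; rfl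
    have hKn : K.Normal := by rw [hK]; exact Subgroup.Normal.comap inferInstance π
    have hTK : T ∈ K := (hKmem T).mpr (fun a ha => (hcon a ha).symm)
    by_cases h5 : 5 ∣ Nat.card K
    · obtain ⟨x, hx⟩ := exists_prime_orderOf_dvd_card' 5 h5
      have hx' : orderOf (x : G) = 5 := by rw [Subgroup.orderOf_coe]; exact hx
      obtain ⟨a, ha, hne⟩ := hno5 x hx'
      exact hne (((hKmem x).mp x.2 a ha).symm)
    · apply hTH
      refine hO2 K hKn ?_ hTK
      have hdvd : Nat.card K ∣ 2 ^ 6 * 5 := by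
        have h1 := Subgroup.card_subgroup_dvd_card K
        rw [hG] at h1; exact h1
      have hcop : Nat.Coprime (Nat.card K) 5 :=
        ((Nat.Prime.coprime_iff_not_dvd (by norm_num)).mpr h5).symm
      have hdvd2 : Nat.card K ∣ 2 ^ 6 := hcop.dvd_of_dvd_mul_right hdvd
      obtain ⟨j, -, hj⟩ := (Nat.dvd_prime_pow Nat.prime_two).mp hdvd2
      exact IsPGroup.of_card hj
  -- an element of order five
  obtain ⟨g, hg⟩ := exists_prime_orderOf_dvd_card' (G := G) 5 (by rw [hG]; norm_num)
  have hg5 : g ^ 5 = 1 := by rw [← hg]; exact pow_orderOf_eq_one g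
  obtain ⟨h₀, hh₀, k, hk⟩ := o320_conj_form hG H h32 g hg T
  obtain ⟨α, hα⟩ : ∃ α : MulAut A, α = MulAut.conjNormal (π g) := ⟨_, rfl⟩
  obtain ⟨τ, hτ⟩ : ∃ τ : MulAut A, τ = MulAut.conjNormal (π T) := ⟨_, rfl⟩
  have hαv : ∀ x : A, ((α x : A) : G') = π g * x * (π g)⁻¹ := fun x => by
    rw [hα]; exact MulAut.conjNormal_apply _ _
  have hτv : ∀ x : A, ((τ x : A) : G') = π T * x * (π T)⁻¹ := fun x => by
    rw [hτ]; exact MulAut.conjNormal_apply _ _
  have hα5 : α ^ 5 = 1 := by rw [hα, ← map_pow, ← map_pow, hg5, map_one, map_one]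
  have hτ2 : τ * τ = 1 := by rw [hτ, ← map_mul, ← map_mul, hT, map_one, map_one]
  have hα1 : α ≠ 1 := by
    intro h1
    obtain ⟨a, ha, hne⟩ := hno5 g hg
    apply hne
    have h2 := hαv ⟨a, ha⟩
    rw [h1] at h2
    have h3 : a = π g * a * (π g)⁻¹ := h2
    rw [eq_mul_inv_iff_mul_eq] at h3
    exact h3.symm
  have hτ1 : τ ≠ 1 := by
    intro h1
    obtain ⟨a, ha, hne⟩ := hTA
    apply hne
    have h2 := hτv ⟨a, ha⟩
    rw [h1] at h2
    have h3 : a = π T * a * (π T)⁻¹ := h2
    rw [eq_mul_inv_iff_mul_eq] at h3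
    exact h3.symm
  have hconj : τ * α * τ⁻¹ = α ^ k := by
    have h1 : MulAut.conjNormal (π h₀) = (1 : MulAut A) := by
      refine MulEquiv.ext (fun x => Subtype.ext ?_)
      rw [MulAut.conjNormal_apply, MulAut.one_apply]
      have hh : π h₀ ∈ A := (hAmem _).mpr ⟨h₀, hh₀, rfl⟩
      rw [hAcomm _ hh _ x.2, mul_inv_cancel_right]
    rw [hτ, hα, ← map_mul, ← map_inv, ← map_mul, ← map_inv, ← map_mul, ← map_mul, hk, map_mul,
      map_mul, h1, one_mul, map_pow, map_pow]
  have hkk : α ^ (k * k) = α ^ 1 := by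
    rw [pow_one, pow_mul]
    calc (α ^ k) ^ k = (τ * α * τ⁻¹) ^ k := by rw [hconj]
      _ = τ * α ^ k * τ⁻¹ := conj_pow
      _ = τ * (τ * α * τ⁻¹) * τ⁻¹ := by rw [hconj]
      _ = (τ * τ) * α * (τ * τ)⁻¹ := by group
      _ = α := by rw [hτ2]; group
  have hord : orderOf α = 5 := orderOf_eq_prime hα5 hα1
  have hmod : k * k ≡ 1 [MOD 5] := by
    have h1 := pow_eq_pow_iff_modEq.mp hkk
    rw [hord] at h1; exact h1
  have hk14 : k % 5 = 1 ∨ k % 5 = 4 := by
    have h1 : (k * k) % 5 = 1 % 5 := hmod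
    rw [Nat.mul_mod] at h1
    have h2 : k % 5 < 5 := Nat.mod_lt _ (by norm_num)
    obtain ⟨r, hr⟩ : ∃ r, r = k % 5 := ⟨_, rfl⟩
    rw [← hr] at h1 h2 ⊢
    interval_cases r <;> omega
  have hαk : α ^ k = α ∨ α ^ k = α ^ 4 := by
    have h1 : α ^ (k % 5) = α ^ k := by
      have h2 := pow_mod_orderOf α k
      rw [hord] at h2; exact h2
    rcases hk14 with h | h
    · left; rw [← h1, h, pow_one]
    · right; rw [← h1, h]
  -- apply the core lemma
  have hfix : ∀ x : A, τ x = x → ∃ w : A, (x : G') = (w : G') * ((τ w : A) : G') := by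
    letI instCG : CommGroup A :=
      { (inferInstance : Group A) with
        mul_comm := fun x y => Subtype.ext (hAcomm x.1 x.2 y.1 y.2) }
    have ha5 : ∀ x : A, α (α (α (α (α x)))) = x := by
      intro x
      have h1 := DFunLike.congr_fun hα5 x
      simpa [pow_succ, MulAut.mul_apply] using h1
    have ha1 : ∃ x : A, α x ≠ x := by
      by_contra hcon
      push Not at hcon
      exact hα1 (MulEquiv.ext hcon)
    have hτ2' : ∀ x : A, τ (τ x) = x := by
      intro x
      have h1 := DFunLike.congr_fun hτ2 x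
      simpa [MulAut.mul_apply] using h1
    have hτ1' : ∃ x : A, τ x ≠ x := by
      by_contra hcon
      push Not at hcon
      exact hτ1 (MulEquiv.ext hcon)
    have hcase : (∀ x : A, τ (α x) = α (τ x)) ∨ (∀ x : A, τ (α x) = α (α (α (α (τ x))))) := by
      rcases hαk with h | h
      · left
        intro x
        have h1 : τ * α = α * τ := by
          calc τ * α = (τ * α * τ⁻¹) * τ := by group
            _ = α * τ := by rw [hconj, h]
        have h2 := DFunLike.congr_fun h1 x
        simpa [MulAut.mul_apply] using h2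
      · right
        intro x
        have h1 : τ * α = α ^ 4 * τ := by
          calc τ * α = (τ * α * τ⁻¹) * τ := by group
            _ = α ^ 4 * τ := by rw [hconj, h]
        have h2 := DFunLike.congr_fun h1 x
        simpa [pow_succ, MulAut.mul_apply] using h2
    have hcore := o320_core (Q := A) hA16 (fun x => Subtype.ext (hAexp x.1 x.2))
      (fun x => α x) (fun x => τ x) (fun x y => map_mul α x y) (fun x y => map_mul τ x y)
      ha5 ha1 hτ2' hτ1' hcase
    intro x hx
    obtain ⟨w, hw⟩ := hcore x hx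
    exact ⟨w, congrArg Subtype.val hw⟩
  -- Step 5
  intro e heH hTe
  have heA : π e ∈ A := (hAmem _).mpr ⟨e, heH, rfl⟩
  have hfixe : τ ⟨π e, heA⟩ = ⟨π e, heA⟩ := by
    apply Subtype.ext
    rw [hτv]
    show π T * π e * (π T)⁻¹ = π e
    rw [← map_mul, hTe, map_mul, mul_inv_cancel_right]
  obtain ⟨w, hw⟩ := hfix ⟨π e, heA⟩ hfixe
  obtain ⟨h', hh', hπh'⟩ := (hAmem _).mp w.2
  have hw' : π e = π h' * (π T * π h' * (π T)⁻¹) := by
    rw [hτv, ← hπh'] at hw
    exact hw
  obtain ⟨u, hu⟩ : ∃ u : G, u = T * h' * T⁻¹ := ⟨_, rfl⟩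
  obtain ⟨d, hd⟩ : ∃ d : G, d = h' * u := ⟨_, rfl⟩
  have hπd : π (e⁻¹ * d) = 1 := by
    rw [hd, hu, map_mul, map_inv, map_mul, map_mul, map_mul, map_inv, ← hw', inv_mul_cancel]
  have hde : d = e ∨ d = e * z := by
    rcases (hker _).mp hπd with h | h
    · left; exact (inv_mul_eq_one.mp h).symm
    · right; rw [← h]; group
  have hdT : T * d = d * T := by
    rcases hde with h | h
    · rw [h]; exact hTe
    · rw [h]
      calc T * (e * z) = (T * e) * z := by group
        _ = e * (T * z) := by rw [hTe]; group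
        _ = e * z * T := by rw [hzc T]; group
  have hconjd : T * d * T⁻¹ = u * h' := by
    rw [hd, hu]
    calc T * (h' * (T * h' * T⁻¹)) * T⁻¹ = (T * h' * T⁻¹) * (T * T) * h' * (T * T)⁻¹ := by group
      _ = T * h' * T⁻¹ * h' := by rw [hT]; group
  have huh : u * h' = h' * u := by
    rw [← hconjd, ← hd, hdT, mul_inv_cancel_right]
  have huu : u * u = T * (h' * h') * T⁻¹ := by rw [hu]; group
  have hdd : d * d = 1 := by
    have h1 : d * d = (h' * h') * (u * u) := by
      calc d * d = h' * (u * h') * u := by rw [hd]; group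
        _ = h' * (h' * u) * u := by rw [huh]
        _ = (h' * h') * (u * u) := by group
    rw [h1, huu]
    rcases hsq h' hh' with h | h
    · rw [h]; group
    · rw [h, hzc T, mul_inv_cancel_right, hz2]
  rcases hde with h | h
  · rw [← h]; exact hdd
  · have he : e = d * z := by rw [h, mul_assoc, hz2, mul_one]
    rw [he]
    calc d * z * (d * z) = d * (z * d) * z := by group
      _ = d * (d * z) * z := by rw [← hzc d]
      _ = (d * d) * (z * z) := by group
      _ = 1 := by rw [hdd, hz2, mul_one]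

theorem o320_exp2 {G : Type*} [Group G] [Finite G]
    (hG : Nat.card G = 320) (H : Subgroup G) [hHn : H.Normal] (h32 : Nat.card H = 32)
    (hO2 : ∀ N : Subgroup G, N.Normal → IsPGroup 2 N → N ≤ H)
    (hF : ∀ N : Subgroup G, N.Normal → Group.IsNilpotent N → N ≤ H)
    (z : G) (hzH : z ∈ H) (hz1 : z ≠ 1) (hz2 : z * z = 1) (hzc : ∀ g : G, g * z = z * g)
    (hsq : ∀ x ∈ H, x * x = 1 ∨ x * x = z)
    (T : G) (hT : T * T = 1) (hTH : T ∉ H) :
    ∀ e ∈ H, T * e = e * T → e * e = 1 := by
  haveI hZn : (o320_Z z hz2).Normal := by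
    constructor
    intro n hn g
    rcases hn with rfl | rfl
    · left; rw [mul_one, mul_inv_cancel]
    · right; rw [hzc g, mul_inv_cancel_right]
  exact o320_main hG H h32 hO2 hF z hzH hz1 hz2 hzc hsq (QuotientGroup.mk' (o320_Z z hz2))
    (QuotientGroup.mk'_surjective _)
    (fun x => by rw [QuotientGroup.mk'_apply, QuotientGroup.eq_one_iff]; exact Iff.rfl) T hT hTH

/-- The extraspecial input: `H` a `2`-group with `Φ(H) = Z(H)` of order two. -/
theorem o320_extra {G : Type*} [Group G] [Finite G]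
    (hG : Nat.card G = 320) (H : Subgroup G) [hHn : H.Normal] (h32 : Nat.card H = 32)
    (hO2 : ∀ N : Subgroup G, N.Normal → IsPGroup 2 N → N ≤ H)
    (hF : ∀ N : Subgroup G, N.Normal → Group.IsNilpotent N → N ≤ H)
    (hp : IsPGroup 2 H) (hfrat : frattini H = Subgroup.center H)
    (hcen : Nat.card (Subgroup.center H) = 2)
    (T : G) (hT : orderOf T = 2) (hTH : T ∉ H) :
    ∀ e ∈ H, T * e = e * T → e * e = 1 := by
  have : Fact (Nat.Prime 2) := ⟨Nat.prime_two⟩
  obtain ⟨ζ, hζ1, hζu⟩ := (Nat.card_eq_two_iff' (1 : Subgroup.center H)).mp hcen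
  have hall : ∀ w : H, w ∈ Subgroup.center H → w = 1 ∨ w = ζ.1 := by
    intro w hw
    by_cases hw1 : w = 1
    · exact Or.inl hw1
    · right
      have h2 := hζu ⟨w, hw⟩ (fun hh => hw1 (congrArg Subtype.val hh))
      exact congrArg Subtype.val h2
  have hζ1' : (ζ : H) ≠ 1 := fun h1 => hζ1 (Subtype.ext h1)
  have hζc : ∀ y : H, y * ζ.1 = ζ.1 * y := fun y => Subgroup.mem_center_iff.mp ζ.2 y
  have hz1 : ((ζ : H) : G) ≠ 1 := fun h1 => hζ1' (Subtype.ext h1)
  have hz2 : ((ζ : H) : G) * ((ζ : H) : G) = 1 := by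
    rcases hall _ ((Subgroup.center H).mul_mem ζ.2 ζ.2) with h1 | h1
    · exact congrArg Subtype.val h1
    · exfalso
      apply hζ1'
      exact mul_left_cancel (h1.trans (mul_one _).symm)
  have hzc : ∀ g : G, g * ((ζ : H) : G) = ((ζ : H) : G) * g := by
    intro g
    have hmem : g * ((ζ : H) : G) * g⁻¹ ∈ H := hHn.conj_mem _ ζ.1.2 g
    have hcen' : (⟨g * ((ζ : H) : G) * g⁻¹, hmem⟩ : H) ∈ Subgroup.center H := by
      rw [Subgroup.mem_center_iff]
      intro y
      apply Subtype.ext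
      have hy : g⁻¹ * (y : G) * g ∈ H := by
        have h1 := hHn.conj_mem _ y.2 g⁻¹
        rw [inv_inv] at h1
        exact h1
      have h2 := congrArg Subtype.val (hζc ⟨g⁻¹ * (y : G) * g, hy⟩)
      have h3 : g⁻¹ * (y : G) * g * ((ζ : H) : G) = ((ζ : H) : G) * (g⁻¹ * (y : G) * g) := h2
      show (y : G) * (g * ((ζ : H) : G) * g⁻¹) = g * ((ζ : H) : G) * g⁻¹ * (y : G)
      calc (y : G) * (g * ((ζ : H) : G) * g⁻¹)
          = g * (g⁻¹ * (y : G) * g * ((ζ : H) : G)) * g⁻¹ := by group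
        _ = g * (((ζ : H) : G) * (g⁻¹ * (y : G) * g)) * g⁻¹ := by rw [h3]
        _ = g * ((ζ : H) : G) * g⁻¹ * (y : G) := by group
    rcases hall _ hcen' with h1 | h1
    · exfalso
      apply hz1
      have h2 : g * ((ζ : H) : G) * g⁻¹ = 1 := congrArg Subtype.val h1
      have h3 : ((ζ : H) : G) = g⁻¹ * (g * ((ζ : H) : G) * g⁻¹) * g := by group
      rw [h3, h2, mul_one, inv_mul_cancel]
    · have h2 : g * ((ζ : H) : G) * g⁻¹ = ((ζ : H) : G) := congrArg Subtype.val h1
      rw [mul_inv_eq_iff_eq_mul] at h2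
      exact h2
  have hsq : ∀ x ∈ H, x * x = 1 ∨ x * x = ((ζ : H) : G) := by
    intro x hx
    have h1 := Cfsg.Agent.Lead.pow_mem_frattini hp ⟨x, hx⟩
    rw [hfrat, pow_two] at h1
    rcases hall _ h1 with h2 | h2
    · left; exact congrArg Subtype.val h2
    · right; exact congrArg Subtype.val h2
  have hT2 : T * T = 1 := by
    rw [← pow_two, ← hT]; exact pow_orderOf_eq_one T
  exact o320_exp2 hG H h32 hO2 hF _ ζ.1.2 hz1 hz2 hzc hsq T hT2 hTH

end Cfsg.Agent.Helper19
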