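import Mathlib

set_option autoImplicit false

open Pointwise

namespace Cfsg.Agent.Helper19.PCover

universe u

variable {G : Type u} [Group G]

/-- The set of elements of `p`-power order. -/
abbrev pElems (p : ℕ) (G : Type u) [Group G] : Set G := {g | ∃ k : ℕ, orderOf g = p ^ k}

/-- `T` is generated by its `p`-elements. -/
def PGen (p : ℕ) (T : Subgroup G) : Prop :=
  Subgroup.closure ((T : Set G) ∩ pElems p G) = T

theorem pElems_smul (p : ℕ) (φ : MulAut G) : φ • pElems p G = pElems p G := by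
  ext g
  rw [Set.mem_smul_set_iff_inv_smul_mem]
  show (∃ k : ℕ, orderOf (φ⁻¹ • g) = p ^ k) ↔ (∃ k : ℕ, orderOf g = p ^ k)
  rw [MulAut.smul_def, MulEquiv.orderOf_eq]

theorem PGen.smul {p : ℕ} {T : Subgroup G} (h : PGen p T) (φ : MulAut G) : PGen p (φ • T) := by
  unfold PGen at h ⊢
  rw [Subgroup.coe_pointwise_smul]
  have h2 : φ • (T : Set G) ∩ pElems p G = φ • ((T : Set G) ∩ pElems p G) := by
    rw [Set.smul_set_inter, pElems_smul]
  rw [h2, ← Subgroup.smul_closure, h]

theorem PGen.of_closure {p : ℕ} {S : Set G} (hS : S ⊆ pElems p G) :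
    PGen p (Subgroup.closure S) := by
  unfold PGen
  apply le_antisymm
  · rw [Subgroup.closure_le]
    exact fun x hx => hx.1
  · rw [Subgroup.closure_le]
    exact fun x hx => Subgroup.subset_closure ⟨Subgroup.subset_closure hx, hS hx⟩

theorem PGen.le_closure {p : ℕ} {T K : Subgroup G} (h : PGen p T) (hTK : T ≤ K) :
    T ≤ Subgroup.closure ((K : Set G) ∩ pElems p G) := by
  have h' : Subgroup.closure ((T : Set G) ∩ pElems p G) = T := h
  calc T = Subgroup.closure ((T : Set G) ∩ pElems p G) := h'.symm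
    _ ≤ Subgroup.closure ((K : Set G) ∩ pElems p G) :=
        Subgroup.closure_mono (Set.inter_subset_inter_left _ (fun x hx => hTK hx))

theorem PGen.closure_subtype {p : ℕ} {T : Subgroup G} (h : PGen p T) :
    Subgroup.closure (pElems p ↥T) = ⊤ := by
  apply Subgroup.map_injective T.subtype_injective
  rw [MonoidHom.map_closure, ← MonoidHom.range_eq_map, Subgroup.range_subtype]
  have h' : Subgroup.closure ((T : Set G) ∩ pElems p G) = T := h
  refine Eq.trans ?_ h'
  congr 1
  ext x
  constructor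
  · rintro ⟨⟨y, hy⟩, ⟨k, hk⟩, rfl⟩
    exact ⟨hy, k, (Subgroup.orderOf_mk y hy).symm.trans hk⟩
  · rintro ⟨hx, k, hk⟩
    exact ⟨⟨x, hx⟩, ⟨k, (Subgroup.orderOf_mk x hx).trans hk⟩, rfl⟩

theorem pgroup_cover [Finite G] (p : ℕ) [Fact p.Prime] (hG : IsPGroup p G)
    {ι : Type*} [Fintype ι] (K : ι → Subgroup G) (hK : ∀ i, K i ≠ ⊤)
    (hcov : ∀ g : G, ∃ i, g ∈ K i) : p + 1 ≤ Fintype.card ι := by
  classical
  by_contra hlt
  have hm : Fintype.card ι ≤ p := by omega
  have hp : p.Prime := Fact.out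
  have : Fintype G := Fintype.ofFinite G
  have h1 : ∀ i, p * Nat.card (K i) ≤ Nat.card G := by
    intro i
    obtain ⟨n, hn⟩ := hG.index (K i)
    have hn0 : n ≠ 0 := by
      rintro rfl
      rw [pow_zero, Subgroup.index_eq_one] at hn
      exact hK i hn
    have h2 : (K i).index * Nat.card (K i) = Nat.card G := Subgroup.index_mul_card (K i)
    have h3 : p ≤ (K i).index := by
      rw [hn]
      exact Nat.le_self_pow hn0 p
    calc p * Nat.card (K i) ≤ (K i).index * Nat.card (K i) := Nat.mul_le_mul_right _ h3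
      _ = Nat.card G := h2
  obtain ⟨S, hSdef⟩ : ∃ S : ι → Finset G,
      S = fun i => (Finset.univ.filter (fun g => g ∈ K i)).erase 1 := ⟨_, rfl⟩
  have hSi : ∀ i, S i = (Finset.univ.filter (fun g => g ∈ K i)).erase 1 := fun i => by
    rw [hSdef]
  have hS : ∀ i, (S i).card + 1 = Nat.card (K i) := by
    intro i
    have e1 : Nat.card (K i) = (Finset.univ.filter (fun g => g ∈ K i)).card :=
      Nat.subtype_card (p := fun g => g ∈ K i) _ (fun x => by simp)
    have e2 : (1 : G) ∈ Finset.univ.filter (fun g => g ∈ K i) :=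
      Finset.mem_filter.mpr ⟨Finset.mem_univ _, (K i).one_mem⟩
    have e3 := Finset.card_erase_of_mem e2
    have e4 : 0 < (Finset.univ.filter (fun g => g ∈ K i)).card := Finset.card_pos.mpr ⟨1, e2⟩
    rw [hSi i, e1, e3]
    omega
  have hcovS : (Finset.univ.erase (1 : G)) ⊆ Finset.univ.biUnion S := by
    intro g hg
    obtain ⟨i, hi⟩ := hcov g
    rw [Finset.mem_biUnion]
    refine ⟨i, Finset.mem_univ _, ?_⟩
    rw [hSi i]
    exact Finset.mem_erase.mpr ⟨(Finset.mem_erase.mp hg).1,
      Finset.mem_filter.mpr ⟨Finset.mem_univ _, hi⟩⟩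
  have hc1 : Nat.card G - 1 ≤ ∑ i, (S i).card := by
    have e1 : (Finset.univ.erase (1 : G)).card = Nat.card G - 1 := by
      rw [Finset.card_erase_of_mem (Finset.mem_univ _), Finset.card_univ,
        Nat.card_eq_fintype_card]
    rw [← e1]
    exact (Finset.card_le_card hcovS).trans Finset.card_biUnion_le
  have hB0 : ∑ i, Nat.card (K i) = ∑ i, (S i).card + Fintype.card ι := by
    have h : ∀ i ∈ (Finset.univ : Finset ι), Nat.card (K i) = (S i).card + 1 :=
      fun i _ => (hS i).symm
    rw [Finset.sum_congr rfl h, Finset.sum_add_distrib]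
    simp
  have hB1 : p * ∑ i, Nat.card (K i) ≤ Fintype.card ι * Nat.card G := by
    rw [Finset.mul_sum]
    calc ∑ i, p * Nat.card (K i) ≤ ∑ _i : ι, Nat.card G :=
          Finset.sum_le_sum (fun i _ => h1 i)
      _ = Fintype.card ι * Nat.card G := by simp
  obtain ⟨A, hA⟩ : ∃ A, A = ∑ i, (S i).card := ⟨_, rfl⟩
  obtain ⟨N, hN⟩ : ∃ N, N = Nat.card G := ⟨_, rfl⟩
  obtain ⟨m, hmdef⟩ : ∃ m, m = Fintype.card ι := ⟨_, rfl⟩
  rw [← hA, ← hN] at hc1
  rw [hB0, ← hA, ← hN, ← hmdef] at hB1
  rw [← hmdef] at hm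
  have hm0 : 1 ≤ m := by
    obtain ⟨i, _⟩ := hcov 1
    rw [hmdef]
    exact Fintype.card_pos_iff.mpr ⟨i⟩
  have hNA : N ≤ A + 1 := by omega
  have h4 : m * N ≤ p * N := Nat.mul_le_mul_right N hm
  have h6 : A + m ≤ N := Nat.le_of_mul_le_mul_left (hB1.trans h4) hp.pos
  have hm1 : m = 1 := by omega
  rw [hm1, one_mul] at hB1
  have h8 : p * (A + 1) ≤ 1 * (A + 1) := by rw [one_mul]; exact hB1.trans hNA
  have h9 : p ≤ 1 := Nat.le_of_mul_le_mul_right h8 (Nat.succ_pos A)
  have h10 := hp.two_le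
  omega

theorem cover_aux (p : ℕ) [Fact p.Prime] {ι : Type*} [Fintype ι] :
    ∀ n : ℕ, ∀ (G : Type u) [Group G] [Finite G], Nat.card G = n →
      Subgroup.closure (pElems p G) = ⊤ → ∀ K : ι → Subgroup G, (∀ i, K i ≠ ⊤) →
      (∀ g ∈ pElems p G, ∃ i, g ∈ K i) → p + 1 ≤ Fintype.card ι := by
  intro n
  induction n using Nat.strong_induction_on with
  | _ n ih =>
    intro G _ _ hcard hgen K hK hcov
    have hp : p.Prime := Fact.out
    by_cases hPG : IsPGroup p G
    · exact pgroup_cover p hPG K hK (fun g => hcov g (IsPGroup.iff_orderOf.mp hPG g))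
    by_contra hlt
    have hm : Fintype.card ι ≤ p := by omega
    -- claim 1 : every proper p-generated subgroup lies in some `K i`
    have claim1 : ∀ T : Subgroup G, T ≠ ⊤ → PGen p T → ∃ i, T ≤ K i := by
      intro T hT hTgen
      by_contra hno
      push Not at hno
      have hlt' : Nat.card T < n := by
        rw [← hcard]
        exact lt_of_le_of_ne (Subgroup.card_le_card_group T)
          (fun h => hT (Subgroup.eq_top_of_card_eq T h))
      have h2 := ih (Nat.card T) hlt' T rfl hTgen.closure_subtype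
        (fun i => (K i).subgroupOf T)
        (fun i h => hno i (Subgroup.subgroupOf_eq_top.mp h))
        (fun g hg => by
          obtain ⟨k, hk⟩ := hg
          obtain ⟨i, hi⟩ := hcov (g : G) ⟨k, (Subgroup.orderOf_coe g).trans hk⟩
          exact ⟨i, Subgroup.mem_subgroupOf.mpr hi⟩)
      exact hlt h2
    obtain ⟨L, hLdef⟩ : ∃ L : ι → Subgroup G,
        L = fun i => Subgroup.closure ((K i : Set G) ∩ pElems p G) := ⟨_, rfl⟩
    have hL : ∀ i, L i = Subgroup.closure ((K i : Set G) ∩ pElems p G) := fun i => by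
      rw [hLdef]
    have hLK : ∀ i, L i ≤ K i := by
      intro i
      rw [hL i]
      exact (Subgroup.closure_le _).mpr (fun x hx => hx.1)
    have hLne : ∀ i, L i ≠ ⊤ := fun i h => hK i (top_le_iff.mp (by rw [← h]; exact hLK i))
    have hLgen : ∀ i, PGen p (L i) := by
      intro i
      rw [hL i]
      exact PGen.of_closure (fun x hx => hx.2)
    obtain ⟨TT, hTT⟩ : ∃ TT : Set (Subgroup G), TT = {T | T ≠ ⊤ ∧ PGen p T} := ⟨_, rfl⟩
    have hTTmem : ∀ T, T ∈ TT ↔ (T ≠ ⊤ ∧ PGen p T) := fun T => by rw [hTT]; rfl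
    obtain ⟨MM, hMM⟩ : ∃ MM : Set (Subgroup G), MM = {M | Maximal (· ∈ TT) M} := ⟨_, rfl⟩
    have hMMmem : ∀ M, M ∈ MM ↔ Maximal (· ∈ TT) M := fun M => by rw [hMM]; rfl
    have hMML : ∀ M ∈ MM, ∃ i, M = L i := by
      intro M hM
      have hM' := (hMMmem M).mp hM
      have hMT : M ≠ ⊤ ∧ PGen p M := (hTTmem M).mp hM'.prop
      obtain ⟨i, hi⟩ := claim1 M hMT.1 hMT.2
      refine ⟨i, ?_⟩
      have h1 : M ≤ L i := by rw [hL i]; exact hMT.2.le_closure hi
      have h2 : L i ∈ TT := (hTTmem _).mpr ⟨hLne i, hLgen i⟩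
      exact le_antisymm h1 (hM'.le_of_ge h2 h1)
    have hMMcard : MM.ncard ≤ p := by
      have hsub : MM ⊆ Set.range L := fun M hM => by
        obtain ⟨i, hi⟩ := hMML M hM
        exact ⟨i, hi.symm⟩
      calc MM.ncard ≤ (Set.range L).ncard := Set.ncard_le_ncard hsub (Set.toFinite _)
        _ = (L '' Set.univ).ncard := by rw [Set.image_univ]
        _ ≤ (Set.univ : Set ι).ncard := Set.ncard_image_le (Set.toFinite _)
        _ = Fintype.card ι := by rw [Set.ncard_univ, Nat.card_eq_fintype_card]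
        _ ≤ p := hm
    have hTTsmul : ∀ (φ : MulAut G) (T : Subgroup G), T ∈ TT → φ • T ∈ TT := by
      intro φ T hT
      obtain ⟨h1, h2⟩ := (hTTmem T).mp hT
      refine (hTTmem _).mpr ⟨?_, h2.smul φ⟩
      intro h
      apply h1
      rw [eq_top_iff]
      intro x _
      have h3 : φ • x ∈ φ • T := by rw [h]; exact Subgroup.mem_top _
      exact Subgroup.smul_mem_pointwise_smul_iff.mp h3
    have hMMsmul : ∀ (φ : MulAut G) (M : Subgroup G), M ∈ MM → φ • M ∈ MM := by
      intro φ M hM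
      have hM' := (hMMmem M).mp hM
      have key : ∀ T, T ∈ TT → φ • M ≤ T → T ≤ φ • M := by
        intro T hT hle
        have h1 : M ≤ φ⁻¹ • T := Subgroup.pointwise_smul_subset_iff.mp hle
        have h2 : φ⁻¹ • T ≤ M := hM'.le_of_ge (hTTsmul φ⁻¹ T hT) h1
        exact Subgroup.subset_pointwise_smul_iff.mpr h2
      exact (hMMmem _).mpr (And.intro (hTTsmul φ M hM'.prop) (fun T hT hle => key T hT hle))
    have hzp : ∀ g ∈ pElems p G, Subgroup.zpowers g ∈ TT := by
      intro g hg
      refine (hTTmem _).mpr ⟨?_, ?_⟩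
      · intro h
        apply hPG
        obtain ⟨k, hk⟩ := hg
        apply IsPGroup.of_card (n := k)
        rw [← hk, ← Nat.card_zpowers g, h]
        exact (Subgroup.card_top).symm
      · rw [Subgroup.zpowers_eq_closure]
        exact PGen.of_closure (Set.singleton_subset_iff.mpr hg)
    have hfix : ∀ g ∈ pElems p G, ∀ M ∈ MM, MulAut.conj g • M = M := by
      intro g hg M hM
      obtain ⟨M₀, hgM₀, hM₀max⟩ := (Set.toFinite TT).exists_le_maximal (hzp g hg)
      have hM₀ : M₀ ∈ MM := (hMMmem M₀).mpr hM₀max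
      have hgmem : g ∈ M₀ := hgM₀ (Subgroup.mem_zpowers g)
      by_cases hMM₀ : M = M₀
      · rw [hMM₀]; exact Subgroup.conj_smul_eq_self_of_mem hgmem
      obtain ⟨k, hk⟩ := hg
      have hZ : IsPGroup p (Subgroup.zpowers g) :=
        IsPGroup.of_card (n := k) ((Nat.card_zpowers g).trans hk)
      letI act : MulAction (Subgroup.zpowers g) (Subgroup G) :=
        MulAction.compHom (Subgroup G)
          ((MulAut.conj : G →* MulAut G).comp (Subgroup.zpowers g).subtype)
      have horb : MulAction.orbit (Subgroup.zpowers g) M ⊆ MM \ {M₀} := by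
        rintro T ⟨z, rfl⟩
        have hz : (z : G) ∈ M₀ := hgM₀ z.2
        refine ⟨hMMsmul (MulAut.conj (z : G)) M hM, ?_⟩
        intro hT
        apply hMM₀
        have h1 : MulAut.conj (z : G) • M = MulAut.conj (z : G) • M₀ :=
          (Set.mem_singleton_iff.mp hT).trans (Subgroup.conj_smul_eq_self_of_mem hz).symm
        exact smul_left_cancel _ h1
      obtain ⟨n', hn'⟩ := hZ.card_orbit M
      have hcardle : Nat.card (MulAction.orbit (Subgroup.zpowers g) M) ≤ p - 1 := by
        rw [Nat.card_coe_set_eq]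
        calc (MulAction.orbit (Subgroup.zpowers g) M).ncard ≤ (MM \ {M₀}).ncard :=
              Set.ncard_le_ncard horb (Set.toFinite _)
          _ = MM.ncard - 1 := Set.ncard_sdiff_singleton_of_mem hM₀
          _ ≤ p - 1 := Nat.sub_le_sub_right hMMcard 1
      have hn0 : n' = 0 := by
        by_contra hn0
        have h1 : p ≤ p ^ n' := Nat.le_self_pow hn0 p
        rw [hn'] at hcardle
        have h2 : p ≤ p - 1 := h1.trans hcardle
        have h3 := hp.pos
        omega
      rw [hn0, pow_zero] at hn'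
      have hsub : Subsingleton (MulAction.orbit (Subgroup.zpowers g) M) :=
        (Nat.card_eq_one_iff_unique.mp hn').1
      have h1 : (⟨g, Subgroup.mem_zpowers g⟩ : Subgroup.zpowers g) • M ∈
          MulAction.orbit (Subgroup.zpowers g) M := MulAction.mem_orbit M _
      have h2 : M ∈ MulAction.orbit (Subgroup.zpowers g) M := MulAction.mem_orbit_self M
      have h3 := congrArg Subtype.val (hsub.elim ⟨_, h1⟩ ⟨_, h2⟩)
      exact h3
    have hfixall : ∀ M ∈ MM, ∀ g : G, MulAut.conj g • M = M := by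
      intro M hM g
      have hg : g ∈ Subgroup.closure (pElems p G) := by rw [hgen]; exact Subgroup.mem_top g
      induction hg using Subgroup.closure_induction with
      | mem x hx => exact hfix x hx M hM
      | one => rw [map_one, one_smul]
      | mul x y _ _ hx hy => rw [map_mul, mul_smul, hy, hx]
      | inv x _ hx => rw [map_inv, inv_smul_eq_iff, hx]
    have hnormal : ∀ M ∈ MM, M.Normal := by
      intro M hM
      refine ⟨fun n hn g => ?_⟩
      have h1 : MulAut.conj g • n ∈ MulAut.conj g • M :=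
        Subgroup.smul_mem_pointwise_smul_iff.mpr hn
      rw [hfixall M hM g] at h1
      exact h1
    obtain ⟨P⟩ : Nonempty (Sylow p G) := inferInstance
    have hPT : (P : Subgroup G) ∈ TT := by
      refine (hTTmem _).mpr ⟨?_, ?_⟩
      · intro h
        apply hPG
        refine IsPGroup.iff_orderOf.mpr (fun x => ?_)
        have hx : x ∈ (P : Subgroup G) := by rw [h]; exact Subgroup.mem_top x
        obtain ⟨k, hk⟩ := IsPGroup.iff_orderOf.mp P.isPGroup' ⟨x, hx⟩
        exact ⟨k, (Subgroup.orderOf_mk x hx).symm.trans hk⟩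
      · show Subgroup.closure (((P : Subgroup G) : Set G) ∩ pElems p G) = (P : Subgroup G)
        have h1 : ((P : Subgroup G) : Set G) ∩ pElems p G = ((P : Subgroup G) : Set G) := by
          apply Set.inter_eq_left.mpr
          intro x hx
          obtain ⟨k, hk⟩ := IsPGroup.iff_orderOf.mp P.isPGroup' ⟨x, hx⟩
          exact ⟨k, (Subgroup.orderOf_mk x hx).symm.trans hk⟩
        rw [h1, Subgroup.closure_eq]
    obtain ⟨M₁, hPM₁, hM₁max⟩ := (Set.toFinite TT).exists_le_maximal hPT
    have hM₁ : M₁ ∈ MM := (hMMmem M₁).mpr hM₁max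
    have hM₁n : M₁.Normal := hnormal M₁ hM₁
    have hM₁ne : M₁ ≠ ⊤ := ((hTTmem M₁).mp hM₁max.prop).1
    apply hM₁ne
    rw [eq_top_iff, ← hgen, Subgroup.closure_le]
    intro g hg
    obtain ⟨k, hk⟩ := hg
    have hZ : IsPGroup p (Subgroup.zpowers g) :=
      IsPGroup.of_card (n := k) ((Nat.card_zpowers g).trans hk)
    obtain ⟨Q, hQ⟩ := hZ.exists_le_sylow
    obtain ⟨c, hc⟩ := MulAction.exists_smul_eq G P Q
    have hgQ : g ∈ (Q : Subgroup G) := hQ (Subgroup.mem_zpowers g)
    rw [← hc, Sylow.coe_subgroup_smul, Subgroup.mem_smul_pointwise_iff_exists] at hgQ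
    obtain ⟨s, hs, hsg⟩ := hgQ
    rw [← hsg]
    exact hM₁n.conj_mem s (hPM₁ hs) c

end Cfsg.Agent.Helper19.PCover
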