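import Mathlib

set_option autoImplicit false

namespace Cfsg.Agent.Helper19

/-- A group with a normal Sylow `p`-subgroup `S` and cyclic quotient is `S⟨c⟩` with `c` of order
prime to `p` equal to the index of `S`. -/
theorem pc_split {H : Type*} [Group H] [Finite H] {p : ℕ} [Fact p.Prime] (S : Sylow p H)
    [hn : (S : Subgroup H).Normal] (hcyc : IsCyclic (H ⧸ (S : Subgroup H))) :
    ∃ c : H, (orderOf c).Coprime p ∧ orderOf c = (S : Subgroup H).index ∧
      ∀ h : H, ∃ s ∈ (S : Subgroup H), ∃ i : ℕ, h = s * c ^ i := by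
  obtain ⟨n, hn'⟩ : ∃ n, n = (S : Subgroup H).index := ⟨_, rfl⟩
  have hpn : Nat.Coprime p n := by
    rw [hn']; exact (Nat.Prime.coprime_iff_not_dvd Fact.out).mpr S.not_dvd_index
  have hnpos : 0 < n := by
    rw [hn']; exact Nat.pos_of_ne_zero Subgroup.index_ne_zero_of_finite
  have hcardq : Nat.card (H ⧸ (S : Subgroup H)) = n := by rw [hn', Subgroup.index_eq_card]
  obtain ⟨N, hN⟩ : ∃ N, N = Nat.card (S : Subgroup H) := ⟨_, rfl⟩
  obtain ⟨k, hk⟩ := (IsPGroup.iff_card.mp S.isPGroup')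
  have hNk : N = p ^ k := by rw [hN]; exact hk
  obtain ⟨ybar, hybar⟩ := hcyc.exists_generator
  obtain ⟨y, rfl⟩ := QuotientGroup.mk_surjective ybar
  have hcop : Nat.Coprime N n := by
    rw [hNk]; exact Nat.Coprime.pow_left k hpn
  obtain ⟨M, hM⟩ : ∃ M, M = N ^ n.totient := ⟨_, rfl⟩
  have hM1 : M ≡ 1 [MOD n] := by rw [hM]; exact Nat.ModEq.pow_totient hcop
  have hNM : N ∣ M := by rw [hM]; exact dvd_pow_self N (Nat.totient_pos.mpr hnpos).ne'
  obtain ⟨c, hc⟩ : ∃ c : H, c = y ^ M := ⟨_, rfl⟩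
  have hyn : y ^ n ∈ (S : Subgroup H) := by
    rw [← QuotientGroup.eq_one_iff, QuotientGroup.mk_pow, ← hcardq]
    exact pow_card_eq_one'
  have hSpow : ∀ s ∈ (S : Subgroup H), s ^ N = 1 := by
    intro s hs
    have h1 := pow_card_eq_one' (G := (S : Subgroup H)) (x := ⟨s, hs⟩)
    rw [← hN] at h1
    have h2 := congrArg Subtype.val h1
    simpa using h2
  have hcn : c ^ n = 1 := by
    obtain ⟨t, ht⟩ := hNM
    rw [hc, ← pow_mul, mul_comm, pow_mul, ht, pow_mul, hSpow _ hyn, one_pow]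
  have hord : orderOf (QuotientGroup.mk y : H ⧸ (S : Subgroup H)) = n := by
    rw [orderOf_eq_card_of_forall_mem_zpowers hybar, hcardq]
  have hmkc : (QuotientGroup.mk c : H ⧸ (S : Subgroup H)) = QuotientGroup.mk y := by
    rw [hc, QuotientGroup.mk_pow]
    have h1 : (QuotientGroup.mk y : H ⧸ (S : Subgroup H)) ^ M = (QuotientGroup.mk y) ^ 1 := by
      rw [pow_eq_pow_iff_modEq, hord]; exact hM1
    rw [h1, pow_one]
  have hordc : orderOf c = n := by
    apply Nat.dvd_antisymm (orderOf_dvd_of_pow_eq_one hcn)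
    have h1 := orderOf_map_dvd (QuotientGroup.mk' (S : Subgroup H)) c
    rw [QuotientGroup.mk'_apply, hmkc, hord] at h1
    exact h1
  refine ⟨c, by rw [hordc]; exact hpn.symm, by rw [hordc, hn'], ?_⟩
  intro h
  have h1 := hybar (QuotientGroup.mk h)
  rw [← mem_powers_iff_mem_zpowers] at h1
  obtain ⟨i, hi⟩ := (Submonoid.mem_powers_iff _ _).mp h1
  refine ⟨h * (c ^ i)⁻¹, ?_, i, by group⟩
  have h2 : (QuotientGroup.mk (c ^ i) : H ⧸ (S : Subgroup H)) = QuotientGroup.mk h := by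
    rw [QuotientGroup.mk_pow, hmkc, hi]
  have h3 : (c ^ i)⁻¹ * h ∈ (S : Subgroup H) := QuotientGroup.eq.mp h2
  have h4 := hn.conj_mem _ h3 (c ^ i)
  have h5 : c ^ i * ((c ^ i)⁻¹ * h) * (c ^ i)⁻¹ = h * (c ^ i)⁻¹ := by group
  rw [h5] at h4
  exact h4

theorem pc_cyclic_of_central {H : Type*} [Group H] [Finite H] {p : ℕ} [Fact p.Prime]
    (S : Sylow p H) (hS : IsCyclic (S : Subgroup H)) (c : H) (hcop : (orderOf c).Coprime p)
    (hidx : orderOf c = (S : Subgroup H).index)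
    (hcomm : ∀ s ∈ (S : Subgroup H), c * s = s * c) : IsCyclic H := by
  obtain ⟨s₀, hs₀⟩ := hS.exists_generator
  obtain ⟨k, hk⟩ := (IsPGroup.iff_card.mp S.isPGroup')
  have hs₀ord : orderOf (s₀ : H) = p ^ k := by
    rw [Subgroup.orderOf_coe, orderOf_eq_card_of_forall_mem_zpowers hs₀, hk]
  have hord : orderOf ((s₀ : H) * c) = Nat.card H := by
    rw [(show Commute (s₀ : H) c from
      (hcomm s₀.1 s₀.2).symm).orderOf_mul_eq_mul_orderOf_of_coprime, hs₀ord, hidx, ← hk]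
    · exact Subgroup.card_mul_index _
    · rw [hs₀ord]; exact Nat.Coprime.pow_left k hcop.symm
  exact isCyclic_of_orderOf_eq_card _ hord

theorem pc_conj_into {G : Type*} [Group G] [Finite G] {p : ℕ} [Fact p.Prime] (P : Sylow p G)
    (Q : Subgroup G) (hQ : IsPGroup p Q) : ∃ g : G, ∀ q ∈ Q, g⁻¹ * q * g ∈ (P : Subgroup G) := by
  obtain ⟨P', hP'⟩ := hQ.exists_le_sylow
  obtain ⟨g, hg⟩ := MulAction.exists_smul_eq G P P'
  refine ⟨g, fun q hq => ?_⟩
  have h1 : q ∈ (P' : Subgroup G) := hP' hq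
  rw [← hg, Sylow.smul_def, Sylow.pointwise_smul_def,
    Subgroup.mem_pointwise_smul_iff_inv_smul_mem] at h1
  simpa [MulAut.smul_def, MulAut.conj_inv_apply] using h1

theorem pc_mem_normalizer {G : Type*} [Group G] [Finite G] (U : Subgroup G) (b : G)
    (h : ∀ u ∈ U, b * u * b⁻¹ ∈ U) : b ∈ Subgroup.normalizer (U : Set G) := by
  rw [Subgroup.mem_normalizer_iff]
  intro u
  constructor
  · exact h u
  · intro hu
    have hinj : Function.Injective (fun u : U => (⟨b * u.1 * b⁻¹, h u.1 u.2⟩ : U)) := by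
      intro u₁ u₂ h12
      have h1 : b * u₁.1 * b⁻¹ = b * u₂.1 * b⁻¹ := congrArg Subtype.val h12
      apply Subtype.ext
      have h2 := mul_right_cancel h1
      exact mul_left_cancel h2
    have hsurj := Finite.surjective_of_injective hinj
    obtain ⟨v, hv⟩ := hsurj ⟨b * u * b⁻¹, hu⟩
    have h1 : b * v.1 * b⁻¹ = b * u * b⁻¹ := congrArg Subtype.val hv
    have h2 := mul_right_cancel h1
    have h3 : v.1 = u := mul_left_cancel h2
    rw [← h3]; exact v.2

/-- For a `p`-subgroup `Q` normalized by `x`, the subgroup `Q⟨x⟩` has a normal Sylow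
`p`-subgroup with cyclic quotient. -/
theorem pc_hyps {G : Type*} [Group G] [Finite G] {p : ℕ} [Fact p.Prime] (Q : Subgroup G)
    (hQ : IsPGroup p Q) (x : G) (hx : Subgroup.zpowers x ≤ Subgroup.normalizer (Q : Set G))
    (H : Subgroup G) (hH : H = Q ⊔ Subgroup.zpowers x) :
    (∀ S : Sylow p ↥H, (S : Subgroup ↥H).Normal) ∧
    (∀ (S : Sylow p ↥H) [(S : Subgroup ↥H).Normal], IsCyclic (↥H ⧸ (S : Subgroup ↥H))) := by
  have hQH : Q ≤ H := by rw [hH]; exact le_sup_left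
  have hxH : x ∈ H := by rw [hH]; exact Subgroup.mem_sup_right (Subgroup.mem_zpowers x)
  have hform : ∀ h ∈ H, ∃ q ∈ Q, ∃ i : ℤ, h = q * x ^ i := by
    intro h hh
    have h1 : h ∈ ((Q ⊔ Subgroup.zpowers x : Subgroup G) : Set G) := by rw [← hH]; exact hh
    rw [Subgroup.coe_mul_of_right_le_normalizer_left Q _ hx] at h1
    obtain ⟨k, hk, p', hp', hkp⟩ := Set.mem_mul.mp h1
    obtain ⟨i, hi⟩ := Subgroup.mem_zpowers_iff.mp hp'
    exact ⟨k, hk, i, by rw [hi, hkp]⟩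
  have hxn : ∀ (i : ℤ) (q : G), q ∈ Q → x ^ i * q * (x ^ i)⁻¹ ∈ Q := by
    intro i q hq
    have h1 : x ^ i ∈ Subgroup.normalizer (Q : Set G) := hx (Subgroup.zpow_mem_zpowers x i)
    exact (Subgroup.mem_normalizer_iff.mp h1 q).mp hq
  have hcomm : ∀ a ∈ H, ∀ b ∈ H, a * b * a⁻¹ * b⁻¹ ∈ Q := by
    intro a ha b hb
    obtain ⟨q, hq, i, rfl⟩ := hform a ha
    obtain ⟨q', hq', j, rfl⟩ := hform b hb
    have h1 : q * x ^ i * (q' * x ^ j) * (q * x ^ i)⁻¹ * (q' * x ^ j)⁻¹ =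
        q * (x ^ i * q' * (x ^ i)⁻¹) * (x ^ j * q⁻¹ * (x ^ j)⁻¹) * q'⁻¹ := by group
    rw [h1]
    exact Q.mul_mem (Q.mul_mem (Q.mul_mem hq (hxn i q' hq')) (hxn j q⁻¹ (Q.inv_mem hq)))
      (Q.inv_mem hq')
  have hQS : ∀ S : Sylow p ↥H, ∀ u : ↥H, (u : G) ∈ Q → u ∈ (S : Subgroup ↥H) := by
    intro S u hu
    have hnorm : (Q.subgroupOf H).Normal := Subgroup.normal_subgroupOf_of_le_normalizer (by
      rw [hH]; exact sup_le Subgroup.le_normalizer hx)
    have hp1 : IsPGroup p (Q.subgroupOf H) := hQ.comap_subtype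
    have hp2 : IsPGroup p ((Q.subgroupOf H) ⊔ (S : Subgroup ↥H) : Subgroup ↥H) :=
      IsPGroup.to_sup_of_normal_left hp1 S.isPGroup'
    have h1 := S.is_maximal' hp2 le_sup_right
    have h2 : u ∈ (Q.subgroupOf H) ⊔ (S : Subgroup ↥H) :=
      Subgroup.mem_sup_left (Subgroup.mem_subgroupOf.mpr hu)
    rw [h1] at h2
    exact h2
  constructor
  · intro S
    constructor
    intro n hn g
    have h1 : g * n * g⁻¹ = (g * n * g⁻¹ * n⁻¹) * n := by group
    rw [h1]
    have h2 : ((g * n * g⁻¹ * n⁻¹ : ↥H) : G) ∈ Q := hcomm g.1 g.2 n.1 n.2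
    exact (S : Subgroup ↥H).mul_mem (hQS S _ h2) hn
  · intro S _
    refine ⟨⟨QuotientGroup.mk ⟨x, hxH⟩, fun q => ?_⟩⟩
    obtain ⟨h, rfl⟩ := QuotientGroup.mk_surjective q
    obtain ⟨k, hk, i, hi⟩ := hform h.1 h.2
    refine ⟨i, ?_⟩
    show (QuotientGroup.mk (⟨x, hxH⟩ : ↥H) : ↥H ⧸ (S : Subgroup ↥H)) ^ i = QuotientGroup.mk h
    rw [← QuotientGroup.mk_zpow, QuotientGroup.eq]
    apply hQS S
    rw [Subgroup.coe_mul, Subgroup.coe_inv, Subgroup.coe_zpow]
    show (x ^ i)⁻¹ * h.1 ∈ Q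
    rw [hi]
    have h2 := hxn (-i) k hk
    have h3 : x ^ (-i) * k * (x ^ (-i))⁻¹ = (x ^ i)⁻¹ * (k * x ^ i) := by group
    rw [h3] at h2
    exact h2

/-- In a dihedral group, an element either centralizes a set of odd-order elements or is an
involution inverting all of them. -/
theorem pc_dih_action {H : Type*} [Group H] (m : ℕ) (e : H ≃* DihedralGroup m) (Q : Set H)
    (hQ : ∀ u ∈ Q, Odd (orderOf u)) (x : H) :
    (∀ u ∈ Q, x * u = u * x) ∨ (x * x = 1 ∧ x ≠ 1 ∧ ∀ u ∈ Q, x * u * x⁻¹ = u⁻¹) := by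
  have hrot : ∀ u ∈ Q, ∃ j, e u = DihedralGroup.r j := by
    intro u hu
    cases h : e u with
    | r j => exact ⟨j, rfl⟩
    | sr j =>
      exfalso
      have h1 : orderOf (e u) = 2 := by rw [h]; exact DihedralGroup.orderOf_sr j
      rw [MulEquiv.orderOf_eq] at h1
      have h2 := hQ u hu
      rw [h1] at h2
      exact absurd h2 (by decide)
  cases hx : e x with
  | r i =>
    left
    intro u hu
    obtain ⟨j, hj⟩ := hrot u hu
    apply e.injective
    rw [map_mul, map_mul, hx, hj, DihedralGroup.r_mul_r, DihedralGroup.r_mul_r, add_comm]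
  | sr i =>
    right
    refine ⟨?_, ?_, ?_⟩
    · apply e.injective
      rw [map_mul, hx, DihedralGroup.sr_mul_self, map_one]
    · intro h1
      rw [h1, map_one, DihedralGroup.one_def] at hx
      exact nomatch hx
    · intro u hu
      obtain ⟨j, hj⟩ := hrot u hu
      apply e.injective
      have hinv : (DihedralGroup.sr i : DihedralGroup m)⁻¹ = DihedralGroup.sr i :=
        inv_eq_of_mul_eq_one_left (DihedralGroup.sr_mul_self i)
      rw [map_mul, map_mul, map_inv, map_inv, hx, hj, DihedralGroup.sr_mul_r,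
        DihedralGroup.inv_r, hinv, DihedralGroup.sr_mul_sr]
      congr 1; ring

end Cfsg.Agent.Helper19
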