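import Mathlib
import Cfsg.Agent.Helper19.PCyc1

set_option autoImplicit false

namespace Cfsg.Agent.Helper19

/-- Every subgroup with normal Sylow `p`-subgroup and cyclic quotient is cyclic or dihedral of
order `2 p ^ n`. -/
def pc_Prop (p : ℕ) (G : Type*) [Group G] : Prop :=
  ∀ H : Subgroup G, (∀ S : Sylow p ↥H, (S : Subgroup ↥H).Normal) →
    (∀ (S : Sylow p ↥H) [(S : Subgroup ↥H).Normal], IsCyclic (↥H ⧸ (S : Subgroup ↥H))) →
    IsCyclic H ∨ (∃ n : ℕ, Nonempty (H ≃* DihedralGroup (p ^ n)))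

theorem pc_apply_pgroup {G : Type*} [Group G] [Finite G] {p : ℕ} [Fact p.Prime] (hp : p ≠ 2)
    (hL : pc_Prop p G) (H : Subgroup G) (hH : IsPGroup p H) : IsCyclic H := by
  have htop : ∀ S : Sylow p ↥H, (S : Subgroup ↥H) = ⊤ :=
    fun S => (S.is_maximal' (hH.to_subgroup ⊤) le_top).symm
  have h := hL H (fun S => by rw [htop S]; infer_instance) (fun S _ => by
    have hsub : Subsingleton (↥H ⧸ (S : Subgroup ↥H)) := by
      constructor
      intro a b
      obtain ⟨a, rfl⟩ := QuotientGroup.mk_surjective a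
      obtain ⟨b, rfl⟩ := QuotientGroup.mk_surjective b
      rw [QuotientGroup.eq, htop S]; exact Subgroup.mem_top _
    exact isCyclic_of_subsingleton)
  rcases h with h | ⟨n, ⟨e⟩⟩
  · exact h
  · exfalso
    obtain ⟨k, hk⟩ := IsPGroup.iff_card.mp hH
    have h2 : Nat.card H = 2 * p ^ n := by
      rw [Nat.card_congr e.toEquiv, DihedralGroup.nat_card]
    rw [h2] at hk
    have h3 : 2 ∣ p ^ k := ⟨p ^ n, hk.symm⟩
    have h4 := Nat.Prime.dvd_of_dvd_pow Nat.prime_two h3
    exact hp ((Nat.prime_dvd_prime_iff_eq Nat.prime_two Fact.out).mp h4).symm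

theorem pc_action {G : Type*} [Group G] [Finite G] {p : ℕ} [Fact p.Prime] (hp : p ≠ 2)
    (hL : pc_Prop p G) (Q : Subgroup G) (hQ : IsPGroup p Q) (x : G)
    (hx : ∀ u ∈ Q, x * u * x⁻¹ ∈ Q) :
    (∀ u ∈ Q, x * u = u * x) ∨ (x * x = 1 ∧ x ≠ 1 ∧ ∀ u ∈ Q, x * u * x⁻¹ = u⁻¹) := by
  have hxN : Subgroup.zpowers x ≤ Subgroup.normalizer (Q : Set G) := by
    rw [Subgroup.zpowers_le]; exact pc_mem_normalizer Q x hx
  obtain ⟨H, hH⟩ : ∃ H : Subgroup G, H = Q ⊔ Subgroup.zpowers x := ⟨_, rfl⟩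
  have hQH : Q ≤ H := by rw [hH]; exact le_sup_left
  have hxH : x ∈ H := by rw [hH]; exact Subgroup.mem_sup_right (Subgroup.mem_zpowers x)
  obtain ⟨h1, h2⟩ := pc_hyps Q hQ x hxN H hH
  rcases hL H h1 h2 with hc | ⟨n, ⟨e⟩⟩
  · left
    intro u hu
    obtain ⟨g, hg⟩ := hc.exists_generator
    obtain ⟨i, hi⟩ := Subgroup.mem_zpowers_iff.mp (hg ⟨x, hxH⟩)
    obtain ⟨j, hj⟩ := Subgroup.mem_zpowers_iff.mp (hg ⟨u, hQH hu⟩)
    have h3 : (⟨x, hxH⟩ : ↥H) * ⟨u, hQH hu⟩ = ⟨u, hQH hu⟩ * ⟨x, hxH⟩ := by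
      rw [← hi, ← hj]; exact (Commute.refl g).zpow_zpow i j
    exact congrArg Subtype.val h3
  · have hodd : ∀ u ∈ {u : ↥H | (u : G) ∈ Q}, Odd (orderOf u) := by
      intro u hu
      obtain ⟨k, hk⟩ := hQ ⟨u.1, hu⟩
      have h3 : u ^ p ^ k = 1 := by
        apply Subtype.ext
        have h4 := congrArg Subtype.val hk
        simpa using h4
      have h5 : orderOf u ∣ p ^ k := orderOf_dvd_of_pow_eq_one h3
      obtain ⟨j, -, hj⟩ := (Nat.dvd_prime_pow Fact.out).mp h5
      rw [hj]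
      exact Odd.pow ((Nat.Prime.eq_two_or_odd' Fact.out).resolve_left hp)
    rcases pc_dih_action (p ^ n) e {u : ↥H | (u : G) ∈ Q} hodd ⟨x, hxH⟩ with h3 | ⟨h3, h4, h5⟩
    · left
      intro u hu
      exact congrArg Subtype.val (h3 ⟨u, hQH hu⟩ hu)
    · right
      refine ⟨congrArg Subtype.val h3, fun h6 => h4 (Subtype.ext h6), ?_⟩
      intro u hu
      exact congrArg Subtype.val (h5 ⟨u, hQH hu⟩ hu)

theorem pc_forward {G : Type*} [Group G] [Finite G] {p : ℕ} [Fact p.Prime] (hp : p ≠ 2)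
    (P : Sylow p G) (hL : pc_Prop p G) :
    IsCyclic (P : Subgroup G) ∧
      (Subgroup.normalizer ((P : Subgroup G) : Set G) =
          Subgroup.centralizer ((P : Subgroup G) : Set G) ∨
       ((Subgroup.centralizer ((P : Subgroup G) : Set G)).relIndex
          (Subgroup.normalizer ((P : Subgroup G) : Set G)) = 2 ∧
        ∀ Q : Subgroup G, Q ≤ P → Nat.card Q = p →
          IsMulCommutative ↥(Subgroup.centralizer (Q : Set G)) ∧
          ∀ x : G, x ∈ Subgroup.normalizer (Q : Set G) → x ∉ Subgroup.centralizer (Q : Set G) →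
            orderOf x = 2 ∧
              ∀ c : G, c ∈ Subgroup.centralizer (Q : Set G) → x * c * x⁻¹ = c⁻¹)) := by
  have : Fact (Nat.Prime 2) := ⟨Nat.prime_two⟩
  have hPc := pc_apply_pgroup hp hL (P : Subgroup G) P.isPGroup'
  refine ⟨hPc, ?_⟩
  have hodd : Odd p := (Nat.Prime.eq_two_or_odd' Fact.out).resolve_left hp
  have hact : ∀ x ∈ Subgroup.normalizer ((P : Subgroup G) : Set G),
      (∀ u ∈ (P : Subgroup G), x * u = u * x) ∨
        (x * x = 1 ∧ x ≠ 1 ∧ ∀ u ∈ (P : Subgroup G), x * u * x⁻¹ = u⁻¹) := by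
    intro x hx
    exact pc_action hp hL (P : Subgroup G) P.isPGroup' x
      (fun u hu => (Subgroup.mem_normalizer_iff.mp hx u).mp hu)
  have hcentmem : ∀ (Q : Subgroup G) (x : G),
      x ∈ Subgroup.centralizer (Q : Set G) ↔ ∀ u ∈ Q, x * u = u * x := by
    intro Q x
    rw [Subgroup.mem_centralizer_iff]
    constructor
    · intro h u hu; exact (h u hu).symm
    · intro h u hu; exact (h u hu).symm
  by_cases hNC : Subgroup.normalizer ((P : Subgroup G) : Set G) ≤
      Subgroup.centralizer ((P : Subgroup G) : Set G)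
  · left
    exact le_antisymm hNC (Subgroup.centralizer_le_normalizer _)
  · right
    rw [SetLike.not_le_iff_exists] at hNC
    obtain ⟨t, htN, htC⟩ := hNC
    have htinv : t * t = 1 ∧ t ≠ 1 ∧ ∀ u ∈ (P : Subgroup G), t * u * t⁻¹ = u⁻¹ := by
      rcases hact t htN with h | h
      · exact absurd ((hcentmem _ t).mpr h) htC
      · exact h
    have hne_inv : ∀ q : G, q ∈ (P : Subgroup G) → q ≠ 1 → q⁻¹ ≠ q := by
      intro q hq hq1 h
      have h2 : q ^ 2 = 1 := by
        rw [pow_two]; nth_rewrite 1 [← h]; exact inv_mul_cancel q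
      obtain ⟨k, hk⟩ := P.isPGroup' ⟨q, hq⟩
      have h3 : q ^ p ^ k = 1 := by
        have h4 := congrArg Subtype.val hk; simpa using h4
      have h5 : q ^ Nat.gcd 2 (p ^ k) = 1 := pow_gcd_eq_one.mpr ⟨h2, h3⟩
      have h6 : Nat.gcd 2 (p ^ k) = 1 :=
        Nat.Coprime.pow_right k (Nat.coprime_two_left.mpr hodd)
      rw [h6, pow_one] at h5
      exact hq1 h5
    refine ⟨?_, ?_⟩
    · rw [Subgroup.relIndex_eq_two_iff]
      refine ⟨t, htN, fun b hb => ?_⟩
      by_cases hbC : b ∈ Subgroup.centralizer ((P : Subgroup G) : Set G)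
      · refine Or.inr ⟨hbC, fun hbt => htC ?_⟩
        have h1 : t = b⁻¹ * (b * t) := by group
        rw [h1]; exact Subgroup.mul_mem _ (Subgroup.inv_mem _ hbC) hbt
      · refine Or.inl ⟨?_, hbC⟩
        have hbinv : ∀ u ∈ (P : Subgroup G), b * u * b⁻¹ = u⁻¹ := by
          rcases hact b hb with h | h
          · exact absurd ((hcentmem _ b).mpr h) hbC
          · exact h.2.2
        rw [hcentmem]
        intro u hu
        have h1 : b * t * u * (b * t)⁻¹ = b * (t * u * t⁻¹) * b⁻¹ := by group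
        rw [htinv.2.2 u hu, hbinv u⁻¹ (Subgroup.inv_mem _ hu), inv_inv] at h1
        rw [mul_inv_eq_iff_eq_mul] at h1
        exact h1
    · intro Q hQP hQp
      have hQpg : IsPGroup p Q := IsPGroup.of_card (n := 1) (by rw [hQp, pow_one])
      have hQne : ∃ q ∈ Q, q ≠ 1 := by
        by_contra hcon
        push Not at hcon
        have hbot : Q = ⊥ := (Subgroup.eq_bot_iff_forall Q).mpr hcon
        rw [hbot, Subgroup.card_bot] at hQp
        exact (Fact.out : p.Prime).one_lt.ne hQp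
      obtain ⟨q₁, hq₁, hq₁1⟩ := hQne
      have hinvQ : ∀ x : G, x ∈ Subgroup.normalizer (Q : Set G) →
          x ∉ Subgroup.centralizer (Q : Set G) → x * x = 1 ∧ x ≠ 1 := by
        intro x hxN hxC
        rcases pc_action hp hL Q hQpg x
          (fun u hu => (Subgroup.mem_normalizer_iff.mp hxN u).mp hu) with h | h
        · exact absurd ((hcentmem Q x).mpr h) hxC
        · exact ⟨h.1, h.2.1⟩
      have hinvC : ∀ x : G, x ∈ Subgroup.normalizer (Q : Set G) →
          x ∉ Subgroup.centralizer (Q : Set G) →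
          ∀ c : G, c ∈ Subgroup.centralizer (Q : Set G) → x * c * x⁻¹ = c⁻¹ := by
        intro x hxN hxC c hc
        have hxcN : x * c ∈ Subgroup.normalizer (Q : Set G) :=
          Subgroup.mul_mem _ hxN (Subgroup.centralizer_le_normalizer _ hc)
        have hxcC : x * c ∉ Subgroup.centralizer (Q : Set G) := by
          intro h
          apply hxC
          have h1 : x = (x * c) * c⁻¹ := by group
          rw [h1]; exact Subgroup.mul_mem _ h (Subgroup.inv_mem _ hc)
        have h1 := (hinvQ (x * c) hxcN hxcC).1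
        have h2 := (hinvQ x hxN hxC).1
        have hxi : x⁻¹ = x := inv_eq_of_mul_eq_one_left h2
        rw [hxi]
        have h3 : (x * c * x) * c = 1 := by rw [← h1]; group
        exact eq_inv_of_mul_eq_one_left h3
      have htNQ : t ∈ Subgroup.normalizer (Q : Set G) := by
        apply pc_mem_normalizer Q t
        intro u hu
        rw [htinv.2.2 u (hQP hu)]; exact Subgroup.inv_mem _ hu
      have htCQ : t ∉ Subgroup.centralizer (Q : Set G) := by
        intro h
        have h1 := (hcentmem Q t).mp h q₁ hq₁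
        have h2 := htinv.2.2 q₁ (hQP hq₁)
        rw [h1, mul_inv_cancel_right] at h2
        exact hne_inv q₁ (hQP hq₁) hq₁1 h2.symm
      refine ⟨⟨⟨fun a b => ?_⟩⟩, fun x hxN hxC => ⟨?_, hinvC x hxN hxC⟩⟩
      · apply Subtype.ext
        show a.1 * b.1 = b.1 * a.1
        have ha := hinvC t htNQ htCQ a.1 a.2
        have hb := hinvC t htNQ htCQ b.1 b.2
        have hab := hinvC t htNQ htCQ (a.1 * b.1) (Subgroup.mul_mem _ a.2 b.2)
        have h1 : t * (a.1 * b.1) * t⁻¹ = (t * a.1 * t⁻¹) * (t * b.1 * t⁻¹) := by group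
        rw [hab, ha, hb, mul_inv_rev] at h1
        have h2 := congrArg (fun w => w⁻¹) h1
        simp only [mul_inv_rev, inv_inv] at h2
        exact h2
      · have h := hinvQ x hxN hxC
        exact orderOf_eq_prime (by rw [pow_two]; exact h.1) h.2

end Cfsg.Agent.Helper19
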