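import Mathlib
import Cfsg.Agent.Helper19.PCyc2
import Cfsg.Agent.Helper4.Dih

set_option autoImplicit false

namespace Cfsg.Agent.Helper19

theorem pc_Qcond_all {G : Type*} [Group G] [Finite G] {p : ℕ} [Fact p.Prime] (P : Sylow p G)
    (hQc : ∀ Q : Subgroup G, Q ≤ P → Nat.card Q = p →
          IsMulCommutative ↥(Subgroup.centralizer (Q : Set G)) ∧
          ∀ x : G, x ∈ Subgroup.normalizer (Q : Set G) → x ∉ Subgroup.centralizer (Q : Set G) →
            orderOf x = 2 ∧ ∀ c : G, c ∈ Subgroup.centralizer (Q : Set G) → x * c * x⁻¹ = c⁻¹)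
    (Q₀ : Subgroup G) (hQ₀ : Nat.card Q₀ = p) :
    (∀ a b : G, (∀ u ∈ Q₀, a * u = u * a) → (∀ u ∈ Q₀, b * u = u * b) → a * b = b * a) ∧
    (∀ x : G, (∀ u ∈ Q₀, x * u * x⁻¹ ∈ Q₀) → ¬ (∀ u ∈ Q₀, x * u = u * x) →
      x * x = 1 ∧ x ≠ 1 ∧ ∀ c : G, (∀ u ∈ Q₀, c * u = u * c) → x * c * x⁻¹ = c⁻¹) := by
  have hQ₀p : IsPGroup p Q₀ := IsPGroup.of_card (n := 1) (by rw [hQ₀, pow_one])
  obtain ⟨g, hg⟩ := pc_conj_into P Q₀ hQ₀p
  obtain ⟨γ, hγ⟩ : ∃ γ : MulAut G, γ = MulAut.conj g⁻¹ := ⟨_, rfl⟩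
  have hγP : ∀ q ∈ Q₀, γ q ∈ (P : Subgroup G) := by
    intro q hq
    rw [hγ, MulAut.conj_apply, inv_inv]; exact hg q hq
  obtain ⟨Q', hQ'⟩ : ∃ Q' : Subgroup G, Q' = Q₀.map γ.toMonoidHom := ⟨_, rfl⟩
  have hQ'mem : ∀ w, w ∈ Q' ↔ ∃ q ∈ Q₀, γ q = w := by
    intro w; rw [hQ', Subgroup.mem_map]; rfl
  have hQ'P : Q' ≤ P := by
    intro w hw
    obtain ⟨q, hq, rfl⟩ := (hQ'mem w).mp hw
    exact hγP q hq
  have hQ'card : Nat.card Q' = p := by
    rw [hQ', ← hQ₀]
    exact Nat.card_congr (Q₀.equivMapOfInjective _ γ.injective).toEquiv.symm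
  obtain ⟨hcomm, hinv⟩ := hQc Q' hQ'P hQ'card
  have hcent : ∀ a : G, (∀ u ∈ Q₀, a * u = u * a) →
      γ a ∈ Subgroup.centralizer (Q' : Set G) := by
    intro a ha
    rw [Subgroup.mem_centralizer_iff]
    intro w hw
    obtain ⟨q, hq, rfl⟩ := (hQ'mem w).mp hw
    rw [← map_mul, ← map_mul, ha q hq]
  constructor
  · intro a b ha hb
    have h1 := hcomm.is_comm.comm ⟨γ a, hcent a ha⟩ ⟨γ b, hcent b hb⟩
    have h2 : γ a * γ b = γ b * γ a := congrArg Subtype.val h1
    rw [← map_mul, ← map_mul] at h2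
    exact γ.injective h2
  · intro x hxN hxC
    have hγxN : γ x ∈ Subgroup.normalizer (Q' : Set G) := by
      apply pc_mem_normalizer
      intro w hw
      obtain ⟨q, hq, rfl⟩ := (hQ'mem w).mp hw
      rw [← map_mul, ← map_inv, ← map_mul]
      exact (hQ'mem _).mpr ⟨_, hxN q hq, rfl⟩
    have hγxC : γ x ∉ Subgroup.centralizer (Q' : Set G) := by
      intro h
      apply hxC
      intro u hu
      have h1 := Subgroup.mem_centralizer_iff.mp h (γ u) ((hQ'mem _).mpr ⟨u, hu, rfl⟩)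
      rw [← map_mul, ← map_mul] at h1
      exact (γ.injective h1).symm
    obtain ⟨h2, h3⟩ := hinv (γ x) hγxN hγxC
    have hxx : x * x = 1 := by
      apply γ.injective
      rw [map_mul, map_one, ← pow_two, ← h2]; exact pow_orderOf_eq_one _
    have hx1 : x ≠ 1 := by
      intro h
      rw [h, map_one, orderOf_one] at h2
      norm_num at h2
    refine ⟨hxx, hx1, ?_⟩
    intro c hc
    have h4 := h3 (γ c) (hcent c hc)
    rw [← map_mul, ← map_inv, ← map_mul, ← map_inv] at h4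
    exact γ.injective h4

theorem pc_backward {G : Type*} [Group G] [Finite G] {p : ℕ} [Fact p.Prime] (hp : p ≠ 2)
    (P : Sylow p G)
    (hR : IsCyclic (P : Subgroup G) ∧
      (Subgroup.normalizer ((P : Subgroup G) : Set G) =
          Subgroup.centralizer ((P : Subgroup G) : Set G) ∨
       ((Subgroup.centralizer ((P : Subgroup G) : Set G)).relIndex
          (Subgroup.normalizer ((P : Subgroup G) : Set G)) = 2 ∧
        ∀ Q : Subgroup G, Q ≤ P → Nat.card Q = p →
          IsMulCommutative ↥(Subgroup.centralizer (Q : Set G)) ∧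
          ∀ x : G, x ∈ Subgroup.normalizer (Q : Set G) → x ∉ Subgroup.centralizer (Q : Set G) →
            orderOf x = 2 ∧
              ∀ c : G, c ∈ Subgroup.centralizer (Q : Set G) → x * c * x⁻¹ = c⁻¹))) :
    pc_Prop p G := by
  have : Fact (Nat.Prime 2) := ⟨Nat.prime_two⟩
  obtain ⟨hPc, hR2⟩ := hR
  intro H h1 h2
  obtain ⟨S⟩ := (inferInstance : Nonempty (Sylow p ↥H))
  haveI hSn := h1 S
  have hcyc := h2 S
  obtain ⟨SG, hSG⟩ : ∃ SG : Subgroup G, SG = (S : Subgroup ↥H).map H.subtype := ⟨_, rfl⟩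
  have hSGp : IsPGroup p SG := by rw [hSG]; exact S.isPGroup'.map H.subtype
  obtain ⟨g, hg⟩ := pc_conj_into P SG hSGp
  have hSmem : ∀ s : (S : Subgroup ↥H), ((s : ↥H) : G) ∈ SG := by
    intro s; rw [hSG]; exact Subgroup.mem_map_of_mem _ s.2
  obtain ⟨ψ, hψ⟩ : ∃ ψ : (S : Subgroup ↥H) →* (P : Subgroup G),
      ∀ s, ((ψ s : (P : Subgroup G)) : G) = g⁻¹ * ((s : ↥H) : G) * g :=
    ⟨MonoidHom.mk' (fun s => ⟨g⁻¹ * ((s : ↥H) : G) * g, hg _ (hSmem s)⟩) (by
      intro a b
      apply Subtype.ext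
      show g⁻¹ * (((a * b : (S : Subgroup ↥H)) : ↥H) : G) * g =
        (g⁻¹ * ((a : ↥H) : G) * g) * (g⁻¹ * ((b : ↥H) : G) * g)
      rw [Subgroup.coe_mul, Subgroup.coe_mul]; group), fun s => rfl⟩
  have hψinj : Function.Injective ψ := by
    intro a b hab
    have h3 := congrArg Subtype.val hab
    rw [hψ, hψ] at h3
    have h4 : ((a : ↥H) : G) = ((b : ↥H) : G) := by
      have h5 := mul_right_cancel h3
      exact mul_left_cancel h5
    exact Subtype.ext (Subtype.ext h4)
  haveI := hPc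
  have hSc : IsCyclic (S : Subgroup ↥H) := isCyclic_of_injective ψ hψinj
  obtain ⟨c, hccop, hcidx, hgen⟩ := pc_split S hcyc
  obtain ⟨k, hk⟩ := IsPGroup.iff_card.mp S.isPGroup'
  obtain ⟨s₀, hs₀⟩ := hSc.exists_generator
  have hs₀ord : orderOf (s₀ : ↥H) = p ^ k := by
    rw [Subgroup.orderOf_coe, orderOf_eq_card_of_forall_mem_zpowers hs₀, hk]
  have hSpow : ∀ s ∈ (S : Subgroup ↥H), ∃ i : ℤ, s = (s₀ : ↥H) ^ i := by
    intro s hs
    obtain ⟨i, hi⟩ := Subgroup.mem_zpowers_iff.mp (hs₀ ⟨s, hs⟩)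
    refine ⟨i, ?_⟩
    have h3 := congrArg Subtype.val hi
    simpa using h3.symm
  have htriv : k = 0 → ∀ s ∈ (S : Subgroup ↥H), c * s = s * c := by
    intro hk0 s hs
    have hS1 : Nat.card (S : Subgroup ↥H) = 1 := by rw [hk, hk0, pow_zero]
    have hbot := Subgroup.eq_bot_of_card_eq _ hS1
    rw [hbot, Subgroup.mem_bot] at hs
    rw [hs, mul_one, one_mul]
  have hkey : (∀ s ∈ (S : Subgroup ↥H), c * s = s * c) ∨
      (c * c = 1 ∧ c ≠ 1 ∧ ∀ s ∈ (S : Subgroup ↥H), c * s * c⁻¹ = s⁻¹) := by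
    rcases hR2 with hNC | ⟨-, hQc⟩
    · left
      have hP' : Subgroup.normalizer ((P : Subgroup G) : Set G) ≤
          Subgroup.centralizer ((P : Subgroup G) : Set G) := le_of_eq hNC
      obtain ⟨K, hK⟩ : ∃ K : Subgroup G, K = (MonoidHom.transferSylow P hP').ker := ⟨_, rfl⟩
      have hKn : K.Normal := by rw [hK]; infer_instance
      have hKcomp : K.IsComplement' (P : Subgroup G) := by
        rw [hK]; exact MonoidHom.ker_transferSylow_isComplement' P hP'
      have hKcard : Nat.card K = (P : Subgroup G).index := by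
        have h3 := hKcomp.card_mul_card
        have h4 := Subgroup.card_mul_index (P : Subgroup G)
        have hPpos : 0 < Nat.card (P : Subgroup G) := Nat.card_pos
        have h5 : Nat.card K * Nat.card (P : Subgroup G) =
            (P : Subgroup G).index * Nat.card (P : Subgroup G) := by rw [h3, ← h4, mul_comm]
        exact Nat.eq_of_mul_eq_mul_right hPpos h5
      have hKp : ¬ p ∣ Nat.card K := by rw [hKcard]; exact P.not_dvd_index
      have hcK : (c : G) ∈ K := by
        rw [hK, MonoidHom.mem_ker]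
        have h3 : orderOf (MonoidHom.transferSylow P hP' (c : G)) ∣ orderOf (c : G) :=
          orderOf_map_dvd _ _
        have h4 : orderOf (MonoidHom.transferSylow P hP' (c : G)) ∣
            Nat.card (P : Subgroup G) := orderOf_dvd_natCard _
        obtain ⟨j, hj⟩ := IsPGroup.iff_card.mp P.isPGroup'
        rw [hj] at h4
        rw [Subgroup.orderOf_coe] at h3
        have h5 : Nat.Coprime (orderOf c) (p ^ j) := Nat.Coprime.pow_right j hccop
        have h6 := Nat.dvd_gcd h3 h4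
        rw [Nat.Coprime.gcd_eq_one h5, Nat.dvd_one] at h6
        exact orderOf_eq_one_iff.mp h6
      intro s hs
      have hwS : c * s * c⁻¹ * s⁻¹ ∈ (S : Subgroup ↥H) :=
        (S : Subgroup ↥H).mul_mem (hSn.conj_mem s hs c) ((S : Subgroup ↥H).inv_mem hs)
      have hwK : ((c * s * c⁻¹ * s⁻¹ : ↥H) : G) ∈ K := by
        have h3 : ((c * s * c⁻¹ * s⁻¹ : ↥H) : G) =
            (c : G) * ((s : G) * (c : G)⁻¹ * (s : G)⁻¹) := by
          simp only [Subgroup.coe_mul, Subgroup.coe_inv]; group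
        rw [h3]
        exact K.mul_mem hcK (hKn.conj_mem _ (K.inv_mem hcK) _)
      have hw1 : c * s * c⁻¹ * s⁻¹ = 1 := by
        have h3 : orderOf (c * s * c⁻¹ * s⁻¹) ∣ p ^ k := by
          rw [← hk]; exact Subgroup.orderOf_dvd_natCard _ hwS
        have h4 : orderOf (c * s * c⁻¹ * s⁻¹) ∣ Nat.card K := by
          rw [← Subgroup.orderOf_coe]; exact Subgroup.orderOf_dvd_natCard _ hwK
        obtain ⟨j, -, hj⟩ := (Nat.dvd_prime_pow Fact.out).mp h3
        rcases Nat.eq_zero_or_pos j with h0 | hpos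
        · rw [h0, pow_zero] at hj; exact orderOf_eq_one_iff.mp hj
        · exfalso; apply hKp
          rw [hj] at h4
          exact dvd_trans (dvd_pow_self p hpos.ne') h4
      have h5 : c * s = (c * s * c⁻¹ * s⁻¹) * (s * c) := by group
      rw [hw1, one_mul] at h5
      exact h5
    · rcases Nat.eq_zero_or_pos k with hk0 | hkpos
      · exact Or.inl (htriv hk0)
      · obtain ⟨q₀, hq₀⟩ : ∃ q₀ : ↥H, q₀ = (s₀ : ↥H) ^ p ^ (k - 1) := ⟨_, rfl⟩
        have hq₀ord : orderOf q₀ = p := by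
          rw [hq₀, orderOf_pow_of_dvd (pow_ne_zero _ (Fact.out : p.Prime).ne_zero)
            (by rw [hs₀ord]; exact pow_dvd_pow p (by omega)), hs₀ord,
            Nat.pow_div (by omega) (Fact.out : p.Prime).pos]
          have h3 : k - (k - 1) = 1 := by omega
          rw [h3, pow_one]
        obtain ⟨Q₀, hQ₀⟩ : ∃ Q₀ : Subgroup G, Q₀ = Subgroup.zpowers (q₀ : G) := ⟨_, rfl⟩
        have hQ₀card : Nat.card Q₀ = p := by
          rw [hQ₀, Nat.card_zpowers, Subgroup.orderOf_coe, hq₀ord]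
        obtain ⟨hA, hB⟩ := pc_Qcond_all P hQc Q₀ hQ₀card
        have hScent : ∀ s ∈ (S : Subgroup ↥H), ∀ u ∈ Q₀, (s : G) * u = u * (s : G) := by
          intro s hs u hu
          obtain ⟨i, hi⟩ := hSpow s hs
          rw [hQ₀] at hu
          obtain ⟨m, hm⟩ := Subgroup.mem_zpowers_iff.mp hu
          rw [← hm, hi, hq₀]
          have h3 : Commute ((s₀ : ↥H) ^ i) (((s₀ : ↥H) ^ p ^ (k - 1)) ^ m) :=
            (((Commute.refl (s₀ : ↥H)).zpow_left i).pow_right _).zpow_right m
          have h4 := congrArg (fun w : ↥H => (w : G)) h3.eq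
          simpa using h4
        have hcnorm : ∀ u ∈ Q₀, (c : G) * u * (c : G)⁻¹ ∈ Q₀ := by
          have h3 : c * (s₀ : ↥H) * c⁻¹ ∈ (S : Subgroup ↥H) := hSn.conj_mem _ s₀.2 c
          obtain ⟨j, hj⟩ := hSpow _ h3
          have h5 : c * q₀ * c⁻¹ = q₀ ^ j := by
            rw [hq₀, ← conj_pow, hj, ← zpow_natCast, ← zpow_natCast, ← zpow_mul, ← zpow_mul,
              mul_comm]
          intro u hu
          rw [hQ₀] at hu ⊢
          obtain ⟨m, hm⟩ := Subgroup.mem_zpowers_iff.mp hu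
          rw [← hm]
          have h6 : (c : G) * (q₀ : G) ^ m * (c : G)⁻¹ = ((q₀ : G) ^ j) ^ m := by
            rw [← conj_zpow]
            congr 1
            have h7 := congrArg (fun w : ↥H => (w : G)) h5
            simpa using h7
          rw [h6, ← zpow_mul]
          exact Subgroup.zpow_mem_zpowers _ _
        by_cases hcQ : ∀ u ∈ Q₀, (c : G) * u = u * (c : G)
        · left
          intro s hs
          exact Subtype.ext (hA (c : G) (s : G) hcQ (hScent s hs))
        · right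
          obtain ⟨h3, h4, h5⟩ := hB (c : G) hcnorm hcQ
          refine ⟨Subtype.ext h3, fun h6 => h4 (congrArg Subtype.val h6), ?_⟩
          intro s hs
          exact Subtype.ext (h5 (s : G) (hScent s hs))
  rcases hkey with hcent | ⟨hcc, hc1, hcinv⟩
  · left; exact pc_cyclic_of_central S hSc c hccop hcidx hcent
  · rcases Nat.eq_zero_or_pos k with hk0 | hkpos
    · left
      exact pc_cyclic_of_central S hSc c hccop hcidx (htriv hk0)
    · right
      refine ⟨k, ?_⟩
      have hci : c⁻¹ = c := inv_eq_of_mul_eq_one_left hcc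
      obtain ⟨y, hy⟩ : ∃ y : ↥H, y = c * (s₀ : ↥H) := ⟨_, rfl⟩
      have hyy : y * y = 1 := by
        have h3 := hcinv _ s₀.2
        rw [hci] at h3
        rw [hy]
        calc c * (s₀ : ↥H) * (c * (s₀ : ↥H)) = (c * (s₀ : ↥H) * c) * (s₀ : ↥H) := by group
          _ = 1 := by rw [h3, inv_mul_cancel]
      have hs₀1 : (s₀ : ↥H) ≠ 1 := by
        intro h
        rw [h, orderOf_one] at hs₀ord
        have h3 : 1 < p ^ k := Nat.one_lt_pow hkpos.ne' (Fact.out : p.Prime).one_lt
        omega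
      have hy1 : y ≠ 1 := by
        intro h
        have h3 : c = (s₀ : ↥H)⁻¹ := eq_inv_of_mul_eq_one_left (hy ▸ h)
        have h4 : c ∈ (S : Subgroup ↥H) := by
          rw [h3]; exact (S : Subgroup ↥H).inv_mem s₀.2
        have h5 : orderOf c ∣ p ^ k := by
          rw [← hk]; exact Subgroup.orderOf_dvd_natCard _ h4
        have h6 : orderOf c = 2 := orderOf_eq_prime (by rw [pow_two]; exact hcc) hc1
        rw [h6] at h5
        have h7 := Nat.Prime.dvd_of_dvd_pow Nat.prime_two h5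
        exact hp ((Nat.prime_dvd_prime_iff_eq Nat.prime_two Fact.out).mp h7).symm
      have hcy : c ≠ y := by
        intro h
        apply hs₀1
        have h3 : c * 1 = c * (s₀ : ↥H) := by rw [mul_one, ← hy]; exact h
        exact (mul_left_cancel h3).symm
      have hcys : c * y = (s₀ : ↥H) := by rw [hy, ← mul_assoc, hcc, one_mul]
      obtain ⟨e⟩ := Cfsg.Agent.Helper4.closure_pair_mulEquiv_dihedral c y hcc hyy hc1 hy1 hcy
      rw [hcys, hs₀ord] at e
      have hclo : Subgroup.closure ({c, y} : Set ↥H) = ⊤ := by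
        rw [Subgroup.eq_top_iff']
        intro h
        have hcc' : c ∈ Subgroup.closure ({c, y} : Set ↥H) :=
          Subgroup.subset_closure (by simp)
        have hyc : y ∈ Subgroup.closure ({c, y} : Set ↥H) :=
          Subgroup.subset_closure (by simp)
        have hs₀c : (s₀ : ↥H) ∈ Subgroup.closure ({c, y} : Set ↥H) := by
          rw [← hcys]; exact Subgroup.mul_mem _ hcc' hyc
        obtain ⟨s, hs, i, rfl⟩ := hgen h
        obtain ⟨j, hj⟩ := hSpow s hs
        rw [hj]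
        exact Subgroup.mul_mem _ (Subgroup.zpow_mem _ hs₀c j) (Subgroup.pow_mem _ hcc' i)
      exact ⟨(Subgroup.topEquiv.symm.trans (MulEquiv.subgroupCongr hclo.symm)).trans e⟩

end Cfsg.Agent.Helper19
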