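import Mathlib

set_option autoImplicit false

namespace Cfsg.Agent.Helper19

/-- Two permutations agreeing off a single point are equal. -/
theorem perm_eq_of_agree_off_one {α : Type*} (σ g : Equiv.Perm α) (d : α)
    (h : ∀ x, x ≠ d → σ x = g x) : σ = g := by
  ext x
  by_cases hx : x = d
  · subst hx
    by_contra hne
    have hy : g.symm (σ x) ≠ x := fun h' => hne (by
      have := congrArg g h'
      rw [Equiv.apply_symm_apply] at this
      exact this)
    have h1 := h _ hy
    rw [Equiv.apply_symm_apply] at h1
    exact hy (σ.injective h1)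
  · exact h x hx

theorem f2_plane_cases : ∀ x : Fin 2 → ZMod 2,
    x = 0 ∨ x = Pi.single 0 1 ∨ x = Pi.single 1 1 ∨ x = fun _ => 1 := by decide

end Cfsg.Agent.Helper19
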