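import Mathlib
import Cfsg.Agent.Helper19.PiClasses

/-!
Counting conjugacy classes of `π`-elements: `k_π(G) ≤ k_π(N) k_π(G/N)`.
Part 2: the coset bound and the main inequality.
-/

set_option autoImplicit false

namespace Cfsg.Agent.Helper19

theorem kp_isPi_quot (π : Set ℕ) {G : Type*} [Group G] (N : Subgroup G) [N.Normal] {g : G}
    (hg : kp_isPi π g) : kp_isPi π (g : G ⧸ N) := by
  intro q hq hqd
  exact hg q hq (hqd.trans (orderOf_map_dvd (QuotientGroup.mk' N) g))

set_option maxHeartbeats 800000 in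
/-- The `π`-elements of a coset of `N`, weighted by their centralizers in `N`. -/
theorem kp_coset_bound (π : Set ℕ) {G : Type*} [Group G] [Fintype G]
    (N : Subgroup G) [N.Normal] (c : G ⧸ N) :
    ∑ g : G, (@ite _ (kp_isPi π g ∧ (g : G ⧸ N) = c) (Classical.propDecidable _)
        (Nat.card ↥(N ⊓ Subgroup.centralizer ({g} : Set G))) 0) ≤
      ∑ m : G, (@ite _ (m ∈ N ∧ kp_isPi π m) (Classical.propDecidable _)
        (Nat.card ↥(N ⊓ Subgroup.centralizer ({m} : Set G))) 0) := by
  classical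
  choose u v huv hu hv hupi hvpi using fun n : G => kp_exists_decomp π n (orderOf_pos n)
  have hA : ∑ g : G, (if kp_isPi π g ∧ (g : G ⧸ N) = c then
        Nat.card ↥(N ⊓ Subgroup.centralizer ({g} : Set G)) else 0) =
      (Finset.univ.filter (fun t : G × G => (kp_isPi π t.1 ∧ (t.1 : G ⧸ N) = c) ∧
        (t.2 ∈ N ∧ t.2 * t.1 = t.1 * t.2))).card := by
    rw [kp_card_pairs (fun g : G => kp_isPi π g ∧ (g : G ⧸ N) = c)
      (fun g n => n ∈ N ∧ n * g = g * n)]
    refine Finset.sum_congr rfl fun g _ => ?_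
    rw [kp_card_inf_centralizer]
  have hB' : ∑ m : G, (if m ∈ N ∧ kp_isPi π m then
        Nat.card ↥(N ⊓ Subgroup.centralizer ({m} : Set G)) else 0) =
      (Finset.univ.filter (fun t : G × G => (t.1 ∈ N ∧ kp_isPi π t.1) ∧
        (t.2 ∈ N ∧ t.2 * t.1 = t.1 * t.2))).card := by
    rw [kp_card_pairs (fun m : G => m ∈ N ∧ kp_isPi π m) (fun m n => n ∈ N ∧ n * m = m * n)]
    refine Finset.sum_congr rfl fun g _ => ?_
    rw [kp_card_inf_centralizer]
  have hAB : (Finset.univ.filter (fun t : G × G => (kp_isPi π t.1 ∧ (t.1 : G ⧸ N) = c) ∧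
        (t.2 ∈ N ∧ t.2 * t.1 = t.1 * t.2))).card ≤
      (Finset.univ.filter (fun t : G × G => (t.1 ∈ N ∧ kp_isPi π t.1) ∧
        ((t.2 : G ⧸ N) = c ∧ t.2 * t.1 = t.1 * t.2))).card := by
    apply Finset.card_le_card_of_injOn (fun t : G × G => (u t.2, t.1 * v t.2))
    · rintro ⟨g, n⟩ ht
      simp only [Finset.coe_filter, Finset.mem_univ, true_and, Set.mem_ofPred_eq] at ht ⊢
      obtain ⟨⟨hpi, hc⟩, hnN, hcomm⟩ := ht
      have hzN : Subgroup.zpowers n ≤ N := Subgroup.zpowers_le.mpr hnN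
      obtain ⟨i, hi⟩ := Subgroup.mem_zpowers_iff.mp (hu n)
      obtain ⟨j, hj⟩ := Subgroup.mem_zpowers_iff.mp (hv n)
      have hgn : Commute g n := hcomm.symm
      have hgu : Commute g (u n) := by
        rw [← hi]
        exact hgn.zpow_right i
      have hvu : Commute (v n) (u n) := by
        rw [← hi, ← hj]
        exact (Commute.refl n).zpow_zpow j i
      refine ⟨⟨hzN (hu n), hupi n⟩, ?_, ?_⟩
      · have h1 : ((v n : G) : G ⧸ N) = 1 := (QuotientGroup.eq_one_iff _).mpr (hzN (hv n))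
        rw [QuotientGroup.mk_mul, h1, mul_one, hc]
      · exact (hgu.mul_left hvu).eq
    · rintro ⟨g₁, n₁⟩ ht₁ ⟨g₂, n₂⟩ ht₂ heq
      simp only [Finset.coe_filter, Finset.mem_univ, true_and, Set.mem_ofPred_eq] at ht₁ ht₂
      obtain ⟨⟨hpi₁, -⟩, -, hcomm₁⟩ := ht₁
      obtain ⟨⟨hpi₂, -⟩, -, hcomm₂⟩ := ht₂
      simp only [Prod.mk.injEq] at heq
      obtain ⟨hu12, hgv⟩ := heq
      obtain ⟨j₁, hj₁⟩ := Subgroup.mem_zpowers_iff.mp (hv n₁)
      obtain ⟨j₂, hj₂⟩ := Subgroup.mem_zpowers_iff.mp (hv n₂)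
      have hc₁ : Commute g₁ (v n₁) := by
        rw [← hj₁]
        exact (Commute.symm hcomm₁).zpow_right j₁
      have hc₂ : Commute g₂ (v n₂) := by
        rw [← hj₂]
        exact (Commute.symm hcomm₂).zpow_right j₂
      have hg : g₁ = g₂ := kp_unique π hgv hc₁ hc₂ hpi₁ hpi₂ (hvpi n₁) (hvpi n₂)
      have hv12 : v n₁ = v n₂ := by
        rw [hg] at hgv
        exact mul_left_cancel hgv
      have hn : n₁ = n₂ := by
        rw [← huv n₁, ← huv n₂, hu12, hv12]
      rw [hg, hn]
  have hBB' : (Finset.univ.filter (fun t : G × G => (t.1 ∈ N ∧ kp_isPi π t.1) ∧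
        ((t.2 : G ⧸ N) = c ∧ t.2 * t.1 = t.1 * t.2))).card ≤
      (Finset.univ.filter (fun t : G × G => (t.1 ∈ N ∧ kp_isPi π t.1) ∧
        (t.2 ∈ N ∧ t.2 * t.1 = t.1 * t.2))).card := by
    rw [kp_card_pairs (fun m : G => m ∈ N ∧ kp_isPi π m)
      (fun (m : G) (y : G) => (y : G ⧸ N) = c ∧ y * m = m * y),
      kp_card_pairs (fun m : G => m ∈ N ∧ kp_isPi π m) (fun (m : G) (n : G) => n ∈ N ∧ n * m = m * n)]
    apply Finset.sum_le_sum
    intro m _
    by_cases hm : m ∈ N ∧ kp_isPi π m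
    · rw [if_pos hm, if_pos hm]
      by_cases hne : (Finset.univ.filter (fun y : G => (y : G ⧸ N) = c ∧ y * m = m * y)).Nonempty
      · obtain ⟨y₀, hy₀⟩ := hne
        rw [Finset.mem_filter] at hy₀
        apply Finset.card_le_card_of_injOn (fun y => y₀⁻¹ * y)
        · intro y hy
          simp only [Finset.coe_filter, Finset.mem_univ, true_and, Set.mem_ofPred_eq] at hy ⊢
          constructor
          · rw [← QuotientGroup.eq, hy₀.2.1, hy.1]
          · have h1 : Commute y₀ m := hy₀.2.2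
            have h2 : Commute y m := hy.2
            exact (h1.inv_left.mul_left h2).eq
        · intro y₁ _ y₂ _ h
          exact mul_left_cancel h
      · rw [Finset.not_nonempty_iff_eq_empty] at hne
        rw [hne, Finset.card_empty]
        exact Nat.zero_le _
    · rw [if_neg hm, if_neg hm]
  have hfin := hAB.trans hBB'
  rw [← hA, ← hB'] at hfin
  refine le_trans (le_of_eq ?_) (hfin.trans (le_of_eq ?_))
  · refine Finset.sum_congr rfl fun g _ => ?_
    congr
  · refine Finset.sum_congr rfl fun g _ => ?_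
    congr

set_option maxHeartbeats 800000 in
theorem kp_main (π : Set ℕ) {G : Type*} [Group G] [Finite G] (N : Subgroup G) [N.Normal] :
    Nat.card {C : ConjClasses G // ∀ q : ℕ, q.Prime →
        (∃ g : G, ConjClasses.mk g = C ∧ q ∣ orderOf g) → q ∈ π} ≤
      Nat.card {C : ConjClasses N // ∀ q : ℕ, q.Prime →
        (∃ g : N, ConjClasses.mk g = C ∧ q ∣ orderOf g) → q ∈ π} *
      Nat.card {C : ConjClasses (G ⧸ N) // ∀ q : ℕ, q.Prime →
        (∃ g : (G ⧸ N), ConjClasses.mk g = C ∧ q ∣ orderOf g) → q ∈ π} := by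
  classical
  cases nonempty_fintype G
  have hG := kp_count π (Γ := G)
  have hN := kp_count π (Γ := ↥N)
  have hQ := kp_count π (Γ := G ⧸ N)
  have hXN : ∑ m : ↥N, (if kp_isPi π m then
        Nat.card (Subgroup.centralizer ({m} : Set ↥N)) else 0) =
      ∑ m : G, (if m ∈ N ∧ kp_isPi π m then
        Nat.card ↥(N ⊓ Subgroup.centralizer ({m} : Set G)) else 0) := by
    have e1 : ∑ m : G, (if m ∈ N ∧ kp_isPi π m then
          Nat.card ↥(N ⊓ Subgroup.centralizer ({m} : Set G)) else 0) =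
        ∑ m ∈ Finset.univ.filter (fun m : G => m ∈ N), (if kp_isPi π m then
          Nat.card ↥(N ⊓ Subgroup.centralizer ({m} : Set G)) else 0) := by
      rw [Finset.sum_filter]
      refine Finset.sum_congr rfl fun m _ => ?_
      by_cases h1 : m ∈ N <;> simp [h1]
    rw [e1, Finset.sum_subtype (Finset.univ.filter (fun m : G => m ∈ N))
      (p := fun m => m ∈ N) (by simp)]
    refine Finset.sum_congr rfl fun m _ => ?_
    have hiff : kp_isPi π m ↔ kp_isPi π (m : G) := by
      unfold kp_isPi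
      rw [Subgroup.orderOf_coe]
    rw [kp_card_centralizer_subgroup]
    by_cases h : kp_isPi π (m : G)
    · rw [if_pos h, if_pos (hiff.mpr h)]
    · rw [if_neg h, if_neg (fun h' => h (hiff.mp h'))]
  have h1 : ∑ g : G, (if kp_isPi π g then
        Nat.card (Subgroup.centralizer ({g} : Set G)) else 0) ≤
      ∑ g : G, (if kp_isPi π g then Nat.card ↥(N ⊓ Subgroup.centralizer ({g} : Set G)) *
        Nat.card (Subgroup.centralizer ({(g : G ⧸ N)} : Set (G ⧸ N))) else 0) := by
    apply Finset.sum_le_sum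
    intro g _
    by_cases hp : kp_isPi π g
    · rw [if_pos hp, if_pos hp]
      exact kp_centralizer_le N g
    · rw [if_neg hp, if_neg hp]
  have h2 : ∑ g : G, (if kp_isPi π g then Nat.card ↥(N ⊓ Subgroup.centralizer ({g} : Set G)) *
        Nat.card (Subgroup.centralizer ({(g : G ⧸ N)} : Set (G ⧸ N))) else 0) =
      ∑ c : G ⧸ N, Nat.card (Subgroup.centralizer ({c} : Set (G ⧸ N))) *
        ∑ g : G, (if kp_isPi π g ∧ (g : G ⧸ N) = c then
          Nat.card ↥(N ⊓ Subgroup.centralizer ({g} : Set G)) else 0) := by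
    rw [← Finset.sum_fiberwise Finset.univ (fun g : G => (g : G ⧸ N))]
    refine Finset.sum_congr rfl fun c _ => ?_
    rw [Finset.sum_filter, Finset.mul_sum]
    refine Finset.sum_congr rfl fun g _ => ?_
    by_cases hc : (g : G ⧸ N) = c
    · by_cases hp : kp_isPi π g
      · rw [if_pos hc, if_pos hp, if_pos ⟨hp, hc⟩, hc, mul_comm]
      · rw [if_pos hc, if_neg hp, if_neg (fun h => hp h.1), mul_zero]
    · rw [if_neg hc, if_neg (fun h => hc h.2), mul_zero]
  have h3 : ∀ c : G ⧸ N, Nat.card (Subgroup.centralizer ({c} : Set (G ⧸ N))) *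
        ∑ g : G, (if kp_isPi π g ∧ (g : G ⧸ N) = c then
          Nat.card ↥(N ⊓ Subgroup.centralizer ({g} : Set G)) else 0) ≤
      (if kp_isPi π c then Nat.card (Subgroup.centralizer ({c} : Set (G ⧸ N))) else 0) *
        ∑ m : G, (if m ∈ N ∧ kp_isPi π m then
          Nat.card ↥(N ⊓ Subgroup.centralizer ({m} : Set G)) else 0) := by
    intro c
    by_cases hc : kp_isPi π c
    · rw [if_pos hc]
      refine Nat.mul_le_mul_left _ (le_trans (le_of_eq ?_)
        ((kp_coset_bound π N c).trans (le_of_eq ?_)))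
      · refine Finset.sum_congr rfl fun g _ => ?_
        congr
      · refine Finset.sum_congr rfl fun g _ => ?_
        congr
    · rw [if_neg hc, zero_mul]
      have h0 : ∑ g : G, (if kp_isPi π g ∧ (g : G ⧸ N) = c then
          Nat.card ↥(N ⊓ Subgroup.centralizer ({g} : Set G)) else 0) = 0 := by
        apply Finset.sum_eq_zero
        intro g _
        rw [if_neg]
        rintro ⟨hp, rfl⟩
        exact hc (kp_isPi_quot π N hp)
      rw [h0, mul_zero]
  have hGpos : 0 < Nat.card G := Nat.card_pos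
  refine Nat.le_of_mul_le_mul_left ?_ hGpos
  rw [← hG]
  refine h1.trans ?_
  rw [h2]
  refine (Finset.sum_le_sum fun c _ => h3 c).trans ?_
  rw [← Finset.sum_mul, hQ, ← hXN, hN, Subgroup.card_eq_card_quotient_mul_card_subgroup N]
  apply le_of_eq
  ring

end Cfsg.Agent.Helper19
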