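import Mathlib
import Cfsg.Agent.Helper19.AffineSmall

set_option autoImplicit false

namespace Cfsg.Agent.Helper19

open Matrix Polynomial

universe u v

theorem prime_dvd_card_iff {G : Type u} [Group G] [Finite G] {p : ℕ} (hp : p.Prime) :
    p ∣ Nat.card G ↔ ∃ g : G, orderOf g = p := by
  constructor
  · intro h
    have : Fact p.Prime := ⟨hp⟩
    exact exists_prime_orderOf_dvd_card' p h
  · rintro ⟨g, rfl⟩
    exact orderOf_dvd_natCard g

theorem prime_eq_of_dvd_pow {p r k : ℕ} (hp : p.Prime) (hr : r.Prime) (h : p ∣ r ^ k) : p = r :=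
  (Nat.prime_dvd_prime_iff_eq hp hr).1 (hp.dvd_of_dvd_pow h)

theorem exists_orderOf_eq_of_range_eq {X : Type u} {Y : Type v} [Group X] [Group Y]
    (hs : Set.range (orderOf : X → ℕ) = Set.range (orderOf : Y → ℕ)) (x : X) :
    ∃ y : Y, orderOf y = orderOf x := by
  have : orderOf x ∈ Set.range (orderOf : Y → ℕ) := hs ▸ Set.mem_range_self x
  exact this

theorem pow_eq_one_of_orderOf_eq {X : Type u} {Y : Type v} [Group X] [Group Y] {x : X} {y : Y}
    (h : orderOf x = orderOf y) {n : ℕ} (hy : y ^ n = 1) : x ^ n = 1 := by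
  rw [← orderOf_dvd_iff_pow_eq_one, h]
  exact orderOf_dvd_of_pow_eq_one hy

/-- Transfer of the prime graph: `X` has the elements orders of `Y` plus possibly `4`. -/
theorem primeGraph_transfer {X : Type u} {Y : Type v} [Group X] [Group Y] [Finite X] [Finite Y]
    (h1 : ∀ x : X, x ^ 4 = 1 ∨ ∃ y : Y, orderOf y = orderOf x)
    (h2 : ∀ y : Y, ∃ x : X, orderOf x = orderOf y)
    (h3 : ∃ y : Y, orderOf y = 2) :
    (∀ p : ℕ, p.Prime → (p ∣ Nat.card Y ↔ p ∣ Nat.card X)) ∧
    (∀ p q : ℕ, p.Prime → q.Prime → p ≠ q →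
      ((∃ g : Y, orderOf g = p * q) ↔ (∃ g : X, orderOf g = p * q))) := by
  constructor
  · intro p hp
    rw [prime_dvd_card_iff hp, prime_dvd_card_iff hp]
    constructor
    · rintro ⟨y, hy⟩
      obtain ⟨x, hx⟩ := h2 y
      exact ⟨x, hx.trans hy⟩
    · rintro ⟨x, hx⟩
      rcases h1 x with h | ⟨y, hy⟩
      · have hd : p ∣ 2 ^ 2 := by rw [← hx]; exact orderOf_dvd_of_pow_eq_one h
        have := prime_eq_of_dvd_pow hp Nat.prime_two hd
        subst this
        exact h3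
      · exact ⟨y, hy.trans hx⟩
  · intro p q hp hq hpq
    constructor
    · rintro ⟨y, hy⟩
      obtain ⟨x, hx⟩ := h2 y
      exact ⟨x, hx.trans hy⟩
    · rintro ⟨x, hx⟩
      rcases h1 x with h | ⟨y, hy⟩
      · have hd : p * q ∣ 2 ^ 2 := by rw [← hx]; exact orderOf_dvd_of_pow_eq_one h
        have e1 := prime_eq_of_dvd_pow hp Nat.prime_two (dvd_trans (dvd_mul_right p q) hd)
        have e2 := prime_eq_of_dvd_pow hq Nat.prime_two (dvd_trans (dvd_mul_left q p) hd)
        exact absurd (e1.trans e2.symm) hpq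
      · exact ⟨y, hy.trans hx⟩

/-- The prime graph on `{2, 3, 7}` without edges. -/
theorem primeGraph_237 {X : Type u} [Group X] [Finite X]
    (h : ∀ x : X, x ^ 4 = 1 ∨ x ^ 7 = 1 ∨ x ^ 9 = 1)
    (h2 : ∃ x : X, orderOf x = 2) (h3 : ∃ x : X, orderOf x = 3) (h7 : ∃ x : X, orderOf x = 7) :
    (∀ p : ℕ, p.Prime → (p ∣ Nat.card X ↔ p = 2 ∨ p = 3 ∨ p = 7)) ∧
    (∀ p q : ℕ, p.Prime → q.Prime → p ≠ q → ¬ ∃ g : X, orderOf g = p * q) := by
  have key : ∀ x : X, ∃ r : ℕ, r.Prime ∧ (r = 2 ∨ r = 3 ∨ r = 7) ∧ ∃ k : ℕ, orderOf x ∣ r ^ k := by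
    intro x
    rcases h x with hx | hx | hx
    · exact ⟨2, Nat.prime_two, Or.inl rfl, 2, orderOf_dvd_of_pow_eq_one hx⟩
    · exact ⟨7, by norm_num, Or.inr (Or.inr rfl), 1, orderOf_dvd_of_pow_eq_one hx⟩
    · exact ⟨3, Nat.prime_three, Or.inr (Or.inl rfl), 2, orderOf_dvd_of_pow_eq_one hx⟩
  constructor
  · intro p hp
    rw [prime_dvd_card_iff hp]
    constructor
    · rintro ⟨x, hx⟩
      obtain ⟨r, hr, hr', k, hk⟩ := key x
      rw [hx] at hk
      rw [prime_eq_of_dvd_pow hp hr hk]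
      exact hr'
    · rintro (rfl | rfl | rfl)
      · exact h2
      · exact h3
      · exact h7
  · intro p q hp hq hpq
    rintro ⟨x, hx⟩
    obtain ⟨r, hr, -, k, hk⟩ := key x
    rw [hx] at hk
    have e1 := prime_eq_of_dvd_pow hp hr (dvd_trans (dvd_mul_right p q) hk)
    have e2 := prime_eq_of_dvd_pow hq hr (dvd_trans (dvd_mul_left q p) hk)
    exact hpq (e1.trans e2.symm)

variable {F : Type u} [Field F]

/-- Trace of an element of `SL(2,F)`. -/
def sl2Tr (g : Matrix.SpecialLinearGroup (Fin 2) F) : F :=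
  (g : Matrix (Fin 2) (Fin 2) F) 0 0 + (g : Matrix (Fin 2) (Fin 2) F) 1 1

theorem sl2_key (g : Matrix.SpecialLinearGroup (Fin 2) F) :
    (g : Matrix (Fin 2) (Fin 2) F) * (g : Matrix (Fin 2) (Fin 2) F) -
      sl2Tr g • (g : Matrix (Fin 2) (Fin 2) F) + 1 = 0 := by
  have hdet := g.2
  rw [Matrix.det_fin_two] at hdet
  have key : (g : Matrix (Fin 2) (Fin 2) F) * (g : Matrix (Fin 2) (Fin 2) F) -
      sl2Tr g • (g : Matrix (Fin 2) (Fin 2) F) + 1 =
      (1 - ((g : Matrix (Fin 2) (Fin 2) F) 0 0 * (g : Matrix (Fin 2) (Fin 2) F) 1 1 -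
        (g : Matrix (Fin 2) (Fin 2) F) 0 1 * (g : Matrix (Fin 2) (Fin 2) F) 1 0)) •
        (1 : Matrix (Fin 2) (Fin 2) F) := by
    ext i j
    fin_cases i <;> fin_cases j <;>
      simp [sl2Tr, Matrix.mul_apply, Fin.sum_univ_two] <;> ring
  rw [key]
  have hdet' : (g : Matrix (Fin 2) (Fin 2) F) 0 0 * (g : Matrix (Fin 2) (Fin 2) F) 1 1 -
        (g : Matrix (Fin 2) (Fin 2) F) 0 1 * (g : Matrix (Fin 2) (Fin 2) F) 1 0 = 1 := hdet
  rw [hdet', sub_self, zero_smul]

theorem sl2_aeval (g : Matrix.SpecialLinearGroup (Fin 2) F) :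
    Polynomial.aeval (g : Matrix (Fin 2) (Fin 2) F) (X ^ 2 - C (sl2Tr g) * X + 1) = 0 := by
  have h := sl2_key g
  simp only [map_mul, map_sub, map_add, map_pow, Polynomial.aeval_X, Polynomial.aeval_C,
    map_one]
  rw [pow_two, ← Algebra.smul_def]
  exact h

theorem sl2_pow_mem_center (g : Matrix.SpecialLinearGroup (Fin 2) F) (n : ℕ) (r : F)
    (hr : r ^ 2 = 1) (q : F[X])
    (h : X ^ n - C r = (X ^ 2 - C (sl2Tr g) * X + 1) * q) :
    g ^ n ∈ Subgroup.center (Matrix.SpecialLinearGroup (Fin 2) F) := by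
  rw [Matrix.SpecialLinearGroup.mem_center_iff]
  refine ⟨r, by simpa using hr, ?_⟩
  have h1 := congrArg (Polynomial.aeval (g : Matrix (Fin 2) (Fin 2) F)) h
  rw [map_mul, sl2_aeval, zero_mul] at h1
  simp only [map_sub, map_pow, Polynomial.aeval_X, Polynomial.aeval_C] at h1
  rw [Matrix.SpecialLinearGroup.coe_pow]
  exact (sub_eq_zero.1 h1).symm

theorem psl_pow_eq_one (g : Matrix.SpecialLinearGroup (Fin 2) F) (n : ℕ) (r : F)
    (hr : r ^ 2 = 1) (q : F[X])
    (h : X ^ n - C r = (X ^ 2 - C (sl2Tr g) * X + 1) * q) :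
    (QuotientGroup.mk g : Matrix.ProjectiveSpecialLinearGroup (Fin 2) F) ^ n = 1 := by
  rw [← QuotientGroup.mk_pow, QuotientGroup.eq_one_iff]
  exact sl2_pow_mem_center g n r hr q h

theorem psl_pow_two_of_tr (g : Matrix.SpecialLinearGroup (Fin 2) F) (ht : sl2Tr g = 0) :
    (QuotientGroup.mk g : Matrix.ProjectiveSpecialLinearGroup (Fin 2) F) ^ 2 = 1 := by
  apply psl_pow_eq_one g 2 (-1) (by ring) 1
  rw [ht]
  simp only [map_zero, map_neg, map_one]
  ring

theorem psl_pow_three_of_tr (g : Matrix.SpecialLinearGroup (Fin 2) F)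
    (ht : sl2Tr g = 1 ∨ sl2Tr g = -1) :
    (QuotientGroup.mk g : Matrix.ProjectiveSpecialLinearGroup (Fin 2) F) ^ 3 = 1 := by
  rcases ht with ht | ht
  · apply psl_pow_eq_one g 3 (-1) (by ring) (X + 1)
    rw [ht]
    simp only [map_neg, map_one]
    ring
  · apply psl_pow_eq_one g 3 1 (by ring) (X - 1)
    rw [ht]
    simp only [map_neg, map_one]
    ring

theorem psl_pow_seven_of_tr (h7 : (7 : F) = 0) (g : Matrix.SpecialLinearGroup (Fin 2) F)
    (ht : sl2Tr g = 2 ∨ sl2Tr g = -2) :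
    (QuotientGroup.mk g : Matrix.ProjectiveSpecialLinearGroup (Fin 2) F) ^ 7 = 1 := by
  have h7' : (7 : F[X]) = 0 := by
    have e : (C : F →+* F[X]) 7 = 7 := map_ofNat C 7
    rw [← e, h7, map_zero]
  have e2 : (C : F →+* F[X]) 2 = 2 := map_ofNat C 2
  rcases ht with ht | ht
  · apply psl_pow_eq_one g 7 1 (by ring) ((X - 1) ^ 5)
    simp only [ht, e2, map_one]
    linear_combination (X ^ 6 - 3 * X ^ 5 + 5 * X ^ 4 - 5 * X ^ 3 + 3 * X ^ 2 - X) * h7'
  · apply psl_pow_eq_one g 7 (-1) (by ring) ((X + 1) ^ 5)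
    simp only [ht, map_neg, e2, map_one]
    linear_combination (-(X ^ 6 + 3 * X ^ 5 + 5 * X ^ 4 + 5 * X ^ 3 + 3 * X ^ 2 + X)) * h7'

theorem psl_pow_four_of_tr (h7 : (7 : F) = 0) (g : Matrix.SpecialLinearGroup (Fin 2) F)
    (ht : sl2Tr g = 3 ∨ sl2Tr g = -3) :
    (QuotientGroup.mk g : Matrix.ProjectiveSpecialLinearGroup (Fin 2) F) ^ 4 = 1 := by
  have h7' : (7 : F[X]) = 0 := by
    have e : (C : F →+* F[X]) 7 = 7 := map_ofNat C 7
    rw [← e, h7, map_zero]
  have e3 : (C : F →+* F[X]) 3 = 3 := map_ofNat C 3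
  rcases ht with ht | ht
  · apply psl_pow_eq_one g 4 (-1) (by ring) (X ^ 2 + 3 * X + 1)
    simp only [ht, map_neg, e3, map_one]
    linear_combination (X ^ 2) * h7'
  · apply psl_pow_eq_one g 4 (-1) (by ring) (X ^ 2 - 3 * X + 1)
    simp only [ht, map_neg, e3, map_one]
    linear_combination (X ^ 2) * h7'

/-- The element `[[0,-1],[1,a]]` of `SL(2,F)`. -/
def sl2C (a : F) : Matrix.SpecialLinearGroup (Fin 2) F :=
  ⟨!![0, -1; 1, a], by rw [Matrix.det_fin_two_of]; ring⟩

theorem sl2C_coe (a : F) : ((sl2C a : Matrix.SpecialLinearGroup (Fin 2) F) :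
    Matrix (Fin 2) (Fin 2) F) = !![0, -1; 1, a] := rfl

theorem sl2Tr_sl2C (a : F) : sl2Tr (sl2C a) = a := by
  unfold sl2Tr
  rw [sl2C_coe]
  simp

theorem sl2C_not_mem_center (a : F) :
    sl2C a ∉ Subgroup.center (Matrix.SpecialLinearGroup (Fin 2) F) := by
  rw [Matrix.SpecialLinearGroup.mem_center_iff]
  rintro ⟨r, -, hr⟩
  have := congrFun (congrFun hr 1) 0
  rw [sl2C_coe] at this
  simp at this

theorem psl_sl2C_ne_one (a : F) :
    (QuotientGroup.mk (sl2C a) : Matrix.ProjectiveSpecialLinearGroup (Fin 2) F) ≠ 1 := by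
  rw [Ne, QuotientGroup.eq_one_iff]
  exact sl2C_not_mem_center a

theorem psl_exists_orderOf_two :
    ∃ y : Matrix.ProjectiveSpecialLinearGroup (Fin 2) F, orderOf y = 2 :=
  have : Fact (Nat.Prime 2) := ⟨Nat.prime_two⟩
  ⟨_, orderOf_eq_prime (psl_pow_two_of_tr _ (sl2Tr_sl2C 0)) (psl_sl2C_ne_one 0)⟩

theorem psl_exists_orderOf_three :
    ∃ y : Matrix.ProjectiveSpecialLinearGroup (Fin 2) F, orderOf y = 3 :=
  have : Fact (Nat.Prime 3) := ⟨Nat.prime_three⟩
  ⟨_, orderOf_eq_prime (psl_pow_three_of_tr _ (Or.inl (sl2Tr_sl2C 1))) (psl_sl2C_ne_one 1)⟩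

theorem psl_exists_orderOf_seven (h7 : (7 : F) = 0) :
    ∃ y : Matrix.ProjectiveSpecialLinearGroup (Fin 2) F, orderOf y = 7 :=
  have : Fact (Nat.Prime 7) := ⟨by norm_num⟩
  ⟨_, orderOf_eq_prime (psl_pow_seven_of_tr h7 _ (Or.inl (sl2Tr_sl2C 2))) (psl_sl2C_ne_one 2)⟩

theorem seven_eq_zero_of_card [Fintype F] (hF : Fintype.card F = 7) : (7 : F) = 0 := by
  have h := Nat.cast_card_eq_zero F
  rw [hF] at h
  exact_mod_cast h

theorem psl7_cases [Fintype F] (hF : Fintype.card F = 7)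
    (x : Matrix.ProjectiveSpecialLinearGroup (Fin 2) F) :
    x ^ 4 = 1 ∨ x ^ 7 = 1 ∨ x ^ 9 = 1 := by
  have h7 := seven_eq_zero_of_card hF
  obtain ⟨g, rfl⟩ := QuotientGroup.mk_surjective x
  have ht : sl2Tr g ^ 7 = sl2Tr g := by
    have := FiniteField.pow_card (sl2Tr g)
    rwa [hF] at this
  have h : sl2Tr g * (sl2Tr g - 1) * (sl2Tr g + 1) * (sl2Tr g - 2) * (sl2Tr g + 2) *
      (sl2Tr g - 3) * (sl2Tr g + 3) = 0 := by
    linear_combination ht - (2 * sl2Tr g ^ 5 - 7 * sl2Tr g ^ 3 + 5 * sl2Tr g) * h7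
  simp only [mul_eq_zero] at h
  rcases h with (((((h | h) | h) | h) | h) | h) | h
  · left
    rw [show 4 = 2 * 2 from rfl, pow_mul, psl_pow_two_of_tr g h, one_pow]
  · right; right
    rw [show 9 = 3 * 3 from rfl, pow_mul,
      psl_pow_three_of_tr g (Or.inl (by linear_combination h)), one_pow]
  · right; right
    rw [show 9 = 3 * 3 from rfl, pow_mul,
      psl_pow_three_of_tr g (Or.inr (by linear_combination h)), one_pow]
  · right; left
    exact psl_pow_seven_of_tr h7 g (Or.inl (by linear_combination h))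
  · right; left
    exact psl_pow_seven_of_tr h7 g (Or.inr (by linear_combination h))
  · left
    exact psl_pow_four_of_tr h7 g (Or.inl (by linear_combination h))
  · left
    exact psl_pow_four_of_tr h7 g (Or.inr (by linear_combination h))

/-- The prime graph of `PSL(2,7)`. -/
theorem psl7_primeGraph [Fintype F] (hF : Fintype.card F = 7) :
    (∀ p : ℕ, p.Prime → (p ∣ Nat.card (Matrix.ProjectiveSpecialLinearGroup (Fin 2) F) ↔
      p = 2 ∨ p = 3 ∨ p = 7)) ∧
    (∀ p q : ℕ, p.Prime → q.Prime → p ≠ q →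
      ¬ ∃ g : Matrix.ProjectiveSpecialLinearGroup (Fin 2) F, orderOf g = p * q) :=
  primeGraph_237 (psl7_cases hF) psl_exists_orderOf_two psl_exists_orderOf_three
    (psl_exists_orderOf_seven (seven_eq_zero_of_card hF))

/-- Over the field with eight elements every element of the affine group has order dividing
4, 7 or 9. -/
theorem aff8_cases [Fintype F] (hF : Fintype.card F = 8) (M : affGroup F) :
    M ^ 4 = 1 ∨ M ^ 7 = 1 ∨ M ^ 9 = 1 := by
  have h2 := two_eq_zero_of_card_eight hF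
  have ht : affTr M ^ 8 = affTr M := by
    have := FiniteField.pow_card (affTr M)
    rwa [hF] at this
  have h : affTr M * (affTr M + 1) * (affTr M ^ 3 + affTr M + 1) *
      (affTr M ^ 3 + affTr M ^ 2 + 1) = 0 := by
    linear_combination ht + (affTr M ^ 7 + affTr M ^ 6 + 2 * affTr M ^ 5 + 2 * affTr M ^ 4 +
      affTr M ^ 3 + affTr M ^ 2 + affTr M) * h2
  simp only [mul_eq_zero] at h
  rcases h with ((h | h) | h) | h
  · exact Or.inl (aff_pow_four M h)
  · right; right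
    rw [show 9 = 3 * 3 from rfl, pow_mul, aff_pow_three M (by linear_combination h), one_pow]
  · right; right
    exact aff_pow_nine M (by linear_combination h - 2 * affTr M * h2)
  · right; left
    exact aff_pow_seven M (by linear_combination h - (affTr M + 1) * h2)

theorem aff8_exists_orderOf_seven [Fintype F] (hF : Fintype.card F = 8) :
    ∃ M : affGroup F, orderOf M = 7 := by
  have h2 := two_eq_zero_of_card_eight hF
  obtain ⟨w, hw0, hw1⟩ := exists_ne_zero_one (F := F) (by rw [hF]; norm_num)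
  have hw : w ^ 8 = w := by
    have := FiniteField.pow_card w
    rwa [hF] at this
  have h : w * (w + 1) * (w ^ 3 + w + 1) * (w ^ 3 + w ^ 2 + 1) = 0 := by
    linear_combination hw + (w ^ 7 + w ^ 6 + 2 * w ^ 5 + 2 * w ^ 4 + w ^ 3 + w ^ 2 + w) * h2
  have hw1' : w + 1 ≠ 0 := fun h => hw1 (by linear_combination h - h2)
  simp only [mul_eq_zero] at h
  rcases h with ((h | h) | h) | h
  · exact absurd h hw0
  · exact absurd h hw1'
  · exact ⟨affC h2 (w + 1), orderOf_affC_seven h2 (w + 1)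
      (by linear_combination h + (2 * w ^ 2 + 2 * w + 1) * h2)⟩
  · exact ⟨affC h2 w, orderOf_affC_seven h2 w h⟩

/-- Groups isospectral to the affine group over the field with eight elements have the
prime graph `{2, 3, 7}` without edges. -/
theorem aff8_primeGraph [Fintype F] (hF : Fintype.card F = 8) {H : Type v} [Group H] [Finite H]
    (hs : Set.range (orderOf : H → ℕ) = Set.range (orderOf : affGroup F → ℕ)) :
    (∀ p : ℕ, p.Prime → (p ∣ Nat.card H ↔ p = 2 ∨ p = 3 ∨ p = 7)) ∧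
    (∀ p q : ℕ, p.Prime → q.Prime → p ≠ q → ¬ ∃ g : H, orderOf g = p * q) := by
  have h2 := two_eq_zero_of_card_eight hF
  apply primeGraph_237
  · intro x
    obtain ⟨M, hM⟩ := exists_orderOf_eq_of_range_eq hs x
    rcases aff8_cases hF M with h | h | h
    · exact Or.inl (pow_eq_one_of_orderOf_eq hM.symm h)
    · exact Or.inr (Or.inl (pow_eq_one_of_orderOf_eq hM.symm h))
    · exact Or.inr (Or.inr (pow_eq_one_of_orderOf_eq hM.symm h))
  · obtain ⟨x, hx⟩ := exists_orderOf_eq_of_range_eq hs.symm (affT F)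
    exact ⟨x, hx.trans (orderOf_affT h2)⟩
  · obtain ⟨x, hx⟩ := exists_orderOf_eq_of_range_eq hs.symm (affC h2 1)
    exact ⟨x, hx.trans (orderOf_affC_three h2)⟩
  · obtain ⟨M, hM⟩ := aff8_exists_orderOf_seven hF
    obtain ⟨x, hx⟩ := exists_orderOf_eq_of_range_eq hs.symm M
    exact ⟨x, hx.trans hM⟩

theorem sl2_center_eq_bot (h2 : (2 : F) = 0) :
    Subgroup.center (Matrix.SpecialLinearGroup (Fin 2) F) = ⊥ := by
  rw [eq_bot_iff]
  intro A hA
  rw [Matrix.SpecialLinearGroup.mem_center_iff] at hA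
  obtain ⟨r, hr, hA⟩ := hA
  have hr' : r ^ 2 = 1 := by simpa using hr
  have h0 : (r - 1) ^ 2 = 0 := by linear_combination hr' + (1 - r) * h2
  have hr1 : r = 1 := by
    have := (pow_eq_zero_iff (two_ne_zero)).1 h0
    linear_combination this
  rw [Subgroup.mem_bot]
  apply Subtype.ext
  rw [← hA, hr1]
  simp

theorem psl_mk_injective (h2 : (2 : F) = 0) : Function.Injective
    (QuotientGroup.mk' (Subgroup.center (Matrix.SpecialLinearGroup (Fin 2) F))) := by
  rw [← MonoidHom.ker_eq_bot_iff, QuotientGroup.ker_mk', sl2_center_eq_bot h2]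

theorem orderOf_psl_mk (h2 : (2 : F) = 0) (g : Matrix.SpecialLinearGroup (Fin 2) F) :
    orderOf (QuotientGroup.mk g : Matrix.ProjectiveSpecialLinearGroup (Fin 2) F) = orderOf g :=
  orderOf_injective (QuotientGroup.mk' (Subgroup.center (Matrix.SpecialLinearGroup (Fin 2) F)))
    (psl_mk_injective h2) g

/-- In characteristic 2, groups isospectral to the affine group `F² ⋊ SL(2,F)` have the prime
graph of `PSL(2,F)`. -/
theorem aff_char_two_primeGraph [Finite F] (h2 : (2 : F) = 0) {H : Type v} [Group H] [Finite H]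
    (hs : Set.range (orderOf : H → ℕ) = Set.range (orderOf : affGroup F → ℕ)) :
    (∀ p : ℕ, p.Prime → (p ∣ Nat.card (Matrix.ProjectiveSpecialLinearGroup (Fin 2) F) ↔
      p ∣ Nat.card H)) ∧
    (∀ p q : ℕ, p.Prime → q.Prime → p ≠ q →
      ((∃ g : Matrix.ProjectiveSpecialLinearGroup (Fin 2) F, orderOf g = p * q) ↔
        (∃ g : H, orderOf g = p * q))) := by
  apply primeGraph_transfer
  · intro x
    obtain ⟨M, hM⟩ := exists_orderOf_eq_of_range_eq hs x
    by_cases ht : affTr M = 2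
    · left
      exact pow_eq_one_of_orderOf_eq hM.symm (aff_pow_four M (ht.trans h2))
    · right
      exact ⟨QuotientGroup.mk (affProj F M), by
        rw [orderOf_psl_mk h2, ← orderOf_eq_of_affTr M ht, hM]⟩
  · intro y
    obtain ⟨g, rfl⟩ := QuotientGroup.mk_surjective y
    obtain ⟨x, hx⟩ := exists_orderOf_eq_of_range_eq hs.symm (affEmb F g)
    exact ⟨x, by rw [hx, orderOf_affEmb, orderOf_psl_mk h2]⟩
  · exact psl_exists_orderOf_two

end Cfsg.Agent.Helper19
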