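import Mathlib
import Cfsg.Agent.Helper19.FpfPrime

set_option autoImplicit false

namespace Cfsg.Agent.Helper19

open Equiv

variable {α : Type*} [Fintype α] [DecidableEq α]

omit [Fintype α] in
theorem image_eq_iff_inv (σ : Perm α) (s : Finset α) :
    s.image σ = s ↔ ∀ y, y ∈ s ↔ σ y ∈ s := by
  constructor
  · intro h y
    constructor
    · intro hy; rw [← h]; exact Finset.mem_image_of_mem σ hy
    · intro hy
      rw [← h] at hy
      obtain ⟨z, hz, hzy⟩ := Finset.mem_image.mp hy
      rwa [← σ.injective hzy]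
  · intro h
    ext z
    rw [Finset.mem_image]
    constructor
    · rintro ⟨y, hy, rfl⟩; exact (h y).mp hy
    · intro hz
      exact ⟨σ.symm z, (h _).mpr (by rwa [Equiv.apply_symm_apply]), Equiv.apply_symm_apply σ z⟩

omit [DecidableEq α] in
theorem inv_sameCycle {σ : Perm α} {s : Finset α} (h : ∀ y, y ∈ s ↔ σ y ∈ s) {a b : α}
    (hab : σ.SameCycle a b) (ha : a ∈ s) : b ∈ s := by
  have key : ∀ i : ℕ, (σ ^ i) a ∈ s := by
    intro i
    induction i with
    | zero => simpa using ha
    | succ i ih => rw [pow_succ', Perm.mul_apply]; exact (h _).mp ih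
  obtain ⟨i, hi⟩ := hab.exists_nat_pow_eq
  rw [← hi]; exact key i

theorem orbit_facts {σ : Perm α} {r : ℕ} (hr : r.Prime) (hσ : orderOf σ = r) {x : α}
    (hx : σ x ≠ x) :
    (σ.cycleOf x).support.card = r ∧ x ∈ (σ.cycleOf x).support ∧
      (∀ y, y ∈ (σ.cycleOf x).support ↔ σ y ∈ (σ.cycleOf x).support) ∧
      (σ.cycleOf x).support ⊆ σ.support := by
  have hxs : x ∈ σ.support := Perm.mem_support.mpr hx
  refine ⟨?_, ?_, ?_, Perm.support_cycleOf_le σ x⟩
  · rw [← (Perm.isCycle_cycleOf σ hx).orderOf]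
    have hd := Perm.orderOf_cycleOf_dvd_orderOf σ x
    rw [hσ] at hd
    rcases (Nat.dvd_prime hr).mp hd with h1 | h1
    · exfalso
      rw [orderOf_eq_one_iff, Perm.cycleOf_eq_one_iff] at h1
      exact hx h1
    · exact h1
  · rw [Perm.mem_support_cycleOf_iff]; exact ⟨Perm.SameCycle.refl σ x, hxs⟩
  · intro y
    rw [Perm.mem_support_cycleOf_iff, Perm.mem_support_cycleOf_iff, Perm.sameCycle_apply_right]

theorem dvd_card_of_inv {σ : Perm α} {r : ℕ} (hr : r.Prime) (hσ : orderOf σ = r) :
    ∀ (m : ℕ) (T : Finset α), T.card = m → (∀ y, y ∈ T ↔ σ y ∈ T) → T ⊆ σ.support →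
      r ∣ m := by
  intro m
  induction m using Nat.strong_induction_on with
  | _ m ih =>
    intro T hT hinv hsub
    by_cases hTe : T = ∅
    · subst hTe
      rw [Finset.card_empty] at hT
      subst hT; exact dvd_zero r
    · obtain ⟨x, hxT⟩ := Finset.nonempty_iff_ne_empty.mpr hTe
      have hx : σ x ≠ x := Perm.mem_support.mp (hsub hxT)
      obtain ⟨hc, hxO, hOinv, hOsub⟩ := orbit_facts hr hσ hx
      have hOT : (σ.cycleOf x).support ⊆ T := by
        intro y hy
        rw [Perm.mem_support_cycleOf_iff] at hy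
        exact inv_sameCycle hinv hy.1 hxT
      have hcard : (T \ (σ.cycleOf x).support).card = m - r := by
        rw [Finset.card_sdiff_of_subset hOT, hT, hc]
      have hrm : r ≤ m := by rw [← hT, ← hc]; exact Finset.card_le_card hOT
      have hlt : m - r < m := by have := hr.pos; omega
      have h1 := ih (m - r) hlt (T \ (σ.cycleOf x).support) hcard
        (fun y => by rw [Finset.mem_sdiff, Finset.mem_sdiff, hinv y, hOinv y])
        (fun y hy => hsub (Finset.mem_sdiff.mp hy).1)
      have h2 : m = (m - r) + r := by omega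
      rw [h2]; exact Dvd.dvd.add h1 dvd_rfl

theorem exists_inv_subset {σ : Perm α} {r : ℕ} (hr : r.Prime) (hσ : orderOf σ = r) :
    ∀ a : ℕ, r * a ≤ σ.support.card →
      ∃ s : Finset α, s ⊆ σ.support ∧ s.card = r * a ∧ ∀ y, y ∈ s ↔ σ y ∈ s := by
  intro a
  induction a with
  | zero => intro _; exact ⟨∅, Finset.empty_subset _, by simp, fun y => by simp⟩
  | succ a ih =>
    intro ha
    have ha' : r * a ≤ σ.support.card := le_trans (Nat.mul_le_mul_left r (Nat.le_succ a)) ha
    obtain ⟨s, hs, hsc, hsinv⟩ := ih ha'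
    have hlt : s.card < σ.support.card := by
      have := hr.pos
      have h2 : r * (a + 1) = r * a + r := by ring
      omega
    obtain ⟨x, hxs, hxn⟩ := Finset.exists_mem_notMem_of_card_lt_card hlt
    have hx : σ x ≠ x := Perm.mem_support.mp hxs
    obtain ⟨hc, hxO, hOinv, hOsub⟩ := orbit_facts hr hσ hx
    have hdisj : Disjoint s (σ.cycleOf x).support := by
      rw [Finset.disjoint_left]
      intro y hys hyO
      rw [Perm.mem_support_cycleOf_iff] at hyO
      exact hxn (inv_sameCycle hsinv hyO.1.symm hys)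
    refine ⟨s ∪ (σ.cycleOf x).support, Finset.union_subset hs hOsub, ?_, ?_⟩
    · rw [Finset.card_union_of_disjoint hdisj, hsc, hc]; ring
    · intro y
      rw [Finset.mem_union, Finset.mem_union, hsinv y, hOinv y]

/-- A permutation of prime order `r` has an invariant `k`-subset as soon as
`k % r ≤ n % r`. -/
theorem exists_invariant_card {σ : Perm α} {r : ℕ} (hr : r.Prime) (hσ : orderOf σ = r) (k : ℕ)
    (hk : k ≤ Fintype.card α) (hmod : k % r ≤ Fintype.card α % r) :
    ∃ s : Finset α, s.card = k ∧ s.image σ = s := by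
  have hsinv : ∀ y, y ∈ σ.support ↔ σ y ∈ σ.support := fun y => Perm.apply_mem_support.symm
  have hdvd : r ∣ σ.support.card :=
    dvd_card_of_inv hr hσ _ σ.support rfl hsinv (Finset.Subset.refl _)
  obtain ⟨j, hj⟩ := hdvd
  have hsn : σ.support.card ≤ Fintype.card α := Finset.card_le_univ _
  have hFc : (Finset.univ \ σ.support).card = Fintype.card α - r * j := by
    rw [Finset.card_sdiff_of_subset (Finset.subset_univ _), Finset.card_univ, hj]
  have hrpos := hr.pos
  have hk1 := Nat.div_add_mod k r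
  have hn1 := Nat.div_add_mod (Fintype.card α) r
  obtain ⟨a, b, hab, ha, hb⟩ : ∃ a b : ℕ, r * a + b = k ∧ r * a ≤ σ.support.card ∧
      b ≤ Fintype.card α - r * j := by
    by_cases hc : k / r ≤ j
    · refine ⟨k / r, k % r, hk1, ?_, ?_⟩
      · rw [hj]; exact Nat.mul_le_mul_left r hc
      · have h3 : j ≤ Fintype.card α / r := by
          rw [Nat.le_div_iff_mul_le hrpos, mul_comm, ← hj]; exact hsn
        have h4 : r * j ≤ r * (Fintype.card α / r) := Nat.mul_le_mul_left r h3
        omega
    · push Not at hc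
      refine ⟨j, k - r * j, ?_, ?_, ?_⟩
      · have h4 : r * j ≤ r * (k / r) := Nat.mul_le_mul_left r hc.le
        omega
      · rw [hj]
      · omega
  obtain ⟨s, hs, hsc, hsi⟩ := exists_inv_subset hr hσ a ha
  obtain ⟨B, hB, hBc⟩ := Finset.exists_subset_card_eq (s := Finset.univ \ σ.support) (n := b)
    (by rw [hFc]; exact hb)
  have hBinv : ∀ y, y ∈ B ↔ σ y ∈ B := by
    intro y
    constructor
    · intro hy
      have h1 : y ∉ σ.support := (Finset.mem_sdiff.mp (hB hy)).2
      rw [Perm.notMem_support.mp h1]; exact hy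
    · intro hy
      have h1 : σ y ∉ σ.support := (Finset.mem_sdiff.mp (hB hy)).2
      rw [Perm.apply_mem_support] at h1
      rw [Perm.notMem_support.mp h1] at hy; exact hy
  have hdisj : Disjoint s B := by
    rw [Finset.disjoint_left]
    intro y hys hyB
    exact (Finset.mem_sdiff.mp (hB hyB)).2 (hs hys)
  refine ⟨s ∪ B, ?_, ?_⟩
  · rw [Finset.card_union_of_disjoint hdisj, hsc, hBc, hab]
  · rw [image_eq_iff_inv]
    intro y
    rw [Finset.mem_union, Finset.mem_union, hsi y, hBinv y]

/-- There is a permutation of prime order `r ≤ n` all of whose invariant subsets have size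
`≡` at most `n % r` modulo `r`. -/
theorem exists_perm_invariant_mod {n r : ℕ} (hr : r.Prime) (hrn : r ≤ n) :
    ∃ σ : Perm (Fin n), orderOf σ = r ∧
      ∀ s : Finset (Fin n), s.image σ = s → s.card % r ≤ n % r := by
  have hex : ∃ g : Perm (Fin n), g.cycleType = Multiset.replicate (n / r) r := by
    rw [Perm.exists_with_cycleType_iff]
    constructor
    · rw [Multiset.sum_replicate, smul_eq_mul, Fintype.card_fin]; exact Nat.div_mul_le_self n r
    · intro a ha; rw [Multiset.eq_of_mem_replicate ha]; exact hr.two_le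
  obtain ⟨σ, hg⟩ := hex
  have hpos : 0 < n / r := Nat.div_pos hrn hr.pos
  obtain ⟨c, hc⟩ : ∃ c, n / r = c + 1 := ⟨n / r - 1, by omega⟩
  have hord : orderOf σ = r := by rw [← Perm.lcm_cycleType, hg, hc, lcm_replicate_succ]
  have hsupp : σ.support.card = n / r * r := by
    rw [← Perm.sum_cycleType, hg, Multiset.sum_replicate, smul_eq_mul]
  refine ⟨σ, hord, fun s hs => ?_⟩
  rw [image_eq_iff_inv] at hs
  have hsinv : ∀ y, y ∈ σ.support ↔ σ y ∈ σ.support := fun y => Perm.apply_mem_support.symm
  have hd : r ∣ (s ∩ σ.support).card := dvd_card_of_inv hr hord _ (s ∩ σ.support) rfl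
    (fun y => by rw [Finset.mem_inter, Finset.mem_inter, hs y, hsinv y])
    Finset.inter_subset_right
  have hsplit : (s ∩ σ.support).card + (s \ σ.support).card = s.card :=
    Finset.card_inter_add_card_sdiff s σ.support
  have hle : (s \ σ.support).card ≤ n % r := by
    have h1 : (s \ σ.support).card ≤ (Finset.univ \ σ.support).card :=
      Finset.card_le_card (Finset.sdiff_subset_sdiff (Finset.subset_univ s)
        (Finset.Subset.refl _))
    rw [Finset.card_sdiff_of_subset (Finset.subset_univ _), Finset.card_univ, Fintype.card_fin,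
      hsupp] at h1
    have h3 := Nat.div_add_mod n r
    have h2 : n / r * r = r * (n / r) := mul_comm _ _
    omega
  obtain ⟨q, hq⟩ := hd
  have hlt : n % r < r := Nat.mod_lt n hr.pos
  rw [← hsplit, hq, Nat.mul_add_mod, Nat.mod_eq_of_lt (lt_of_le_of_lt hle hlt)]
  exact hle

/-- Lucas: if `r ∣ C(n,k)` and `k % r ≤ n % r` then `r ≤ k`. -/
theorem le_of_dvd_choose_of_mod_le {n k r : ℕ} (hr : r.Prime) (hrd : r ∣ Nat.choose n k)
    (hmod : k % r ≤ n % r) : r ≤ k := by
  by_contra hlt
  push Not at hlt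
  have hfact : Fact r.Prime := ⟨hr⟩
  have hL := Choose.choose_modEq_choose_mod_mul_choose_div_nat (n := n) (k := k) (p := r)
  rw [Nat.div_eq_of_lt hlt, Nat.choose_zero_right, mul_one, Nat.mod_eq_of_lt hlt] at hL
  rw [Nat.mod_eq_of_lt hlt] at hmod
  have h1 : r ∣ Nat.choose (n % r) k :=
    (Nat.modEq_zero_iff_dvd).mp (hL.symm.trans ((Nat.modEq_zero_iff_dvd).mpr hrd))
  have h2 : Nat.choose (n % r) k ∣ (n % r).factorial :=
    ⟨k.factorial * (n % r - k).factorial, by
      rw [← mul_assoc]; exact (Nat.choose_mul_factorial_mul_factorial hmod).symm⟩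
  have h3 : r ≤ n % r := (Nat.Prime.dvd_factorial hr).mp (h1.trans h2)
  have h4 : n % r < r := Nat.mod_lt n hr.pos
  omega

end Cfsg.Agent.Helper19
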