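import Mathlib
import Cfsg.Agent.Helper2.CharOrtho
import Cfsg.Agent.Helper13.Codeg

/-!
# A real element with centralizer of odd order forces an irreducible character of even degree
-/

set_option autoImplicit false

namespace Cfsg.Agent.Helper19

open Cfsg
open scoped ComplexConjugate

/-- `z` is twice an algebraic integer. -/
def ro_TwoInt (z : ℂ) : Prop := ∃ w : ℂ, IsIntegral ℤ w ∧ z = 2 * w

theorem ro_twoInt_sq_sub_sum {ι : Type*} [DecidableEq ι] (s : Finset ι) (a : ι → ℂ)
    (ha : ∀ i, IsIntegral ℤ (a i)) :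
    ro_TwoInt ((∑ i ∈ s, a i) ^ 2 - ∑ i ∈ s, a i ^ 2) := by
  induction s using Finset.induction_on with
  | empty => exact ⟨0, isIntegral_zero, by simp⟩
  | insert i s hi ih =>
    rw [Finset.sum_insert hi, Finset.sum_insert hi]
    obtain ⟨w, hw, hw2⟩ := ih
    refine ⟨w + a i * ∑ j ∈ s, a j,
      hw.add ((ha i).mul (IsIntegral.sum _ (fun j _ => ha j))), ?_⟩
    linear_combination hw2

theorem ro_exists_even_degree_of_real {G : Type*} [Group G] [Finite G] (x t : G) (hx : x ≠ 1)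
    (hinv : t * x * t⁻¹ = x⁻¹)
    (hodd : Odd (Nat.card (Subgroup.centralizer ({x} : Set G)))) :
    ∃ χ : IrrCharacter G, Even (charDegree (χ : G → ℂ)) := by
  classical
  by_contra hno
  push Not at hno
  haveI : Finite (IrrCharacter G) := Helper24.finite_irrCharacter
  haveI := Fintype.ofFinite (IrrCharacter G)
  haveI := Fintype.ofFinite G
  have hint : ∀ χ : IrrCharacter G, IsIntegral ℤ ((χ : G → ℂ) x) := fun χ =>
    Helper2.IsCharacter.isIntegral (Helper24.isCharacter_of_irr χ.2) x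
  have h1 := Helper2.second_orthogonality (G := G) x 1
  rw [if_neg (by rw [isConj_one_left]; exact hx)] at h1
  have h2 := Helper2.second_orthogonality (G := G) x x
  rw [if_pos (IsConj.refl x)] at h2
  have hreal : ∀ χ : IrrCharacter G, conj ((χ : G → ℂ) x) = (χ : G → ℂ) x := by
    intro χ
    rw [← Helper24.char_inv (Helper24.isCharacter_of_irr χ.2) x, ← hinv]
    exact (Helper2.IsIrrCharacter.isClassFunction χ.2) x t
  have hdeg : ∀ χ : IrrCharacter G,
      conj ((χ : G → ℂ) 1) = (charDegree (χ : G → ℂ) : ℂ) := by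
    intro χ
    rw [Helper24.charDegree_spec (Helper24.isCharacter_of_irr χ.2), Complex.conj_natCast]
  simp only [hreal] at h2
  simp only [hdeg] at h1
  have hoddd : ∀ χ : IrrCharacter G, ∃ m : ℕ, charDegree (χ : G → ℂ) = 2 * m + 1 := fun χ =>
    Nat.not_even_iff_odd.mp (hno χ)
  choose m hm using hoddd
  have hS : ro_TwoInt (∑ χ : IrrCharacter G, (χ : G → ℂ) x) := by
    refine ⟨-∑ χ : IrrCharacter G, (m χ : ℂ) * (χ : G → ℂ) x, ?_, ?_⟩
    · exact (IsIntegral.sum _ (fun χ _ => (isIntegral_algebraMap (R := ℤ) (A := ℂ)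
        (x := (m χ : ℤ))).mul (hint χ))).neg
    · have h3 : ∑ χ : IrrCharacter G, (χ : G → ℂ) x * (charDegree (χ : G → ℂ) : ℂ) =
          ∑ χ : IrrCharacter G, (χ : G → ℂ) x +
            2 * ∑ χ : IrrCharacter G, (m χ : ℂ) * (χ : G → ℂ) x := by
        rw [Finset.mul_sum, ← Finset.sum_add_distrib]
        refine Finset.sum_congr rfl fun χ _ => ?_
        rw [hm χ]
        push_cast
        ring
      rw [h3] at h1
      linear_combination h1
  have hsq := ro_twoInt_sq_sub_sum Finset.univ (fun χ : IrrCharacter G => (χ : G → ℂ) x) hint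
  obtain ⟨w, hw, hw2⟩ := hS
  obtain ⟨v, hv, hv2⟩ := hsq
  have hc : (Nat.card (Subgroup.centralizer ({x} : Set G)) : ℂ) = 2 * (2 * w ^ 2 - v) := by
    rw [← h2]
    have h4 : ∑ χ : IrrCharacter G, (χ : G → ℂ) x * (χ : G → ℂ) x =
        ∑ χ : IrrCharacter G, ((χ : G → ℂ) x) ^ 2 :=
      Finset.sum_congr rfl fun χ _ => (sq _).symm
    rw [h4]
    rw [hw2] at hv2
    linear_combination -hv2
  have hβ : IsIntegral ℤ ((((Nat.card (Subgroup.centralizer ({x} : Set G)) : ℚ) / 2 : ℚ)) : ℂ) := by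
    have h5 : ((((Nat.card (Subgroup.centralizer ({x} : Set G)) : ℚ) / 2 : ℚ)) : ℂ) =
        2 * w ^ 2 - v := by
      push_cast
      rw [hc]
      ring
    rw [h5]
    exact ((isIntegral_algebraMap (R := ℤ) (A := ℂ) (x := (2 : ℤ))).mul (hw.pow 2)).sub hv
  obtain ⟨z, hz⟩ := Helper2.int_of_isIntegral_rat hβ
  obtain ⟨k, hk⟩ := hodd
  rw [hk] at hz
  have h6 : ((2 * k + 1 : ℕ) : ℚ) = 2 * (z : ℚ) := by linarith
  have h7 : ((2 * k + 1 : ℕ) : ℤ) = 2 * z := by exact_mod_cast h6
  omega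

end Cfsg.Agent.Helper19
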