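import Mathlib
import Cfsg.Agent.Helper19.Isospectral
import Cfsg.Agent.Helper19.FrobSum2

set_option autoImplicit false

namespace Cfsg.Agent.Helper19

/-- The elements of `K` whose `n`-th power lies in the derived subgroup of `K`. -/
def powCommSub {G : Type*} [Group G] (K : Subgroup G) (n : ℕ) : Subgroup G :=
  (MonoidHom.ker ((powMonoidHom n).comp (Abelianization.of : K →* Abelianization K))).map
    K.subtype

theorem mem_powCommSub {G : Type*} [Group G] (K : Subgroup G) (n : ℕ) (x : G) :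
    x ∈ powCommSub K n ↔ x ∈ K ∧ x ^ n ∈ ⁅K, K⁆ := by
  unfold powCommSub
  rw [Subgroup.mem_map]
  constructor
  · rintro ⟨a, ha, rfl⟩
    refine ⟨a.2, ?_⟩
    rw [MonoidHom.mem_ker, MonoidHom.comp_apply, powMonoidHom_apply, ← map_pow,
      ← MonoidHom.mem_ker, Abelianization.ker_of] at ha
    rw [← Subgroup.map_subtype_commutator]
    exact ⟨a ^ n, ha, rfl⟩
  · rintro ⟨hx, hxn⟩
    refine ⟨⟨x, hx⟩, ?_, rfl⟩
    rw [MonoidHom.mem_ker, MonoidHom.comp_apply, powMonoidHom_apply, ← map_pow,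
      ← MonoidHom.mem_ker, Abelianization.ker_of]
    rw [← Subgroup.map_subtype_commutator] at hxn
    obtain ⟨b, hb, hbx⟩ := hxn
    have : b = (⟨x, hx⟩ : K) ^ n := Subtype.ext hbx
    rw [← this]
    exact hb

theorem powCommSub_normal {G : Type*} [Group G] (K : Subgroup G) [hK : K.Normal] (n : ℕ) :
    (powCommSub K n).Normal := by
  constructor
  intro x hx g
  rw [mem_powCommSub] at hx ⊢
  have hn : (⁅K, K⁆ : Subgroup G).Normal := Subgroup.commutator_normal K K
  refine ⟨hK.conj_mem x hx.1 g, ?_⟩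
  rw [conj_pow]
  exact hn.conj_mem _ hx.2 g

theorem powCommSub_le {G : Type*} [Group G] (K : Subgroup G) (n : ℕ) : powCommSub K n ≤ K :=
  fun x hx => ((mem_powCommSub K n x).1 hx).1

/-- In a solvable normal subgroup whose order is divisible by two primes, there is a normal
subgroup of the whole group whose order is divisible by exactly one of them. -/
theorem exists_normal_split {G : Type*} [Group G] [Finite G] {r s : ℕ} (hr : r.Prime)
    (hs : s.Prime) (hrs : r ≠ s) :
    ∀ K : Subgroup G, K.Normal → Group.IsSolvable K → r ∣ Nat.card K → s ∣ Nat.card K →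
      ∃ W : Subgroup G, W.Normal ∧ W ≤ K ∧
        ((r ∣ Nat.card W ∧ ¬ s ∣ Nat.card W) ∨ (s ∣ Nat.card W ∧ ¬ r ∣ Nat.card W)) := by
  intro K
  induction K using WellFoundedLT.induction with
  | ind K ih =>
    intro hKn hKs hrK hsK
    have hK1 : K ≠ ⊥ := by
      rintro rfl
      rw [Subgroup.card_bot] at hrK
      exact hr.ne_one (Nat.dvd_one.1 hrK)
    have hlt : ⁅K, K⁆ < K := commutator_lt_of_solvable K hK1
    have hn : (⁅K, K⁆ : Subgroup G).Normal := Subgroup.commutator_normal K K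
    have hsolv : Group.IsSolvable ↥(⁅K, K⁆ : Subgroup G) :=
      Group.isSolvable_of_isSolvable_injective (Subgroup.inclusion_injective hlt.le)
    by_cases h1 : r ∣ Nat.card (⁅K, K⁆ : Subgroup G)
    · by_cases h2 : s ∣ Nat.card (⁅K, K⁆ : Subgroup G)
      · obtain ⟨W, hWn, hWle, hW⟩ := ih _ hlt hn hsolv h1 h2
        exact ⟨W, hWn, hWle.trans hlt.le, hW⟩
      · exact ⟨_, hn, hlt.le, Or.inl ⟨h1, h2⟩⟩
    · by_cases h2 : s ∣ Nat.card (⁅K, K⁆ : Subgroup G)
      · exact ⟨_, hn, hlt.le, Or.inr ⟨h2, h1⟩⟩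
      · refine ⟨powCommSub K r, powCommSub_normal K r, powCommSub_le K r, Or.inl ⟨?_, ?_⟩⟩
        · have : Fact r.Prime := ⟨hr⟩
          obtain ⟨y, hy⟩ := exists_prime_orderOf_dvd_card' r hrK
          have hyr : (y : G) ^ r = 1 := by
            rw [← Subgroup.coe_pow, ← hy, pow_orderOf_eq_one]
            rfl
          have hyW : (y : G) ∈ powCommSub K r := by
            rw [mem_powCommSub]
            refine ⟨y.2, ?_⟩
            rw [hyr]
            exact Subgroup.one_mem _
          have h := orderOf_dvd_natCard (⟨(y : G), hyW⟩ : powCommSub K r)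
          have e : orderOf (⟨(y : G), hyW⟩ : powCommSub K r) = r := by
            rw [← Subgroup.orderOf_coe]
            show orderOf (y : G) = r
            rw [Subgroup.orderOf_coe, hy]
          rwa [e] at h
        · intro hsW
          have : Fact s.Prime := ⟨hs⟩
          obtain ⟨x, hx⟩ := exists_prime_orderOf_dvd_card' s hsW
          have hxm := (mem_powCommSub K r (x : G)).1 x.2
          have ho : orderOf ((x : G) ^ r) = s := by
            rw [orderOf_pow' _ hr.ne_zero, Subgroup.orderOf_coe, hx,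
              ((Nat.coprime_primes hs hr).2 (Ne.symm hrs)).gcd_eq_one, Nat.div_one]
          have h := orderOf_dvd_natCard (⟨(x : G) ^ r, hxm.2⟩ : (⁅K, K⁆ : Subgroup G))
          have e : orderOf (⟨(x : G) ^ r, hxm.2⟩ : (⁅K, K⁆ : Subgroup G)) = s := by
            rw [← Subgroup.orderOf_coe]
            exact ho
          rw [e] at h
          exact h2 h

/-- Some two of the three numbers are the order of an element. -/
def Tri (G : Type*) [Group G] (a b c : ℕ) : Prop :=
  (∃ x : G, orderOf x = a * b) ∨ (∃ x : G, orderOf x = a * c) ∨ (∃ x : G, orderOf x = b * c)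

theorem Tri.swap12 {G : Type*} [Group G] {a b c : ℕ} (h : Tri G a b c) : Tri G b a c := by
  rcases h with ⟨x, hx⟩ | ⟨x, hx⟩ | ⟨x, hx⟩
  · exact Or.inl ⟨x, by rw [hx, mul_comm]⟩
  · exact Or.inr (Or.inr ⟨x, hx⟩)
  · exact Or.inr (Or.inl ⟨x, hx⟩)

theorem Tri.swap23 {G : Type*} [Group G] {a b c : ℕ} (h : Tri G a b c) : Tri G a c b := by
  rcases h with ⟨x, hx⟩ | ⟨x, hx⟩ | ⟨x, hx⟩
  · exact Or.inr (Or.inl ⟨x, hx⟩)
  · exact Or.inl ⟨x, hx⟩
  · exact Or.inr (Or.inr ⟨x, by rw [hx, mul_comm]⟩)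

theorem card_eq_card_mul_relIndex {G : Type*} [Group G] {A B : Subgroup G} (hAB : A ≤ B) :
    Nat.card B = Nat.card A * A.relIndex B := by
  have h1 := Subgroup.card_mul_index (A.subgroupOf B)
  have h2 : Nat.card (A.subgroupOf B) = Nat.card A :=
    Nat.card_congr (Subgroup.subgroupOfEquivOfLe hAB).toEquiv
  rw [h2] at h1
  exact h1.symm

theorem tri_of_series {G : Type*} [Group G] [Finite G] (A B : Subgroup G) [A.Normal] [B.Normal]
    (hAB : A ≤ B) {a b c : ℕ} (ha : a.Prime) (hb : b.Prime) (hc : c.Prime) (hab : a ≠ b)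
    (hac : a ≠ c) (hbc : b ≠ c) (h1 : a ∣ Nat.card A) (h2 : b ∣ Nat.card B)
    (h2' : ¬ b ∣ Nat.card A) (h3 : c ∣ Nat.card G) (h3' : ¬ c ∣ Nat.card B) : Tri G a b c := by
  apply exists_mixed_order_of_normal_series A B hAB ha hb hc hab hac hbc h1
  · rw [card_eq_card_mul_relIndex hAB] at h2
    exact ((Nat.Prime.dvd_mul hb).1 h2).resolve_left h2'
  · rw [← Subgroup.card_mul_index B] at h3
    exact ((Nat.Prime.dvd_mul hc).1 h3).resolve_left h3'

theorem not_dvd_card_sup {G : Type*} [Group G] [Finite G] (A B : Subgroup G) [B.Normal] {t : ℕ}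
    (ht : t.Prime) (hA : ¬ t ∣ Nat.card A) (hB : ¬ t ∣ Nat.card B) : ¬ t ∣ Nat.card (A ⊔ B : Subgroup G) := by
  intro h
  rw [card_eq_card_mul_relIndex (le_sup_right : B ≤ A ⊔ B), Subgroup.relIndex_sup_right] at h
  rcases (Nat.Prime.dvd_mul ht).1 h with h | h
  · exact hB h
  · exact hA (h.trans (Subgroup.relIndex_dvd_card _ _))

theorem tri_of_solvable_normal_aux {G : Type*} [Group G] [Finite G] (K : Subgroup G)
    [hKn : K.Normal] (hKs : Group.IsSolvable K) {r s t : ℕ} (hr : r.Prime) (hs : s.Prime)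
    (ht : t.Prime) (hrs : r ≠ s) (hrt : r ≠ t) (hst : s ≠ t) (hsK : s ∣ Nat.card K)
    (htG : t ∣ Nat.card G) (W : Subgroup G) (hWn : W.Normal) (hWK : W ≤ K)
    (hrW : r ∣ Nat.card W) (hsW : ¬ s ∣ Nat.card W) : Tri G r s t := by
  have hsG : s ∣ Nat.card G := hsK.trans (Subgroup.card_subgroup_dvd_card K)
  by_cases htK : t ∣ Nat.card K
  · by_cases htW : t ∣ Nat.card W
    · have hWs : Group.IsSolvable W :=
        Group.isSolvable_of_isSolvable_injective (Subgroup.inclusion_injective hWK)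
      obtain ⟨W', hW'n, hW'W, hW'⟩ := exists_normal_split hr ht hrt W hWn hWs hrW htW
      rcases hW' with ⟨h1, h2⟩ | ⟨h1, h2⟩
      · exact (tri_of_series W' W hW'W hr ht hs hrt hrs (Ne.symm hst) h1 htW h2 hsG hsW).swap23
      · exact ((tri_of_series W' W hW'W ht hr hs (Ne.symm hrt) (Ne.symm hst) hrs h1 hrW h2
          hsG hsW).swap12).swap23
    · obtain ⟨A₃, hA₃n, hA₃K, hA₃⟩ := exists_normal_split hs ht hst K hKn hKs hsK htK
      have hsupn : (W ⊔ A₃ : Subgroup G).Normal := Subgroup.sup_normal W A₃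
      rcases hA₃ with ⟨h1, h2⟩ | ⟨h1, h2⟩
      · have h3 : ¬ t ∣ Nat.card (W ⊔ A₃ : Subgroup G) := not_dvd_card_sup W A₃ ht htW h2
        have h4 : s ∣ Nat.card (W ⊔ A₃ : Subgroup G) :=
          h1.trans (Subgroup.card_dvd_of_le le_sup_right)
        exact tri_of_series W (W ⊔ A₃) le_sup_left hr hs ht hrs hrt hst hrW h4 hsW htG h3
      · have h3 : ¬ s ∣ Nat.card (W ⊔ A₃ : Subgroup G) := not_dvd_card_sup W A₃ hs hsW h2
        have h4 : t ∣ Nat.card (W ⊔ A₃ : Subgroup G) :=
          h1.trans (Subgroup.card_dvd_of_le le_sup_right)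
        exact (tri_of_series W (W ⊔ A₃) le_sup_left hr ht hs hrt hrs (Ne.symm hst) hrW h4 htW
          hsG h3).swap23
  · exact tri_of_series W K hWK hr hs ht hrs hrt hst hrW hsK hsW htG htK

/-- If two primes divide the order of a solvable normal subgroup and a third prime divides the
order of the group, then two of the three primes are adjacent in the prime graph. -/
theorem tri_of_solvable_normal {G : Type*} [Group G] [Finite G] (K : Subgroup G)
    [hKn : K.Normal] (hKs : Group.IsSolvable K) {r s t : ℕ} (hr : r.Prime) (hs : s.Prime)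
    (ht : t.Prime) (hrs : r ≠ s) (hrt : r ≠ t) (hst : s ≠ t) (hrK : r ∣ Nat.card K)
    (hsK : s ∣ Nat.card K) (htG : t ∣ Nat.card G) : Tri G r s t := by
  obtain ⟨W, hWn, hWK, hW⟩ := exists_normal_split hr hs hrs K hKn hKs hrK hsK
  rcases hW with ⟨h1, h2⟩ | ⟨h1, h2⟩
  · exact tri_of_solvable_normal_aux K hKs hr hs ht hrs hrt hst hsK htG W hWn hWK h1 h2
  · exact (tri_of_solvable_normal_aux K hKs hs hr ht (Ne.symm hrs) hst hrt hrK htG W hWn hWK
      h1 h2).swap12

end Cfsg.Agent.Helper19
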