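import Mathlib
import Cfsg.Agent.Helper4.Dih

set_option autoImplicit false

namespace Cfsg.Agent.Helper19.Subdeg2

open MulAction

variable {G Ω : Type*} [Group G] [MulAction G Ω]

/-- An element all of whose conjugates fix a point of a faithful transitive action is trivial. -/
theorem eq_one_of_conj_mem [FaithfulSMul G Ω] [IsPretransitive G Ω] (a : Ω) (k : G)
    (hk : ∀ g : G, g⁻¹ * k * g ∈ stabilizer G a) : k = 1 := by
  apply FaithfulSMul.eq_of_smul_eq_smul (α := Ω)
  intro c
  obtain ⟨g, rfl⟩ := exists_smul_eq G a c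
  have h := hk g
  rw [mem_stabilizer_iff] at h
  rw [one_smul]
  calc k • g • a = g • (g⁻¹ * k * g) • a := by
        rw [smul_smul, smul_smul]; congr 1; group
    _ = g • a := by rw [h]

theorem main [Finite G] [Finite Ω] [FaithfulSMul G Ω] (hprim : IsPreprimitive G Ω) (a b : Ω)
    (h2 : Nat.card (orbit (stabilizer G a) b) = 2) :
    Nat.card (stabilizer G a) = 2 ∧ ∃ p : ℕ, p.Prime ∧ Nonempty (G ≃* DihedralGroup p) := by
  have htrans : IsPretransitive G Ω := hprim.toIsPretransitive
  have hba : b ≠ a := by
    intro hba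
    have h1 : orbit (stabilizer G a) b = {b} := by
      ext x
      constructor
      · rintro ⟨h, rfl⟩
        have h3 := h.2
        rw [mem_stabilizer_iff] at h3
        have h4 : (h : G) • b = b := by rw [hba]; exact h3
        exact h4
      · intro hx
        rw [Set.mem_singleton_iff] at hx
        rw [hx]
        exact mem_orbit_self _
    rw [h1, Nat.card_coe_set_eq, Set.ncard_singleton] at h2
    omega
  have hnt : Nontrivial Ω := ⟨⟨b, a, hba⟩⟩
  have hco : IsCoatom (stabilizer G a) :=
    IsPreprimitive.isCoatom_stabilizer_of_isPreprimitive G a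
  obtain ⟨K, hKdef⟩ : ∃ K : Subgroup G, K = stabilizer G a ⊓ stabilizer G b := ⟨_, rfl⟩
  have hKa : K ≤ stabilizer G a := by rw [hKdef]; exact inf_le_left
  have hKb : K ≤ stabilizer G b := by rw [hKdef]; exact inf_le_right
  have hidx_a : (K.subgroupOf (stabilizer G a)).index = 2 := by
    have h3 : K.subgroupOf (stabilizer G a) = stabilizer (stabilizer G a) b := by
      ext h
      constructor
      · intro hh
        have h4 : (h : G) ∈ K := Subgroup.mem_subgroupOf.mp hh
        rw [hKdef] at h4
        have h5 : (h : G) • b = b := mem_stabilizer_iff.mp h4.2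
        exact mem_stabilizer_iff.mpr h5
      · intro hh
        have h5 : (h : G) • b = b := mem_stabilizer_iff.mp hh
        apply Subgroup.mem_subgroupOf.mpr
        rw [hKdef]
        exact ⟨h.2, mem_stabilizer_iff.mpr h5⟩
    rw [h3, index_stabilizer, ← Nat.card_coe_set_eq]
    exact h2
  have hcard_ab : Nat.card (stabilizer G b) = Nat.card (stabilizer G a) := by
    obtain ⟨g, rfl⟩ := exists_smul_eq G a b
    rw [stabilizer_smul_eq_stabilizer_map_conj]
    exact Subgroup.card_map_of_injective (MulAut.conj g).injective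
  have hidx_b : (K.subgroupOf (stabilizer G b)).index = 2 := by
    have e1 := Subgroup.card_mul_index (K.subgroupOf (stabilizer G a))
    have e2 := Subgroup.card_mul_index (K.subgroupOf (stabilizer G b))
    rw [Nat.card_congr (Subgroup.subgroupOfEquivOfLe hKa).toEquiv, hidx_a] at e1
    rw [Nat.card_congr (Subgroup.subgroupOfEquivOfLe hKb).toEquiv, hcard_ab, ← e1] at e2
    have hKpos : 0 < Nat.card K := Nat.card_pos
    exact Nat.eq_of_mul_eq_mul_left hKpos e2
  have hn_a : stabilizer G a ≤ Subgroup.normalizer (K : Set G) :=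
    (Subgroup.normal_subgroupOf_iff_le_normalizer hKa).mp
      (Subgroup.normal_of_index_eq_two hidx_a)
  have hn_b : stabilizer G b ≤ Subgroup.normalizer (K : Set G) :=
    (Subgroup.normal_subgroupOf_iff_le_normalizer hKb).mp
      (Subgroup.normal_of_index_eq_two hidx_b)
  have hKnormal : Subgroup.normalizer (K : Set G) = ⊤ := by
    by_contra hne
    have h5 : Subgroup.normalizer (K : Set G) = stabilizer G a := by
      by_contra h6
      exact hne (hco.2 _ (lt_of_le_of_ne hn_a (Ne.symm h6)))
    rw [h5] at hn_b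
    have h7 : K = stabilizer G b := by rw [hKdef]; exact inf_eq_right.mpr hn_b
    have h8 : (K.subgroupOf (stabilizer G b)).index = 1 := by
      rw [Subgroup.index_eq_one, Subgroup.subgroupOf_eq_top]
      exact h7.ge
    omega
  have hKbot : K = ⊥ := by
    rw [eq_bot_iff]
    intro k hk
    rw [Subgroup.mem_bot]
    apply eq_one_of_conj_mem a k
    intro g
    have hKn : K.Normal := Subgroup.normalizer_eq_top_iff.mp hKnormal
    have h9 := hKn.conj_mem k hk g⁻¹
    rw [inv_inv] at h9
    exact hKa h9
  have hcard2 : Nat.card (stabilizer G a) = 2 := by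
    have e1 := Subgroup.card_mul_index (K.subgroupOf (stabilizer G a))
    rw [Nat.card_congr (Subgroup.subgroupOfEquivOfLe hKa).toEquiv, hidx_a, hKbot,
      Subgroup.card_bot] at e1
    omega
  have hex : ∃ t : G, t ∈ stabilizer G a ∧ t ≠ 1 := by
    by_contra hno
    push Not at hno
    have h3 : stabilizer G a = ⊥ := by
      rw [eq_bot_iff]
      intro x hx
      rw [Subgroup.mem_bot]
      exact hno x hx
    rw [h3, Subgroup.card_bot] at hcard2
    omega
  obtain ⟨t, hta, ht1⟩ := hex
  have huniq : ∀ s : G, s ∈ stabilizer G a → s ≠ 1 → s = t := by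
    intro s hs hs1
    obtain ⟨y, _, hy⟩ := (Nat.card_eq_two_iff' (1 : stabilizer G a)).mp hcard2
    have e1 : (⟨s, hs⟩ : stabilizer G a) = y :=
      hy _ (fun h => hs1 (congrArg Subtype.val h))
    have e2 : (⟨t, hta⟩ : stabilizer G a) = y :=
      hy _ (fun h => ht1 (congrArg Subtype.val h))
    exact congrArg Subtype.val (e1.trans e2.symm)
  have htt : t * t = 1 := by
    by_contra h
    have h3 := huniq (t * t) (mul_mem hta hta) h
    exact ht1 (mul_left_cancel (h3.trans (mul_one t).symm))
  have hex2 : ∃ g : G, g⁻¹ * t * g ∉ stabilizer G a := by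
    by_contra hno
    push Not at hno
    exact ht1 (eq_one_of_conj_mem a t hno)
  obtain ⟨g, hg⟩ := hex2
  obtain ⟨s, hsdef⟩ : ∃ s : G, s = g⁻¹ * t * g := ⟨_, rfl⟩
  rw [← hsdef] at hg
  have hss : s * s = 1 := by
    calc s * s = g⁻¹ * (t * t) * g := by rw [hsdef]; group
      _ = 1 := by rw [htt]; group
  have hs1 : s ≠ 1 := fun h => hg (by rw [h]; exact one_mem _)
  have hts : t ≠ s := fun h => hg (by rw [← h]; exact hta)
  have hcl : Subgroup.closure ({t, s} : Set G) = ⊤ := by
    apply hco.2
    apply lt_of_le_of_ne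
    · intro x hx
      by_cases hx1 : x = 1
      · rw [hx1]; exact one_mem _
      · rw [huniq x hx hx1]; exact Subgroup.subset_closure (by simp)
    · intro heq
      apply hg
      rw [heq]
      exact Subgroup.subset_closure (by simp)
  obtain ⟨e⟩ := Cfsg.Agent.Helper4.closure_pair_mulEquiv_dihedral t s htt hss ht1 hs1 hts
  have e' : G ≃* DihedralGroup (orderOf (t * s)) :=
    (Subgroup.topEquiv.symm.trans (MulEquiv.subgroupCongr hcl.symm)).trans e
  have hGcard : Nat.card G = 2 * orderOf (t * s) := by
    rw [Nat.card_congr e'.toEquiv, DihedralGroup.nat_card]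
  have htinv : t⁻¹ = t := inv_eq_of_mul_eq_one_left htt
  have hsinv : s⁻¹ = s := inv_eq_of_mul_eq_one_left hss
  have hconj : t * (t * s) * t⁻¹ = (t * s)⁻¹ := by
    rw [mul_inv_rev, hsinv, ← mul_assoc t t s, htt, one_mul]
  have hk0 : orderOf (t * s) ≠ 0 := (orderOf_pos (t * s)).ne'
  have hk1 : orderOf (t * s) ≠ 1 := by
    intro h
    rw [orderOf_eq_one_iff] at h
    exact hts ((eq_inv_of_mul_eq_one_left h).trans hsinv)
  obtain ⟨q, hqdef⟩ : ∃ q : ℕ, q = (orderOf (t * s)).minFac := ⟨_, rfl⟩
  have hq : q.Prime := by rw [hqdef]; exact Nat.minFac_prime hk1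
  have hqk : q ∣ orderOf (t * s) := by rw [hqdef]; exact Nat.minFac_dvd _
  obtain ⟨z, hzdef⟩ : ∃ z : G, z = (t * s) ^ (orderOf (t * s) / q) := ⟨_, rfl⟩
  have hzord : orderOf z = q := by rw [hzdef]; exact orderOf_pow_orderOf_div hk0 hqk
  have hz1 : z ≠ 1 := by
    intro h
    rw [h, orderOf_one] at hzord
    exact hq.one_lt.ne hzord
  have hzconj : t * z * t⁻¹ = z⁻¹ := by
    rw [hzdef, ← conj_pow, hconj, inv_pow]
  obtain ⟨y, hydef⟩ : ∃ y : G, y = t * z := ⟨_, rfl⟩
  have hyy : y * y = 1 := by
    have h1 : t * z * t = z⁻¹ := by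
      have h3 := hzconj
      rw [htinv] at h3
      exact h3
    calc y * y = (t * z * t) * z := by rw [hydef]; group
      _ = 1 := by rw [h1, inv_mul_cancel]
  have hyt : t ≠ y := by
    intro h
    apply hz1
    apply mul_left_cancel (a := t)
    rw [← hydef, ← h, mul_one]
  have hy1 : y ≠ 1 := by
    intro h
    have hzt : z = t := by
      rw [hydef] at h
      exact (eq_inv_of_mul_eq_one_right h).trans htinv
    have htz : t ∈ Subgroup.zpowers (t * s) := by
      have h3 : z ∈ Subgroup.zpowers (t * s) := by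
        rw [hzdef]
        exact Subgroup.npow_mem_zpowers _ _
      rw [hzt] at h3
      exact h3
    have hsz : s ∈ Subgroup.zpowers (t * s) := by
      have h3 : t⁻¹ * (t * s) ∈ Subgroup.zpowers (t * s) :=
        mul_mem (inv_mem htz) (Subgroup.mem_zpowers _)
      have h4 : t⁻¹ * (t * s) = s := by group
      rw [h4] at h3
      exact h3
    have htop : Subgroup.zpowers (t * s) = ⊤ := by
      rw [eq_top_iff, ← hcl, Subgroup.closure_le]
      intro x hx
      rcases hx with hx | hx
      · rw [hx]; exact htz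
      · rw [Set.mem_singleton_iff.mp hx]; exact hsz
    have hc := Nat.card_zpowers (t * s)
    rw [htop, Subgroup.card_top, hGcard] at hc
    omega
  have hcl2 : Subgroup.closure ({t, y} : Set G) = ⊤ := by
    apply hco.2
    apply lt_of_le_of_ne
    · intro x hx
      by_cases hx1 : x = 1
      · rw [hx1]; exact one_mem _
      · rw [huniq x hx hx1]; exact Subgroup.subset_closure (by simp)
    · intro heq
      have hymem : y ∈ stabilizer G a := by
        rw [heq]; exact Subgroup.subset_closure (by simp)
      exact hyt (huniq y hymem hy1).symm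
  obtain ⟨e2⟩ := Cfsg.Agent.Helper4.closure_pair_mulEquiv_dihedral t y htt hyy ht1 hy1 hyt
  have hty : t * y = z := by rw [hydef, ← mul_assoc, htt, one_mul]
  have hGcard2 : Nat.card G = 2 * q := by
    have e3 : G ≃* DihedralGroup (orderOf (t * y)) :=
      (Subgroup.topEquiv.symm.trans (MulEquiv.subgroupCongr hcl2.symm)).trans e2
    rw [Nat.card_congr e3.toEquiv, DihedralGroup.nat_card, hty, hzord]
  have hkq : orderOf (t * s) = q := by omega
  exact ⟨hcard2, orderOf (t * s), by rw [hkq]; exact hq, ⟨e'⟩⟩

end Cfsg.Agent.Helper19.Subdeg2
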